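import Cfsg.Agent.PLocal.KnB
import Cfsg.Agent.Classical.Weil

/-!
Roots attached to self-dual modules: quadratic Gauss sums and the Weil character.
-/

set_option autoImplicit false

namespace CF.Knorr

open Cfsg CF.Char CF.Clifford CF.BlockB Module
open scoped ComplexConjugate

variable {p : ℕ} [hp : Fact p.Prime] {M : Ideal AlgInt}

omit hp in
theorem exists_gen_inv {G : Type*} [Group G] {π : G → ℂ} (hπ : IsGeneralizedCharacter G π) (n : ℕ) :
    ∃ (K : ℕ) (Φ : G → ℂ), IsGeneralizedCharacter G Φ ∧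
      ∀ g, ∏ j ∈ Finset.range n, ((p : ℂ) ^ j - π g) = p ^ K - π g * Φ g := by
  induction n with
  | zero => exact ⟨0, 0, gen_zero, by simp⟩
  | succ n ih =>
    obtain ⟨K, Φ, h1, h2⟩ := ih
    refine ⟨K + n, _, gen_add (gen_const_int (p ^ K)) (gen_mul h1 (gen_sub (gen_const_int (p ^ n)) hπ)),
      fun g => ?_⟩
    rw [Finset.prod_range_succ, h2]
    simp only [Pi.add_apply, Pi.mul_apply, Pi.sub_apply]
    push_cast; ring

variable {H W : Type*} [Group H] [AddCommGroup W] [Module (ZMod p) W] [Fintype W]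
  (ρ : Representation (ZMod p) H W)

theorem char_fix (P : W → Prop) (hP : ∀ h w, P w → P (ρ h w)) :
    IsCharacter H fun h => (Nat.card {w // P w ∧ ρ h w = w} : ℂ) := by
  letI : MulAction H {w // P w} :=
    { smul := fun h w => ⟨ρ h w, hP h _ w.2⟩
      one_smul := fun w => Subtype.ext (show ρ 1 w = w by simp)
      mul_smul := fun a b w => Subtype.ext (show ρ (a * b) w = ρ a (ρ b w) by simp) }
  convert char_fixedBy (G := H) {w // P w} using 3 with h
  exact Nat.card_congr ⟨fun w => ⟨⟨w, w.2.1⟩, Subtype.ext w.2.2⟩,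
    fun w => ⟨w.1, w.1.2, congrArg Subtype.val w.2⟩, fun _ => rfl, fun _ => rfl⟩

theorem card_ker_mul_range (f : End (ZMod p) W) :
    Nat.card (LinearMap.ker f) * Nat.card (LinearMap.range f) = Nat.card W := by
  rw [← Nat.card_congr f.quotKerEquivRange.toEquiv, mul_comm]
  exact (AddSubgroup.card_eq_card_quotient_mul_card_addSubgroup (LinearMap.ker f).toAddSubgroup).symm

theorem v_card_range (hM : IsPModular p M) {f : End (ZMod p) W} (hf : f ≠ 1) :
    v M (Nat.card (LinearMap.range (f - 1)) : ℂ) < 1 := by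
  rw [v_natCast_lt_one_iff hM, Module.natCard_eq_pow_finrank (K := ZMod p), Nat.card_zmod]
  refine dvd_pow_self _ fun k => hf (sub_eq_zero.1 ?_)
  rwa [Submodule.finrank_eq_zero, LinearMap.range_eq_bot] at k

theorem good_of_theta [Finite H] {θ : H × Cp p → ℂ} (hθ : IsGeneralizedCharacter (H × Cp p) θ)
    (h1 : ∀ h a, a ≠ 1 → ‖θ (h, a)‖ ^ 2 = Nat.card (LinearMap.ker (ρ h - 1)))
    (h2 : ∀ h a, a ≠ 1 → ∃ Γ, θ (h, a) * Γ = θ (1, a) ∧ v M Γ ≤ 1 ∧ (ρ h ≠ 1 → v M Γ < 1)) :
    Good M ρ := by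
  have hpos : ∀ h, (0 : ℝ) < Nat.card (LinearMap.ker (ρ h - 1)) := fun h => Nat.cast_pos.2 Nat.card_pos
  have h0 : ∀ h a, a ≠ 1 → θ (h, a) ≠ 0 := fun h a ha k => by
    have := h1 h a ha
    rw [k] at this
    exact (hpos h).ne (by simpa using this)
  have h3 : ∀ h a, a ≠ 1 → ∀ Γ, θ (h, a) * Γ = θ (1, a) → θ (1, a) / θ (h, a) = Γ :=
    fun h a ha Γ k => by rw [← k, mul_div_cancel_left₀ _ (h0 h a ha)]
  have hπ : IsCharacter H fun h => (Nat.card (LinearMap.ker (ρ h - 1)) : ℂ) := by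
    convert char_fix ρ (fun _ => True) (fun _ _ _ => trivial) using 3 with h
    exact Nat.card_congr (Equiv.subtypeEquivRight fun w => by simp [sub_eq_zero])
  obtain ⟨K, Φ, k1, k2⟩ := exists_gen_inv (p := p) (gen_of_char hπ) (finrank (ZMod p) W + 1)
  have k3 : ∀ h, (Nat.card (LinearMap.ker (ρ h - 1)) : ℂ) * Φ h = p ^ K := fun h => by
    rw [eq_comm, ← sub_eq_zero, ← k2]
    refine Finset.prod_eq_zero (Finset.mem_range.2 (Nat.lt_succ_of_le
      (LinearMap.ker (ρ h - 1)).finrank_le)) ?_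
    rw [Module.natCard_eq_pow_finrank (K := ZMod p), Nat.card_zmod, Nat.cast_pow, sub_self]
  refine ⟨fun y => θ (1, y.2) / θ y, ⟨K, _, gen_mul (gen_mul (gen_comp hθ
    ((MonoidHom.inr _ _).comp (MonoidHom.snd _ _))) (gen_conj hθ)) (gen_comp k1 (MonoidHom.fst _ _)),
    fun h a ha => ?_⟩, fun a ha => div_self (h0 1 a ha), fun h a ha => ?_, fun h hh a ha => ?_,
    fun h a ha => ?_⟩
  · have e : (Nat.card (LinearMap.ker (ρ h - 1)) : ℂ) = θ (h, a) * conj (θ (h, a)) := by
      rw [Complex.mul_conj']; exact_mod_cast (h1 h a ha).symm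
    change θ (1, a) * conj (θ (h, a)) * Φ h = _ * (θ (1, a) / θ (h, a))
    rw [← k3 h, e]
    field_simp [h0 h a ha]
  · obtain ⟨Γ, e1, e2, -⟩ := h2 h a ha
    exact h3 h a ha Γ e1 ▸ e2
  · obtain ⟨Γ, e1, -, e2⟩ := h2 h a ha
    exact h3 h a ha Γ e1 ▸ e2 hh
  · rw [norm_div, div_pow, h1 h a ha, h1 1 a ha, div_le_iff₀ (hpos h), dl, ← Nat.cast_mul,
      Nat.cast_le, mul_comm, card_ker_mul_range]
    exact Nat.card_le_card_of_injective _ Subtype.val_injective

theorem isCompl_fix [Finite H] (hH : ¬ p ∣ Nat.card H) (h : H) :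
    IsCompl (LinearMap.ker (ρ h - 1)) (LinearMap.range (ρ h - 1)) := by
  have hd : Disjoint (LinearMap.ker (ρ h - 1)) (LinearMap.range (ρ h - 1)) := by
    rw [Submodule.disjoint_def]
    rintro _ hw ⟨x, rfl⟩
    have e : ρ h ((ρ h - 1) x) = (ρ h - 1) x := sub_eq_zero.1 hw
    have key : ∀ k : ℕ, ρ (h ^ k) x = x + (k : ZMod p) • (ρ h - 1) x := fun k => by
      induction k with
      | zero => simp
      | succ k ih =>
        rw [pow_succ', map_mul, End.mul_apply, ih, map_add, map_smul, e, Nat.cast_succ, add_smul,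
          one_smul, LinearMap.sub_apply, End.one_apply]
        abel
    have := key (Nat.card H)
    rw [pow_card_eq_one', map_one, End.one_apply, left_eq_add, smul_eq_zero] at this
    exact this.resolve_left (mt (CharP.cast_eq_zero_iff (ZMod p) p _).1 hH)
  refine ⟨hd, codisjoint_iff.2 (Submodule.eq_top_of_disjoint _ _ ?_ hd)⟩
  rw [add_comm, LinearMap.finrank_range_add_finrank_ker]

omit [Fintype W] in
theorem orth_fix {b : LinearMap.BilinForm (ZMod p) W} {f : End (ZMod p) W}
    (hb : ∀ x y, b (f x) (f y) = b x y) {x y : W} (hx : x ∈ LinearMap.ker (f - 1))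
    (hy : y ∈ LinearMap.range (f - 1)) : b x y = 0 := by
  obtain ⟨y, rfl⟩ := hy
  have e : f x = x := sub_eq_zero.1 hx
  rw [LinearMap.sub_apply, map_sub, End.one_apply, ← hb x y, e, sub_self]

theorem nd_fix [Finite H] (hH : ¬ p ∣ Nat.card H) {b : LinearMap.BilinForm (ZMod p) W}
    (hb : ∀ h x y, b (ρ h x) (ρ h y) = b x y) (nd : ∀ x, (∀ y, b x y = 0) → x = 0) (h : H) {x : W}
    (hx : x ∈ LinearMap.ker (ρ h - 1)) (k : ∀ y ∈ LinearMap.ker (ρ h - 1), b x y = 0) : x = 0 :=
  nd x fun y => by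
    obtain ⟨a, ha, c, hc, rfl⟩ := Submodule.mem_sup.1 ((isCompl_fix ρ hH h).sup_eq_top.ge trivial : y ∈ _)
    rw [map_add, k a ha, orth_fix (hb h) hx hc, add_zero]

theorem norm_sq_quad {e : AddChar (ZMod p) ℂ} (he : e ≠ 1) {Q : W → ZMod p}
    {b : LinearMap.BilinForm (ZMod p) W} (hQ : ∀ x y, Q (x + y) = Q x + Q y + b x y)
    (nd : ∀ x, (∀ y, b x y = 0) → x = 0) : ‖∑ x, e (Q x)‖ ^ 2 = Nat.card W := by
  classical
  have h0 : Q 0 = 0 := by simpa using hQ 0 0
  have key : (∑ x, e (Q x)) * conj (∑ x, e (Q x)) = Nat.card W := by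
    rw [map_sum, Finset.mul_sum]
    have e1 : ∀ y, (∑ x, e (Q x)) * conj (e (Q y)) = ∑ x, e (Q x) * e (b x y) := fun y => by
      rw [← Equiv.sum_comp (Equiv.addRight y), Finset.sum_mul]
      refine Finset.sum_congr rfl fun x _ => ?_
      rw [← AddChar.map_neg_eq_conj, ← AddChar.map_add_eq_mul, ← AddChar.map_add_eq_mul,
        Equiv.coe_addRight, hQ]
      congr 1; ring
    simp only [e1]
    rw [Finset.sum_comm, Finset.sum_eq_single 0 (fun x _ hx => ?_) (by simp)]
    · simp [h0]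
    · rw [← Finset.mul_sum]
      refine mul_eq_zero_of_right _ ?_
      obtain ⟨y, hy⟩ := not_forall.1 (mt (nd x) hx)
      obtain ⟨s, hs⟩ := AddChar.ne_one_iff.1 he
      exact AddChar.sum_eq_zero_iff_ne_zero (ψ := e.compAddMonoidHom (b x).toAddMonoidHom) |>.2
        fun k => hs (by simpa [hy] using DFunLike.congr_fun k ((s / b x y) • y))
  rw [Complex.mul_conj'] at key
  exact_mod_cast key

theorem good_quad (hM : IsPModular p M) [Finite H] (hH : ¬ p ∣ Nat.card H) {Q : W → ZMod p}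
    {b : LinearMap.BilinForm (ZMod p) W} (hQ : ∀ x y, Q (x + y) = Q x + Q y + b x y)
    (hi : ∀ h x, Q (ρ h x) = Q x) (nd : ∀ x, (∀ y, b x y = 0) → x = 0) : Good M ρ := by
  classical
  have hb : ∀ h x y, b (ρ h x) (ρ h y) = b x y := fun h x y => by
    have := hQ (ρ h x) (ρ h y)
    rwa [← map_add, hi, hi, hi, hQ, add_right_inj, eq_comm] at this
  let e := AddChar.FiniteField.primitiveChar_to_Complex (ZMod p)
  have he : ∀ a : Cp p, a ≠ 1 → e.mulShift a.toAdd ≠ 1 := fun a ha =>
    AddChar.FiniteField.primitiveChar_to_Complex_isPrimitive _ (by simpa using ha)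
  refine good_of_theta ρ (θ := fun y => ∑ x : LinearMap.ker (ρ y.1 - 1), e.mulShift y.2.toAdd (Q x))
    ?_ (fun h a ha => ?_) fun h a _ => ⟨∑ x : LinearMap.range (ρ h - 1), e.mulShift a.toAdd (Q x),
      ?_, v_sum_le_one fun x _ => (v_addChar (p := p) _ _).le, fun hh => ?_⟩
  · have : (fun y : H × Cp p => ∑ x : LinearMap.ker (ρ y.1 - 1), e.mulShift y.2.toAdd (Q x)) =
        ∑ c : ZMod p, (fun y : H × Cp p => (Nat.card {w // Q w = c ∧ ρ y.1 w = w} : ℂ)) *
          fun y => e (y.2.toAdd • c) := by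
      ext y
      rw [Finset.sum_apply, ← Finset.sum_fiberwise (s := Finset.univ)
        (g := fun x : LinearMap.ker (ρ y.1 - 1) => Q x)]
      refine Finset.sum_congr rfl fun c _ => ?_
      rw [Finset.sum_congr rfl (g := fun _ => e (y.2.toAdd • c)) fun x hx => by
        rw [(Finset.mem_filter.1 hx).2]; rfl, Finset.sum_const, nsmul_eq_mul, ← Fintype.card_subtype,
        ← Nat.card_eq_fintype_card]
      congr 2
      exact Nat.card_congr ⟨fun x => ⟨x.1, x.2, sub_eq_zero.1 x.1.2⟩,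
        fun x => ⟨⟨x.1, sub_eq_zero.2 x.2.2⟩, x.2.1⟩, fun _ => rfl, fun _ => rfl⟩
    rw [this]
    refine gen_sum _ fun c _ => gen_mul ?_ (gen_addChar e c)
    have := gen_comp (gen_of_char (char_fix ρ (fun w => Q w = c)
      fun h w k => (hi h w).trans k)) (MonoidHom.fst H (Cp p))
    simpa only [MonoidHom.coe_fst] using this
  · exact norm_sq_quad (he a ha) (b := b.restrict _) (fun x y => hQ x y) fun x k =>
      Subtype.ext (nd_fix ρ hH hb nd h x.2 fun y hy => k ⟨y, hy⟩)
  · simp only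
    rw [Finset.sum_mul_sum, ← Fintype.sum_prod_type', ← Finset.sum_subtype Finset.univ
      (p := (· ∈ LinearMap.ker (ρ 1 - 1))) (by simp) fun x => e.mulShift a.toAdd (Q x)]
    refine Fintype.sum_equiv (Submodule.prodEquivOfIsCompl _ _ (isCompl_fix ρ hH h)).toEquiv _ _
      fun x => ?_
    rw [← AddChar.map_add_eq_mul]
    congr 1
    exact ((hQ x.1 x.2).trans (by rw [orth_fix (hb h) x.1.2 x.2.2, add_zero])).symm
  · refine v_lt_one_of_sub_lt_one ?_ (v_card_range hM hh)
    rw [Nat.card_eq_fintype_card, ← Finset.card_univ, Finset.card_eq_sum_ones, Nat.cast_sum,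
      ← Finset.sum_sub_distrib]
    exact v_sum_lt_one fun x _ => by simpa using v_addChar_sub hM (e.mulShift a.toAdd) (Q x)

section Weil

open CF.Classical CF.Geom

variable {L : Type*} [AddCommGroup L] [Module ℂ L] [FiniteDimensional ℂ L]
  {B : LinearMap.BilinForm (ZMod p) W} {ψ : AddChar (ZMod p) ℂ} {T : W → End ℂ L}

/-- The operator with given coefficients. -/
noncomputable def Op (T : W → End ℂ L) (f : W → ℂ) : End ℂ L := ∑ u, f u • T u

theorem op_inj (h : Heis B ψ T) {f g : W → ℂ} (e : Op T f = Op T g) : f = g :=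
  funext (Fintype.linearIndependent_iffₛ.1 h.li f g e)

theorem exists_op (h : Heis B ψ T) (A : End ℂ L) : ∃ f, A = Op T f :=
  ⟨h.basis.repr A, by simpa [Op, h.basis_apply] using (h.basis.sum_repr A).symm⟩

omit [FiniteDimensional ℂ L] in
theorem op_mul (h : Heis B ψ T) (f g : W → ℂ) :
    Op T f * Op T g = Op T fun w => ∑ u, f u * g (w - u) * ψ (B u (w - u)) := by
  simp only [Op, Finset.sum_mul, Finset.mul_sum, Finset.sum_smul]
  rw [Finset.sum_comm, Finset.sum_comm (f := fun w u => (f u * g (w - u) * ψ (B u (w - u))) • T w)]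
  refine Finset.sum_congr rfl fun u _ => ?_
  rw [← Equiv.sum_comp (Equiv.subRight u)]
  refine Finset.sum_congr rfl fun w _ => ?_
  simp [h.mul, smul_smul, mul_assoc, mul_left_comm]

theorem trace_op (h : Heis B ψ T) (f : W → ℂ) :
    LinearMap.trace ℂ L (Op T f) = f 0 * finrank ℂ L := by
  rw [Op, map_sum, Finset.sum_eq_single 0 (fun v _ hv => by simp [h.trace_T hv]) (by simp)]
  simp [h.zero]

theorem op_rel (h : Heis B ψ T) {f : W → ℂ} {x y : W} (e : Op T f * T x = T y * Op T f) (u : W) :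
    f (u + y - x) * ψ (B (u + y) x) = f u * ψ (B y u) := by
  have e1 : Op T f * T x = Op T fun w => f (w - x) * ψ (B w x) := by
    simp only [Op, Finset.sum_mul]
    rw [← Equiv.sum_comp (Equiv.subRight x)]
    simp [h.mul, smul_smul, h.alt.self_eq_zero]
  have e2 : T y * Op T f = Op T fun w => f (w - y) * ψ (B y (w - y)) := by
    simp only [Op, Finset.mul_sum]
    rw [← Equiv.sum_comp (Equiv.subRight y)]
    simp [h.mul, smul_smul]
  simpa using congrFun (op_inj h (e1.symm.trans (e.trans e2))) (u + y)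

theorem op_pow (hM : IsPModular p M) (h : Heis B ψ T) {f : W → ℂ} (hf : ∀ u, v M (f u) ≤ 1) (k : ℕ) :
    ∃ g, Op T f ^ (k + 1) = Op T g ∧ (∀ u, v M (g u) ≤ 1) ∧
      (v M (∑ u, f u) < 1 → v M (∑ u, g u) < 1) := by
  induction k with
  | zero => exact ⟨f, by simp, hf, id⟩
  | succ k ih =>
    obtain ⟨g, e, h1, h2⟩ := ih
    refine ⟨_, by rw [pow_succ, e, op_mul h], fun w => v_sum_le_one fun u _ =>
      v_mul_le_one (v_mul_le_one (h1 _) (hf _)) (v_addChar (p := p) _ _).le, fun k => ?_⟩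
    refine v_lt_one_of_sub_lt_one (b := (∑ u, g u) * ∑ u, f u) ?_
      (v_mul_lt_one_left (h2 k) (v_sum_le_one fun u _ => hf u))
    rw [Finset.sum_comm, Finset.sum_mul, ← Finset.sum_sub_distrib]
    refine v_sum_lt_one fun u _ => ?_
    rw [← Equiv.sum_comp (Equiv.subRight u) f, Finset.mul_sum, ← Finset.sum_sub_distrib]
    refine v_sum_lt_one fun w _ => ?_
    rw [Equiv.subRight_apply, ← mul_sub_one]
    exact v_mul_lt_one_right (v_mul_le_one (h1 _) (hf _)) (v_addChar_sub hM _ _)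

theorem good_heis (hM : IsPModular p M) [Finite H] (hH : ¬ p ∣ Nat.card H) (hs : Heis B ψ T)
    (hb : ∀ h x y, B (ρ h x) (ρ h y) = B x y) : Good M ρ := by
  classical
  let σ : H →* SpG B := ((LinearMap.GeneralLinearGroup.generalLinearEquiv _ W).toMonoidHom.comp
    ρ.asGroupHom).codRestrict _ fun h => mem_SpG.2 (hb h)
  let ω : Representation ℂ H L := hs.weil.comp σ
  have hω : ∀ h x, ω h * T x = T (ρ h x) * ω h := fun h x => hs.weil_T (σ h) x
  choose c hc using fun h => exists_op hs (ω h)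
  have hd : (finrank ℂ L : ℂ) ≠ 0 := Nat.cast_ne_zero.2 hs.finrank_pos.ne'
  have htr : ∀ h, ω.character h = c h 0 * finrank ℂ L := fun h => by
    rw [← trace_op hs, ← hc]; rfl
  have r1 : ∀ h x, c h (ρ h x - x) * ψ (B (ρ h x) x) = c h 0 := fun h x => by
    simpa using op_rel hs (hc h ▸ hω h x) 0
  have r2 : ∀ h u, u ∉ LinearMap.range (ρ h - 1) → c h u = 0 := fun h u hu => by
    obtain ⟨a, ha, r, hr, rfl⟩ := Submodule.mem_sup.1 ((isCompl_fix ρ hH h).sup_eq_top.ge trivial : u ∈ _)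
    by_contra k
    refine hu (nd_fix ρ hH hb hs.nondeg.1 h ha (fun y hy => ?_) ▸ by simpa using hr)
    by_contra k1
    obtain ⟨s, hs'⟩ := AddChar.ne_one_iff.1 hs.ne_one
    have hy' := Submodule.smul_mem _ (s / (2 * B a y)) hy
    have e : ρ h (_ • y) = _ := sub_eq_zero.1 hy'
    have := op_rel hs (hc h ▸ hω h ((s / (2 * B a y)) • y)) (a + r)
    rw [e, End.one_apply, add_sub_cancel_right, mul_right_inj' k, map_add, LinearMap.add_apply,
      hs.alt.self_eq_zero, add_zero, ← hs.alt.neg_eq (a + r), map_add, LinearMap.add_apply,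
      ← hs.alt.neg_eq _ r, orth_fix (hb h) hy' hr, neg_zero, add_zero, map_smul, smul_eq_mul] at this
    refine hs' ?_
    rw [show s = s / (2 * B a y) * B a y - -(s / (2 * B a y) * B a y) by
      have := hs.two; field_simp; ring, AddChar.map_sub_eq_div, this, div_self]
    exact fun k => by simpa [k] using v_addChar (p := p) (M := M) ψ (-(s / (2 * B a y) * B a y))
  have r3 : ∀ h, (Nat.card (LinearMap.range (ρ h - 1)) : ℂ) * (c h 0 * c h⁻¹ 0) = 1 := fun h => by
    have e : Op T (fun w => ∑ u, c h u * c h⁻¹ (w - u) * ψ (B u (w - u))) = Op T (Pi.single 0 1) := by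
      rw [← op_mul hs, ← hc, ← hc, ← map_mul, mul_inv_cancel, map_one, Op,
        Finset.sum_eq_single 0 (fun u _ hu => by simp [hu]) (by simp)]
      simp [hs.zero]
    have e1 := congrFun (op_inj hs e) 0
    simp only [zero_sub, map_neg, hs.alt.self_eq_zero, neg_zero, AddChar.map_zero_eq_one, mul_one,
      Pi.single_eq_same] at e1
    rw [← e1, ← Finset.sum_filter_of_ne (p := (· ∈ LinearMap.range (ρ h - 1)))
      (fun u _ k => by by_contra k'; simp [r2 h u k'] at k), Nat.card_eq_fintype_card,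
      Fintype.card_subtype, ← nsmul_eq_mul, ← Finset.sum_const]
    refine Finset.sum_congr rfl fun u hu => ?_
    obtain ⟨x, rfl⟩ := (Finset.mem_filter.1 hu).2
    have e2 := r1 h⁻¹ (ρ h x)
    rw [Representation.inv_self_apply] at e2
    rw [← r1 h x, ← e2, mul_mul_mul_comm, ← AddChar.map_add_eq_mul, ← hs.alt.neg_eq x,
      neg_add_cancel, AddChar.map_zero_eq_one, mul_one]
    simp
  have hχ := isCharacter_character ω
  refine good_of_theta ρ (θ := fun y => ω.character y.1) (gen_comp (gen_of_char hχ)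
    (MonoidHom.fst H (Cp p))) (fun h a _ => ?_) fun h a _ => ?_
  · have e : ((‖ω.character h‖ ^ 2 : ℝ) : ℂ) = Nat.card (LinearMap.ker (ρ h - 1)) := by
      refine mul_right_cancel₀ (b := (Nat.card (LinearMap.range (ρ h - 1)) : ℂ))
        (Nat.cast_ne_zero.2 Nat.card_pos.ne') ?_
      rw [← Nat.cast_mul, card_ker_mul_range, Nat.card_eq_fintype_card (α := W), ← hs.dim]
      push_cast
      rw [← Complex.mul_conj', ← gen_inv (gen_of_char hχ), htr, htr]
      linear_combination (finrank ℂ L : ℂ) ^ 2 * r3 h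
    exact_mod_cast e
  · have h0 : c h 0 ≠ 0 := fun k => by simpa [k] using r3 h
    have hf : ∀ u, (u ∈ LinearMap.range (ρ h - 1) → ∃ t, c h u / c h 0 = ψ t) := by
      rintro _ ⟨x, rfl⟩
      refine ⟨-B (ρ h x) x, ?_⟩
      rw [div_eq_iff h0, ← r1 h x, mul_left_comm, ← AddChar.map_add_eq_mul]
      simp
    obtain ⟨g, e, h1, h2⟩ := op_pow hM hs (f := fun u => c h u / c h 0) (fun u => by
      by_cases k : u ∈ LinearMap.range (ρ h - 1)
      · obtain ⟨t, ht⟩ := hf u k
        exact ht ▸ (v_addChar (p := p) _ _).le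
      · simp [r2 h u k]) (Nat.card H - 1)
    have e1 : Op T (fun u => c h u / c h 0) = (c h 0)⁻¹ • ω h := by
      simp only [hc h, Op, Finset.smul_sum, smul_smul, div_eq_inv_mul]
    have e2 : g = Pi.single 0 ((c h 0)⁻¹ ^ Nat.card H) := op_inj hs (by
      rw [← e, e1, Nat.sub_add_cancel Nat.card_pos, smul_pow, ← map_pow, pow_card_eq_one', map_one,
        Op, Finset.sum_eq_single 0 (fun u _ hu => by simp [hu]) (by simp)]
      simp [hs.zero])
    refine ⟨(c h 0)⁻¹, ?_, ?_, fun hh => ?_⟩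
    · simp only [htr h, Representation.char_one]
      field_simp
    · have := h1 0
      rwa [e2, Pi.single_eq_same, map_pow, pow_le_one_iff Nat.card_pos.ne'] at this
    · have := h2 (by
        refine v_lt_one_of_sub_lt_one ?_ (v_card_range hM hh)
        rw [← Finset.sum_filter_of_ne (p := (· ∈ LinearMap.range (ρ h - 1)))
          (fun u _ k => by by_contra k'; simp [r2 h u k'] at k), Nat.card_eq_fintype_card,
          Fintype.card_subtype, Finset.card_eq_sum_ones, Nat.cast_sum, ← Finset.sum_sub_distrib]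
        refine v_sum_lt_one fun u hu => ?_
        obtain ⟨t, ht⟩ := hf u (Finset.mem_filter.1 hu).2
        simpa [ht] using v_addChar_sub hM ψ t)
      rwa [e2, Finset.sum_pi_single', if_pos (Finset.mem_univ _), map_pow,
        pow_lt_one_iff Nat.card_pos.ne'] at this

end Weil

theorem good_alt (hM : IsPModular p M) [Finite H] (hH : ¬ p ∣ Nat.card H)
    {B : LinearMap.BilinForm (ZMod p) W} (hA : B.IsAlt) (nd : ∀ x, (∀ y, B x y = 0) → x = 0)
    (hb : ∀ h x y, B (ρ h x) (ρ h y) = B x y) : Good M ρ := by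
  classical
  have hB : B.Nondegenerate := LinearMap.BilinForm.Nondegenerate.ofSeparatingLeft nd
  obtain ⟨m, hm⟩ := Geom.even_finrank_of_alt hB hA
  obtain ⟨g, hg⟩ := Geom.exists_equiv_sympBilin hB hA (m := m) (by omega)
  by_cases h2 : (2 : ZMod p) = 0
  · have := Fintype.ofFinite H
    refine good_quad ρ hM hH (Q := fun x => ∑ h, ∑ i, g (ρ h x) (.inl i) * g (ρ h x) (.inr i))
      (b := (Nat.card H : ZMod p) • B) (fun x y => ?_) (fun h x => ?_) fun x k => nd x fun y => ?_
    · rw [LinearMap.smul_apply, LinearMap.smul_apply, Nat.card_eq_fintype_card, smul_eq_mul,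
        ← nsmul_eq_mul, ← Finset.card_univ, ← Finset.sum_const, ← Finset.sum_add_distrib,
        ← Finset.sum_add_distrib]
      refine Finset.sum_congr rfl fun h _ => ?_
      rw [← hb h, ← hg, Geom.sympBilin_apply, Geom.sympForm_eq_sum, ← Finset.sum_add_distrib,
        ← Finset.sum_add_distrib]
      refine Finset.sum_congr rfl fun i _ => ?_
      simp only [map_add, Pi.add_apply]
      linear_combination (g (ρ h x) (.inl i) * g (ρ h y) (.inr i)) * h2
    · refine Fintype.sum_equiv (Equiv.mulRight h) _ _ fun k => ?_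
      simp
    · exact (mul_eq_zero.1 (k y)).resolve_left (mt (CharP.cast_eq_zero_iff (ZMod p) p _).1 hH)
  · have he : AddChar.FiniteField.primitiveChar_to_Complex (ZMod p) ≠ 1 := by
      simpa using AddChar.FiniteField.primitiveChar_to_Complex_isPrimitive (ZMod p) one_ne_zero
    have hs := Classical.heis_schr m he h2
    exact good_heis ρ hM hH (T := fun x => Classical.schr m _ (g x))
      ⟨hB, hA, he, h2, fun x y => by rw [hs.mul, hg, map_add], by rw [map_zero, hs.zero],
        hs.dim.trans (Fintype.card_congr g.toEquiv).symm⟩ hb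

theorem good_selfDual (hM : IsPModular p M) [Finite H] (hH : ¬ p ∣ Nat.card H)
    {B : LinearMap.BilinForm (ZMod p) W} (nd : ∀ x, (∀ y, B x y = 0) → x = 0)
    (hb : ∀ h x y, B (ρ h x) (ρ h y) = B x y) : Good M ρ := by
  classical
  have : NeZero (Nat.card H : ZMod p) := ⟨mt (CharP.cast_eq_zero_iff (ZMod p) p _).1 hH⟩
  obtain ⟨U, U', d, e, ⟨A, a1, a2⟩, ⟨S, s1, s2⟩, t⟩ := Known.goodSum_top _ ρ B rfl
    ⟨fun _ _ _ => trivial, fun g x _ y _ => hb g x y, fun x _ k => nd x fun y => k y trivial⟩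
  refine Good.sum ⟨d, codisjoint_iff.2 e⟩ (hU := a2.stab) (hU' := s2.stab)
    (good_alt _ hM hH (B := A.restrict U) (fun x => a1 x x.2)
      (fun x k => Subtype.ext (a2.nd x x.2 fun y hy => k ⟨y, hy⟩)) fun h x y => a2.inv h x x.2 y y.2) ?_
  by_cases h2 : (2 : ZMod p) = 0
  · exact Good.of_trivial fun g => LinearMap.ext fun x => Subtype.ext (t h2 g x x.2)
  · refine good_quad _ hM hH (Q := fun x => S x x) (b := (2 : ZMod p) • S.restrict U')
      (fun x y => ?_) (fun h x => s2.inv h x x.2 x x.2) fun x k =>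
        Subtype.ext (s2.nd x x.2 fun y hy => by simpa [h2] using k ⟨y, hy⟩)
    simp [s1 y y.2 x x.2]
    ring

end CF.Knorr
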