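import Cfsg.Agent.PLocal.KnB
import Cfsg.Agent.BG2.Rep
import Cfsg.Agent.BG.B3

/-!
The bound `k(GV) ≤ |V|` from a root on a faithful submodule for a point stabiliser.
-/

set_option autoImplicit false

namespace CF.Knorr

open Cfsg CF.Char CF.Clifford CF.BlockB Subgroup
open scoped Matrix

variable {p : ℕ} [hp : Fact p.Prime] {X : Type*} [Group X] [Finite X]

theorem kgv (V : Subgroup X) [hN : V.Normal] (hVexp : ∀ v ∈ V, v ^ p = 1) (hidx : ¬ p ∣ V.index)
    (hself : centralizer (V : Set X) = V) (G : Subgroup X) (hGV : IsComplement' V G) {v : X}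
    (hv : v ∈ V) (U : Subgroup X) (hUV : U ≤ V)
    (hUinv : ∀ h ∈ G, h * v * h⁻¹ = v → ∀ u ∈ U, h * u * h⁻¹ ∈ U)
    (hUf : ∀ h ∈ G, h * v * h⁻¹ = v → (∀ u ∈ U, h * u * h⁻¹ = u) → h = 1)
    (r : ∀ (n : ℕ) (e : U ≃ (Fin n → ZMod p))
      (ρ : Representation (ZMod p) (G ⊓ centralizer {v} : Subgroup X) (Fin n → ZMod p)),
      (∀ x y, e (x * y) = e x + e y) →
      (∀ (g : (G ⊓ centralizer {v} : Subgroup X)) (x y : U), (y : X) = g * x * (g : X)⁻¹ →
        e y = ρ g (e x)) → ¬ p ∣ Nat.card (G ⊓ centralizer {v} : Subgroup X) →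
      ∀ M, IsPModular p M → Good M ρ) : Nat.card (ConjClasses X) ≤ Nat.card V := by
  have hab : ∀ a ∈ V, ∀ b ∈ V, a * b = b * a := fun a ha b hb => (hself.ge hb) a ha
  have hc : ∀ h : (G ⊓ centralizer {v} : Subgroup X), (h : X) * v = v * h := fun h =>
    mem_centralizer_singleton_iff.1 h.2.2
  have hc' : ∀ h : (G ⊓ centralizer {v} : Subgroup X), (h : X) * v * (h : X)⁻¹ = v := fun h => by
    rw [hc, mul_inv_cancel_right]
  have hG : ¬ p ∣ Nat.card G := by rwa [← hGV.symm.index_eq_card]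
  have hH : ¬ p ∣ Nat.card (G ⊓ centralizer {v} : Subgroup X) := fun k =>
    hG (k.trans (card_dvd_of_le inf_le_left))
  obtain ⟨n, e, f, -, he, hf⟩ := BG2.exists_zmod_rep_ambient (p := p) U
    ⟨⟨⟨fun a b => Subtype.ext (hab _ (hUV a.2) _ (hUV b.2))⟩⟩, fun a ha => hVexp a (hUV ha)⟩
    (G ⊓ centralizer {v}).subtype fun g => mem_normalizer_iff.2 fun u =>
      ⟨hUinv _ g.2.1 (hc' g) u, fun k => by simpa [mul_assoc] using hUinv _ g⁻¹.2.1 (hc' g⁻¹) _ k⟩
  let ρ : Representation (ZMod p) (G ⊓ centralizer {v} : Subgroup X) (Fin n → ZMod p) :=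
    BG2.matRep (ZMod p) f
  have hρ : ∀ (g : (G ⊓ centralizer {v} : Subgroup X)) (x y : U), (y : X) = g * x * (g : X)⁻¹ →
      e y = ρ g (e x) := fun g x y k => by
    rw [hf g x y k]; exact (BG2.matRep_apply _ f g _).symm
  obtain ⟨M, hM⟩ := exists_isPModular hp.out
  let z : Cp p →* X :=
    { toFun := fun a => v ^ a.toAdd.val
      map_one' := by simp
      map_mul' := fun a b => by
        rw [toAdd_mul, ZMod.val_add, ← pow_eq_pow_mod _ (hVexp v hv), pow_add] }
  have hz : ∀ (h : (G ⊓ centralizer {v} : Subgroup X)) a, Commute (h : X) (z a) := fun h a =>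
    Commute.pow_right (hc h) _
  refine ((r n e ρ he hρ hH M hM).mono (fun _ => le_rfl) (K' := {1}) fun h hh => ?_).count hM hH
    ((G ⊓ centralizer {v}).subtype.noncommCoprod z hz) (fun χ hχ d hd k => hidx (k.trans
      (irr_one_dvd_index_of_normal_comm V hab hχ hd))) fun h a ha => ?_
  · refine Subtype.ext (hUf _ h.2.1 (hc' h) fun u hu => ?_)
    have := hρ h ⟨u, hu⟩ ⟨_, hUinv _ h.2.1 (hc' h) u hu⟩ rfl
    rw [show ρ h = 1 from hh] at this
    exact congrArg Subtype.val (e.injective this)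
  have k1 : Nat.card (centralizer ({(h : X) * z a} : Set X)) ≤
      Nat.card (V ⊓ centralizer {(h : X)} : Subgroup X) *
        Nat.card (centralizer ({h} : Set (G ⊓ centralizer {v} : Subgroup X))) := by
    have hcop : (orderOf (h : X)).Coprime (orderOf (z a)) :=
      Nat.Coprime.coprime_dvd_right (orderOf_dvd_of_pow_eq_one (by rw [← map_pow, pow_p_cp, map_one]))
        ((hp.out.coprime_iff_not_dvd.2 fun k => hG (k.trans (G.orderOf_dvd_natCard h.2.1))).symm)
    obtain ⟨m, hm⟩ : ∃ m : ℕ, z a ^ m = v := exists_pow_eq_self_of_coprime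
      (Nat.Coprime.coprime_dvd_right (orderOf_dvd_of_pow_eq_one (hVexp v hv))
        (Nat.coprime_comm.1 (Nat.coprime_of_lt_prime (by simpa using ha) (ZMod.val_lt _) hp.out)))
    have key : ∀ x : centralizer ({(h : X) * z a} : Set X), ∃ y : (V ⊓ centralizer {(h : X)} : Subgroup X) ×
        centralizer ({h} : Set (G ⊓ centralizer {v} : Subgroup X)), (y.1 : X) * y.2.1 = x := by
      rintro ⟨x, hx⟩
      rw [BG.cent1_mul (hz h a) hcop] at hx
      have h1 : x * h = h * x := mem_centralizer_singleton_iff.1 hx.1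
      have h2 : x * v = v * x := hm ▸ Commute.pow_right (mem_centralizer_singleton_iff.1 hx.2) m
      obtain ⟨⟨⟨w, hw⟩, ⟨g, hg⟩⟩, rfl⟩ := hGV.2 x
      replace hw : w ∈ V := hw
      replace hg : g ∈ G := hg
      have hh : (h : X) ∈ G := h.2.1
      simp only at h1 h2
      have h3 : g * v = v * g := mul_left_cancel (a := w) (by
        rw [← mul_assoc, h2, ← mul_assoc, ← mul_assoc, hab _ hv _ hw])
      have h4 : g * h = h * g := by
        have : g * h * ((h : X) * g)⁻¹ ∈ V ⊓ G := mem_inf.2 ⟨by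
          have e1 : g * h * ((h : X) * g)⁻¹ = w⁻¹ * (h * w * (h : X)⁻¹) := by
            rw [show g * h = w⁻¹ * (w * g * h) by group, h1]; group
          rw [e1]
          exact mul_mem (inv_mem hw) (hN.conj_mem _ hw _),
          mul_mem (mul_mem hg hh) (inv_mem (mul_mem hh hg))⟩
        rwa [hGV.disjoint.eq_bot, mem_bot, mul_inv_eq_one] at this
      exact ⟨(⟨w, hw, mem_centralizer_singleton_iff.2 (mul_right_cancel (b := g) (by
        rw [mul_assoc, ← h4, ← mul_assoc, h1, mul_assoc]))⟩,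
        ⟨⟨g, hg, mem_centralizer_singleton_iff.2 h3⟩,
          mem_centralizer_singleton_iff.2 (Subtype.ext h4)⟩), rfl⟩
    choose F hF using key
    rw [← Nat.card_prod]
    exact Nat.card_le_card_of_injective F fun x y k => Subtype.ext (by rw [← hF, k, hF])
  have k2 : Nat.card (LinearMap.range (ρ h - 1)) * Nat.card (V ⊓ centralizer {(h : X)} : Subgroup X) ≤
      Nat.card V := by
    choose w hw using fun s : LinearMap.range (ρ h - 1) => s.2
    rw [← Nat.card_prod]
    refine Nat.card_le_card_of_injective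
      (fun x => ⟨e.symm (w x.1) * x.2, mul_mem (hUV (e.symm _).2) x.2.2.1⟩) ?_
    rintro ⟨s, c⟩ ⟨t, d⟩ k
    have k : (e.symm (w s) : X) * c = e.symm (w t) * d := congrArg Subtype.val k
    have hy : ∀ x : U, ∃ y : U, (y : X) = h * x * (h : X)⁻¹ := fun x =>
      ⟨⟨_, hUinv _ h.2.1 (hc' h) _ x.2⟩, rfl⟩
    obtain ⟨y, hy1⟩ := hy (e.symm (w s))
    obtain ⟨y', hy2⟩ := hy (e.symm (w t))
    have c1 : (c : X) * h = h * c := mem_centralizer_singleton_iff.1 c.2.2
    have c2 : (d : X) * h = h * d := mem_centralizer_singleton_iff.1 d.2.2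
    have e1 : y * e.symm (w t) = y' * e.symm (w s) := Subtype.ext (by
      have e2 : (y : X) * c = y' * d := by
        rw [hy1, hy2, mul_assoc, mul_assoc, ← (Commute.inv_right c1).eq, mul_assoc _ (h : X)⁻¹,
          ← (Commute.inv_right c2).eq, ← mul_assoc _ (c : X), k]
        group
      refine mul_right_cancel (b := (d : X)) ?_
      rw [coe_mul, coe_mul, mul_assoc, ← k, mul_assoc (y' : X), hab _ (hUV (e.symm _).2) _ c.2.1,
        hab _ (hUV (e.symm _).2) _ d.2.1, ← mul_assoc, ← mul_assoc, e2])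
    have e3 := congrArg e e1
    rw [he, he, hρ h _ _ hy1, hρ h _ _ hy2] at e3
    simp only [Equiv.apply_symm_apply] at e3
    obtain rfl : s = t := Subtype.ext (by
      rw [← hw, ← hw]
      exact sub_eq_sub_iff_add_eq_add.2 e3)
    rw [Subtype.ext (mul_left_cancel k : (c : X) = d)]
  rw [dl]
  exact_mod_cast (Nat.mul_le_mul_left _ k1).trans (by
    rw [← mul_assoc]; exact Nat.mul_le_mul_right _ k2)

end CF.Knorr
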