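/-
The strong form of the Alperin–Goldschmidt conjugation theorem.
-/
import Cfsg.Agent.S3076
import Cfsg.Agent.Loc.SPE
import Cfsg.Agent.Transfer.Alperin

set_option autoImplicit false

namespace CF.AGs

open Subgroup Cfsg CF.Transfer

variable {G : Type*} [Group G] {p : ℕ}

/-- The first half of the conditions on the conjugation family, in ambient form. -/
structure Iso (p : ℕ) (P H : Subgroup G) : Prop where
  lt : H < P
  syl : IsSylowIn p (P ⊓ normalizer (H : Set G)) (normalizer (H : Set G))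
  iso : ∃ M : Subgroup G, centralizer (H : Set G) ≤ M ∧ ¬ normalizer (H : Set G) ≤ M ∧
    ∀ V : Subgroup G, H < V → V ≤ P ⊓ normalizer (H : Set G) →
      normalizer (H : Set G) ⊓ normalizer (V : Set G) ≤ M

/-- `X/H` is the least normal subgroup of `N(H)/H` of order divisible by `p`. -/
structure Least (p : ℕ) (H X : Subgroup G) : Prop where
  le : H ≤ X
  leN : X ≤ normalizer (H : Set G)
  nor : normalizer (H : Set G) ≤ normalizer (X : Set G)
  dvd : p ∣ H.relIndex X
  min : ∀ Y : Subgroup G, H ≤ Y → Y ≤ normalizer (H : Set G) →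
    normalizer (H : Set G) ≤ normalizer (Y : Set G) → p ∣ H.relIndex Y → X ≤ Y

theorem Iso.cj {P H : Subgroup G} (h : Iso p P H) (g : G) : Iso p (cj g P) (cj g H) := by
  refine ⟨cj_lt_cj.2 h.lt, ?_, ?_⟩
  · rw [normalizer_cj, ← cj_inf]; exact h.syl.cj g
  · obtain ⟨M, h1, h2, h3⟩ := h.iso
    refine ⟨Transfer.cj g M, ?_, ?_, fun V hV hV' => ?_⟩
    · rw [centralizer_cj]; exact cj_mono g h1
    · rw [normalizer_cj]; exact fun h' => h2 (cj_le_cj.1 h')
    · rw [normalizer_cj, ← cj_inf] at hV'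
      have := h3 (Transfer.cj g⁻¹ V) (by rw [← cj_lt_cj (g := g), cj_cj_inv]; exact hV)
        (le_cj_iff.1 hV')
      rw [normalizer_cj] at this
      rw [normalizer_cj, le_cj_iff, cj_inf, cj_inv_cj]
      exact this

theorem Least.cj {H X : Subgroup G} (h : Least p H X) (g : G) : Least p (cj g H) (cj g X) := by
  refine ⟨cj_mono g h.le, ?_, ?_, ?_, fun Y h1 h2 h3 h4 => ?_⟩
  · rw [normalizer_cj]; exact cj_mono g h.leN
  · rw [normalizer_cj, normalizer_cj]; exact cj_mono g h.nor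
  · rw [relIndex_cj]; exact h.dvd
  · rw [normalizer_cj] at h2 h3
    rw [cj_le_iff] at h1 h3
    rw [← normalizer_cj] at h3
    rw [cj_le_iff]
    refine h.min _ h1 (le_cj_iff.1 h2) h3 ?_
    rwa [← relIndex_cj g, cj_cj_inv]

section
variable [Finite G] [Fact p.Prime]

theorem Iso.lt' {P H : Subgroup G} (hP : IsPGroup p P) (h : Iso p P H) :
    H < P ⊓ normalizer (H : Set G) := lt_inf_normalizer_of_lt hP h.lt

/-- `N(H)/H` has a strongly `p`-embedded subgroup. -/
theorem Iso.spe {P H : Subgroup G} (hP : IsPGroup p P) (h : Iso p P H) :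
    ∃ M : Subgroup (↥(normalizer (H : Set G)) ⧸ H.subgroupOf (normalizer (H : Set G))),
      IsStronglyPEmbedded p M := by
  obtain ⟨M, -, h2, h3⟩ := h.iso
  have hlt := h.lt' hP
  set N := normalizer (H : Set G) with hN
  set S := P ⊓ N with hS
  have hHN : H ≤ N := le_normalizer
  have hSM : S ≤ M := le_trans (le_inf inf_le_right le_normalizer) (h3 S hlt le_rfl)
  let f := QuotientGroup.mk' (H.subgroupOf N)
  have hker : f.ker = H.subgroupOf N := QuotientGroup.ker_mk' _
  have hT : IsSylowIn p ((S.subgroupOf N).map f) ((M.subgroupOf N).map f) := by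
    refine IsSylowIn.map ?_ f
    exact h.syl.subgroupOf_top.of_le (comap_mono hSM) le_top
  have hT' : CF.Loc.IsSyl p ((S.subgroupOf N).map f) ((M.subgroupOf N).map f) :=
    CF.Loc.isSyl_iff_not_dvd_relIndex.2 ⟨hT.le, hT.isPGroup, hT.not_dvd⟩
  have hne : (S.subgroupOf N).map f ≠ ⊥ := by
    intro h0
    rw [Subgroup.map_eq_bot_iff, hker] at h0
    exact hlt.not_ge fun x hx => h0 (x := ⟨x, hx.2⟩) hx
  refine ⟨(M.subgroupOf N).map f, CF.Loc.spe_iff.2 ⟨fun h0 => h2 fun x hx => ?_,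
    hT'.ne_bot_iff.1 hne, CF.Loc.se_of_normalizer hT' hne fun X hX hX1 n hn => ?_⟩⟩
  · have : f ⟨x, hx⟩ ∈ (M.subgroupOf N).map f := h0 ▸ mem_top _
    rw [← mem_comap, comap_map_eq, hker, sup_of_le_left (subgroupOf_mono N (hlt.le.trans hSM))] at this
    exact this
  · obtain ⟨n, rfl⟩ := QuotientGroup.mk'_surjective _ n
    refine mem_map_of_mem f (h3 ((X.comap f).map N.subtype) ?_ ?_ ⟨n.2, ?_⟩)
    · refine lt_of_le_of_ne (fun x hx => ⟨⟨x, hHN hx⟩, ?_, rfl⟩) fun h0 => hX1 ?_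
      · have : f ⟨x, hHN hx⟩ = 1 := by rw [← MonoidHom.mem_ker, hker]; exact hx
        show f _ ∈ X
        rw [this]; exact one_mem _
      · rw [eq_bot_iff]
        intro y hy
        obtain ⟨y, rfl⟩ := QuotientGroup.mk'_surjective _ y
        have : (y : G) ∈ H := h0.ge ⟨y, hy, rfl⟩
        rw [mem_bot, ← MonoidHom.mem_ker]
        exact hker.ge this
    · rintro _ ⟨y, hy, rfl⟩
      have : y ∈ ((S.subgroupOf N).map f).comap f := hX hy
      rw [comap_map_eq, hker, sup_of_le_left (subgroupOf_mono N hlt.le)] at this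
      exact this
    · refine mem_normalizer_of_cj_le (cj_le_iff_forall.2 ?_)
      rintro _ ⟨y, hy, rfl⟩
      refine ⟨n * y * n⁻¹, ?_, rfl⟩
      show f _ ∈ X
      rw [map_mul, map_mul, map_inv]
      exact conj_mem_of_mem_normalizer hn hy

omit [Finite G] [Fact p.Prime] in
theorem relIndex_eq_card_map {H Y N : Subgroup G} (hHN : H ≤ N) [(H.subgroupOf N).Normal]
    (hY : H ≤ Y) (hYN : Y ≤ N) :
    H.relIndex Y = Nat.card ((Y.subgroupOf N).map (QuotientGroup.mk' (H.subgroupOf N))) := by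
  rw [← relIndex_subgroupOf hYN]
  conv_lhs => rw [← QuotientGroup.ker_mk' (H.subgroupOf N)]
  rw [relIndex_ker]

theorem Iso.least {P H : Subgroup G} (hP : IsPGroup p P) (h : Iso p P H) :
    ∃ X, Least p H X := by
  obtain ⟨M, hM⟩ := h.spe hP
  have hlt := h.lt' hP
  set N := normalizer (H : Set G) with hN
  have hHN : H ≤ N := le_normalizer
  have h0 : H ≤ N ∧ N ≤ N ∧ N ≤ normalizer (N : Set G) ∧ p ∣ H.relIndex N :=
    ⟨hHN, le_rfl, le_normalizer, by
      rw [← relIndex_mul_relIndex H (P ⊓ N) N hlt.le inf_le_right]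
      exact (dvd_relIndex_of_not_le hP.to_inf_left hlt.not_ge).mul_right _⟩
  obtain ⟨X, hX, hmin⟩ := (wellFounded_lt (α := Subgroup G)).has_min
    {X | H ≤ X ∧ X ≤ N ∧ N ≤ normalizer (X : Set G) ∧ p ∣ H.relIndex X} ⟨N, h0⟩
  refine ⟨X, hX.1, hX.2.1, hX.2.2.1, hX.2.2.2, fun Y h1 h2 h3 h4 => ?_⟩
  by_contra hXY
  refine hmin (X ⊓ Y) ⟨le_inf hX.1 h1, inf_le_left.trans hX.2.1,
    (le_inf hX.2.2.1 h3).trans inf_normalizer_le_normalizer_inf, ?_⟩
    (inf_lt_left.2 hXY)
  let f := QuotientGroup.mk' (H.subgroupOf N)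
  have hf : Function.Surjective f := QuotientGroup.mk'_surjective _
  haveI : (X.subgroupOf N).Normal := (normal_subgroupOf_iff_le_normalizer hX.2.1).2 hX.2.2.1
  haveI : (Y.subgroupOf N).Normal := (normal_subgroupOf_iff_le_normalizer h2).2 h3
  haveI : ((X.subgroupOf N).map f).Normal := Normal.map inferInstance f hf
  haveI : ((Y.subgroupOf N).map f).Normal := Normal.map inferInstance f hf
  have h5 := hX.2.2.2
  rw [relIndex_eq_card_map hHN hX.1 hX.2.1] at h5
  rw [relIndex_eq_card_map hHN h1 h2] at h4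
  have h6 := CF.Loc.spe_dvd_inf hM h5 h4
  rw [relIndex_eq_card_map hHN (le_inf hX.1 h1) (inf_le_left.trans hX.2.1)]
  have hker : f.ker = H.subgroupOf N := QuotientGroup.ker_mk' _
  have h7 : ((X ⊓ Y).subgroupOf N).map f = (X.subgroupOf N).map f ⊓ (Y.subgroupOf N).map f := by
    refine le_antisymm (le_inf (map_mono (subgroupOf_mono N inf_le_left))
      (map_mono (subgroupOf_mono N inf_le_right))) ?_
    rintro _ ⟨⟨x, hx, rfl⟩, hy⟩
    have : x ∈ ((Y.subgroupOf N).map f).comap f := hy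
    rw [comap_map_eq, hker, sup_of_le_left (subgroupOf_mono N h1)] at this
    exact mem_map_of_mem f ⟨hx, this⟩
  rw [← h7] at h6
  exact h6

/-- `H` is a Sylow subgroup of the preimage of `O_p(N(H)/C(H))`. -/
theorem Iso.rad {P : Sylow p G} {H : Subgroup G} (h : Iso p (P : Subgroup G) H) :
    (P : Subgroup G) ⊓ centralizer (H : Set G) ≤ H ∧
      (pPrimePCore p ↥(normalizer (H : Set G))).map (normalizer (H : Set G)).subtype =
        H ⊔ centralizer (H : Set G) := by
  obtain ⟨M, h1, h2, h3⟩ := h.iso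
  have hlt := h.lt' P.isPGroup'
  have hsyl := h.syl
  have hHN : H ≤ normalizer (H : Set G) := le_normalizer
  have hCN : centralizer (H : Set G) ≤ normalizer (H : Set G) := centralizer_le_normalizer _
  haveI hC : ((centralizer (H : Set G)).subgroupOf (normalizer (H : Set G))).Normal :=
    (normal_subgroupOf_iff_le_normalizer hCN).2 (normalizer_le_normalizer_centralizer H)
  refine (Cfsg.Agent.S3076.result P H h.lt.le hsyl.not_dvd).1 ?_
  set N := normalizer (H : Set G) with hN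
  set K₀ := (pCore p (N ⧸ (centralizer (H : Set G)).subgroupOf N)).comap
    (QuotientGroup.mk' ((centralizer (H : Set G)).subgroupOf N)) with hK₀
  haveI : K₀.Normal := Normal.comap inferInstance _
  have h0 : H.subgroupOf N ≤ K₀ := CF.PLocal.le_comap_pCore_iff.mpr (by
    rw [pRes_eq_bot_of_isPGroup (isPGroup_subgroupOf (P.isPGroup'.to_le h.lt.le) N)]
    exact bot_le)
  have hHK : H ≤ K₀.map N.subtype := (map_subgroupOf_eq_of_le hHN).ge.trans (map_mono h0)
  have hKN : K₀.map N.subtype ≤ N := map_subtype_le _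
  have hNK : N ≤ normalizer (K₀.map N.subtype : Set G) := by
    refine (normal_subgroupOf_iff_le_normalizer hKN).1 ?_
    rw [subgroupOf, comap_map_eq_self_of_injective N.subtype_injective]
    infer_instance
  have hres : pRes p (K₀.map N.subtype) ≤ centralizer (H : Set G) := by
    rw [← map_pRes]
    exact (map_mono (CF.PLocal.le_comap_pCore_iff.1 le_rfl)).trans (map_subgroupOf_eq_of_le hCN).le
  have hT := hsyl.inf_of_normalized hKN hNK
  refine ⟨hHK, ?_⟩
  by_cases hTH : (P : Subgroup G) ⊓ N ⊓ K₀.map N.subtype ≤ H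
  · rw [le_antisymm hTH (le_inf hlt.le hHK)] at hT
    exact hT.not_dvd
  · refine (h2 fun x hx => ?_).elim
    have h4 := h3 _ (lt_of_le_not_ge (le_inf hlt.le hHK) hTH) inf_le_left
    obtain ⟨k, hk, y, hy, rfl⟩ := hT.frattini (hNK hx)
    obtain ⟨c, hc, s, hs, rfl⟩ := hT.exists_pRes_mul hk
    exact mul_mem (mul_mem (h1 (hres hc)) (h4 ⟨hs.1.2, le_normalizer hs⟩))
      (h4 ⟨(mul_mem_cancel_left (hKN hk)).1 hx, hy⟩)

end

/-! ### Chains modulo centralizers and `N(P)` -/

section Chain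

variable {ι : Type*} {D : ι → Set G} {F : ι → G → Prop}

theorem chain_conj {y : G}
    (hy : ∀ i x, F i x → ∃ j, F j (y⁻¹ * x * y) ∧ (fun a => y⁻¹ * a * y) '' D i ⊆ D j)
    {A : Set G} {g : G} (h : Chain D F A g) :
    Chain D F ((fun a => y⁻¹ * a * y) '' A) (y⁻¹ * g * y) := by
  induction h with
  | nil A => simpa using Chain.nil _
  | cons A i x g hx hA _ ih =>
    obtain ⟨j, hj, hj'⟩ := hy i x hx
    have e : y⁻¹ * (x * g) * y = (y⁻¹ * x * y) * (y⁻¹ * g * y) := by group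
    rw [e]
    refine .cons _ j _ _ hj ((Set.image_mono hA).trans hj') ?_
    rw [← image_conj_mul] at ih ⊢
    have e' : y * (y⁻¹ * x * y) = x * y := by group
    rwa [e']

/-- `g = c w y` with `c ∈ C(A)`, `w` a chain and `y ∈ Y`. -/
def CR (D : ι → Set G) (F : ι → G → Prop) (Y : Subgroup G) (A : Set G) (g : G) : Prop :=
  ∃ c ∈ centralizer A, ∃ y ∈ Y, ∃ w, Chain D F A w ∧ g = c * w * y

variable {Y : Subgroup G}

theorem image_conj_of_mem_centralizer {A : Set G} {c : G} (hc : c ∈ centralizer A) :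
    (fun a => c⁻¹ * a * c) '' A = A := by
  conv_rhs => rw [← Set.image_id A]
  refine Set.image_congr fun a ha => ?_
  rw [mul_assoc, hc a ha, inv_mul_cancel_left, id]

theorem conj_mem_centralizer_of {A : Set G} {c g : G}
    (hc : c ∈ centralizer ((fun a => g⁻¹ * a * g) '' A)) : g * c * g⁻¹ ∈ centralizer A := by
  intro a ha
  have := hc _ ⟨a, ha, rfl⟩
  calc a * (g * c * g⁻¹) = g * (g⁻¹ * a * g * c) * g⁻¹ := by group
    _ = _ := by rw [this]; group

theorem conj_mem_centralizer_image {A : Set G} {c : G} (g : G) (hc : c ∈ centralizer A) :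
    g⁻¹ * c * g ∈ centralizer ((fun a => g⁻¹ * a * g) '' A) := by
  rintro _ ⟨a, ha, rfl⟩
  have := hc a ha
  calc g⁻¹ * a * g * (g⁻¹ * c * g) = g⁻¹ * (a * c) * g := by group
    _ = _ := by rw [this]; group

theorem CR.mono {A B : Set G} {g : G} (h : CR D F Y B g) (hAB : A ⊆ B) : CR D F Y A g := by
  obtain ⟨c, hc, y, hy, w, hw, rfl⟩ := h
  exact ⟨c, centralizer_le hAB hc, y, hy, w, hw.mono hAB, rfl⟩

theorem CR.mul
    (hY : ∀ y ∈ Y, ∀ i x, F i x → ∃ j, F j (y⁻¹ * x * y) ∧ (fun a => y⁻¹ * a * y) '' D i ⊆ D j)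
    {A : Set G} {g h : G} (h1 : CR D F Y A g) (h2 : CR D F Y ((fun a => g⁻¹ * a * g) '' A) h) :
    CR D F Y A (g * h) := by
  obtain ⟨c', hc', y', hy', w', hw', rfl⟩ := h2
  replace hc' := conj_mem_centralizer_of hc'
  obtain ⟨c, hc, y, hy, w, hw, rfl⟩ := h1
  refine ⟨_, mul_mem hc' hc, y * y', mul_mem hy hy', w * (y⁻¹⁻¹ * w' * y⁻¹), hw.trans ?_, by group⟩
  have := chain_conj (hY _ (inv_mem hy)) hw'
  rwa [← image_conj_mul, mul_inv_cancel_right, image_conj_mul,
    image_conj_of_mem_centralizer hc] at this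

theorem CR.inv (hinv : ∀ i x, F i x → F i x⁻¹)
    (hD : ∀ i x, F i x → ∀ a ∈ D i, x⁻¹ * a * x ∈ D i)
    (hY : ∀ y ∈ Y, ∀ i x, F i x → ∃ j, F j (y⁻¹ * x * y) ∧ (fun a => y⁻¹ * a * y) '' D i ⊆ D j)
    {A : Set G} {g : G} (h1 : CR D F Y A g) : CR D F Y ((fun a => g⁻¹ * a * g) '' A) g⁻¹ := by
  obtain ⟨c, hc, y, hy, w, hw, rfl⟩ := h1
  refine ⟨_, conj_mem_centralizer_image _ (inv_mem hc), y⁻¹, inv_mem hy, y⁻¹ * w⁻¹ * y, ?_,
    by group⟩
  have := chain_conj (hY _ hy) (hw.inv hinv hD)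
  rwa [image_conj_mul, image_conj_mul, image_conj_of_mem_centralizer hc]

theorem CR.of_mem_centralizer {A : Set G} {c : G} (hc : c ∈ centralizer A) : CR D F Y A c :=
  ⟨c, hc, 1, one_mem _, 1, .nil _, by group⟩

theorem CR.of_mem {A : Set G} {y : G} (hy : y ∈ Y) : CR D F Y A y :=
  ⟨1, one_mem _, y, hy, 1, .nil _, by group⟩

theorem CR.of_chain {A : Set G} {w : G} (hw : Chain D F A w) : CR D F Y A w :=
  ⟨1, one_mem _, 1, one_mem _, w, hw, by group⟩

end Chain

/-- The family. -/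
def Fam (p : ℕ) (P : Subgroup G) (i : Subgroup G × Subgroup G) (x : G) : Prop :=
  Iso p P i.1 ∧ Least p i.1 i.2 ∧ x ∈ pRes p i.2

/-- **The strong Alperin–Goldschmidt theorem.** -/
theorem strong_AG [Finite G] [Fact p.Prime] (P : Sylow p G) {A : Set G} {g : G} (hA : A ⊆ P)
    (hgA : (fun a => g⁻¹ * a * g) '' A ⊆ P) :
    CR (fun i : Subgroup G × Subgroup G => (i.1 : Set G)) (Fam p P)
      (normalizer ((P : Subgroup G) : Set G)) A g := by
  set D := fun i : Subgroup G × Subgroup G => (i.1 : Set G) with hDdef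
  set Y := normalizer ((P : Subgroup G) : Set G) with hYdef
  have hinv : ∀ i x, Fam p P i x → Fam p (P : Subgroup G) i x⁻¹ :=
    fun i x h => ⟨h.1, h.2.1, inv_mem h.2.2⟩
  have hD : ∀ i x, Fam p (P : Subgroup G) i x → ∀ a ∈ D i, x⁻¹ * a * x ∈ D i :=
    fun i x h a ha => inv_conj_mem_of_mem_normalizer (h.2.1.leN (pRes_le _ h.2.2)) ha
  have hY : ∀ y ∈ Y, ∀ i x, Fam p (P : Subgroup G) i x →
      ∃ j, Fam p (P : Subgroup G) j (y⁻¹ * x * y) ∧ (fun a => y⁻¹ * a * y) '' D i ⊆ D j := by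
    intro y hy i x h
    refine ⟨(cj y⁻¹ i.1, cj y⁻¹ i.2), ⟨?_, h.2.1.cj _, ?_⟩, ?_⟩
    · have := h.1.cj y⁻¹
      rwa [cj_eq_of_mem_normalizer (inv_mem hy)] at this
    · show _ ∈ pRes p (cj y⁻¹ i.2)
      rw [pRes_cj]
      exact conj_mem_cj_inv h.2.2
    · show _ ⊆ (cj y⁻¹ i.1 : Set G)
      rw [coe_cj_inv]
  have key := alperin_induction (isSylowIn_top P) (fun V g => CR D (Fam p P) Y V g⁻¹)
    (fun A B g hAB h => h.mono hAB)
    (fun A g h h1 h2 => by
      rw [mul_inv_rev]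
      exact h1.mul hY (by rwa [← coe_cj_inv, inv_inv]))
    (fun A g h => by
      have := h.inv hinv hD hY
      rw [← coe_cj_inv, inv_inv] at this
      rwa [inv_inv])
    (fun U hU IH x hx => by
      replace hx : x⁻¹ ∈ normalizer (U : Set G) := inv_mem (mem_inf.1 hx).2
      generalize x⁻¹ = x at hx
      rcases hU.1.eq_or_lt with rfl | hlt
      · exact CR.of_mem hx
      have hS := hU.2
      rw [top_inf_eq] at hS
      have him : ∀ z ∈ normalizer (U : Set G), (fun a => z⁻¹ * a * z) '' (U : Set G) = U :=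
        fun z hz => by rw [← coe_cj_inv, cj_eq_of_mem_normalizer (inv_mem hz)]
      let M : Subgroup G :=
        { carrier := {z | z ∈ normalizer (U : Set G) ∧ CR D (Fam p P) Y U z}
          mul_mem' := fun {a b} ha hb =>
            ⟨mul_mem ha.1 hb.1, ha.2.mul hY (by rw [him a ha.1]; exact hb.2)⟩
          one_mem' := ⟨one_mem _, CR.of_mem (one_mem _)⟩
          inv_mem' := fun {a} ha => ⟨inv_mem ha.1, by
            have := ha.2.inv hinv hD hY
            rwa [him a ha.1] at this⟩ }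
      have hM : ∀ V : Subgroup G, U < V → V ≤ (P : Subgroup G) ⊓ normalizer (U : Set G) →
          normalizer (U : Set G) ⊓ normalizer (V : Set G) ≤ M := by
        intro V hV hV' z hz
        refine ⟨hz.1, ?_⟩
        have := IH V (hV'.trans inf_le_left) (card_lt_of_lt hV) z⁻¹ (mem_top _)
          (by rw [cj_eq_of_mem_normalizer (inv_mem hz.2)]; exact hV'.trans inf_le_left)
        rw [inv_inv] at this
        exact this.mono hV.le
      by_contra hx'
      have hI : Iso p P U := ⟨hlt, hS, M,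
        fun c hc => ⟨centralizer_le_normalizer _ hc, CR.of_mem_centralizer hc⟩,
        fun h => hx' (h hx).2, hM⟩
      obtain ⟨X, hX⟩ := hI.least P.isPGroup'
      have hT := hS.inf_of_normalized hX.leN hX.nor
      have hUT : U ≤ (P : Subgroup G) ⊓ normalizer (U : Set G) ⊓ X :=
        le_inf (le_inf hU.1 le_normalizer) hX.le
      have h4 := hM _ (lt_of_le_of_ne hUT fun h => hT.not_dvd (h ▸ hX.dvd)) inf_le_left
      obtain ⟨k, hk, y, hy, rfl⟩ := hT.frattini (hX.nor hx)
      obtain ⟨c, hc, s, hs, rfl⟩ := hT.exists_pRes_mul hk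
      have hcM : c ∈ M := ⟨hX.leN (pRes_le _ hc),
        CR.of_chain (Chain.single (i := (U, X)) ⟨hI, hX, hc⟩ subset_rfl)⟩
      exact hx' (mul_mem (mul_mem hcM (h4 ⟨hs.1.2, le_normalizer hs⟩))
        (h4 ⟨(mul_mem_cancel_left (hX.leN hk)).1 hx, hy⟩) : _ ∈ M).2)
    (closure A) ((closure_le _).2 hA) g⁻¹ (mem_top _)
    (by rw [cj_closure, closure_le, inv_inv]; exact hgA)
  rw [inv_inv] at key
  exact key.mono subset_closure

end CF.AGs
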