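import Cfsg.Agent.PLocal.BTIb
import Cfsg.Agent.Fgs1.Kazarin
import Cfsg.Agent.Classical.SL2Schur
import Cfsg.Agent.Small.ZassSylow
import Cfsg.Agent.Invol.Dihedral

/-!
# TI-subgroups inverted by an involution: the case `C_N(z) = ⟨z⟩`
-/

set_option autoImplicit false

namespace CF.BTI

open Subgroup MulAction CF.Small CF.Perm CF.Coprime

theorem eq_of_dvd_two_pow {d j : ℕ} (hd : 1 ≤ d) (hj : 1 ≤ j) (hj' : j ≤ 2 * d + 1)
    (h : 2 ^ d + 1 ∣ 2 ^ j - 1) : j = 2 * d := by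
  have hp : ∀ i, 0 < 2 ^ i := fun i => by positivity
  rcases le_or_gt j d with h1 | h1
  · have h2 : 2 ^ j ≤ 2 ^ d := Nat.pow_le_pow_right (by norm_num) h1
    have h3 : 1 < 2 ^ j := Nat.one_lt_two_pow (by omega)
    have := Nat.le_of_dvd (by omega) h
    omega
  · obtain ⟨i, rfl⟩ : ∃ i, j = d + i := ⟨j - d, by omega⟩
    have h2 : 2 ^ d + 1 ∣ 2 ^ i + 1 := by
      have h3 : (2 ^ d + 1) * 2 ^ i = (2 ^ (d + i) - 1) + (2 ^ i + 1) := by
        have := hp (d + i)
        rw [add_mul, ← pow_add]; omega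
      exact (Nat.dvd_add_right h).1 (h3 ▸ dvd_mul_right _ _)
    rcases lt_trichotomy i d with h3 | h3 | h3
    · have h4 : 2 ^ i < 2 ^ d := Nat.pow_lt_pow_right (by norm_num) h3
      have := Nat.le_of_dvd (Nat.succ_pos _) h2
      omega
    · omega
    · obtain rfl : i = d + 1 := by omega
      have h4 : 2 ^ d + 1 ∣ 1 := by
        have h5 : 2 * (2 ^ d + 1) = (2 ^ (d + 1) + 1) + 1 := by ring
        exact (Nat.dvd_add_right h2).1 (h5 ▸ dvd_mul_left _ _)
      have := Nat.le_of_dvd one_pos h4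
      have := hp d
      omega

theorem numerics {n m r : ℕ} (hr : 2 ≤ r) (hm : 1 < m) (hc : r.Coprime m)
    (h : n * (2 * r) = m * 2 + m * (2 * r - 2) * m) (hle : n ≤ m + m * (2 * r - 2)) :
    (m = r + 1 ∧ n = m * r) ∨ (m = 2 * r + 1 ∧ n = m + m * (2 * r - 2)) := by
  obtain ⟨s, rfl⟩ : ∃ s, r = s + 1 := ⟨r - 1, by omega⟩
  rw [show 2 * (s + 1) - 2 = 2 * s by omega] at h hle ⊢
  have h1 : n * (s + 1) = m * (1 + s * m) := by nlinarith
  have h2 : s + 1 ∣ 1 + s * m := hc.dvd_of_dvd_mul_left (h1 ▸ dvd_mul_left _ _)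
  obtain ⟨m', rfl⟩ : ∃ m', m = m' + 1 := ⟨m - 1, by omega⟩
  have h3 : s + 1 ∣ m' := by
    have h4 : (s + 1) * (m' + 1) = (1 + s * (m' + 1)) + m' := by ring
    exact (Nat.dvd_add_right h2).1 (h4 ▸ dvd_mul_right _ _)
  obtain ⟨j, rfl⟩ := h3
  have h4 : n = ((s + 1) * j + 1) * (1 + s * j) :=
    Nat.eq_of_mul_eq_mul_right (show 0 < s + 1 by omega) (by rw [h1]; ring)
  have h5 : 1 + s * j ≤ 1 + 2 * s := Nat.le_of_mul_le_mul_left (by nlinarith) (show 0 < (s + 1) * j + 1 by omega)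
  have h6 : j ≤ 2 := Nat.le_of_mul_le_mul_left (show s * j ≤ s * 2 by omega) (by omega)
  have h7 : j ≠ 0 := by rintro rfl; omega
  rcases (by omega : j = 1 ∨ j = 2) with rfl | rfl
  · left; exact ⟨by ring, by rw [h4]; ring⟩
  · right; exact ⟨by ring, by rw [h4]; ring⟩

variable {G : Type*} [Group G] [Finite G] {M : Subgroup G} {z : G}

theorem isCyclic_of_psl {F : Type} [Field F] [Fintype F] (hF : Even (Fintype.card F))
    (e : G ≃* Matrix.ProjectiveSpecialLinearGroup (Fin 2) F) (hc : IsMulCommutative M)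
    (ho : Odd (Nat.card M)) : IsCyclic M := by
  obtain ⟨e'⟩ := psl_equiv_sl_of_even F hF
  have : Fact (Nat.Prime 2) := ⟨Nat.prime_two⟩
  have : CharP F 2 := ringChar.of_eq (FiniteField.even_card_iff_char_two.2 (Nat.even_iff.1 hF))
  have : IsZGroup M := ⟨fun p hp P => by
    have : Fact p.Prime := ⟨hp⟩
    by_cases h2 : p = 2
    · subst h2
      obtain ⟨k, hk⟩ := P.isPGroup'.exists_card_eq
      have h1 : Odd (2 ^ k) := ho.of_dvd_nat (hk ▸ card_subgroup_dvd_card _)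
      have h3 : k = 0 := by
        by_contra h
        exact (Nat.not_even_iff_odd.2 h1) ((Nat.even_pow' h).2 even_two)
      have : Subsingleton P := (Nat.card_eq_one_iff_unique.1 (by rw [hk, h3, pow_zero])).1
      exact isCyclic_of_subsingleton
    · let φ := (e.trans e').toMonoidHom.comp M.subtype
      have hφ : Function.Injective φ := (e.trans e').injective.comp M.subtype_injective
      have := CF.Classical.SL2_isCyclic_of_odd 2 h2 h2 (P.isPGroup'.map φ)
      exact isCyclic_of_surjective _ ((P : Subgroup M).equivMapOfInjective φ hφ).symm.surjective⟩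
  open scoped IsMulCommutative in infer_instance

/-- conjugates of an involution -/
noncomputable def conjMap (hz : z * z = 1) (hz1 : z ≠ 1) :
    G ⧸ centralizer ({z} : Set G) → {t : G // t * t = 1 ∧ t ≠ 1} :=
  Quotient.lift (fun g => ⟨g * z * g⁻¹, by
    calc _ = g * (z * z) * g⁻¹ := by group
      _ = 1 := by rw [hz]; group, fun h => hz1 (conj_eq_one_iff.1 h)⟩) fun a b h => by
    have h1 := mem_centralizer_singleton_iff.1 (QuotientGroup.leftRel_apply.1 h)
    refine Subtype.ext ?_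
    calc a * z * a⁻¹ = a * (z * (a⁻¹ * b)) * b⁻¹ := by group
      _ = _ := by rw [← h1]; group

omit [Finite G] in
theorem conjMap_injective (hz : z * z = 1) (hz1 : z ≠ 1) : Function.Injective (conjMap hz hz1) := by
  intro a b h
  induction a using QuotientGroup.induction_on with | H a =>
  induction b using QuotientGroup.induction_on with | H b =>
  have h1 : a * z * a⁻¹ = b * z * b⁻¹ := congrArg Subtype.val h
  rw [QuotientGroup.eq, mem_centralizer_singleton_iff]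
  calc _ = a⁻¹ * (b * z * b⁻¹) * b := by group
    _ = _ := by rw [← h1]; group

theorem card_invol_of_TI (P : Sylow 2 G) (h2 : ∀ u ∈ P, u * u = 1)
    (hC : ∀ u ∈ P, u ≠ 1 → centralizer ({u} : Set G) ≤ P) :
    Nat.card {t : G // t * t = 1 ∧ t ≠ 1} =
      Nat.card (Sylow 2 G) * (Nat.card (P : Subgroup G) - 1) := by
  classical
  have hTI := TI_of_cent_le hC
  have h3 : ∀ Q : Sylow 2 G, ∀ u ∈ Q, u * u = 1 := fun Q u hu => by
    obtain ⟨g, rfl⟩ := exists_smul_eq G P Q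
    have := h2 _ (mem_smul_sylow_iff.1 hu)
    calc u * u = g * (g⁻¹ * u * g * (g⁻¹ * u * g)) * g⁻¹ := by group
      _ = 1 := by rw [this]; group
  have h4 : ∀ Q : Sylow 2 G, Nat.card {u : (Q : Subgroup G) // u ≠ 1} =
      Nat.card (P : Subgroup G) - 1 := fun Q => by
    rw [← Nat.card_congr (Sylow.equiv Q P).toEquiv,
      Big.card_split (fun u : (Q : Subgroup G) => u = 1),
      Nat.card_unique (α := {u : (Q : Subgroup G) // u = 1}), Nat.add_sub_cancel_left]
  have := Fintype.ofFinite (Sylow 2 G)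
  rw [← Nat.card_congr (Equiv.ofBijective (fun p : Σ Q : Sylow 2 G, {u : (Q : Subgroup G) // u ≠ 1} =>
    (⟨p.2.1.1, h3 p.1 _ p.2.1.2, fun h => p.2.2 (Subtype.ext h)⟩ : {t : G // t * t = 1 ∧ t ≠ 1}))
    ⟨?_, ?_⟩), Nat.card_sigma]
  · simp only [h4, Finset.sum_const, Finset.card_univ, smul_eq_mul, Nat.card_eq_fintype_card]
  · rintro ⟨Q, ⟨u, hu⟩, hu1⟩ ⟨R, ⟨v, hv⟩, hv1⟩ h
    obtain rfl : u = v := congrArg Subtype.val h
    obtain rfl : Q = R := by
      by_contra hne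
      exact hu1 (Subtype.ext (hTI Q R hne u hu hv))
    rfl
  · rintro ⟨t, ht, ht1⟩
    have hp : IsPGroup 2 (zpowers t) := by
      refine IsPGroup.of_card (n := 1) ?_
      rw [Nat.card_zpowers, pow_one]
      exact orderOf_eq_prime (by rw [sq, ht]) ht1
    obtain ⟨Q, hQ⟩ := hp.exists_le_sylow
    exact ⟨⟨Q, ⟨t, hQ (mem_zpowers t)⟩, fun h => ht1 (congrArg Subtype.val h)⟩, rfl⟩

namespace Big

theorem HH_eq (B : Big M z) (hH : ∀ h ∈ HH M z, h * h = 1) {h : G} (hh : h ∈ HH M z) :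
    h = 1 ∨ h = z := by
  by_cases h1 : h = 1
  · exact Or.inl h1
  · exact Or.inr (B.eq_z (mem_HH.1 hh).2 (mem_HH.1 hh).1 (hH h hh) h1)

theorem card_HH (B : Big M z) (hH : ∀ h ∈ HH M z, h * h = 1) : Nat.card (HH M z) = 2 := by
  have : HH M z = zpowers z := le_antisymm (fun h hh => by
    rcases B.HH_eq hH hh with rfl | rfl
    exacts [one_mem _, mem_zpowers _]) (zpowers_le.2 (mem_HH.2 ⟨rfl, B.zN⟩))
  rw [this, Nat.card_zpowers]
  exact orderOf_eq_prime (by rw [sq, B.z2]) B.z1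

theorem mem_N (B : Big M z) (hH : ∀ h ∈ HH M z, h * h = 1) {n : G}
    (hn : n ∈ normalizer (M : Set G)) : n ∈ M ∨ ∃ x ∈ M, n = x * z := by
  obtain ⟨x, hx, h, hh, rfl⟩ := B.fac n hn
  rcases B.HH_eq hH (mem_HH.2 ⟨hh, by simpa using mul_mem (inv_mem (le_normalizer hx)) hn⟩) with
    rfl | rfl
  · left; rwa [mul_one]
  · exact Or.inr ⟨x, hx, rfl⟩

theorem cent_eq (B : Big M z) (hH : ∀ h ∈ HH M z, h * h = 1) {x : G} (hx : x ∈ M) (hx1 : x ≠ 1) :
    centralizer ({x} : Set G) = M := by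
  refine le_antisymm (fun g hg => ?_) fun g hg => mem_centralizer_singleton_iff.2 (B.comm hg hx)
  rw [mem_centralizer_singleton_iff] at hg
  rcases B.mem_N hH (B.ti g x hx hx1 (by rw [hg, mul_inv_cancel_right]; exact hx)) with
    h | ⟨y, hy, rfl⟩
  · exact h
  · exact absurd (B.odd x hx hx1 _ hg (B.mul_z_sq hy)) (B.mul_z_ne_one hy)

theorem cent_sq (B : Big M z) (hH : ∀ h ∈ HH M z, h * h = 1) {c : G}
    (hc : c ∈ centralizer ({z} : Set G)) : c * c = 1 := by
  by_cases h : c ∈ normalizer (M : Set G)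
  · exact hH c ⟨hc, h⟩
  · exact B.sq_of_cent (mem_centralizer_singleton_iff.1 hc) h

theorem case_psl (B : Big M z) (hH : ∀ h ∈ HH M z, h * h = 1) {d : ℕ} (hd : 1 ≤ d)
    (hC : Nat.card (centralizer ({z} : Set G)) = 2 ^ (d + 1)) (hm : Nat.card M = 2 ^ (d + 1) + 1)
    (hn : (centralizer ({z} : Set G)).index = Nat.card {t : G // t * t = 1 ∧ t ≠ 1})
    (hI : Nat.card {t : G // t * t = 1 ∧ t ≠ 1} = Nat.card M * (2 ^ (d + 1) - 1)) :
    ∃ (F : Type) (_ : Field F) (_ : Fintype F) (e : ℕ), 1 < e ∧ Fintype.card F = 2 ^ e ∧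
      IsCyclic M ∧ Nat.card M = 2 ^ e + 1 ∧
        Nonempty (G ≃* Matrix.ProjectiveSpecialLinearGroup (Fin 2) F) := by
  have : Fact (Nat.Prime 2) := ⟨Nat.prime_two⟩
  have hq : 2 ≤ 2 ^ (d + 1) := Nat.le_self_pow (by omega) 2
  have hsurj := (Nat.bijective_iff_injective_and_card _).2 ⟨conjMap_injective B.z2 B.z1, hn⟩
  have hodd : ¬ 2 ∣ (centralizer ({z} : Set G)).index := by
    rw [hn, hI, Nat.prime_two.dvd_mul, hm, pow_succ]
    omega
  let P : Sylow 2 G := (IsPGroup.of_card hC).toSylow hodd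
  have hP : ∀ u, u ∈ P ↔ u ∈ centralizer ({z} : Set G) := fun u => Iff.rfl
  have h2 : ∀ u ∈ P, u * u = 1 := fun u hu => B.cent_sq hH hu
  have hCC : ∀ u ∈ P, u ≠ 1 → centralizer ({u} : Set G) ≤ P := by
    intro u hu hu1
    obtain ⟨g, hg⟩ := hsurj.2 ⟨u, h2 u hu, hu1⟩
    induction g using QuotientGroup.induction_on with | H g =>
    have hg' : g * z * g⁻¹ = u := congrArg Subtype.val hg
    have h3 : (P : Subgroup G) ≤ centralizer ({u} : Set G) := fun v hv => by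
      rw [mem_centralizer_singleton_iff]
      calc v * u = (v * u)⁻¹ := (inv_eq_of_sq (h2 _ (mul_mem hv hu))).symm
        _ = _ := by rw [mul_inv_rev, inv_eq_of_sq (h2 u hu), inv_eq_of_sq (h2 v hv)]
    refine (eq_of_le_of_card_ge h3 ?_).ge
    refine Nat.card_le_card_of_injective (fun v : centralizer ({u} : Set G) =>
      (⟨g⁻¹ * v * g, (hP _).2 (mem_centralizer_singleton_iff.2 ?_)⟩ : (P : Subgroup G))) ?_
    · have := mem_centralizer_singleton_iff.1 v.2
      calc _ = g⁻¹ * (v * (g * z * g⁻¹)) * g := by group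
        _ = g⁻¹ * (g * z * g⁻¹ * v) * g := by rw [hg', this]
        _ = _ := by group
    · intro v w h
      have h' : g⁻¹ * v * g = g⁻¹ * w * g := congrArg Subtype.val h
      exact Subtype.ext (mul_left_cancel (mul_right_cancel h'))
  have hPc : Nat.card (P : Subgroup G) = 2 ^ (d + 1) := hC
  have h4 := card_invol_of_TI P h2 hCC
  rw [hI, hPc, hm] at h4
  have h5 := Nat.eq_of_mul_eq_mul_right (by omega) h4
  obtain ⟨F, iF, iF', hF⟩ := exists_field_card Nat.prime_two (show 1 ≤ d + 1 by omega)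
  obtain ⟨e⟩ := psl_of_sylow_even P hCC hPc h5.symm (by
    rw [← (centralizer ({z} : Set G)).card_mul_index, hC, hn, hI, hm]; ring) hF
  exact ⟨F, iF, iF', d + 1, by omega, hF, isCyclic_of_psl (by rw [hF, pow_succ]; simp) e
    ⟨⟨fun a b => Subtype.ext (B.comm a.2 b.2)⟩⟩ B.odd_card, hm, ⟨e⟩⟩

theorem case_affine (B : Big M z) (hH : ∀ h ∈ HH M z, h * h = 1) (hMn : ¬ M.Normal) {d : ℕ}
    (hd : 1 ≤ d) (hm : Nat.card M = 2 ^ d + 1) (hG : Nat.card G = Nat.card M * 2 ^ (2 * d + 1)) :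
    ∃ (d : ℕ) (E : Subgroup G), 1 ≤ d ∧ E.Normal ∧ Cfsg.IsElementaryAbelian 2 E ∧
      Nat.card E = 2 ^ (2 * d) ∧ E ⊓ normalizer (M : Set G) = ⊥ ∧ E ⊔ normalizer (M : Set G) = ⊤ ∧
        Nonempty (normalizer (M : Set G) ≃* DihedralGroup (2 ^ d + 1)) := by
  obtain ⟨x, hx, hx1⟩ := (bot_or_exists_ne_one M).resolve_left B.ne
  have hMc : IsMulCommutative M := ⟨⟨fun a b => Subtype.ext (B.comm a.2 b.2)⟩⟩
  obtain ⟨L, hL, hLs, hxL⟩ := CF.Fgs1.kazarin Nat.prime_two G x (2 * d + 1) (by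
    rw [B.cent_eq hH hx hx1]
    exact Nat.eq_of_mul_eq_mul_left Nat.card_pos (M.card_mul_index.trans hG))
  obtain ⟨K, p, hp, hK, -, hKe, hKp⟩ := CF.Solv.exists_isMinNormal_pGroup_le L
    (fun h => hx1 (by rwa [h] at hxL))
  have hKn := hK.1
  have hKM : ∀ y ∈ K, y ∈ M → y = 1 := by
    intro y hyK hyM
    by_contra hy1
    have h1 : K ≤ M := fun k hk => by
      rw [← B.cent_eq hH hyM hy1, mem_centralizer_singleton_iff]
      exact congrArg Subtype.val (hKe.1.1.1 ⟨k, hk⟩ ⟨y, hyK⟩)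
    exact hMn (normalizer_eq_top_iff.1 (eq_top_iff.2 fun g _ =>
      B.ti g y hyM hy1 (h1 (hKn.conj_mem y hyK g))))
  have hS : SemiReg M K := fun y hy hy1 => by
    rw [B.cent_eq hH hy hy1, eq_bot_iff]
    exact fun k hk => hKM k hk.1 hk.2
  have h1 := hS.card_dvd le_normalizer_of_normal
  have h2 := hS.coprime le_normalizer_of_normal
  have h3 : Nat.card K ∣ 2 ^ (2 * d + 1) :=
    (Nat.Coprime.symm h2).dvd_of_dvd_mul_left (hG ▸ card_subgroup_dvd_card K)
  obtain ⟨j, hj, hjK⟩ := (Nat.dvd_prime_pow Nat.prime_two).1 h3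
  have hK1 := (one_lt_card_iff_ne_bot K).2 hK.2.1
  have hj1 : 1 ≤ j := by
    by_contra h
    rw [show j = 0 by omega] at hjK
    omega
  obtain rfl := eq_of_dvd_two_pow hd hj1 hj (by rwa [← hm, ← hjK])
  have : Fact p.Prime := ⟨hp⟩
  obtain ⟨i, hi⟩ := hKp.exists_card_eq
  obtain rfl : p = 2 := by
    have h4 : 2 ∣ p ^ i := by rw [← hi, hjK]; exact dvd_pow_self 2 (by omega)
    exact ((Nat.prime_dvd_prime_iff_eq Nat.prime_two hp).1 (Nat.prime_two.dvd_of_dvd_pow h4)).symm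
  have hKN : K ⊓ normalizer (M : Set G) = ⊥ := by
    rw [eq_bot_iff]
    rintro u ⟨hu, huN⟩
    by_contra hu1
    have hu2 : u * u = 1 := by rw [← sq]; exact hKe.2 u hu
    have h4 := B.inverts huN hu2 hu1 (inv_mem hx)
    have h5 : x * x ∈ K := by
      have : x * x = (x * u * x⁻¹) * u⁻¹ := by
        calc x * x = x * (u * x⁻¹ * u⁻¹) := by rw [h4, inv_inv]
          _ = _ := by group
      rw [this]
      exact mul_mem (hKn.conj_mem u hu x) (inv_mem hu)
    exact hx1 (B.eq_one_of_sq hx (hKM _ h5 (mul_mem hx hx)))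
  have hNc := B.card_N
  rw [B.card_HH hH] at hNc
  refine ⟨d, K, hd, hKn, hKe, hjK, hKN, ?_, ?_⟩
  · rw [sup_comm]
    refine eq_top_of_card_eq _ ?_
    rw [CF.Solv.card_sup_of_inf_eq_bot le_normalizer_of_normal (by rw [inf_comm, hKN]), hNc, hjK,
      hG]
    ring
  · have := hS.isCyclic_of_isMulCommutative le_normalizer_of_normal hK.2.1
    obtain ⟨⟨a, ha⟩, ha'⟩ := IsCyclic.exists_generator (α := M)
    have h4 : zpowers a = M := le_antisymm (zpowers_le.2 ha) fun y hy => by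
      obtain ⟨k, hk⟩ := ha' ⟨y, hy⟩
      exact ⟨k, congrArg Subtype.val hk⟩
    obtain ⟨e⟩ := CF.Invol.nonempty_closure_equiv_dihedral (n := 2 ^ d + 1) (c := a) (t := z)
      (by rw [← Nat.card_zpowers, h4, hm]) B.z2 (B.inverts B.zN B.z2 B.z1 ha)
      (by rw [h4]; exact B.z_notMem)
    refine ⟨(MulEquiv.subgroupCongr (le_antisymm (fun n hn => ?_) ?_)).trans e⟩
    · have h5 : M ≤ closure ({z, a} : Set G) := by
        rw [← h4, zpowers_le]; exact subset_closure (by simp)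
      rcases B.mem_N hH hn with h | ⟨y, hy, rfl⟩
      · exact h5 h
      · exact mul_mem (h5 hy) (subset_closure (by simp))
    · rw [closure_le]
      rintro _ (rfl | rfl)
      exacts [B.zN, le_normalizer ha]

theorem main (B : Big M z) (hMn : ¬ M.Normal) :
    (∃ (F : Type) (_ : Field F) (_ : Fintype F) (p : ℕ) (_ : Fact p.Prime) (_ : CharP F p),
      Fintype.card F = Nat.card M ∧ Cfsg.IsElementaryAbelian p M ∧
        (Nonempty (G ≃* (GL (Fin 2) F ⧸ Subgroup.center (GL (Fin 2) F))) ∨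
         (Fintype.card F % 4 = 1 ∧
          Nonempty (G ≃* Matrix.ProjectiveSpecialLinearGroup (Fin 2) F)))) ∨
    (∃ (F : Type) (_ : Field F) (_ : Fintype F) (e : ℕ), 1 < e ∧ Fintype.card F = 2 ^ e ∧
      IsCyclic M ∧ Nat.card M = 2 ^ e + 1 ∧
        Nonempty (G ≃* Matrix.ProjectiveSpecialLinearGroup (Fin 2) F)) ∨
    (∃ (d : ℕ) (E : Subgroup G), 1 ≤ d ∧ E.Normal ∧ Cfsg.IsElementaryAbelian 2 E ∧
      Nat.card E = 2 ^ (2 * d) ∧ E ⊓ normalizer (M : Set G) = ⊥ ∧ E ⊔ normalizer (M : Set G) = ⊤ ∧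
        Nonempty (normalizer (M : Set G) ≃* DihedralGroup (2 ^ d + 1))) := by
  have : Fact (Nat.Prime 2) := ⟨Nat.prime_two⟩
  obtain ⟨g, hg⟩ : ∃ g, g ∉ normalizer (M : Set G) := by
    by_contra h
    push Not at h
    exact hMn (normalizer_eq_top_iff.1 (eq_top_iff.2 fun g _ => h g))
  obtain ⟨-, -, c, hc, hcN, -⟩ := B.exists_factor hg
  by_cases hall : ∀ c' : G, c' * z = z * c' → c' ∉ normalizer (M : Set G) →
      c⁻¹ * c' ∈ normalizer (M : Set G)
  · exact Or.inl (B.case_two_trans hc hcN hall)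
  right
  push Not at hall
  obtain ⟨c', hc', hcN', hcc⟩ := hall
  have hH : ∀ h ∈ HH M z, h * h = 1 := by
    intro h hh
    obtain ⟨h1, h2⟩ := mem_HH.1 hh
    have e1 := B.cent_inverts hc hcN h1 h2
    have e2 := B.cent_inverts hc' hcN' h1 h2
    have e3 := B.cent_inverts (c := c⁻¹ * c') (by
      rw [inv_eq_of_sq (B.sq_of_cent hc hcN), mul_assoc, hc', ← mul_assoc, hc, mul_assoc]) hcc h1 h2
    calc h * h = h * (c⁻¹ * (c * h * c⁻¹) * c) := by group
      _ = h * (c⁻¹ * (c' * h * c'⁻¹) * c) := by rw [e1, e2]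
      _ = h * ((c⁻¹ * c') * h * (c⁻¹ * c')⁻¹) := by group
      _ = 1 := by rw [e3, mul_inv_cancel]
  have hCp : IsPGroup 2 (centralizer ({z} : Set G)) := fun u =>
    ⟨1, Subtype.ext (by simpa [sq] using B.cent_sq hH u.2)⟩
  obtain ⟨k, hk⟩ := hCp.exists_card_eq
  have h1 := card_C (M := M) (z := z)
  have h2 := B.card_G
  have h3 := B.card_I
  rw [B.card_HH hH] at h1 h2
  have : Nonempty (Out M z) := ⟨⟨c, hc, hcN⟩⟩
  have h4 : 0 < Nat.card (Out M z) := Nat.card_pos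
  obtain ⟨d, rfl⟩ : ∃ d, k = d + 1 := ⟨k - 1, by
    rcases k with _ | k
    · omega
    · rfl⟩
  have hd : 1 ≤ d := by
    by_contra h
    rw [show d = 0 by omega] at hk
    omega
  have hr : 2 ≤ 2 ^ d := Nat.le_self_pow (by omega) 2
  have h5 : Nat.card (Out M z) = 2 * 2 ^ d - 2 := by rw [pow_succ] at hk; omega
  have h6 := (centralizer ({z} : Set G)).index_mul_card
  have h7 := Nat.card_le_card_of_injective _ (conjMap_injective B.z2 B.z1)
  rw [h5] at h2 h3
  rcases numerics (n := (centralizer ({z} : Set G)).index) hr ((one_lt_card_iff_ne_bot M).2 B.ne)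
    (Nat.Coprime.pow_left d ((Nat.coprime_two_left).2 B.odd_card))
    (by rw [← h2, ← h6, hk, pow_succ, mul_comm (2 ^ d)]) (by rw [← h3]; exact h7) with
    ⟨h8, h9⟩ | ⟨h8, h9⟩
  · exact Or.inr (B.case_affine hH hMn hd h8 (by rw [← h6, h9, hk]; ring))
  · refine Or.inl (B.case_psl hH hd hk (by rw [h8]; ring) (by rw [h9, h3]) ?_)
    rw [h3, pow_succ, mul_comm (2 ^ d), show 2 * 2 ^ d - 1 = 1 + (2 * 2 ^ d - 2) by omega]
    ring

end Big

end CF.BTI
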