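import Cfsg.Agent.CType.MWreath

/-!
Every finite solvable group embeds in the central quotient of a group of central type (Gagola).
-/

set_option autoImplicit false

namespace CF.CT

open Cfsg Subgroup CF.Char CF.Clifford CF.CType

universe u

theorem exists_emb {U A K : Type*} [Group U] [Group A] [Group K] (s : U →* A)
    (hs : Function.Surjective s) (t : U →* K) (h : s.ker = t.ker) :
    ∃ f : A →* K, Function.Injective f := by
  refine ⟨s.liftOfSurjective hs ⟨t, h.le⟩, (injective_iff_map_eq_one _).2 fun a ha => ?_⟩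
  obtain ⟨u, rfl⟩ := hs a
  rw [MonoidHom.liftOfRightInverse_comp_apply] at ha
  exact h.ge ha

/-- `H` has central type, `A` embeds in its central quotient, and the orders are controlled by
the number `n`. -/
structure Good (H : Type*) [Group H] (χ : H → ℂ) (A : Type*) [Group A] (n : ℕ) : Prop where
  irr : IsIrrCharacter H χ
  faith : charKer χ = ⊥
  deg : χ 1 ^ 2 = (center H).index
  emb : ∃ f : A →* H ⧸ center H, Function.Injective f
  pr : ∀ r : ℕ, r.Prime → r ∣ Nat.card H → r ∣ n
  pr' : ∀ r : ℕ, r.Prime → r ∣ n → r ∣ Nat.card (center H)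
  sq : Squarefree (Nat.card (center H))

/-- Passing to the quotient by the kernel. -/
theorem good_quot {L : Type u} {U A : Type*} [Group L] [Finite L] [Group U] [Group A] {ψ : L → ℂ}
    (hψ : IsIrrCharacter L ψ) {n m : ℕ} (hd : ψ 1 ^ 2 = (charCenter ψ).index) (s : U →* A)
    (hs : Function.Surjective s) (t : U →* L) (h : s.ker = (charCenter ψ).comap t)
    (pr : ∀ r : ℕ, r.Prime → r ∣ Nat.card L → r ∣ n)
    (pr' : ∀ r : ℕ, r.Prime → r ∣ n → ∃ z ∈ charCenter ψ, z ^ r = 1 ∧ z ∉ charKer ψ)
    (hm : Squarefree m) (hz : ∀ z ∈ charCenter ψ, z ^ m = 1) :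
    ∃ (H : Type u) (_ : Group H) (_ : Finite H) (χ : H → ℂ), Good H χ A n := by
  have := charKer_normal (irr_isClassFunction hψ)
  obtain ⟨χ, hχ, e⟩ := exists_irr_quotient hψ (charKer ψ) le_rfl
  set π := QuotientGroup.mk' (charKer ψ)
  have hπ : Function.Surjective π := QuotientGroup.mk'_surjective _
  have hk : charKer χ = ⊥ := by
    apply comap_injective hπ
    rw [← charKer_comp χ π hπ, MonoidHom.comap_bot, QuotientGroup.ker_mk']
    exact congrArg charKer e.symm
  have hc : (center _).comap π = charCenter ψ := by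
    ext g
    rw [mem_comap, ← charCenter_eq_center_of_faithful hχ hk, mem_charCenter_iff (irr_isCharacter hχ),
      mem_charCenter_iff (irr_isCharacter hψ), congrFun e g, congrFun e 1]
    rfl
  refine ⟨_, inferInstance, inferInstance, χ, hχ, hk, ?_, ?_, fun r hr hd => pr r hr ?_,
    fun r hr hd => ?_, ?_⟩
  · rw [← index_comap_of_surjective _ hπ, hc, ← hd, congrFun e 1]; rfl
  · refine exists_emb s hs ((QuotientGroup.mk' _).comp (π.comp t)) ?_
    rw [h, ← hc, ← MonoidHom.comap_ker, QuotientGroup.ker_mk', comap_comap]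
  · exact hd.trans (card_quotient_dvd_card _)
  · obtain ⟨z, h1, h2, h3⟩ := pr' r hr hd
    have := Fact.mk hr
    have h4 : π z ∈ center _ := by rw [← mem_comap, hc]; exact h1
    rw [← orderOf_eq_prime (x := π z) (p := r) (by rw [← map_pow, h2, map_one])
      fun e => h3 ((QuotientGroup.eq_one_iff z).1 e)]
    exact orderOf_dvd_natCard _ h4
  · have := isCyclic_center_of_faithful hχ hk
    refine hm.squarefree_of_dvd ?_
    rw [← IsCyclic.exponent_eq_card]
    refine Monoid.exponent_dvd_of_forall_pow_eq_one fun ⟨z, hz'⟩ => Subtype.ext ?_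
    obtain ⟨z, rfl⟩ := hπ z
    change π z ^ m = 1
    rw [← map_pow, hz z (hc ▸ hz'), map_one]

section Step

variable {H Q : Type u} [Group H] [CommGroup Q] [Fintype Q] (χ : H → ℂ) (e : Q →* (Q →* ℂˣ))

/-- The character of the base group. -/
def th (b : Q → H × Q) : ℂ := ∏ x, χ (b x).1 * e x (b x).2

theorem th_irr [Finite H] (hχ : IsIrrCharacter H χ) : IsIrrCharacter (Q → H × Q) (th χ e) := by
  classical
  have := Fintype.ofFinite H
  exact irr_pi (M := fun _ : Q => H × Q) fun x => irr_prod hχ (irr_linear (e x))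

theorem th_c (hχ : IsClassFunction H χ) (w : (H × Q) ≀ᵣ Q) (b : Q → H × Q) :
    th χ e ((base (H × Q) Q).c w b) = th χ e b * e w.right (∏ x, (b x).2) := by
  rw [th, th, ← Equiv.prod_comp (Equiv.mulLeft w.right), map_prod, Units.coe_prod,
    ← Finset.prod_mul_distrib]
  refine Finset.prod_congr rfl fun x _ => ?_
  simp only [base_c, Equiv.coe_mulLeft, inv_mul_cancel_left, Prod.fst_mul, Prod.fst_inv,
    Prod.snd_mul, Prod.snd_inv, classFun_conj hχ, mul_inv_cancel_comm, map_mul,
    MonoidHom.mul_apply, Units.val_mul]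
  ring

theorem th_single [DecidableEq Q] (y : Q) (a : H × Q) :
    th χ e (Pi.mulSingle y a) * χ 1 = χ a.1 * e y a.2 * χ 1 ^ Fintype.card Q := by
  rw [th, ← Finset.mul_prod_erase _ _ (Finset.mem_univ y), Pi.mulSingle_eq_same,
    Finset.prod_congr rfl (g := fun _ => χ 1) fun x hx => by
      rw [Pi.mulSingle_eq_of_ne (Finset.mem_erase.1 hx).1]; simp,
    Finset.prod_const, Finset.card_erase_of_mem (Finset.mem_univ _), Finset.card_univ, mul_assoc,
    ← pow_succ, Nat.sub_add_cancel Fintype.card_pos]

theorem th_one : th χ e 1 = χ 1 ^ Fintype.card Q := by simp [th]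

variable (H Q) in
/-- The map whose kernel is the centre of the character. -/
def kap : (Q → H × Q) →* (Q → H ⧸ center H) × Q where
  toFun b := (fun x => ((b x).1 : H ⧸ center H), ∏ x, (b x).2)
  map_one' := by ext <;> simp
  map_mul' a b := by ext <;> simp [Finset.prod_mul_distrib]

theorem mem_kap {b : Q → H × Q} :
    b ∈ (kap H Q).ker ↔ (∀ x, (b x).1 ∈ center H) ∧ ∏ x, (b x).2 = 1 := by
  simp [kap, Prod.ext_iff, funext_iff]

theorem kap_surj : Function.Surjective (kap H Q) := by
  classical
  rintro ⟨f, y⟩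
  refine ⟨fun x => ((f x).out, Pi.mulSingle (M := fun _ => Q) 1 y x), ?_⟩
  simp [kap]

theorem step [Finite H] {A : Type*} [Group A] {n : ℕ} (h : Good H χ A n)
    (hQ : (Nat.card Q).Prime) : ∃ (H' : Type u) (_ : Group H') (_ : Finite H') (χ' : H' → ℂ),
      Good H' χ' (A ≀ᵣ Q) (n * Nat.card Q) := by
  classical
  have := Fintype.ofFinite H
  have := Fintype.ofFinite ((H × Q) ≀ᵣ Q)
  obtain ⟨e⟩ := CommGroup.monoidHom_mulEquiv_of_hasEnoughRootsOfUnity Q ℂ
  set E := base (H × Q) Q
  set θ := th χ e.symm.toMonoidHom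
  have hθ : IsIrrCharacter _ θ := th_irr χ _ h.irr
  have cf := irr_isClassFunction h.irr
  have h0 := irr_one_ne_zero h.irr
  have hp0 : χ 1 ^ Fintype.card Q ≠ 0 := pow_ne_zero _ h0
  have hψ : IsIrrCharacter _ (ind E.ι θ) := (E.ind_irr_iff hθ).2 fun w hw => by
    rw [base_range, MonoidHom.mem_ker]
    change w.right = 1
    apply e.symm.injective
    rw [map_one]
    ext y
    have h1 := (E.mem_inertia').1 hw (Pi.mulSingle 1 (1, y))
    have h2 := th_single χ e.symm.toMonoidHom 1 (1, y)
    rw [show θ (E.c w _) = _ from th_c χ _ cf w _] at h1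
    have h3 : θ (Pi.mulSingle 1 (1, y)) ≠ 0 := fun e0 => by
      rw [show th χ _ _ = 0 from e0] at h2
      simp [h0] at h2
    rw [Finset.prod_eq_single 1 (fun x _ hx => by rw [Pi.mulSingle_eq_of_ne hx]; rfl) (by simp),
      Pi.mulSingle_eq_same] at h1
    exact mul_left_cancel₀ h3 (h1.trans (mul_one _).symm)
  set ψ := ind E.ι θ
  have hE : E.index = Nat.card Q := base_index
  have hψ1 : ψ 1 = Nat.card Q * χ 1 ^ Fintype.card Q := by
    rw [show ψ 1 = _ from E.ind_one θ, hE, show θ 1 = _ from th_one χ _]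
  set Z := (kap H Q).ker.map E.ι with hZ
  have hZi : ψ 1 ^ 2 = Z.index := by
    rw [hZ, index_map_of_injective _ E.inj, index_ker, MonoidHom.range_eq_top.2 kap_surj, card_top,
      base_index, Nat.card_prod, Nat.card_fun, ← index_eq_card, hψ1]
    push_cast
    rw [← h.deg, Nat.card_eq_fintype_card]
    ring
  have hZle : Z ≤ charCenter ψ := by
    rintro _ ⟨b, hb, rfl⟩
    obtain ⟨hb1, hb2⟩ := mem_kap.1 hb
    have e1 : ψ (E.ι b) = Nat.card Q * θ b := by
      rw [show ψ _ = _ from E.ind_apply_ι θ b, Finset.sum_congr rfl (g := fun _ => θ b) fun w _ => by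
        rw [E.cj_apply, show θ (E.c w _) = _ from th_c χ _ cf w _, hb2]; simp [θ],
        Finset.sum_const, Finset.card_univ, ← Nat.card_eq_fintype_card, ← E.card_mul_index, hE,
        nsmul_eq_mul, Nat.cast_mul, mul_assoc, inv_mul_cancel_left₀ card_ne_zero_complex]
    rw [mem_charCenter_iff (irr_isCharacter hψ), e1, hψ1, norm_mul, norm_mul, norm_pow]
    congr 1
    rw [show θ b = ∏ x, _ from rfl, norm_prod, Finset.prod_congr rfl (g := fun _ => ‖χ 1‖) fun x _ => by
      rw [norm_mul, linear_norm, mul_one, ← mem_charCenter_iff (irr_isCharacter h.irr)]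
      exact center_le_charCenter h.irr (hb1 x)]
    simp
  have hZeq : charCenter ψ = Z := by
    obtain ⟨d, -, hd⟩ := irr_one_eq_nat hψ
    have a := irr_one_sq_le_index hψ hd
    have b : d ^ 2 = Z.index := by rw [hd] at hZi; exact_mod_cast hZi
    refine (eq_of_le_of_card_ge hZle ?_).symm
    have c := Z.card_mul_index
    rw [← (charCenter ψ).card_mul_index, ← b] at c
    refine Nat.le_of_mul_le_mul_right (c := d ^ 2) ((Nat.mul_le_mul_left _ a).trans c.ge) ?_
    exact b ▸ Nat.pos_of_ne_zero index_ne_zero_of_finite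
  have hker : ∀ b, E.ι b ∈ charKer ψ → θ b = θ 1 := fun b hb => by
    have cψ := char_comp (irr_isCharacter hψ) E.ι
    refine (mem_charKer_iff (irr_isCharacter hθ)).1 (charKer_le_of_inner_ne_zero cψ hθ ?_
      ((mem_charKer_iff cψ).2 ?_))
    · rw [← inner_ind_right _ _ (irr_isClassFunction hψ), inner_irr_self hψ]; exact one_ne_zero
    · rw [map_one]; exact (mem_charKer_iff (irr_isCharacter hψ)).1 hb
  obtain ⟨m, hm, hm1, hm2⟩ : ∃ m, Squarefree m ∧ Nat.card (center H) ∣ m ∧ Nat.card Q ∣ m := by
    by_cases hd : Nat.card Q ∣ Nat.card (center H)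
    · exact ⟨_, h.sq, dvd_rfl, hd⟩
    · exact ⟨_, (Nat.squarefree_mul ((Nat.Prime.coprime_iff_not_dvd hQ).2 hd)).2
        ⟨hQ.prime.squarefree, h.sq⟩, Dvd.intro_left _ rfl, Dvd.intro _ rfl⟩
  obtain ⟨H', _, _, χ', g⟩ := good_quot (n := n * Nat.card Q) hψ (hZeq ▸ hZi)
    (wmap Q (QuotientGroup.mk' (center H)))
    (fun w => ⟨⟨fun x => (w.left x).out, w.right⟩, by ext <;> simp [wmap]⟩)
    (wmap Q (MonoidHom.inl H Q)) (by
      ext w
      rw [hZeq, mem_comap, MonoidHom.mem_ker]
      constructor
      · intro hw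
        have h1 : w.right = 1 := congrArg RegularWreathProduct.right hw
        refine ⟨fun x => (w.left x, 1), mem_kap.2 ⟨fun x => (QuotientGroup.eq_one_iff _).1
          (congrFun (congrArg RegularWreathProduct.left hw) x), by simp⟩, ?_⟩
        exact RegularWreathProduct.ext rfl h1.symm
      · rintro ⟨b, hb, e⟩
        refine RegularWreathProduct.ext (funext fun x => (QuotientGroup.eq_one_iff _).2 ?_)
          (congrArg RegularWreathProduct.right e).symm
        have : (b x).1 = w.left x :=
          congrArg Prod.fst (congrFun (congrArg RegularWreathProduct.left e) x)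
        exact this ▸ (mem_kap.1 hb).1 x)
    (fun r hr hd => by
      rw [RegularWreathProduct.card, Nat.card_prod] at hd
      rcases (Nat.Prime.dvd_mul hr).1 hd with hd | hd
      · exact ((Nat.Prime.dvd_mul hr).1 (hr.dvd_of_dvd_pow hd)).elim
          (fun a => (h.pr r hr a).mul_right _) fun a => a.mul_left _
      · exact hd.mul_left _)
    (fun r hr hd => by
      have := Fact.mk hr
      rw [hZeq]
      rcases (Nat.Prime.dvd_mul hr).1 hd with hd | hd
      · obtain ⟨z, hz⟩ := exists_prime_orderOf_dvd_card' r (h.pr' r hr hd)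
        refine ⟨E.ι (Pi.mulSingle 1 (z, 1)), mem_map_of_mem _ (mem_kap.2 ⟨fun x => ?_,
          Finset.prod_eq_one fun x _ => ?_⟩), ?_, fun hk => ?_⟩
        · by_cases hx : x = 1
          · rw [hx, Pi.mulSingle_eq_same]; exact z.2
          · rw [Pi.mulSingle_eq_of_ne hx]; exact one_mem _
        · by_cases hx : x = 1
          · rw [hx, Pi.mulSingle_eq_same]
          · rw [Pi.mulSingle_eq_of_ne hx]; rfl
        · rw [← map_pow, ← Pi.mulSingle_pow, Prod.pow_mk, one_pow, ← SubgroupClass.coe_pow, ← hz,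
            pow_orderOf_eq_one]
          exact (congrArg E.ι (Pi.mulSingle_one 1)).trans (map_one _)
        · have h1 := th_single χ e.symm.toMonoidHom 1 (z, 1)
          rw [show th χ _ _ = _ from hker _ hk, show θ 1 = _ from th_one χ _, map_one,
            mul_comm] at h1
          have h2 : (z : H) ∈ charKer χ := (mem_charKer_iff (irr_isCharacter h.irr)).2 (by
            simpa using (mul_right_cancel₀ hp0 h1).symm)
          rw [h.faith, mem_bot] at h2
          rw [show z = 1 from Subtype.ext h2, orderOf_one] at hz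
          exact hr.one_lt.ne hz
      · have : Nontrivial Q := Finite.one_lt_card_iff_nontrivial.1 hQ.one_lt
        obtain ⟨x, hx⟩ := exists_ne (1 : Q)
        obtain ⟨y, hy⟩ : ∃ y, e.symm x y ≠ 1 := by
          by_contra hc
          push Not at hc
          exact hx (e.symm.injective ((MonoidHom.ext hc).trans (map_one _).symm))
        let b : Q → H × Q := fun w => (1, Pi.mulSingle (M := fun _ => Q) x y w *
          Pi.mulSingle (M := fun _ => Q) 1 y⁻¹ w)
        refine ⟨E.ι b, mem_map_of_mem _ (mem_kap.2 ⟨fun x => one_mem _, ?_⟩), ?_, fun hk => hy ?_⟩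
        · simp [b, Finset.prod_mul_distrib]
        · rw [← map_pow, show b ^ r = 1 from funext fun w => Prod.ext (one_pow r) ?_, map_one]
          rw [(Nat.prime_dvd_prime_iff_eq hr hQ).1 hd]
          exact pow_card_eq_one'
        · have h1 := hker _ hk
          rw [show θ 1 = _ from th_one χ _, show θ b = ∏ x, _ from rfl, Finset.prod_mul_distrib,
            show ∏ x, χ (b x).1 = ∏ _x : Q, χ 1 from rfl,
            Finset.prod_const, Finset.card_univ, ← Units.coe_prod] at h1
          have h2 := mul_left_cancel₀ hp0 (h1.trans (mul_one _).symm)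
          simp only [b, map_mul, Finset.prod_mul_distrib] at h2
          rw [Finset.prod_eq_single x (fun w _ hw => by rw [Pi.mulSingle_eq_of_ne hw, map_one])
            (by simp), Finset.prod_eq_single 1 (fun w _ hw => by
              rw [Pi.mulSingle_eq_of_ne hw, map_one]) (by simp)] at h2
          simpa using h2)
    hm (by
      rw [hZeq]
      rintro _ ⟨b, hb, rfl⟩
      rw [← map_pow, show b ^ m = 1 from funext fun w => Prod.ext ?_ ?_, map_one]
      · exact orderOf_dvd_iff_pow_eq_one.1
          ((orderOf_dvd_natCard _ ((mem_kap.1 hb).1 w)).trans hm1)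
      · exact orderOf_dvd_iff_pow_eq_one.1 ((_root_.orderOf_dvd_natCard _).trans hm2))
  obtain ⟨f, hf⟩ := h.emb
  obtain ⟨f', hf'⟩ := g.emb
  exact ⟨H', _, inferInstance, χ', g.irr, g.faith, g.deg,
    ⟨f'.comp (wmap Q f), hf'.comp (wmap_inj f hf)⟩, g.pr, g.pr', g.sq⟩

end Step

theorem main (n : ℕ) : ∀ (G : Type u) [Group G] [Finite G] [Group.IsSolvable G],
    Nat.card G = n → ∃ (H : Type u) (_ : Group H) (_ : Finite H) (χ : H → ℂ), Good H χ G n := by
  induction n using Nat.strong_induction_on with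
  | _ n ih =>
    intro G _ _ _ hn
    rcases subsingleton_or_nontrivial G with h | h
    · have h1 : n = 1 := hn ▸ Nat.card_of_subsingleton (1 : G)
      have h2 : Nat.card (center G) = 1 := Nat.card_of_subsingleton 1
      refine ⟨G, inferInstance, inferInstance, fun _ => 1, irr_one, Subsingleton.elim _ _, ?_,
        ⟨1, fun a b _ => Subsingleton.elim a b⟩, fun r _ h => hn ▸ h, fun r _ h => by
          rwa [h2, ← h1], h2 ▸ squarefree_one⟩
      rw [Subsingleton.elim (center G) ⊤, index_top]; simp
    · obtain ⟨N, hN, -, hp⟩ := CF.SolvStr.exists_normal_index_prime (G := G)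
      have hlt : Nat.card N < n := by
        rw [← hn, ← N.card_mul_index]
        exact lt_mul_of_one_lt_right Nat.card_pos hp.one_lt
      obtain ⟨M, _, _, χ, g⟩ := ih _ hlt N rfl
      have := Fact.mk hp
      have : IsCyclic (G ⧸ N) := isCyclic_of_prime_card (p := N.index) rfl
      have := Fintype.ofFinite (G ⧸ N)
      obtain ⟨H', _, _, χ', g'⟩ := @step M (G ⧸ N) _ IsCyclic.commGroup _ χ _ N _ _ g hp
      obtain ⟨f, hf⟩ := g'.emb
      have e : Nat.card N * Nat.card (G ⧸ N) = n := hn ▸ N.card_mul_index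
      exact ⟨H', _, inferInstance, χ', g'.irr, g'.faith, g'.deg,
        ⟨f.comp (kk N), hf.comp (kk_inj N)⟩, e ▸ g'.pr, e ▸ g'.pr', g'.sq⟩

end CF.CT
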