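/-
Groups whose real irreducible characters have degree prime to `p` (Isaacs–Navarro): the
correspondence with the Sylow normalizer.
-/
import Cfsg.Agent.PLocal.ChB
import Cfsg.Agent.Char.RelGlaub

set_option autoImplicit false

namespace CF.RealP
open Cfsg Subgroup CF.BG CF.Char CF.Clifford
open scoped commutatorElement ComplexConjugate

universe u

variable {G : Type u} [Group G] [Finite G] {p : ℕ}

theorem odd_mult (N : Subgroup G) [N.Normal] [Fintype N] (hodd : Odd N.index) {χ : G → ℂ}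
    (hχ : IsIrrCharacter G χ) {φ : N → ℂ} (hφ : IsIrrCharacter N φ) {a : ℕ}
    (ha : classInner (fun n : N => χ n) φ = a) (h0 : a ≠ 0) :
    Odd (a * ((NormalEmb.sub N).inertia φ).index) := by
  have := Fintype.ofFinite G
  have h4 : classInner (fun n : N => χ n) φ ≠ 0 := by rw [ha]; exact_mod_cast h0
  obtain ⟨k, hk, h5⟩ := (NormalEmb.sub N).exists_deg_eq_mul hφ hχ h4
  have h6 := (NormalEmb.sub N).clifford_one hχ hφ h4
  erw [ha] at h6
  rw [h5, ← mul_assoc, mul_left_inj' (irr_one_ne_zero hφ), ← Nat.cast_mul, Nat.cast_inj] at h6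
  rw [NormalEmb.index_sub] at hk
  exact hodd.of_dvd_nat (h6 ▸ hk)

/-- Over a normal subgroup of odd index, a real character lies under a unique real character. -/
theorem real_over (N : Subgroup G) [N.Normal] (hodd : Odd N.index) {φ : N → ℂ}
    (hφ : IsIrrCharacter N φ) (r : IsReal φ) : ∃ χ, (IsIrrCharacter G χ ∧ IsReal χ ∧
      Ov N.subtype φ χ ∧
      charDegree χ = ((NormalEmb.sub N).inertia φ).index * charDegree φ) ∧
      ∀ ψ, IsIrrCharacter G ψ → IsReal ψ → Ov N.subtype φ ψ → ψ = χ := by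
  classical
  have := Fintype.ofFinite G
  have := Fintype.ofFinite N
  choose a ha using fun χ : IrrCharacter G => inner_char_eq_nat
    (char_restrict (irr_isCharacter χ.2) N) (irr_isCharacter hφ)
  have h1 := BlockB.Ord.fsInd_classFun (indFun_isClassFunction N φ)
  have h2 : fsInd (indFun N φ) = fsInd φ := by
    rw [BlockB.Ord.fsInd_indFun, fsInd_def φ, ← sum_extendByZero N fun n => φ (n * n)]
    congr 1
    refine Finset.sum_congr rfl fun g _ => ?_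
    by_cases hg : g ∈ N
    · rw [Char.extendByZero_of_mem _ _ hg, Char.extendByZero_of_mem _ _ (N.mul_mem hg hg)]
      rfl
    · rw [Char.extendByZero_of_not_mem _ _ hg, Char.extendByZero_of_not_mem _ _
        fun h => hg (BlockB.Ord.mem_of_sq_mem_of_odd N hodd h)]
  have h3 : ∀ χ : IrrCharacter G, classInner (indFun N φ) (χ : G → ℂ) * fsInd (χ : G → ℂ) =
      ((if IsReal (χ : G → ℂ) then a χ else 0 : ℕ) : ℂ) * fsInd φ := by
    intro χ
    rw [inner_indFun_left _ _ (irr_isClassFunction χ.2), ← Char.inner_conj_symm, ha, map_natCast]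
    split_ifs with h
    · by_cases h0 : a χ = 0
      · simp [h0]
      rw [BlockB.Ord.fsInd_eq_of_odd N.subtype χ.2 hφ h r (ha χ)
        (Nat.odd_mul.1 (odd_mult N hodd χ.2 hφ (ha χ) h0)).1]
    · rw [fsInd_eq_zero_of_not_real χ.2 (not_forall.1 h)]
      simp
  have h0 : fsInd φ ≠ 0 := fun e => by
    obtain ⟨s, hs⟩ := (fsInd_eq_zero_iff hφ).1 e
    exact hs (r s)
  rw [h2, Finset.sum_congr rfl fun χ _ => h3 χ, ← Finset.sum_mul, ← Nat.cast_sum, eq_comm,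
    mul_eq_right₀ h0, Nat.cast_eq_one] at h1
  obtain ⟨χ, -, h4⟩ := Finset.exists_ne_zero_of_sum_ne_zero (h1 ▸ one_ne_zero)
  have h5 : IsReal (χ : G → ℂ) ∧ a χ ≠ 0 := by simpa using h4
  have h6 : a χ = 1 := by
    rw [← Finset.add_sum_erase _ _ (Finset.mem_univ χ), if_pos h5.1] at h1
    have := h5.2
    omega
  have h7 : classInner (fun n : N => (χ : G → ℂ) n) φ ≠ 0 := by rw [ha, h6]; simp
  refine ⟨χ, ⟨χ.2, h5.1, ov_iff.2 h7, deg_eq ?_⟩, fun ψ hψ rψ o => ?_⟩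
  · rw [(NormalEmb.sub N).clifford_one χ.2 hφ h7]
    erw [ha]
    rw [h6, deg_cast (irr_isCharacter hφ)]
    simp
  by_contra hne
  have hne' : (⟨ψ, hψ⟩ : IrrCharacter G) ≠ χ := fun e => hne (congrArg Subtype.val e)
  rw [← Finset.add_sum_erase _ _ (Finset.mem_univ χ),
    ← Finset.add_sum_erase _ _ (Finset.mem_erase.2 ⟨hne', Finset.mem_univ _⟩), if_pos h5.1,
    if_pos rψ] at h1
  have : a ⟨ψ, hψ⟩ ≠ 0 := fun e => ov_iff.1 o (by erw [ha ⟨ψ, hψ⟩, e]; simp)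
  omega

theorem real_deg (N : Subgroup G) [N.Normal] (hodd : Odd N.index) {φ : N → ℂ}
    (hφ : IsIrrCharacter N φ) (r : IsReal φ) {χ : G → ℂ} (hχ : IsIrrCharacter G χ) (s : IsReal χ)
    (o : Ov N.subtype φ χ) :
    charDegree χ = ((NormalEmb.sub N).inertia φ).index * charDegree φ := by
  obtain ⟨ψ, h1, h2⟩ := real_over N hodd hφ r
  rw [h2 χ hχ s o, h1.2.2.2]

theorem real_uniq (N : Subgroup G) [N.Normal] (hodd : Odd N.index) {φ : N → ℂ}
    (hφ : IsIrrCharacter N φ) (r : IsReal φ) {χ ψ : G → ℂ} (hχ : IsIrrCharacter G χ) (s : IsReal χ)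
    (o : Ov N.subtype φ χ) (hψ : IsIrrCharacter G ψ) (s' : IsReal ψ) (o' : Ov N.subtype φ ψ) :
    χ = ψ := by
  obtain ⟨ψ, h1, h2⟩ := real_over N hodd hφ r
  rw [h2 χ hχ s o, h2 _ hψ s' o']

theorem real_under (N : Subgroup G) [N.Normal] (hodd : Odd N.index) {χ : G → ℂ}
    (hχ : IsIrrCharacter G χ) (r : IsReal χ) :
    ∃ θ, IsIrrCharacter N θ ∧ IsReal θ ∧ Ov N.subtype θ χ := by
  have := Fintype.ofFinite G
  have := Fintype.ofFinite N
  have cχ := char_restrict (irr_isCharacter hχ) N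
  obtain ⟨a, ha, -, hs⟩ := exists_nat_inner_self cχ
  obtain ⟨φ, hφ, o⟩ := exists_ov N.subtype hχ
  have h1 := (NormalEmb.sub N).inner_res_self hχ hφ (ov_iff.1 o)
  erw [hs, ha ⟨φ, hφ⟩] at h1
  have h2 := Nat.odd_mul.1 (odd_mult N hodd hχ hφ (ha ⟨φ, hφ⟩)
    fun e => ov_iff.1 o (by erw [ha ⟨φ, hφ⟩, e]; simp))
  obtain ⟨θ, h3, h4⟩ := BlockB.Ord.exists_real_odd (fun θ => a θ ^ 2) (fun θ => by
    congr 1
    apply Nat.cast_injective (R := ℂ)
    rw [← ha, ← ha, inner_char_comm cχ (irr_isCharacter θ.2), ← inner_conj_conj _ (θ : N → ℂ)]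
    congr 1
    exact funext fun n => (congrFun (isReal_iff.1 r) n).symm) (by
    rw [show ∑ ψ, a ψ ^ 2 = a ⟨φ, hφ⟩ ^ 2 * ((NormalEmb.sub N).inertia φ).index by exact_mod_cast h1]
    exact h2.1.pow.mul h2.2)
  refine ⟨θ, θ.2, h3, ov_iff.2 ?_⟩
  have : a θ ≠ 0 := fun e => by simp [e] at h4
  erw [ha]
  exact_mod_cast this

theorem exists_cj_syl {K : Type*} [Group K] (E : NormalEmb K G) {S : Subgroup G} (hp : p.Prime)
    (hS : Syl p S ⊤) {τ : K → ℂ} (h : ¬ p ∣ (E.inertia τ).index) :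
    ∃ g, S ≤ E.inertia (E.cj τ g) := by
  obtain ⟨R, hR⟩ := exists_syl p (E.inertia τ)
  obtain ⟨g, -, rfl⟩ := hS.syl_conj (hR.trans_idx le_top
    (by simpa using (piNat_compl_single hp).2 h))
  refine ⟨g, fun s hs => ?_⟩
  rw [E.mem_inertia, ← E.cj_mul, E.cj_eq_cj_iff]
  exact hR.le (conj_mem_cj.2 hs)

theorem exists_cj_norm' {K : Type*} [Group K] (E : NormalEmb K G) {S : Subgroup G} (hS : Syl p S ⊤)
    {τ : K → ℂ} (h : S ≤ E.inertia τ) {g : G} (h' : S ≤ E.inertia (E.cj τ g)) :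
    ∃ n ∈ 𝐍 S, E.cj τ n = E.cj τ g := by
  obtain ⟨t, ht, e⟩ := (hS.of_le h le_top).syl_conj ((hS.cj_top g).of_le (K := E.inertia τ)
    (fun x hx => by
      obtain ⟨s, hs, rfl⟩ := mem_cj_iff.1 hx
      rw [← E.cj_eq_cj_iff, E.cj_mul]
      exact h' hs) le_top)
  refine ⟨t⁻¹ * g, cj_eq_self.1 (by rw [← cj_cj, e, cj_inv_cj]), ?_⟩
  rw [E.cj_mul, E.mem_inertia.1 (inv_mem ht)]

theorem relIndex_norm_modEq [Fact p.Prime] {P T : Subgroup G} (hP : Syl p P T) :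
    (𝐍 P).relIndex T ≡ 1 [MOD p] := by
  obtain ⟨Q, rfl⟩ := hP.exists_sylow
  have h := card_sylow_modEq_one p T
  rw [Q.card_eq_index_normalizer] at h
  have e : (𝐍 ((Q : Subgroup T).map T.subtype)).subgroupOf T = 𝐍 (Q : Subgroup T) := by
    ext x
    rw [mem_subgroupOf, ← zpowers_le, ← zpowers_le (H := 𝐍 (Q : Subgroup T)),
      ← map_norm_iff T.subtype_injective, MonoidHom.map_zpowers]
    rfl
  rw [relIndex, e]
  exact h

theorem index_modEq [Fact p.Prime] {P T : Subgroup G} (hP : Syl p P ⊤) (l : P ≤ T) :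
    (T.index : ZMod p) = T.relIndex (𝐍 P) := by
  have h1 := (ZMod.natCast_eq_natCast_iff _ _ _).2 (relIndex_norm_modEq hP)
  have h2 := (ZMod.natCast_eq_natCast_iff _ _ _).2 (relIndex_norm_modEq (hP.of_le l le_top))
  have e : (𝐍 P).relIndex T * T.index = T.relIndex (𝐍 P) * (𝐍 P).index := by
    rw [← inf_relIndex_right, ← inf_relIndex_left (𝐍 P) T, relIndex_mul_index inf_le_right,
      relIndex_mul_index inf_le_left]
  have := congrArg (Nat.cast : ℕ → ZMod p) e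
  rw [relIndex_top_right] at h1
  push_cast at this h1 h2
  rwa [h1, h2, one_mul, mul_one] at this

/-- The inclusion of `K ∩ H` in `K`. -/
def incl (K H : Subgroup G) : K.subgroupOf H →* K :=
  (H.subtype.comp (K.subgroupOf H).subtype).codRestrict K fun x => x.2

omit [Finite G] in
@[simp] theorem coe_incl (K H : Subgroup G) (x : K.subgroupOf H) : (incl K H x : G) = x := rfl

omit [Finite G] in
theorem incl_inj (K H : Subgroup G) : Function.Injective (incl K H) := fun _ _ h =>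
  Subtype.ext (Subtype.ext (congrArg (fun x : K => (x : G)) h))

omit [Finite G] in
theorem incl_c (K H : Subgroup G) [K.Normal] (n : H) (c : K.subgroupOf H) :
    incl K H ((NormalEmb.sub (K.subgroupOf H)).c n c) = (NormalEmb.sub K).c n (incl K H c) :=
  Subtype.ext rfl

section Core

variable [Fact p.Prime] {K P : Subgroup G} [K.Normal] [Fintype (K.subgroupOf (𝐍 P))]

theorem mu_cj {θ : K → ℂ} {η : K.subgroupOf (𝐍 P) → ℂ} (h : MU p (incl K (𝐍 P)) θ η) (n : 𝐍 P) :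
    MU p (incl K (𝐍 P)) ((NormalEmb.sub K).cj θ n) ((NormalEmb.sub _).cj η n) := by
  obtain ⟨m, h1, h2⟩ := h
  refine ⟨m, Eq.trans ?_ (((NormalEmb.sub _).inner_cj_cj _ η n).trans h1), h2⟩
  congr 1

omit [K.Normal] in
theorem mu_conj {θ : K → ℂ} {η : K.subgroupOf (𝐍 P) → ℂ} (h : MU p (incl K (𝐍 P)) θ η) :
    MU p (incl K (𝐍 P)) (fun x => conj (θ x)) (fun x => conj (η x)) := by
  obtain ⟨m, h1, h2⟩ := h
  refine ⟨m, (inner_conj_conj _ _).trans ?_, h2⟩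
  rw [← Char.inner_conj_symm, h1, map_natCast]

theorem good_norm (hP : Syl p P ⊤) (hQ : (P ⊓ K).Normal) :
    Good p (incl K (𝐍 P)) (InvA (Set.range ((NormalEmb.sub K).c.comp P.subtype)))
      (InvA (Set.range ((NormalEmb.sub (K.subgroupOf (𝐍 P))).c.comp
        (inclusion (le_norm_self P))))) := by
  let E := NormalEmb.sub (P ⊓ K)
  have h1 : ∀ n, E.ι n ∈ K := fun n => n.2.2
  let i : ↥(P ⊓ K) →* K.subgroupOf (𝐍 P) :=
    ((inclusion (le_norm_self P)).comp (inclusion inf_le_left)).codRestrict _ fun n => n.2.2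
  have inj := incl_inj K (𝐍 P)
  refine RSet.good (E := E.restrict K h1) (F := E.pull (K.subtype.comp (incl K (𝐍 P)))
    (K.subtype_injective.comp inj) i fun _ => rfl) (φQ := E.c.comp P.subtype)
    ⟨hP.pi.isPGroup, (hP.pi.inf_left).isPGroup, ?_, inj, fun _ => rfl, fun _ _ => rfl,
      fun _ _ => rfl, fun k => ⟨?_, fun h => ?_⟩⟩
  · rw [NormalEmb.index_restrict_sub]
    exact (hP.inf_normal (normalIn_top.2 inferInstance)).not_dvd Fact.out
  · rintro ⟨c, rfl⟩ s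
    refine ⟨⟨_, ?_, ((((NormalEmb.sub K).c s) (incl K (𝐍 P) c))⁻¹ * incl K (𝐍 P) c).2⟩, rfl⟩
    have := mul_mem s.2 (conj_mem_of_norm' c.1.2 (inv_mem s.2))
    simpa [NormalEmb.sub_c, mul_assoc] using this
  · have : (k : G)⁻¹ ∈ 𝐍 P := mem_norm_of_cj_le fun x hx => by
      obtain ⟨s, hs, rfl⟩ := mem_cj_iff.1 hx
      obtain ⟨q, hq⟩ := h ⟨s⁻¹, inv_mem hs⟩
      have e : (q : G) = s⁻¹ * ((k : G)⁻¹ * s * (k : G)⁻¹⁻¹) := by
        have : (q : G) = (s⁻¹ * k * s⁻¹⁻¹)⁻¹ * k := congrArg Subtype.val hq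
        rw [this]
        group
      simpa [e] using mul_mem hs q.2.1
    exact ⟨⟨⟨k, by simpa using inv_mem this⟩, k.2⟩, rfl⟩

omit [Finite G] [Fact p.Prime] in
theorem invA_iff {A S : Type*} [Group A] [Group S] (E : NormalEmb A G) (f : S →* G) {θ : A → ℂ} :
    InvA (Set.range (E.c.comp f)) θ ↔ f.range ≤ E.inertia θ := by
  rw [invA_range]
  exact ⟨by rintro h _ ⟨s, rfl⟩; exact E.mem_inertia'.2 (h s), fun h s =>
    E.mem_inertia'.1 (h ⟨s, rfl⟩)⟩

/-- The relation between real characters of `G` and of the Sylow normalizer. -/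
def Rel (p : ℕ) [Fact p.Prime] (K P : Subgroup G) [K.Normal] [Fintype (K.subgroupOf (𝐍 P))] (χ : G → ℂ)
    (ξ : 𝐍 P → ℂ) : Prop :=
  ∃ θ η, IsIrrCharacter K θ ∧ IsIrrCharacter (K.subgroupOf (𝐍 P)) η ∧ IsReal θ ∧ IsReal η ∧
    P ≤ (NormalEmb.sub K).inertia θ ∧ P.subgroupOf (𝐍 P) ≤ (NormalEmb.sub _).inertia η ∧
    Ov K.subtype θ χ ∧ Ov (Subgroup.subtype _) η ξ ∧ MU p (incl K (𝐍 P)) θ η

theorem bij_rel (hP : Syl p P ⊤) (hQ : (P ⊓ K).Normal) (ho : Odd K.index) (hr : Hyp p G) :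
    Bij (Rel p K P) IsReal (fun ξ => IsReal ξ ∧ ¬ p ∣ charDegree ξ) ∧
      ∀ χ ξ, IsIrrCharacter G χ → IsIrrCharacter (𝐍 P) ξ → IsReal χ → IsReal ξ → Rel p K P χ ξ →
        (charDegree ξ : ZMod p) = charDegree χ ∨ (charDegree ξ : ZMod p) = -charDegree χ := by
  have hp : p.Prime := Fact.out
  have hg := good_norm hP hQ
  set E := NormalEmb.sub K
  set F := NormalEmb.sub (K.subgroupOf (𝐍 P))
  have ho' : Odd (K.subgroupOf (𝐍 P)).index := ho.of_dvd_nat (relIndex_dvd_index_of_normal _ _)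
  have i1 : ∀ θ, InvA (Set.range (E.c.comp P.subtype)) θ ↔ P ≤ E.inertia θ := fun θ => by
    rw [invA_iff, range_subtype]
  have i2 : ∀ η, InvA (Set.range (F.c.comp (inclusion (le_norm_self P)))) η ↔
      P.subgroupOf (𝐍 P) ≤ F.inertia η := fun η => by rw [invA_iff, inclusion_range]
  have c1 : ∀ θ, P ≤ E.inertia θ → ∀ n : 𝐍 P, P ≤ E.inertia (E.cj θ n) := fun θ h n s hs => by
    rw [E.mem_inertia, ← E.cj_mul, E.cj_eq_cj_iff]
    exact h (conj_mem_of_norm n.2 hs)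
  have c2 : ∀ η, P.subgroupOf (𝐍 P) ≤ F.inertia η → ∀ n : 𝐍 P,
      P.subgroupOf (𝐍 P) ≤ F.inertia (F.cj η n) := fun η h n s hs => by
    rw [F.mem_inertia, ← F.cj_mul, F.cj_eq_cj_iff]
    exact h (conj_mem_of_norm (H := P) n.2 hs)
  have r1 : ∀ θ, P ≤ E.inertia θ → P ≤ E.inertia fun x => conj (θ x) := fun θ h s hs =>
    E.mem_inertia'.2 fun x => congrArg conj (E.mem_inertia'.1 (h hs) x)
  have r2 : ∀ η, P.subgroupOf (𝐍 P) ≤ F.inertia η →
      P.subgroupOf (𝐍 P) ≤ F.inertia fun x => conj (η x) := fun θ h s hs =>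
    F.mem_inertia'.2 fun x => congrArg conj (F.mem_inertia'.1 (h hs) x)
  have deg : ∀ χ ξ, IsIrrCharacter G χ → IsIrrCharacter (𝐍 P) ξ → IsReal χ → IsReal ξ →
      Rel p K P χ ξ →
      (charDegree ξ : ZMod p) = charDegree χ ∨ (charDegree ξ : ZMod p) = -charDegree χ := by
    rintro χ ξ a b c d ⟨θ, η, h1, h2, h3, h4, h5, h6, h7, h8, h9⟩
    have e : F.inertia η = (E.inertia θ).subgroupOf (𝐍 P) := by
      ext n
      rw [mem_subgroupOf, E.mem_inertia, F.mem_inertia]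
      have := mu_cj h9 n
      refine ⟨fun e => ?_, fun e => ?_⟩
      · exact hg.bij.inj _ _ η (E.cj_irr h1 n) h1 h2 ((i1 _).2 (c1 _ h5 n)) ((i1 _).2 h5)
          ((i2 _).2 h6) (e ▸ this) h9
      · exact hg.bij.uniq θ _ _ h1 (F.cj_irr h2 n) h2 ((i1 _).2 h5) ((i2 _).2 (c2 _ h6 n))
          ((i2 _).2 h6) (e ▸ this) h9
    rw [real_deg K ho h1 h3 a c h7, real_deg _ ho' h2 h4 b d h8, e]
    push_cast
    rw [index_modEq hP h5]
    rcases hg.degree hP.pi.isPGroup _ h1 h2 ((i1 _).2 h5) ((i2 _).2 h6)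
      (fun s c => (congrArg θ (incl_c K _ _ c)).trans (E.mem_inertia'.1 (h5 s.2) _)) h9 (deg_cast (irr_isCharacter h1))
      (deg_cast (irr_isCharacter h2)) with h | h
    · left; rw [h]; rfl
    · right; rw [h, mul_neg]; rfl
  refine ⟨⟨fun χ a b => ?_, ?_, ?_, fun ξ a b => ?_⟩, deg⟩
  · obtain ⟨θ, h1, h2, h3⟩ := real_under K ho a b
    obtain ⟨g, h4⟩ := exists_cj_syl E hp hP (τ := θ) fun hd => hr χ a b
      (hd.trans ((Dvd.intro _ rfl).trans (index_inertia_dvd (E := E) h3 a h1)))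
    obtain ⟨η, h5, h6, h7⟩ := hg.bij.ex _ (E.cj_irr h1 g) ((i1 _).2 h4)
    have h8 : IsReal (E.cj θ g) := fun _ => h2 _
    have h9 : IsReal η := isReal_iff.2 (hg.bij.uniq _ _ _ (E.cj_irr h1 g) (irr_conj h5) h5
      ((i1 _).2 h4) ((i2 _).2 (r2 _ ((i2 _).1 h6))) h6 (isReal_iff.1 h8 ▸ mu_conj h7) h7)
    obtain ⟨ξ, ⟨k1, k2, k3, -⟩, -⟩ := real_over _ ho' h5 h9
    have hR : Rel p K P χ ξ := ⟨_, η, E.cj_irr h1 g, h5, h8, h9, h4, (i2 _).1 h6,
      (ov_cj E (irr_isClassFunction a) g).2 h3, k3, h7⟩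
    refine ⟨ξ, k1, ⟨k2, fun hd => hr χ a b ?_⟩, hR⟩
    rw [← ZMod.natCast_eq_zero_iff] at hd ⊢
    rcases deg χ ξ a k1 b k2 hR with h | h
    · rw [← h, hd]
    · rw [← neg_eq_zero, ← h, hd]
  · rintro χ ξ ξ' a b b' c d d' ⟨θ, η, h1, h2, h3, h4, h5, h6, h7, h8, h9⟩
      ⟨θ', η', k1, k2, k3, k4, k5, k6, k7, k8, k9⟩
    obtain ⟨g, rfl⟩ := Ov.exists_cj (E := E) h7 k7 a h1 k1
    obtain ⟨n, hn, e⟩ := exists_cj_norm' E hP h5 k5
    have := hg.bij.uniq _ _ _ k1 (F.cj_irr h2 ⟨n, hn⟩) k2 ((i1 _).2 k5) ((i2 _).2 (c2 _ h6 _))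
      ((i2 _).2 k6) (e ▸ mu_cj h9 ⟨n, hn⟩) k9
    subst this
    exact real_uniq _ ho' h2 h4 b d.1 h8 b' d'.1 ((ov_cj F (irr_isClassFunction b') _).1 k8)
  · rintro χ χ' ξ a a' b c c' d ⟨θ, η, h1, h2, h3, h4, h5, h6, h7, h8, h9⟩
      ⟨θ', η', k1, k2, k3, k4, k5, k6, k7, k8, k9⟩
    obtain ⟨n, rfl⟩ := Ov.exists_cj (E := F) h8 k8 b h2 k2
    have := hg.bij.inj _ _ _ (E.cj_irr h1 n) k1 k2 ((i1 _).2 (c1 _ h5 n)) ((i1 _).2 k5)
      ((i2 _).2 k6) (mu_cj h9 n) k9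
    subst this
    exact real_uniq _ ho h1 h3 a c h7 a' c' ((ov_cj E (irr_isClassFunction a') _).1 k7)
  · obtain ⟨η, h1, h2, h3⟩ := real_under _ ho' a b.1
    have hPN : Syl p (P.subgroupOf (𝐍 P)) ⊤ := by
      simpa using hall_subgroupOf (hP.of_le (le_norm_self P) le_top) le_rfl
    obtain ⟨g, h4⟩ := exists_cj_syl F hp hPN (τ := η) fun hd => b.2
      (hd.trans ((Dvd.intro _ rfl).trans (index_inertia_dvd (E := F) h3 a h1)))
    have h5 := c2 _ h4 g⁻¹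
    rw [F.cj_cj_inv] at h5
    obtain ⟨θ, h6, h7, h8⟩ := hg.bij.surj η h1 ((i2 _).2 h5)
    have h9 : IsReal θ := isReal_iff.2 (hg.bij.inj _ _ _ (irr_conj h6) h6 h1
      ((i1 _).2 (r1 _ ((i1 _).1 h7))) h7 ((i2 _).2 h5) (isReal_iff.1 h2 ▸ mu_conj h8) h8)
    obtain ⟨χ, ⟨k1, k2, k3, -⟩, -⟩ := real_over _ ho h6 h9
    exact ⟨χ, k1, k2, θ, η, h6, h1, h9, h2, (i1 _).1 h7, h5, k3, h3, h8⟩

end Core

theorem normal_inf_gen [Fact p.Prime] (hs : Sol (Gen p G)) (hr : Hyp p G) {P : Subgroup G}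
    (hP : Syl p P ⊤) : (P ⊓ Gen 2 G).Normal :=
  normal_syl _ G rfl hs hr _ _ inferInstance le_rfl (fun x hx => ⟨0, by simpa using hx⟩)
    (hP.inf_normal (normalIn_top.2 inferInstance))

theorem mem_of_real {K : Subgroup G} [K.Normal] (ho : Odd K.index) {x : G} (hx : IsConj x x⁻¹) :
    x ∈ K := by
  refine (QuotientGroup.eq_one_iff x).1 (eq_one_of_isConj_inv_of_odd ho ?_)
  simpa using (QuotientGroup.mk' K).map_isConj hx

theorem exists_conj_norm_aux [Fact p.Prime] (hr : Hyp p G) (P : Sylow p G)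
    (h0 : (P : Subgroup G) ⊓ Gen 2 G = ⊥) {x : G} (hx : IsConj x x⁻¹) :
    ∃ y ∈ 𝐍 (P : Subgroup G), IsConj x y := by
  have hp : p.Prime := Fact.out
  have hP := syl_sylow_top P
  set K := Gen 2 G
  set N := 𝐍 (P : Subgroup G) with hN
  have := Fintype.ofFinite (K.subgroupOf N)
  have ho := odd_gen_idx G
  have ho' : Odd (K.subgroupOf N).index := ho.of_dvd_nat (relIndex_dvd_index_of_normal _ _)
  have nK : (P : Subgroup G) ≤ 𝐍 K := le_top.trans (normalIn_top.2 inferInstance).norm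
  have hC : K ⊓ N ≤ 𝐂 (P : Subgroup G) := inf_norm_le_cent nK h0
  have hK : PiGrp {p}ᶜ K := (h0 ▸ hP.inf_normal (normalIn_top.2 inferInstance)).pi'_of_eq_bot
  have h1 := (bij_rel hP (h0 ▸ inferInstance) ho hr).1
  have h2 := (bij_congr h1 (fun _ _ => Iff.rfl) (Q' := IsReal) fun ξ a => by
    refine ⟨fun h => h.1, fun h => ⟨h, fun hd => ?_⟩⟩
    obtain ⟨η, k1, k2, k3⟩ := real_under _ ho' a h
    rw [real_deg _ ho' k1 k2 a h k3] at hd
    rcases (Nat.Prime.dvd_mul hp).1 hd with hd | hd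
    · refine (hP.of_le (le_norm_self _) le_top).not_dvd hp (hd.trans (index_dvd_of_le ?_))
      intro s hs
      refine (NormalEmb.sub _).mem_inertia'.2 fun c => congrArg η (Subtype.ext (Subtype.ext ?_))
      exact mul_inv_eq_iff_eq_mul.2 (mem_cent.1 (hC ⟨c.2, c.1.2⟩) s hs)
    · refine (piNat_compl_single hp).1 hK ((hd.trans
        (irr_one_dvd_card k1 (deg_cast (irr_isCharacter k1)))).trans ?_)
      exact card_dvd_of_injective (incl K N) (incl_inj K N)).card_eq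
  have h3 := (card_real_irr (G := G)).symm.trans (h2.trans (card_real_irr (G := N)))
  let f : {C : ConjClasses N // ∀ g, ConjClasses.mk g = C → IsConj g g⁻¹} →
      {C : ConjClasses G // ∀ g, ConjClasses.mk g = C → IsConj g g⁻¹} := fun C =>
    ⟨ConjClasses.map N.subtype C.1, fun g hg => by
      obtain ⟨C, hC⟩ := C
      obtain ⟨n, rfl⟩ := ConjClasses.mk_surjective C
      obtain ⟨c, rfl⟩ := isConj_iff.1 (ConjClasses.mk_eq_mk_iff_isConj.1 hg.symm)
      have := (MulAut.conj c).toMonoidHom.map_isConj (N.subtype.map_isConj (hC n rfl))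
      simpa [mul_assoc] using this⟩
  have hf : Function.Injective f := by
    rintro ⟨C, hC1⟩ ⟨D, hD1⟩ e
    obtain ⟨a, rfl⟩ := ConjClasses.mk_surjective C
    obtain ⟨b, rfl⟩ := ConjClasses.mk_surjective D
    obtain ⟨g, hg⟩ := isConj_iff.1 (ConjClasses.mk_eq_mk_iff_isConj.1 (congrArg Subtype.val e))
    have ha : (a : G) ∈ 𝐂 (P : Subgroup G) := hC ⟨mem_of_real ho' (hC1 a rfl), a.2⟩
    have hb : (b : G) ∈ 𝐂 (P : Subgroup G) := hC ⟨mem_of_real ho' (hD1 b rfl), b.2⟩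
    obtain ⟨n, hn, e⟩ := CF.Transfer.exists_normalizer_conj_of_centralizer P (A := {(a : G)})
      (g := g) (Set.singleton_subset_iff.2 ha) (by rintro _ rfl; exact hg ▸ hb)
    exact Subtype.ext (ConjClasses.mk_eq_mk_iff_isConj.2 (isConj_iff.2
      ⟨⟨n, hn⟩, Subtype.ext ((e a rfl).trans hg)⟩))
  obtain ⟨⟨C, hC1⟩, e⟩ := (hf.bijective_of_nat_card_le h3.le).2 ⟨ConjClasses.mk x, fun g hg => by
    obtain ⟨c, rfl⟩ := isConj_iff.1 (ConjClasses.mk_eq_mk_iff_isConj.1 hg.symm)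
    simpa [mul_assoc] using (MulAut.conj c).toMonoidHom.map_isConj hx⟩
  obtain ⟨a, rfl⟩ := ConjClasses.mk_surjective C
  exact ⟨a, a.2, (ConjClasses.mk_eq_mk_iff_isConj.1 (congrArg Subtype.val e)).symm⟩

theorem exists_conj_norm [Fact p.Prime] (hs : Sol (Gen p G)) (hr : Hyp p G) (P : Sylow p G)
    {x : G} (hx : IsConj x x⁻¹) : ∃ y ∈ 𝐍 (P : Subgroup G), IsConj x y := by
  have hP := syl_sylow_top P
  haveI := normal_inf_gen hs hr hP
  set Q := (P : Subgroup G) ⊓ Gen 2 G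
  have hsur := QuotientGroup.mk'_surjective Q
  obtain ⟨y, hy, hc⟩ := exists_conj_norm_aux (hr.surj _ hsur) (P.mapSurjective hsur)
    (x := QuotientGroup.mk' Q x) (by
      rw [Sylow.coe_mapSurjective, ← map_gen Nat.prime_two _ hsur, eq_bot_iff]
      rintro _ ⟨⟨a, ha, rfl⟩, b, hb, e⟩
      have : b⁻¹ * a ∈ Q := QuotientGroup.eq.1 e
      exact (QuotientGroup.eq_one_iff a).2 ⟨ha, by simpa using mul_mem hb this.2⟩)
    (by simpa using (QuotientGroup.mk' Q).map_isConj hx)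
  obtain ⟨c, rfl⟩ := isConj_iff.1 hc
  obtain ⟨c, rfl⟩ := hsur c
  rw [Sylow.coe_mapSurjective, ← map_norm_syl' hP _ hsur] at hy
  obtain ⟨n, hn, e⟩ := hy
  have : n⁻¹ * (c * x * c⁻¹) ∈ Q := QuotientGroup.eq.1 e
  exact ⟨c * x * c⁻¹, by simpa using mul_mem hn (le_norm_self _ this.1), isConj_iff.2 ⟨c, rfl⟩⟩

end CF.RealP
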