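import Cfsg.Agent.PLocal.OvA
import Cfsg.Agent.Char.ZStarCor

/-! A coprime automorphism centralising the centraliser of an involution. -/

set_option autoImplicit false

open scoped Classical

namespace CF.CopT

open Subgroup

variable {X : Type*} [Group X] {G N : Subgroup X} {α β γ τ t x y g : X} {r : ℕ}

/-- the conjugates of `x` under `N` -/
def cl (N : Subgroup X) (x : X) : Set X := {y | ∃ n ∈ N, y = n * x * n⁻¹}

theorem self_mem_cl : x ∈ cl N x := ⟨1, one_mem _, by group⟩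

theorem conj_mem_cl (h : y ∈ cl N x) (hg : g ∈ N) : g * y * g⁻¹ ∈ cl N x := by
  obtain ⟨n, hn, rfl⟩ := h
  exact ⟨g * n, mul_mem hg hn, by group⟩

theorem cl_eq (h : y ∈ cl N x) : cl N y = cl N x := by
  refine Set.Subset.antisymm (fun _ ⟨n, hn, e⟩ => e ▸ conj_mem_cl h hn) fun _ ⟨n, hn, e⟩ => ?_
  obtain ⟨m, hm, rfl⟩ := h
  exact ⟨n * m⁻¹, mul_mem hn (inv_mem hm), by rw [e]; group⟩

variable [Finite X]

theorem cl_dvd : (cl N x).ncard ∣ Nat.card N := by
  letI : MulAction N X := MulAction.compHom X (MulAut.conj.comp N.subtype)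
  have : cl N x = MulAction.orbit N x :=
    Set.ext fun y => ⟨fun ⟨n, hn, e⟩ => ⟨⟨n, hn⟩, e.symm⟩, fun ⟨n, e⟩ => ⟨n, n.2, e.symm⟩⟩
  rw [this, ← Nat.card_coe_set_eq, Nat.card_congr (MulAction.orbitEquivQuotientStabilizer N x)]
  exact card_quotient_dvd_card _

theorem fix_mod [Fact r.Prime] (h : g ^ r = 1) {Y : Set X} (hY : ∀ y ∈ Y, g * y * g⁻¹ ∈ Y) :
    Y.ncard ≡ {y | y ∈ Y ∧ g * y * g⁻¹ = y}.ncard [MOD r] :=
  CF.Oval.fix_mod (G := MulAut X) (g := MulAut.conj g) (CF.Oval.mem_St hY) (by rw [← map_pow, h, map_one])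

theorem exists_fix [Fact r.Prime] (h : g ^ r = 1) {Y : Set X} (hY : ∀ y ∈ Y, g * y * g⁻¹ ∈ Y) (h1 : ¬ r ∣ Y.ncard) :
    ∃ y ∈ Y, g * y * g⁻¹ = y := by
  by_contra c
  have := fix_mod h hY
  rw [Set.eq_empty_of_forall_notMem (s := {y | y ∈ Y ∧ g * y * g⁻¹ = y}) fun y e => c ⟨y, e⟩, Set.ncard_empty] at this
  exact h1 ((Nat.modEq_zero_iff_dvd).1 this)

variable [hG : G.Normal] [Fact r.Prime] (hα : α ^ r = 1) (hr : ¬ r ∣ Nat.card G)
include hα hr

omit [Finite X] [Fact r.Prime] hα hr in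
theorem div_mem (h : β ∈ cl G α) : β * α⁻¹ ∈ G := by
  obtain ⟨g, hg, rfl⟩ := h
  have := mul_mem hg (hG.conj_mem _ (inv_mem hg) α)
  convert this using 1; group

theorem uniqA (h : β ∈ cl G α) (e : α * β * α⁻¹ = β) : β = α := by
  have c : Commute β α⁻¹ := (Commute.inv_right (mul_inv_eq_iff_eq_mul.1 e).symm :)
  have h1 : (β * α⁻¹) ^ r = 1 := by
    obtain ⟨g, hg, e'⟩ := h
    rw [c.mul_pow, inv_pow, hα, e', conj_pow, hα]; group
  have h2 := Nat.dvd_gcd (orderOf_dvd_of_pow_eq_one h1) (orderOf_dvd_natCard G (div_mem h))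
  rw [((Nat.Prime.coprime_iff_not_dvd Fact.out).2 hr).gcd_eq_one, Nat.dvd_one, orderOf_eq_one_iff] at h2
  exact mul_inv_eq_one.1 h2

variable (hτ : τ ∈ G) (h2 : τ * τ = 1) (hC : ∀ c ∈ G, c * τ = τ * c → α * c * α⁻¹ = c)
include hτ hC

theorem uniqT (ht : t ∈ cl G τ) (h : β ∈ cl G α) (h' : γ ∈ cl G α) (e : t * β * t⁻¹ = β) (e' : t * γ * t⁻¹ = γ) :
    β = γ := by
  obtain ⟨g, hg, rfl⟩ := ht
  have : ∀ β ∈ cl G α, g * τ * g⁻¹ * β * (g * τ * g⁻¹)⁻¹ = β → g⁻¹ * β * g⁻¹⁻¹ = α := fun β h e => by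
    have h1 := conj_mem_cl h (inv_mem hg)
    have h3 : Commute τ (g⁻¹ * β * g⁻¹⁻¹) := by
      change _ = _
      conv_rhs => rw [← e]
      group
    have h4 : Commute τ α := (mul_inv_eq_iff_eq_mul.1 (hC τ hτ rfl)).symm
    have h5 := hC _ (div_mem h1) (h3.mul_right h4.inv_right).symm
    refine uniqA hα hr h1 (mul_right_cancel (b := α⁻¹) ?_)
    rw [← h5]; group
  exact mul_left_cancel (mul_right_cancel ((this β h e).trans (this γ h' e').symm))

omit [Finite X] hG [Fact r.Prime] hα hr in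
theorem exT (ht : t ∈ cl G τ) : ∃ β ∈ cl G α, t * β * t⁻¹ = β := by
  obtain ⟨g, hg, rfl⟩ := ht
  refine ⟨_, conj_mem_cl self_mem_cl hg, ?_⟩
  calc _ = g * (τ * α * τ⁻¹) * g⁻¹ := by group
    _ = _ := by rw [← mul_inv_eq_iff_eq_mul.1 (hC τ hτ rfl), mul_inv_cancel_right]

include h2

omit [Finite X] hG [Fact r.Prime] hα hr hτ hC in
theorem sqT (ht : t ∈ cl G τ) : t * t = 1 := by
  obtain ⟨g, -, rfl⟩ := ht
  rw [conj_mul, h2]; group

theorem key (hy : y ∈ cl G τ) : ∃ n ∈ G, n ∈ normalizer (G ⊓ centralizer {α} ⊓ centralizer {y * α * y⁻¹} : Subgroup X) ∧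
    n * y * n⁻¹ ∈ centralizer {α} := by
  set D : Subgroup X := G ⊓ centralizer {α} ⊓ centralizer {y * α * y⁻¹} with hD
  have yG : y ∈ G := by obtain ⟨g, hg, rfl⟩ := hy; exact hG.conj_mem _ hτ g
  have y2 := sqT h2 hy
  have yi : y⁻¹ = y := inv_eq_of_mul_eq_one_right y2
  have hyD : y ∈ G ⊓ normalizer (D : Set X) := ⟨yG, mem_normalizer_fintype fun d hd => by
    obtain ⟨⟨d1, d2⟩, d3⟩ := hd
    replace d2 := mem_centralizer_singleton_iff.1 d2
    replace d3 := mem_centralizer_singleton_iff.1 d3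
    refine ⟨⟨hG.conj_mem _ d1 _, mem_centralizer_singleton_iff.2 ?_⟩, mem_centralizer_singleton_iff.2 ?_⟩
    · calc _ = y * (d * (y⁻¹ * α * y)) * y⁻¹ := by group
        _ = y * ((y * α * y⁻¹) * d) * y⁻¹ := by rw [← d3, yi]
        _ = y * y * α * (y⁻¹ * d * y⁻¹) := by group
        _ = _ := by rw [y2, one_mul, yi]
    · calc _ = y * (d * α) * y⁻¹ := by group
        _ = _ := by rw [d2]; group⟩
  have hαD : α ∈ normalizer (D : Set X) := mem_normalizer_fintype fun d hd => by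
    rwa [← mem_centralizer_singleton_iff.1 hd.1.2, mul_inv_cancel_right]
  set N := G ⊓ normalizer (D : Set X)
  have hαN : ∀ n ∈ N, α * n * α⁻¹ ∈ N := fun n hn =>
    ⟨hG.conj_mem _ hn.1 _, Subgroup.mul_mem _ (Subgroup.mul_mem _ hαD hn.2) (Subgroup.inv_mem _ hαD)⟩
  have sub : ∀ β ∈ cl G α, cl N β ⊆ cl G α := fun β h _ ⟨n, hn, e⟩ => e ▸ conj_mem_cl h hn.1
  obtain ⟨e, he, hye⟩ := exT hτ hC hy
  have he' : α * e * α⁻¹ ∈ cl G α := by
    obtain ⟨g, hg, rfl⟩ := he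
    exact ⟨_, hG.conj_mem _ hg α, by group⟩
  have h3 := fix_mod (r := 2) ((pow_two y).trans y2) (Y := cl N e) fun z hz => conj_mem_cl hz hyD
  rw [show {z | z ∈ cl N e ∧ y * z * y⁻¹ = z} = {e} from Set.eq_singleton_iff_unique_mem.2
    ⟨⟨self_mem_cl, hye⟩, fun z hz => uniqT hα hr hτ hC hy (sub e he hz.1) he hz.2 hye⟩, Set.ncard_singleton] at h3
  have h4 : cl N (α * e * α⁻¹) = MulAut.conj α '' cl N e := Set.ext fun z =>
    ⟨fun ⟨n, hn, e'⟩ => ⟨_, ⟨α⁻¹ * n * α, ⟨hG.conj_mem' _ hn.1 _,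
      Subgroup.mul_mem _ (Subgroup.mul_mem _ (Subgroup.inv_mem _ hαD) hn.2) hαD⟩, rfl⟩, by
      rw [e', MulAut.conj_apply]; group⟩,
      fun ⟨_, ⟨n, hn, rfl⟩, e'⟩ => ⟨_, hαN n hn, by rw [← e', MulAut.conj_apply]; group⟩⟩
  obtain ⟨z, hz, hz'⟩ := exists_fix (r := 2) ((pow_two y).trans y2) (Y := cl N (α * e * α⁻¹))
    (fun z hz => conj_mem_cl hz hyD) (by
      rw [h4, Set.ncard_image_of_injective _ (MulAut.conj α).injective]; rw [Nat.ModEq] at h3; omega)
  obtain rfl := uniqT hα hr hτ hC hy (sub _ he' hz) he hz' hye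
  obtain ⟨w, hw, hw'⟩ := exists_fix hα (Y := cl N z) (fun w hw => by
    rw [cl_eq hz, h4]; exact ⟨w, hw, rfl⟩) fun c => hr (c.trans (cl_dvd.trans (card_dvd_of_le inf_le_left)))
  obtain rfl := uniqA hα hr (sub z he hw) hw'
  obtain ⟨n, hn, e'⟩ := hw
  refine ⟨n, hn.1, hn.2, mem_centralizer_singleton_iff.2 ?_⟩
  rw [e']
  calc _ = n * (y * z * y⁻¹) * y * n⁻¹ := by group
    _ = _ := by rw [hye]; group

theorem main {t' : X} (ht : t ∈ cl G τ) (ht' : t' ∈ cl G τ) (c : t ∈ centralizer {α}) (c' : t' ∈ centralizer {α})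
    (hβ : β ∈ cl G α) : t * t' ∈ centralizer {β} := by
  haveI := Fintype.ofFinite X
  have TG : ∀ y ∈ cl G τ, y ∈ G := fun y ⟨g, hg, e⟩ => e ▸ hG.conj_mem _ hτ g
  let T := (cl G τ).toFinset
  let Ω := (cl G α).toFinset
  let M := T.filter (· ∈ centralizer {α})
  choose! ψ h1 h3 using fun t (ht : t ∈ cl G τ) => exT hτ hC ht
  have h4 := Finset.card_eq_sum_card_fiberwise (s := T) (t := Ω) (f := ψ) fun t ht => by
    simpa [Ω] using h1 t (by simpa [T] using ht)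
  have h5 := Finset.card_eq_sum_card_fiberwise (s := T) (t := Ω) (f := fun y => y * α * y⁻¹) fun t ht => by
    simpa [Ω] using conj_mem_cl self_mem_cl (TG t (by simpa [T] using ht))
  have h6 : ∀ β ∈ Ω, (T.filter fun a => ψ a = β).card = M.card := fun β hβ => by
    obtain ⟨g, hg, rfl⟩ : β ∈ cl G α := by simpa [Ω] using hβ
    refine (Finset.card_bij (fun a _ => g * a * g⁻¹) (fun a ha => ?_) (fun a _ b _ e => by simpa using e)
      fun b hb => ?_).symm
    · simp only [M, T, Finset.mem_filter, Set.mem_toFinset, mem_centralizer_singleton_iff] at ha ⊢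
      have := conj_mem_cl ha.1 hg
      refine ⟨this, uniqT hα hr hτ hC this (h1 _ this) (conj_mem_cl self_mem_cl hg) (h3 _ this) ?_⟩
      calc _ = g * (a * α) * a⁻¹ * g⁻¹ := by group
        _ = _ := by rw [ha.2]; group
    · simp only [M, T, Finset.mem_filter, Set.mem_toFinset, mem_centralizer_singleton_iff] at hb ⊢
      refine ⟨g⁻¹ * b * g⁻¹⁻¹, ⟨conj_mem_cl hb.1 (inv_mem hg), ?_⟩, by group⟩
      have := h3 b hb.1
      rw [hb.2] at this
      calc _ = g⁻¹ * (b * (g * α * g⁻¹) * b⁻¹) * b * g := by group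
        _ = _ := by rw [this]; group
  have h7 : ∀ β ∈ Ω, ∃ x, (T.filter fun y => y * α * y⁻¹ = β).card ≤
      (M.filter fun a => a * x ∈ centralizer {β}).card := fun β hβ => by
    rcases (T.filter fun y => y * α * y⁻¹ = β).eq_empty_or_nonempty with e | ⟨y, hy⟩
    · exact ⟨1, by simp [e]⟩
    simp only [T, Finset.mem_filter, Set.mem_toFinset] at hy
    obtain ⟨hy, rfl⟩ := hy
    obtain ⟨n, hn, hn1, hn2⟩ := key hα hr hτ h2 hC hy
    refine ⟨n * y * n⁻¹, Finset.card_le_card_of_injOn (fun a => n * a * n⁻¹) (fun a ha => ?_)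
      fun a _ b _ e => by simpa using e⟩
    simp only [M, T, Finset.coe_filter, Finset.mem_filter, Set.mem_toFinset, Set.mem_setOf_eq] at ha ⊢
    have ai := inv_eq_of_mul_eq_one_right (sqT h2 ha.1)
    have yi := inv_eq_of_mul_eq_one_right (sqT h2 hy)
    have h8 := ((mem_normalizer_iff.1 hn1 (a * y)).1 ⟨⟨mul_mem (TG a ha.1) (TG y hy),
      mem_centralizer_singleton_iff.2 (by
        calc _ = a * (y * α * y⁻¹) * y := by group
          _ = a * (a⁻¹ * α * a) * y := by rw [← ha.2, ai]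
          _ = _ := by group)⟩, mem_centralizer_singleton_iff.2 (by
        calc _ = a * (y * y) * α * y⁻¹ := by group
          _ = a * α * a⁻¹ * (a * y) := by rw [sqT h2 hy, yi]; group
          _ = _ := by rw [ha.2])⟩)
    rw [← conj_mul] at h8
    exact ⟨⟨conj_mem_cl ha.1 hn, (mul_mem_cancel_right hn2).1 h8.1.2⟩, h8.2⟩
  choose! ξ h7 using h7
  have h8 := (Finset.sum_eq_sum_iff_of_le fun β hβ => (h7 β hβ).trans (Finset.card_filter_le _ _)).1
    (h5.symm.trans (h4.trans (Finset.sum_congr rfl h6))) β (by simpa [Ω] using hβ)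
  have h9 := Finset.filter_card_eq (le_antisymm (Finset.card_filter_le _ _) (h8.ge.trans
    (h7 β (by simpa [Ω] using hβ))))
  have := mul_mem (h9 t (by simpa [M, T] using ⟨ht, c⟩)) (inv_mem (h9 t' (by simpa [M, T] using ⟨ht', c'⟩)))
  rwa [mul_inv_rev, mul_assoc, mul_inv_cancel_left, inv_eq_of_mul_eq_one_right (sqT h2 ht')] at this

end CF.CopT
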