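import Cfsg.Agent.Char.More
import Cfsg.Agent.Coprime.SemiReg

/-!
Characters that are multiplicative on elements of coprime prime power orders.
-/

set_option autoImplicit false

namespace CF.Cp

open Cfsg Subgroup CF.Char CF.Coprime
open scoped ComplexConjugate

variable {G : Type*} [Group G] [Finite G]

/-- A character vanishing on the nonidentity elements of a subgroup has degree divisible by the
order of that subgroup. -/
theorem card_dvd_of_vanish {χ : G → ℂ} (hχ : IsCharacter G χ) (Q : Subgroup G) {n : ℕ}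
    (hn : χ 1 = n) (h : ∀ x ∈ Q, x ≠ 1 → χ x = 0) : Nat.card Q ∣ n := by
  classical
  have := Fintype.ofFinite Q
  obtain ⟨m, hm⟩ := inner_char_eq_nat (char_restrict hχ Q) (char_const_one (G := Q))
  rw [inner_one_right, Finset.sum_eq_single (1 : Q)] at hm
  · refine ⟨m, ?_⟩
    have h0 : (Nat.card Q : ℂ) ≠ 0 := card_ne_zero_complex
    have : (n : ℂ) = Nat.card Q * m := by
      rw [← hm, ← mul_assoc, mul_inv_cancel₀ h0, one_mul, ← hn]; rfl
    exact_mod_cast this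
  · intro b _ hb
    exact h b b.2 (fun e => hb (Subtype.ext e))
  · simp

omit [Finite G] in
theorem ord_conj (g x : G) : orderOf (g * x * g⁻¹) = orderOf x := (MulAut.conj g).orderOf_eq x

/-- The multiplicativity hypothesis. -/
def Hyp (G : Type*) [Group G] : Prop :=
  ∀ (x y : G) (χ : IrrCharacter G), x ≠ 1 → y ≠ 1 →
    (∃ p q a b : ℕ, p.Prime ∧ q.Prime ∧ p ≠ q ∧ orderOf x = p ^ a ∧ orderOf y = q ^ b) →
      (χ : G → ℂ) (x * y) = (χ : G → ℂ) x * (χ : G → ℂ) y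

theorem Hyp.mul_eq_zero (h : Hyp G) {χ : G → ℂ} (hχ : IsIrrCharacter G χ) (h1 : χ 1 ≠ 1)
    {x y : G} (hx : x ≠ 1) (hy : y ≠ 1) {p q a b : ℕ} (hp : p.Prime) (hq : q.Prime) (hpq : p ≠ q)
    (ha : orderOf x = p ^ a) (hb : orderOf y = q ^ b) : χ x * χ y = 0 := by
  have := Fintype.ofFinite G
  have e := sum_irr_conj_mul hχ x y
  have e2 : ∀ g : G, χ (g * x * g⁻¹ * y) = χ x * χ y := fun g => by
    have := h (g * x * g⁻¹) y ⟨χ, hχ⟩ (by simpa using hx) hy
      ⟨p, q, a, b, hp, hq, hpq, by rw [← ha]; exact ord_conj g x, hb⟩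
    rw [← classFun_conj (irr_isClassFunction hχ) x g]
    exact this
  simp only [e2, Finset.sum_const, Finset.card_univ, nsmul_eq_mul, ← Nat.card_eq_fintype_card] at e
  have h0 : (Nat.card G : ℂ) ≠ 0 := card_ne_zero_complex
  have h2 := irr_one_ne_zero hχ
  rw [mul_assoc, mul_div_assoc, mul_right_inj' h0, eq_div_iff h2] at e
  by_contra hne
  exact h1 (mul_left_cancel₀ hne (e.trans (mul_one _).symm))

/-- `p` dominates the order of `G`. -/
def Big (G : Type*) [Group G] (p : ℕ) : Prop :=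
  ordCompl[p] (Nat.card G) < ordProj[p] (Nat.card G)

theorem Big.unique {p q : ℕ} (hp : p.Prime) (hq : q.Prime) (h : Big G p) (h' : Big G q) :
    p = q := by
  by_contra hpq
  have h0 : Nat.card G ≠ 0 := Nat.card_pos.ne'
  have key : ∀ {r s : ℕ}, r.Prime → s.Prime → r ≠ s →
      ordProj[s] (Nat.card G) ≤ ordCompl[r] (Nat.card G) := by
    intro r s hr hs hrs
    refine Nat.le_of_dvd (Nat.ordCompl_pos r h0) ?_
    have h1 : ordProj[s] (Nat.card G) ∣ ordProj[r] (Nat.card G) * ordCompl[r] (Nat.card G) := by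
      rw [Nat.ordProj_mul_ordCompl_eq_self]; exact Nat.ordProj_dvd _ _
    exact (Nat.coprime_pow_primes _ _ hs hr (Ne.symm hrs)).dvd_of_dvd_mul_left h1
  have a := key hp hq hpq
  have b := key hq hp (Ne.symm hpq)
  unfold Big at h h'
  omega

theorem ordProj_dvd_of_vanish {χ : G → ℂ} (hχ : IsCharacter G χ) {n : ℕ} (hn : χ 1 = n) {q : ℕ}
    (hq : q.Prime) (h : ∀ y : G, y ≠ 1 → (∃ b, orderOf y = q ^ b) → χ y = 0) :
    ordProj[q] (Nat.card G) ∣ n := by
  have := Fact.mk hq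
  obtain ⟨Q⟩ : Nonempty (Sylow q G) := inferInstance
  rw [← Q.card_eq_multiplicity]
  refine card_dvd_of_vanish hχ _ hn fun x hx hx1 => h x hx1 ?_
  obtain ⟨k, hk⟩ := IsPGroup.iff_orderOf.1 Q.isPGroup' ⟨x, hx⟩
  exact ⟨k, by rw [← hk, Subgroup.orderOf_mk]⟩

theorem sq_lt_card {χ : G → ℂ} (hχ : IsIrrCharacter G χ) (h1 : χ 1 ≠ 1) {n : ℕ} (hn : χ 1 = n) :
    n ^ 2 < Nat.card G := by
  classical
  have e := sum_irr_norm_sq (1 : G)
  have hne : (⟨χ, hχ⟩ : IrrCharacter G) ≠ oneIrr G := fun e => h1 (by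
    have := congrArg (fun t : IrrCharacter G => (t : G → ℂ) 1) e
    simpa using this)
  have hle := Finset.sum_le_sum_of_subset_of_nonneg
    (Finset.subset_univ {(⟨χ, hχ⟩ : IrrCharacter G), oneIrr G})
    (f := fun ψ : IrrCharacter G => ‖(ψ : G → ℂ) 1‖ ^ 2) (fun _ _ _ => by positivity)
  rw [Finset.sum_pair hne, e] at hle
  have ht : centralizer ({1} : Set G) = ⊤ := by
    rw [eq_top_iff]; intro x _; simp [mem_centralizer_iff]
  rw [ht, card_top] at hle
  simp only [oneIrr_apply, norm_one, one_pow] at hle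
  change ‖χ 1‖ ^ 2 + 1 ≤ _ at hle
  rw [hn, Complex.norm_natCast] at hle
  have : ((n ^ 2 + 1 : ℕ) : ℝ) ≤ Nat.card G := by push_cast; exact hle
  exact_mod_cast this

theorem Hyp.exists_big (h : Hyp G) {χ : G → ℂ} (hχ : IsIrrCharacter G χ) (h1 : χ 1 ≠ 1) :
    ∃ p : ℕ, p.Prime ∧ Big G p ∧
      ∀ q : ℕ, q.Prime → q ≠ p → ∀ y : G, y ≠ 1 → (∃ b, orderOf y = q ^ b) → χ y = 0 := by
  obtain ⟨n, hn0, hn⟩ := irr_one_eq_nat hχ
  have hlt := sq_lt_card hχ h1 hn
  have h0 : Nat.card G ≠ 0 := Nat.card_pos.ne'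
  by_cases hall : ∀ q : ℕ, q.Prime → ∀ y : G, y ≠ 1 → (∃ b, orderOf y = q ^ b) → χ y = 0
  · exfalso
    have : Nat.card G ∣ n := by
      rw [Nat.dvd_iff_prime_pow_dvd_dvd]
      intro q k hq hk
      refine (Nat.pow_dvd_pow q ?_).trans (ordProj_dvd_of_vanish (irr_isCharacter hχ) hn hq (hall q hq))
      exact (hq.pow_dvd_iff_le_factorization h0).1 hk
    have := Nat.le_of_dvd hn0 this
    nlinarith
  push Not at hall
  obtain ⟨p, hp, x, hx, ⟨a, ha⟩, hχx⟩ := hall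
  have hv : ∀ q : ℕ, q.Prime → q ≠ p → ∀ y : G, y ≠ 1 → (∃ b, orderOf y = q ^ b) → χ y = 0 := by
    rintro q hq hqp y hy ⟨b, hb⟩
    exact (_root_.mul_eq_zero.1 (h.mul_eq_zero hχ h1 hx hy hp hq hqp.symm ha hb)).resolve_left hχx
  refine ⟨p, hp, ?_, hv⟩
  have hd : ordCompl[p] (Nat.card G) ∣ n := by
    rw [Nat.dvd_iff_prime_pow_dvd_dvd]
    intro q k hq hk
    rcases Nat.eq_zero_or_pos k with rfl | hk0
    · simp
    have hqp : q ≠ p := by
      rintro rfl
      exact Nat.not_dvd_ordCompl hq h0 ((dvd_pow_self q hk0.ne').trans hk)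
    refine (Nat.pow_dvd_pow q ?_).trans
      (ordProj_dvd_of_vanish (irr_isCharacter hχ) hn hq (hv q hq hqp))
    exact (hq.pow_dvd_iff_le_factorization h0).1 (hk.trans (Nat.ordCompl_dvd _ _))
  have hle := Nat.le_of_dvd hn0 hd
  have e := Nat.ordProj_mul_ordCompl_eq_self (Nat.card G) p
  unfold Big
  by_contra hc
  push Not at hc
  have := Nat.mul_le_mul (hc.trans hle) hle
  rw [e] at this
  nlinarith

theorem Hyp.exists_prime (h : Hyp G) (hG : ¬ IsMulCommutative G) :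
    ∃ p : ℕ, p.Prime ∧ ∀ χ : G → ℂ, IsIrrCharacter G χ → χ 1 ≠ 1 →
      ∀ q : ℕ, q.Prime → q ≠ p → ∀ y : G, y ≠ 1 → (∃ b, orderOf y = q ^ b) → χ y = 0 := by
  have : ∃ χ : G → ℂ, IsIrrCharacter G χ ∧ χ 1 ≠ 1 := by
    by_contra hc
    push Not at hc
    apply hG
    refine ⟨⟨comm_of_commutator_eq_bot ?_⟩⟩
    rw [eq_bot_iff]
    intro g hg
    by_contra hg1
    obtain ⟨χ, hχ, hk⟩ := exists_irr_not_mem_charKer (g := g) (by simpa using hg1)
    exact hk ((irr_one_eq_one_iff hχ).1 (hc χ hχ) hg)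
  obtain ⟨χ₀, hχ₀, h₀⟩ := this
  obtain ⟨p, hp, hb, -⟩ := h.exists_big hχ₀ h₀
  refine ⟨p, hp, fun χ hχ h1 => ?_⟩
  obtain ⟨p', hp', hb', hv⟩ := h.exists_big hχ h1
  obtain rfl := hb.unique hp hp' hb'
  exact hv

/-- If all nonlinear irreducible characters vanish at `y`, then `y G'` is the class of `y`. -/
theorem isConj_of_vanish {y : G} (h : ∀ χ : G → ℂ, IsIrrCharacter G χ → χ 1 ≠ 1 → χ y = 0)
    {d : G} (hd : d ∈ commutator G) : IsConj y (d * y) := by
  classical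
  by_contra hc
  have e := sum_irr_mul_conj_of_not_isConj hc
  have e2 : ∀ χ : IrrCharacter G, (χ : G → ℂ) y * conj ((χ : G → ℂ) (d * y)) =
      ((‖(χ : G → ℂ) y‖ ^ 2 : ℝ) : ℂ) := by
    intro χ
    by_cases h1 : (χ : G → ℂ) 1 = 1
    · rw [(irr_one_eq_one_iff χ.2).1 h1 hd y, Complex.mul_conj, Complex.normSq_eq_norm_sq]
    · rw [h _ χ.2 h1]; simp
  simp only [e2] at e
  rw [← Complex.ofReal_sum, sum_irr_norm_sq] at e
  have : Nat.card (centralizer ({y} : Set G)) ≠ 0 := Nat.card_pos.ne'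
  exact this (by exact_mod_cast e)

theorem exists_prime_pow_orderOf {a : G} (ha : a ≠ 1) :
    ∃ n : ℕ, (orderOf (a ^ n)).Prime := by
  obtain ⟨x, hx, hp⟩ := exists_prime_orderOf_mem (P := zpowers a) (by simpa using ha)
  obtain ⟨n, rfl⟩ := (mem_powers_iff_mem_zpowers).2 hx
  exact ⟨n, hp⟩

theorem struct_of_hyp (h : Hyp G) (hG : ¬ IsMulCommutative G)
    (hpG : ¬ ∃ p : ℕ, p.Prime ∧ IsPGroup p G) :
    ∃ (p : ℕ) (_ : Fact p.Prime) (P : Sylow p G) (A : Subgroup G), (P : Subgroup G).Normal ∧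
      IsCyclic ↥A ∧ A ≠ ⊥ ∧ (Nat.card ↥A).Coprime p ∧ A ⊔ (P : Subgroup G) = ⊤ ∧
      IsMulCommutative ↥((P : Subgroup G) ⊓ centralizer (A : Set G)) ∧
      (⁅A, (P : Subgroup G)⁆).Normal ∧
      ((P : Subgroup G) ⊓ centralizer (A : Set G)) ⊔ ⁅A, (P : Subgroup G)⁆ = (P : Subgroup G) ∧
      ((P : Subgroup G) ⊓ centralizer (A : Set G)) ⊓ ⁅A, (P : Subgroup G)⁆ = ⊥ ∧
      ∀ a ∈ A, a ≠ 1 → ∀ d ∈ ⁅A, (P : Subgroup G)⁆, a * d = d * a → d = 1 := by
  obtain ⟨p, hp, hv⟩ := h.exists_prime hG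
  have := Fact.mk hp
  -- elements of prime order `q ≠ p` act fixed-point-freely on `G'`
  have hconj : ∀ y : G, (orderOf y).Prime → orderOf y ≠ p → ∀ d ∈ commutator G,
      orderOf (d * y) = orderOf y := by
    intro y hy hyp d hd
    have hy1 : y ≠ 1 := by rintro rfl; simp [Nat.not_prime_one] at hy
    obtain ⟨c, hc⟩ := isConj_iff.1
      (isConj_of_vanish (fun χ hχ h1 => hv χ hχ h1 _ hy hyp y hy1 ⟨1, by simp⟩) hd)
    rw [← hc, ord_conj]
  have hD : IsPGroup p (commutator G) := by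
    rw [IsPGroup.iff_card]
    refine ⟨_, Nat.eq_prime_pow_of_unique_prime_dvd Nat.card_pos.ne' fun {q} hq hqd => ?_⟩
    by_contra hqp
    have := Fact.mk hq
    obtain ⟨d, hd⟩ := exists_prime_orderOf_dvd_card' q hqd
    rw [← Subgroup.orderOf_coe] at hd
    have := hconj d (hd ▸ hq) (hd ▸ hqp) _ ((commutator G).inv_mem d.2)
    rw [inv_mul_cancel, orderOf_one, hd] at this
    exact hq.one_lt.ne this
  obtain ⟨P⟩ : Nonempty (Sylow p G) := inferInstance
  have hDP : commutator G ≤ P := hD.le_sylow_of_normal P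
  have hcomm : ∀ a b : G, a * b * a⁻¹ * b⁻¹ ∈ commutator G := fun a b =>
    commutator_mem_commutator (mem_top a) (mem_top b)
  have hPn : (P : Subgroup G).Normal := ⟨fun x hx g => by
    have := P.1.mul_mem (hDP (hcomm g x)) hx
    simpa using this⟩
  obtain ⟨A, hA⟩ := exists_right_complement'_of_coprime (N := (P : Subgroup G))
    P.card_coprime_index
  have hAc : (Nat.card A).Coprime p := by
    rw [← hA.symm.index_eq_card]
    exact ((Nat.Prime.coprime_iff_not_dvd hp).2 P.not_dvd_index).symm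
  have hA1 : A ≠ ⊥ := by
    rintro rfl
    have hP : (P : Subgroup G) = ⊤ := by simpa using hA.sup_eq_top
    exact hpG ⟨p, hp, (hP ▸ P.isPGroup').of_equiv topEquiv⟩
  have hsr : SemiReg A (commutator G) := by
    refine semiReg_of_forall_prime fun r hr hrp => fpf_iff.2 fun d hd hc => ?_
    have hrp' : orderOf r ≠ p := fun e =>
      (Nat.Prime.coprime_iff_not_dvd hp).1 hAc.symm (e ▸ A.orderOf_dvd_natCard hr)
    have e := hconj r hrp hrp' d hd
    have e2 : (d * r) ^ orderOf r = 1 := by rw [← e, pow_orderOf_eq_one]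
    rw [(show Commute d r from hc.symm).mul_pow, pow_orderOf_eq_one, mul_one] at e2
    obtain ⟨k, hk⟩ := IsPGroup.iff_orderOf.1 hD ⟨d, hd⟩
    rw [Subgroup.orderOf_mk] at hk
    rw [← orderOf_eq_one_iff]
    exact Nat.eq_one_of_dvd_coprimes (((Nat.coprime_primes hp hrp).2 hrp'.symm).pow_left k)
      (hk ▸ dvd_rfl) (orderOf_dvd_of_pow_eq_one e2)
  have hAcomm : IsMulCommutative A := ⟨⟨fun a b => by
    have h1 : (a : G) * b * a⁻¹ * b⁻¹ ∈ (P : Subgroup G) ⊓ A :=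
      ⟨hDP (hcomm _ _), A.mul_mem (A.mul_mem (A.mul_mem a.2 b.2) (A.inv_mem a.2)) (A.inv_mem b.2)⟩
    rw [hA.disjoint.eq_bot, mem_bot] at h1
    ext
    simpa [mul_inv_eq_iff_eq_mul] using h1⟩⟩
  have hD1 : commutator G ≠ ⊥ := fun e => hG ⟨⟨comm_of_commutator_eq_bot e⟩⟩
  have hnorm : ∀ g : G, g ∈ normalizer (commutator G : Set G) := fun g => by
    rw [normalizer_eq_top]; trivial
  have hcyc : IsCyclic A := hsr.isCyclic_of_isMulCommutative (fun g _ => hnorm g) hD1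
  obtain ⟨a, ha⟩ := (isCyclic_iff_exists_zpowers_eq_top (α := A)).1 hcyc
  have ha1 : (a : G) ≠ 1 := by
    intro e
    apply hA1
    have : a = 1 := Subtype.ext e
    rw [this, zpowers_one_eq_bot] at ha
    rw [eq_bot_iff]
    intro x hx
    have : (⟨x, hx⟩ : A) ∈ (⊥ : Subgroup A) := ha ▸ mem_top _
    simpa using this
  have hfa := hsr a a.2 ha1
  have hE : ⁅A, (P : Subgroup G)⁆ = commutator G := by
    refine le_antisymm (commutator_mono le_top le_top) ?_
    refine (fpf_le_commutator (hnorm a) hfa a.2).trans ?_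
    rw [commutator_comm]
    exact commutator_mono le_rfl hDP
  have hinf : ((P : Subgroup G) ⊓ centralizer (A : Set G)) ⊓ commutator G = ⊥ := by
    rw [eq_bot_iff, ← hsr.inf_centralizer hA1]
    exact fun x hx => ⟨hx.2, hx.1.2⟩
  rw [← hE] at hinf
  refine ⟨p, this, P, A, hPn, hcyc, hA1, hAc, by rw [sup_comm]; exact hA.sup_eq_top, ?_, ?_, ?_,
    hinf, ?_⟩
  · refine ⟨⟨fun x y => ?_⟩⟩
    have h1 : (x : G) * y * x⁻¹ * y⁻¹ ∈
        ((P : Subgroup G) ⊓ centralizer (A : Set G)) ⊓ ⁅A, (P : Subgroup G)⁆ :=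
      mem_inf.2 ⟨mul_mem (mul_mem (mul_mem x.2 y.2) (inv_mem x.2)) (inv_mem y.2), hE ▸ hcomm _ _⟩
    rw [hinf, mem_bot] at h1
    ext
    simpa [mul_inv_eq_iff_eq_mul] using h1
  · rw [hE]; infer_instance
  · rw [hE]
    refine le_antisymm (sup_le inf_le_left hDP) fun x hx => ?_
    obtain ⟨d, hd, e⟩ := fpf_exists_conj_eq (hnorm a) hfa (hcomm x a)
    have hc : d⁻¹ * x ∈ (P : Subgroup G) ⊓ centralizer (A : Set G) := by
      refine mem_inf.2 ⟨mul_mem (inv_mem (hDP hd)) hx, fun b hb => ?_⟩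
      obtain ⟨k, hk⟩ : (⟨b, hb⟩ : A) ∈ zpowers a := ha ▸ mem_top _
      have hk' : (a : G) ^ k = b := congrArg Subtype.val hk
      rw [← hk']
      refine (Commute.zpow_left ?_ k)
      have e' : d * a * d⁻¹ = x * a * x⁻¹ := by rw [e]; group
      change a * (d⁻¹ * x) = d⁻¹ * x * a
      calc (a : G) * (d⁻¹ * x) = d⁻¹ * (d * a * d⁻¹) * x := by group
        _ = d⁻¹ * x * a := by rw [e']; group
    have := mul_mem (mem_sup_right (S := (P : Subgroup G) ⊓ centralizer (A : Set G)) hd)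
      (mem_sup_left hc)
    simpa using this
  · rw [hE]
    exact fun b hb hb1 => fpf_iff.1 (hsr b hb hb1)

theorem hyp_of_struct {p : ℕ} [Fact p.Prime] (P : Sylow p G) (A : Subgroup G)
    (hPn : (P : Subgroup G).Normal) (hcyc : IsCyclic ↥A) (hAc : (Nat.card ↥A).Coprime p)
    (hAP : A ⊔ (P : Subgroup G) = ⊤)
    (hC : IsMulCommutative ↥((P : Subgroup G) ⊓ centralizer (A : Set G)))
    (hDn : (⁅A, (P : Subgroup G)⁆).Normal)
    (hCD : ((P : Subgroup G) ⊓ centralizer (A : Set G)) ⊔ ⁅A, (P : Subgroup G)⁆ = (P : Subgroup G))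
    (hf : ∀ a ∈ A, a ≠ 1 → ∀ d ∈ ⁅A, (P : Subgroup G)⁆, a * d = d * a → d = 1) : Hyp G := by
  have hp : p.Prime := Fact.out
  set D := ⁅A, (P : Subgroup G)⁆ with hD
  set C := (P : Subgroup G) ⊓ centralizer (A : Set G) with hCdef
  have hdec : ∀ g : G, ∃ a ∈ A, ∃ c ∈ C, ∃ d ∈ D, g = d * (a * c) := by
    intro g
    have hg : g ∈ (P : Subgroup G) ⊔ A := by rw [sup_comm, hAP]; trivial
    obtain ⟨x, hx, a, ha, rfl⟩ := mem_sup_of_normal_left.1 hg
    rw [← hCD, sup_comm] at hx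
    obtain ⟨d, hd, c, hc, rfl⟩ := mem_sup_of_normal_left.1 hx
    exact ⟨a, ha, c, hc, d, hd, by rw [mul_assoc, hc.2 a ha]⟩
  have hDP : D ≤ P := hCD ▸ le_sup_right
  have hGD : commutator G ≤ D := by
    rw [_root_.commutator_def, commutator_le]
    intro g _ g' _
    obtain ⟨a, ha, c, hc, d, hd, rfl⟩ := hdec g
    obtain ⟨a', ha', c', hc', d', hd', rfl⟩ := hdec g'
    rw [← QuotientGroup.eq_one_iff, commutatorElement_def]
    have e1 : ((d : G) : G ⧸ D) = 1 := (QuotientGroup.eq_one_iff d).2 hd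
    have e2 : ((d' : G) : G ⧸ D) = 1 := (QuotientGroup.eq_one_iff d').2 hd'
    have h1 : Commute a a' := congrArg Subtype.val (hcyc.isMulCommutative.is_comm.comm
      (⟨a, ha⟩ : A) ⟨a', ha'⟩)
    have h2 : Commute c c' := congrArg Subtype.val (hC.is_comm.comm (⟨c, hc⟩ : C) ⟨c', hc'⟩)
    have h3 : Commute a c' := hc'.2 a ha
    have h4 : Commute c a' := (hc.2 a' ha').symm
    have h5 : Commute (a * c) (a' * c') := (h1.mul_right h3).mul_left (h4.mul_right h2)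
    have h6 := (h5.map (QuotientGroup.mk' D)).eq
    simp only [QuotientGroup.mk_mul, QuotientGroup.mk_inv, e1, e2, one_mul,
      QuotientGroup.mk'_apply] at h6 ⊢
    rw [h6]; group
  have hnorm : ∀ g : G, g ∈ normalizer (D : Set G) := fun g => by
    rw [normalizer_eq_top]; trivial
  have hvan : ∀ χ : G → ℂ, IsIrrCharacter G χ → χ 1 ≠ 1 → ∀ g, g ∉ (P : Subgroup G) → χ g = 0 := by
    intro χ hχ h1 g hg
    obtain ⟨a, ha, c, hc, d, hd, rfl⟩ := hdec g
    have ha1 : a ≠ 1 := by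
      rintro rfl
      exact hg (mul_mem (hDP hd) (mul_mem (one_mem _) hc.1))
    obtain ⟨k, hk⟩ := P.isPGroup' ⟨c, hc.1⟩
    have hk' : c ^ p ^ k = 1 := congrArg Subtype.val hk
    have hfp : D ⊓ centralizer {a * c} = ⊥ := by
      refine fpf_of_pow (n := p ^ k) ?_
      rw [(show Commute a c from hc.2 a ha).mul_pow, hk', mul_one]
      refine fpf_iff.2 (hf _ (pow_mem ha _) fun e => ha1 ?_)
      rw [← orderOf_eq_one_iff]
      exact Nat.eq_one_of_dvd_coprimes (hAc.pow_right k) (A.orderOf_dvd_natCard ha)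
        (orderOf_dvd_of_pow_eq_one e)
    have hall : ∀ e : D, χ (e * (a * c)) = χ (a * c) := fun e => by
      obtain ⟨x, -, hx⟩ := fpf_exists_conj_eq (hnorm _) hfp e.2
      rw [← hx, classFun_conj (irr_isClassFunction hχ)]
    have := Fintype.ofFinite D
    have hs := sum_coset_eq_zero hχ D (fun hk => h1 ((irr_one_eq_one_iff hχ).2 (hGD.trans hk)))
      (a * c)
    simp only [hall, Finset.sum_const, Finset.card_univ, nsmul_eq_mul] at hs
    rw [hall ⟨d, hd⟩]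
    exact (mul_eq_zero.1 hs).resolve_left (by exact_mod_cast Fintype.card_ne_zero)
  rintro x y χ hx hy ⟨r, s, a, b, hr, hs, hrs, ha, hb⟩
  by_cases h1 : (χ : G → ℂ) 1 = 1
  · exact char_map_mul_of_one (irr_isCharacter χ.2) h1 x y
  have hmem : ∀ {z : G} {t c : ℕ}, t.Prime → z ≠ 1 → orderOf z = t ^ c → z ∈ (P : Subgroup G) →
      t = p := by
    intro z t c ht hz hc hzP
    obtain ⟨k, hk⟩ := IsPGroup.iff_orderOf.1 P.isPGroup' ⟨z, hzP⟩
    rw [Subgroup.orderOf_mk, hc] at hk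
    have hc0 : c ≠ 0 := by rintro rfl; exact hz (by simpa using hc)
    exact (Nat.prime_dvd_prime_iff_eq ht hp).1 (ht.dvd_of_dvd_pow (hk ▸ dvd_pow_self t hc0))
  have hxy : ¬ (x ∈ (P : Subgroup G) ∧ y ∈ (P : Subgroup G)) := fun ⟨h2, h3⟩ =>
    hrs ((hmem hr hx ha h2).trans (hmem hs hy hb h3).symm)
  have hxy' : x * y ∉ (P : Subgroup G) := by
    intro hm
    apply hxy
    have e : ((x : G) : G ⧸ (P : Subgroup G)) = ((y : G) : G ⧸ (P : Subgroup G))⁻¹ := by
      rw [eq_inv_iff_mul_eq_one, ← QuotientGroup.mk_mul, QuotientGroup.eq_one_iff]; exact hm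
    have d1 : orderOf ((x : G) : G ⧸ (P : Subgroup G)) ∣ r ^ a :=
      ha ▸ orderOf_map_dvd (QuotientGroup.mk' _) x
    have d2 : orderOf ((y : G) : G ⧸ (P : Subgroup G)) ∣ s ^ b :=
      hb ▸ orderOf_map_dvd (QuotientGroup.mk' _) y
    have d3 : orderOf ((x : G) : G ⧸ (P : Subgroup G)) ∣ s ^ b := by rwa [e, orderOf_inv]
    have e1 := Nat.eq_one_of_dvd_coprimes (Nat.coprime_pow_primes a b hr hs hrs) d1 d3
    rw [orderOf_eq_one_iff] at e1
    refine ⟨(QuotientGroup.eq_one_iff x).1 e1, (QuotientGroup.eq_one_iff y).1 ?_⟩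
    rw [e1] at e
    exact inv_eq_one.1 e.symm
  rw [hvan _ χ.2 h1 _ hxy']
  rcases not_and_or.1 hxy with h2 | h2 <;> simp [hvan _ χ.2 h1 _ h2]

theorem hyp_of_pgroup {p : ℕ} (hp : p.Prime) (h : IsPGroup p G) : Hyp G := by
  rintro x y χ hx hy ⟨r, s, a, b, hr, hs, hrs, ha, hb⟩
  have := Fact.mk hp
  have hmem : ∀ {z : G} {t c : ℕ}, t.Prime → z ≠ 1 → orderOf z = t ^ c → t = p := by
    intro z t c ht hz hc
    obtain ⟨k, hk⟩ := IsPGroup.iff_orderOf.1 h z
    rw [hc] at hk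
    have hc0 : c ≠ 0 := by rintro rfl; exact hz (by simpa using hc)
    exact (Nat.prime_dvd_prime_iff_eq ht hp).1 (ht.dvd_of_dvd_pow (hk ▸ dvd_pow_self t hc0))
  exact absurd ((hmem hr hx ha).trans (hmem hs hy hb).symm) hrs

theorem hyp_of_comm (h : IsMulCommutative G) : Hyp G := fun x y χ _ _ _ =>
  char_map_mul_of_one (irr_isCharacter χ.2) (irr_one_eq_one_of_comm h.is_comm.comm χ.2) x y

end CF.Cp
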