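import Cfsg.Agent.Char.More
import Cfsg.Agent.Char.Galois
import Cfsg.Agent.Fgs2.MaxClass
import Cfsg.Agent.Coprime.SemiReg

/-!
Sylow `2`-subgroups of maximal class and fields of character values.
-/

set_option autoImplicit false

namespace CF.Cp

open Cfsg Subgroup CF.Char

/-- An algebraic number fixed by all automorphisms of `ℂ` fixing a subfield lies in it. -/
theorem mem_of_fixed (K : IntermediateField ℚ ℂ) {a : ℂ} (ha : IsAlgebraic ℚ a)
    (h : ∀ σ : ℂ ≃+* ℂ, (∀ x ∈ K, σ x = x) → σ a = a) : a ∈ K := by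
  let L := algebraicClosure K ℂ
  have hK : IsAlgClosure K L := algebraicClosure.isAlgClosure K ℂ
  have hG : IsGalois K L := IsAlgClosure.isGalois K L
  let a' : L := ⟨a, (mem_algebraicClosure_iff).mpr (ha.tower_top K)⟩
  have : a' ∈ (⊥ : IntermediateField K L) := by
    rw [InfiniteGalois.mem_bot_iff_fixed]
    intro τ
    obtain ⟨σ, hσ⟩ := exists_ringEquiv_extend (L := ℂ) τ.toRingEquiv
    apply Subtype.ext
    refine (hσ a').symm.trans (h σ fun x hx => ?_)
    have := hσ (algebraMap K L ⟨x, hx⟩)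
    rw [show τ.toRingEquiv (algebraMap K L ⟨x, hx⟩) = algebraMap K L ⟨x, hx⟩ from
      τ.commutes _] at this
    exact this
  obtain ⟨y, hy⟩ := IntermediateField.mem_bot.1 this
  have : (y : ℂ) = a := congrArg Subtype.val hy
  exact this ▸ y.2

theorem fixes_adjoin {S : Set ℂ} (σ : ℂ ≃+* ℂ) (h : ∀ x ∈ S, σ x = x) :
    ∀ x ∈ IntermediateField.adjoin ℚ S, σ x = x := by
  have : IntermediateField.adjoin ℚ S ≤
      (RingHom.eqLocusField σ.toRingHom (RingHom.id ℂ)).toIntermediateField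
        (fun q => by simp) := IntermediateField.adjoin_le_iff.2 h
  exact fun x hx => this hx

theorem adjoin_eq_iff {S T : Set ℂ} (hS : ∀ x ∈ S, IsAlgebraic ℚ x)
    (hT : ∀ x ∈ T, IsAlgebraic ℚ x) :
    IntermediateField.adjoin ℚ S = IntermediateField.adjoin ℚ T ↔
      ∀ σ : ℂ ≃+* ℂ, (∀ x ∈ S, σ x = x) ↔ (∀ x ∈ T, σ x = x) := by
  constructor
  · intro e σ
    exact ⟨fun h x hx => fixes_adjoin σ h x (e ▸ IntermediateField.subset_adjoin _ _ hx),
      fun h x hx => fixes_adjoin σ h x (e ▸ IntermediateField.subset_adjoin _ _ hx)⟩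
  · intro h
    refine le_antisymm (IntermediateField.adjoin_le_iff.2 fun x hx => ?_)
      (IntermediateField.adjoin_le_iff.2 fun x hx => ?_)
    · exact mem_of_fixed _ (hS x hx) fun σ hσ =>
        (h σ).2 (fun y hy => hσ y (IntermediateField.subset_adjoin _ _ hy)) x hx
    · exact mem_of_fixed _ (hT x hx) fun σ hσ =>
        (h σ).1 (fun y hy => hσ y (IntermediateField.subset_adjoin _ _ hy)) x hx

variable {G : Type*} [Group G] [Finite G]

theorem field_iff {g : G} {n : ℕ} (hn : n ≠ 0) (hg : g ^ 2 ^ n = 1) {ζ ε : ℂ} (hζ : ζ ^ 2 ^ n = 1)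
    (hε : ε = 1 ∨ ε = -1) :
    IntermediateField.adjoin ℚ {z : ℂ | ∃ χ : IrrCharacter G, (χ : G → ℂ) g = z} =
      IntermediateField.adjoin ℚ ({ζ + ε * ζ⁻¹} : Set ℂ) ↔
      ∀ k : ℕ, Odd k → (IsConj g (g ^ k) ↔ ζ ^ k = ζ ∨ ζ ^ (k + 1) = ε) := by
  have h2 : 2 ^ n ≠ 0 := by positivity
  have hζ0 : ζ ≠ 0 := by rintro rfl; simp [h2] at hζ
  have hζi : IsAlgebraic ℚ ζ :=
    ((IsIntegral.of_pow (Nat.pos_of_ne_zero h2) (hζ ▸ isIntegral_one)) : IsIntegral ℚ ζ).isAlgebraic
  have hεi : IsAlgebraic ℚ ε := by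
    rcases hε with rfl | rfl
    · exact isAlgebraic_one
    · exact isAlgebraic_one.neg
  have key : ∀ (σ : ℂ ≃+* ℂ) (k : ℕ), (∀ z : ℂ, z ^ 2 ^ n = 1 → σ z = z ^ k) →
      (((∀ x ∈ {z : ℂ | ∃ χ : IrrCharacter G, (χ : G → ℂ) g = z}, σ x = x) ↔
        (∀ x ∈ ({ζ + ε * ζ⁻¹} : Set ℂ), σ x = x)) ↔
        (IsConj g (g ^ k) ↔ ζ ^ k = ζ ∨ ζ ^ (k + 1) = ε)) := by
    intro σ k hk
    refine iff_congr ?_ ?_
    · rw [isConj_iff_irr_eq]
      constructor
      · intro h χ
        rw [← char_map_eq_pow (irr_isCharacter χ.2) σ.toRingHom hk hg]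
        exact (h _ ⟨χ, rfl⟩).symm
      · rintro h _ ⟨χ, rfl⟩
        exact (char_map_eq_pow (irr_isCharacter χ.2) σ.toRingHom hk hg).trans (h χ).symm
    · have hσε : σ ε = ε := by rcases hε with rfl | rfl <;> simp
      simp only [Set.mem_singleton_iff, forall_eq, map_add, map_mul, map_inv₀, hσε, hk ζ hζ]
      have hk0 : ζ ^ k ≠ 0 := pow_ne_zero _ hζ0
      have : ζ ^ k + ε * (ζ ^ k)⁻¹ - (ζ + ε * ζ⁻¹) =
          (ζ ^ k - ζ) * (ζ ^ (k + 1) - ε) / (ζ ^ k * ζ) := by
        field_simp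
        ring
      rw [← sub_eq_zero, this, div_eq_zero_iff, mul_eq_zero, sub_eq_zero, sub_eq_zero]
      simp [hζ0]
  rw [adjoin_eq_iff]
  · constructor
    · intro h k hk
      obtain ⟨σ, hσ⟩ := exists_aut_pow (m := k) h2
        ((Nat.coprime_two_right.2 hk).pow_right n)
      exact (key σ k hσ).1 (h σ)
    · intro h σ
      obtain ⟨k, hk, hσ⟩ := aut_exists_pow σ.toRingHom h2
      exact (key σ k hσ).2 (h k (Nat.coprime_two_right.1 ((Nat.coprime_pow_right_iff
        (Nat.pos_of_ne_zero hn) _ _).1 hk)))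
  · rintro _ ⟨χ, rfl⟩
    exact ((char_isIntegral (irr_isCharacter χ.2) g).tower_top (A := ℚ)).isAlgebraic
  · rintro _ rfl
    exact hζi.add (hεi.mul hζi.inv)

/-- If a Sylow `2`-subgroup centralizes `g`, the class of `g` has odd size. -/
theorem not_two_dvd_index (P : Sylow 2 G) {g : G} (h : ∀ x ∈ (P : Subgroup G), x * g = g * x) :
    ¬ 2 ∣ (centralizer ({g} : Set G)).index := fun h2 =>
  P.not_dvd_index (h2.trans (index_dvd_of_le fun x hx =>
    mem_centralizer_singleton_iff.2 (h x hx)))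

theorem comm_of_index_two {H : Type*} [Group H] {a : H} (hi : (zpowers a).index = 2)
    (ha : ∀ x, x * a = a * x) : IsMulCommutative H := by
  have hle : zpowers a ≤ center H := zpowers_le.2 (mem_center_iff.2 ha)
  refine ⟨⟨fun x y => ?_⟩⟩
  by_cases hx : x ∈ zpowers a
  · exact (mem_center_iff.1 (hle hx) y).symm
  by_cases hy : y ∈ zpowers a
  · exact mem_center_iff.1 (hle hy) x
  have hxy : x⁻¹ * y ∈ zpowers a := by
    rw [mul_mem_iff_of_index_two hi]; simp [hx, hy]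
  have := mem_center_iff.1 (hle hxy) x
  calc x * y = x * (x * (x⁻¹ * y)) := by group
    _ = y * x := by rw [this]; group

theorem two_dvd_index (P : Sylow 2 G) (hP : ¬ IsMulCommutative (P : Subgroup G)) {g : G}
    (hg : orderOf g * 2 = Nat.card (P : Subgroup G)) : 2 ∣ (centralizer ({g} : Set G)).index := by
  by_contra h2
  have : Fact (Nat.Prime 2) := ⟨Nat.prime_two⟩
  set C := centralizer ({g} : Set G)
  have hgC : g ∈ C := mem_centralizer_singleton_iff.2 rfl
  have hz : IsPGroup 2 (zpowers (⟨g, hgC⟩ : C)) := by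
    obtain ⟨k, hk⟩ := IsPGroup.iff_card.1 P.isPGroup'
    obtain ⟨j, -, hj⟩ := (Nat.dvd_prime_pow Nat.prime_two).1
      (show orderOf g ∣ 2 ^ k from hk ▸ Dvd.intro _ hg)
    exact IsPGroup.of_card (n := j) (by rw [Nat.card_zpowers, Subgroup.orderOf_mk, hj])
  obtain ⟨Q, hQ⟩ := hz.exists_le_sylow
  have hQi : ¬ 2 ∣ ((Q : Subgroup C).map C.subtype).index := by
    rw [index_map_subtype]
    exact fun h => ((Nat.Prime.dvd_mul Nat.prime_two).1 h).elim Q.not_dvd_index h2
  let R : Sylow 2 G := (Q.isPGroup'.map C.subtype).toSylow hQi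
  have hgR : g ∈ (R : Subgroup G) := ⟨⟨g, hgC⟩, hQ (mem_zpowers _), rfl⟩
  have hRc : IsMulCommutative (R : Subgroup G) := by
    refine comm_of_index_two (a := ⟨g, hgR⟩) ?_ ?_
    · have := (zpowers (⟨g, hgR⟩ : (R : Subgroup G))).card_mul_index
      rw [Nat.card_zpowers, Subgroup.orderOf_mk, ← Nat.card_congr (P.equiv R).toEquiv,
        ← hg] at this
      exact Nat.eq_of_mul_eq_mul_left (orderOf_pos g) this
    · rintro ⟨_, x, -, rfl⟩
      exact Subtype.ext (mem_centralizer_singleton_iff.1 x.2)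
  apply hP
  let e := P.equiv R
  exact ⟨⟨fun x y => e.injective (by rw [map_mul, map_mul, hRc.is_comm.comm])⟩⟩

/-- If `g` generates a subgroup of index `2` of a Sylow `2`-subgroup, it is conjugate to at most
two of its powers. -/
theorem conj_pow_cases (P : Sylow 2 G) {g c : G} (hg : orderOf g * 2 = Nat.card (P : Subgroup G))
    (hc : c * g * c⁻¹ ∈ zpowers g) (hc1 : c * g * c⁻¹ ≠ g) {k : ℕ} (hk : IsConj g (g ^ k)) :
    g ^ k = g ∨ g ^ k = c * g * c⁻¹ := by
  have : Fact (Nat.Prime 2) := ⟨Nat.prime_two⟩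
  have hnorm : ∀ x : G, x * g * x⁻¹ ∈ zpowers g → x ∈ normalizer (zpowers g : Set G) := by
    intro x hx
    refine mem_normalizer_fintype ?_
    rintro _ ⟨j, rfl⟩
    simpa [← conj_zpow] using zpow_mem hx j
  set H := normalizer (zpowers g : Set G)
  set C := (centralizer (zpowers g : Set G)).subgroupOf H with hC
  have hCm : ∀ x : H, x ∈ C ↔ (x : G) * g * (x : G)⁻¹ = g := by
    intro x
    rw [hC, mem_subgroupOf, CF.Coprime.centralizer_zpowers_eq, CF.Char.mem_centralizer_singleton]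
  obtain ⟨n, hn⟩ := IsPGroup.iff_card.1 P.isPGroup'
  obtain ⟨j, -, hj⟩ := (Nat.dvd_prime_pow Nat.prime_two).1
    (show orderOf g ∣ 2 ^ n from hn ▸ Dvd.intro _ hg)
  have h1 : C.index ∣ 2 ^ j := by
    rw [hC, ← normalizerMonoidHom_ker, index_ker]
    refine (card_subgroup_dvd_card _).trans ?_
    rw [IsCyclic.card_mulAut, Nat.card_zpowers, hj]
    rcases j with _ | j
    · simp
    · rw [Nat.totient_prime_pow_succ Nat.prime_two]; simp [pow_succ]
  obtain ⟨i, -, hi⟩ := (Nat.dvd_prime_pow Nat.prime_two).1 h1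
  have h2 : 2 ^ j ∣ Nat.card C := by
    have := C.orderOf_dvd_natCard ((hCm ⟨g, hnorm g (by simp)⟩).2 (by simp))
    rwa [Subgroup.orderOf_mk, hj] at this
  have h3 : 2 ^ (j + i) ∣ Nat.card G := by
    rw [pow_add, ← hi]
    exact ((Nat.mul_dvd_mul_right h2 _).trans C.card_mul_index.dvd).trans
      (card_subgroup_dvd_card H)
  have h4 : j + i ≤ j + 1 := by
    have := P.pow_dvd_card_of_pow_dvd_card h3
    rw [← hg, hj, ← pow_succ] at this
    exact (Nat.pow_dvd_pow_iff_le_right one_lt_two).1 this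
  have hcC : (⟨c, hnorm c hc⟩ : H) ∉ C := fun h => hc1 ((hCm _).1 h)
  have h5 : C.index = 2 := by
    rw [hi]
    rcases i with _ | i
    · rw [pow_zero, index_eq_one] at hi
      exact absurd (hi ▸ mem_top _) hcC
    · rw [show i = 0 by omega]; rfl
  obtain ⟨x, hx⟩ := isConj_iff.1 hk
  have hxH : x ∈ H := hnorm x (hx ▸ pow_mem (mem_zpowers g) k)
  by_cases hxC : (⟨x, hxH⟩ : H) ∈ C
  · exact Or.inl (hx ▸ (hCm _).1 hxC)
  · right
    have : (⟨c, hnorm c hc⟩ : H)⁻¹ * ⟨x, hxH⟩ ∈ C := by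
      rw [mul_mem_iff_of_index_two h5]; simp only [inv_mem_iff, hcC, hxC]
    have := (hCm _).1 this
    simp only [coe_mul, InvMemClass.coe_inv] at this
    rw [← hx]
    calc x * g * x⁻¹ = c * (c⁻¹ * x * g * (c⁻¹ * x)⁻¹) * c⁻¹ := by group
      _ = _ := by rw [this]

theorem index_eq_four_of_DQS {H : Type*} [Group H] [Finite H] {m : ℕ} {a c : H} (hm : 2 ≤ m)
    (hH : Nat.card H = 2 ^ (m + 1)) (ha : orderOf a = 2 ^ m) (h : CF.Solv.DQS m a c)
    (hc : ¬ IsCyclic H) : (commutator H).index = 4 := by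
  have : Fact (Nat.Prime 2) := ⟨Nat.prime_two⟩
  have h4 : 2 ^ (0 + 2) ∣ (commutator H).index :=
    CF.Fgs2.pow_dvd_index_lcs (r := 0) (IsPGroup.of_card hH) hc (Or.inl rfl)
  refine Nat.dvd_antisymm ?_ h4
  obtain ⟨k, hk, -, j, hj⟩ := h.exists_conj_eq
  have h1 : (a ^ 2) ^ (2 * j - 1) ∈ commutator H := by
    have : c * a * c⁻¹ * a⁻¹ ∈ commutator H := commutator_mem_commutator (mem_top _) (mem_top _)
    rw [hk, ← zpow_sub_one, show k - 1 = 2 * (2 * j - 1) by omega,
      zpow_mul] at this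
    exact_mod_cast this
  have ho : orderOf (a ^ 2) = 2 ^ (m - 1) := by
    rw [orderOf_pow_of_dvd two_ne_zero (ha ▸ dvd_pow_self 2 (by omega)), ha,
      Nat.pow_sub_one two_ne_zero (by omega)]
  have h2 : a ^ 2 ∈ zpowers ((a ^ 2) ^ (2 * j - 1)) := by
    rw [mem_zpowers_zpow_iff, ho]
    have : IsCoprime (2 * j - 1) (2 : ℤ) := ⟨-1, j, by ring⟩
    rw [← Int.isCoprime_iff_gcd_eq_one]
    exact_mod_cast this.pow_right
  have h3 : zpowers (a ^ 2) ≤ commutator H := zpowers_le.2 (zpowers_le.2 h1 h2)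
  refine (index_dvd_of_le h3).trans (dvd_of_eq ?_)
  have := (zpowers (a ^ 2)).card_mul_index
  rw [Nat.card_zpowers, ho, hH, show m + 1 = (m - 1) + 2 by omega, pow_add] at this
  exact Nat.eq_of_mul_eq_mul_left (by positivity) this

theorem main (P : Sylow 2 G) (n : ℕ) (hn : 3 ≤ n) (hP : Nat.card (P : Subgroup G) = 2 ^ n) (ζ : ℂ)
    (hζ : IsPrimitiveRoot ζ (2 ^ (n - 1))) :
    (commutator (P : Subgroup G)).index = 4 ↔
      ∃ g : G, g ∈ (P : Subgroup G) ∧ 2 ∣ (centralizer ({g} : Set G)).index ∧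
        ∃ ε : ℂ, (ε = 1 ∨ ε = -1) ∧
          ∀ k : ℕ, Odd k → (IsConj g (g ^ k) ↔ ζ ^ k = ζ ∨ ζ ^ (k + 1) = ε) := by
  have : Fact (Nat.Prime 2) := ⟨Nat.prime_two⟩
  obtain ⟨m, rfl⟩ : ∃ m, n = m + 3 := ⟨n - 3, by omega⟩
  rw [show m + 3 - 1 = m + 2 by omega] at hζ
  have hζ0 : ζ ≠ 0 := hζ.ne_zero (by positivity)
  have hhalf : ζ ^ 2 ^ (m + 1) = -1 :=
    (hζ.pow (by positivity) (pow_succ 2 (m + 1))).eq_neg_one_of_two_right
  constructor
  · intro h4
    have hna : ¬ IsMulCommutative (P : Subgroup G) := fun hc => by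
      have : commutator (P : Subgroup G) = ⊥ := by
        rw [commutator_eq_bot_iff_center_eq_top]; exact center_eq_top_iff.2 hc
      rw [this, index_bot, hP, pow_add] at h4
      have : 0 < 2 ^ m := by positivity
      omega
    obtain ⟨l, a, c, -, hl, ha, hi, hc, hD⟩ := CF.Fgs2.taussky P.isPGroup' h4 hna
    obtain rfl : l = m + 2 := by
      have := Nat.pow_right_injective le_rfl (hl.symm.trans hP)
      omega
    have ha' : orderOf (a : G) = 2 ^ (m + 2) := by rw [Subgroup.orderOf_coe, ha]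
    have hg : orderOf (a : G) * 2 = Nat.card (P : Subgroup G) := by rw [ha', hP, pow_succ 2 (m + 2)]
    have hpw : ∀ i j : ℕ, (a : G) ^ i = (a : G) ^ j ↔ ζ ^ i = ζ ^ j := fun i j => by
      rw [pow_eq_pow_iff_modEq, ha', (hζ.isOfFinOrder (by positivity)).pow_eq_pow_iff_modEq,
        ← hζ.eq_orderOf]
    have hca : (c : G) * a * (c : G)⁻¹ ≠ a := fun e => hna (comm_of_index_two hi fun x => by
      have hcc : c * a = a * c := Subtype.ext (mul_inv_eq_iff_eq_mul.1 e)
      by_cases hx : x ∈ zpowers a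
      · obtain ⟨j, rfl⟩ := hx
        exact (Commute.refl a).zpow_left j
      · have : c⁻¹ * x ∈ zpowers a := by
          rw [mul_mem_iff_of_index_two hi]; simp [hx, hc]
        obtain ⟨j, hj⟩ := this
        have hx' : x = c * a ^ j := by simp [hj]
        rw [hx']
        exact ((show Commute c a from hcc).mul_left ((Commute.refl a).zpow_left j)))
    obtain ⟨r, ε, hε, hr, hrε⟩ : ∃ (r : ℕ) (ε : ℂ), (ε = 1 ∨ ε = -1) ∧
        (c : G) * a * (c : G)⁻¹ = (a : G) ^ r ∧ ζ ^ (r + 1) = ε := by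
      have hinv : c * a * c⁻¹ = a⁻¹ → ∃ (r : ℕ) (ε : ℂ), (ε = 1 ∨ ε = -1) ∧
          (c : G) * a * (c : G)⁻¹ = (a : G) ^ r ∧ ζ ^ (r + 1) = ε := fun e => by
        have h1 : 2 ^ (m + 2) - 1 + 1 = 2 ^ (m + 2) := Nat.sub_add_cancel Nat.one_le_two_pow
        refine ⟨2 ^ (m + 2) - 1, 1, Or.inl rfl, ?_, by rw [h1, hζ.pow_eq_one]⟩
        have e' : (c : G) * a * (c : G)⁻¹ = (a : G)⁻¹ := congrArg Subtype.val e
        rw [e', inv_eq_iff_mul_eq_one, ← pow_succ', h1, ← ha', pow_orderOf_eq_one]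
      rcases hD with ⟨-, e⟩ | ⟨-, e⟩ | ⟨-, -, e⟩
      · exact hinv e
      · exact hinv e
      · refine ⟨2 ^ (m + 1) - 1, -1, Or.inr rfl, congrArg Subtype.val e, ?_⟩
        rw [Nat.sub_add_cancel Nat.one_le_two_pow, hhalf]
    refine ⟨a, a.2, two_dvd_index P hna hg, ε, hε, fun k _ => ?_⟩
    have e1 : ζ ^ k = ζ ↔ (a : G) ^ k = a := by simpa using (hpw k 1).symm
    have e2 : ζ ^ (k + 1) = ε ↔ (a : G) ^ k = (c : G) * a * (c : G)⁻¹ := by
      rw [hr, hpw, ← hrε, pow_succ, pow_succ, mul_left_inj' hζ0]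
    rw [e1, e2]
    constructor
    · exact conj_pow_cases P hg (hr ▸ pow_mem (mem_zpowers _) r) hca
    · rintro (e | e) <;> rw [e]
      exact isConj_iff.2 ⟨c, rfl⟩
  · rintro ⟨g, hgP, h2, ε, hε, h⟩
    have hna : ¬ IsMulCommutative (P : Subgroup G) := fun hc => not_two_dvd_index P (fun x hx =>
      congrArg Subtype.val (hc.is_comm.comm (⟨x, hx⟩ : (P : Subgroup G)) ⟨g, hgP⟩)) h2
    have hnc : ¬ IsCyclic (P : Subgroup G) := fun hc => hna hc.isMulCommutative
    rcases Nat.eq_zero_or_pos m with rfl | hm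
    · have h4 : 2 ^ (0 + 2) ∣ (commutator (P : Subgroup G)).index :=
        CF.Fgs2.pow_dvd_index_lcs (r := 0) P.isPGroup' hnc (Or.inl rfl)
      have h5 := (commutator (P : Subgroup G)).card_mul_index
      have h6 : Nat.card (commutator (P : Subgroup G)) ≠ 1 := fun e =>
        hna ⟨⟨comm_of_commutator_eq_bot (card_eq_one.1 e)⟩⟩
      have h7 : 0 < Nat.card (commutator (P : Subgroup G)) := Nat.card_pos
      obtain ⟨j, hj⟩ := h4
      rw [hP, hj] at h5
      rw [hj]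
      have : j = 1 := by
        rcases j with _ | _ | j
        · simp at h5
        · rfl
        · have h8 : 2 ≤ Nat.card (commutator (P : Subgroup G)) := by omega
          have := Nat.mul_le_mul_right (2 ^ (0 + 2) * (j + 1 + 1)) h8
          omega
      rw [this]; rfl
    have hodd : Odd (1 + 2 ^ (m + 1)) := by
      rw [add_comm]; exact Even.add_one (Nat.even_pow.2 ⟨even_two, by omega⟩)
    have hno : ¬ IsConj g (g ^ (1 + 2 ^ (m + 1))) := by
      rw [h _ hodd, add_right_comm, pow_add ζ 1, pow_add ζ (1 + 1), hhalf]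
      rintro (e | e)
      · exact hζ0 (by linear_combination (-1 / 2 : ℂ) * e)
      · have e4 : ζ ^ 4 = 1 := by
          rcases hε with rfl | rfl
          · linear_combination (1 - ζ ^ 2) * e
          · linear_combination (-1 - ζ ^ 2) * e
        have := Nat.le_of_dvd (by norm_num) (hζ.dvd_of_pow_eq_one _ e4)
        have h8 : 2 ^ 3 ≤ 2 ^ (m + 2) := Nat.pow_le_pow_right two_pos (by omega)
        omega
    set g' : (P : Subgroup G) := ⟨g, hgP⟩
    obtain ⟨s, hs, hso⟩ := (Nat.dvd_prime_pow Nat.prime_two).1 (hP ▸ orderOf_dvd_natCard g')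
    have hs1 : s ≠ m + 3 := by
      rintro rfl
      exact hnc (isCyclic_of_orderOf_eq_card g' (hso.trans hP.symm))
    have hs2 : ¬ s ≤ m + 1 := fun hle => hno (by
      have : g' ^ 2 ^ (m + 1) = 1 := orderOf_dvd_iff_pow_eq_one.1 (hso ▸ pow_dvd_pow 2 hle)
      have e : g ^ 2 ^ (m + 1) = 1 := congrArg Subtype.val this
      rw [pow_add, e, pow_one, mul_one])
    obtain rfl : s = m + 2 := by omega
    have hi : (zpowers g').index = 2 := by
      have := (zpowers g').card_mul_index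
      rw [Nat.card_zpowers, hso, hP, pow_succ 2 (m + 2)] at this
      exact Nat.eq_of_mul_eq_mul_left (by positivity) this
    obtain ⟨-, a, c, hz, ha, -, hcase⟩ := CF.Solv.cyclic_index_prime_cases (m := m + 2) hP
      (C := zpowers g') inferInstance hi (by
        by_contra hc
        push Not at hc
        exact hna ⟨⟨hc⟩⟩)
    rcases hcase with ⟨-, e, -⟩ | ⟨-, hD⟩
    · exfalso
      apply hno
      obtain ⟨j, hj⟩ : g' ∈ zpowers a := hz ▸ mem_zpowers _
      have : c * g' * c⁻¹ = g' ^ (1 + 2 ^ (m + 1)) := by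
        rw [← hj, ← conj_zpow, e, ← zpow_natCast, ← zpow_mul, ← zpow_natCast, ← zpow_mul, mul_comm]
        rfl
      exact isConj_iff.2 ⟨c, congrArg Subtype.val this⟩
    · exact index_eq_four_of_DQS (by omega) hP ha hD hnc

end CF.Cp
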