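import Cfsg.Agent.PLocal.FFEmb

/-! Quadratic irreducible modules of `SL₂(F)` are natural. -/

set_option autoImplicit false

namespace CF.FF

open Cfsg Subgroup CF.Loc Function
open CF.PLocal (upT loT upU upT_val loT_val upT_zero loT_zero loT_mul mem_normalizer_upU SL2_eq_top_of_upU_le)
open scoped commutatorElement MatrixGroups

variable {G : Type*} [Group G] {p : ℕ} {V : Subgroup G} {F : Type} [Field F]

/-- the monomial matrices -/
def nT (t : F) (h : t ≠ 0) : SL(2, F) := ⟨!![0, t; -t⁻¹, 0], by simp [Matrix.det_fin_two, h]⟩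

theorem nT_val {t : F} (h : t ≠ 0) : (nT t h : Matrix (Fin 2) (Fin 2) F) = !![0, t; -t⁻¹, 0] := rfl

theorem nT_eq {t : F} (h : t ≠ 0) : nT t h = upT t * loT (-t⁻¹) * upT t := by
  ext i j; fin_cases i <;> fin_cases j <;> simp [nT_val, upT_val, loT_val, h]

theorem nT_eq' {t : F} (h : t ≠ 0) : nT t h = loT (-t⁻¹) * upT t * loT (-t⁻¹) := by
  ext i j; fin_cases i <;> fin_cases j <;> simp [nT_val, upT_val, loT_val, h]

theorem nT_mul {t s : F} (h : t ≠ 0) (h' : s ≠ 0) : nT t h * nT s h' = nT 1 one_ne_zero * nT (s / t) (div_ne_zero h' h) := by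
  ext i j; fin_cases i <;> fin_cases j <;> simp [nT_val] <;> field_simp

theorem nT_sq {s : F} (h : s ≠ 0) : nT 1 one_ne_zero * nT 1 one_ne_zero * nT s h = nT (-s) (neg_ne_zero.2 h) := by
  ext i j; fin_cases i <;> fin_cases j <;> simp [nT_val, inv_neg]

theorem mul_upT {m : SL(2, F)} (h : m 0 0 = 0) (t : F) : m * upT t = loT (-(t * m 1 0 ^ 2)) * m := by
  have := m.det_coe
  rw [Matrix.det_fin_two, h] at this
  ext i j; fin_cases i <;> fin_cases j <;> simp [upT_val, loT_val, h, Matrix.mul_apply, Fin.sum_univ_two]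
  linear_combination (-(t * m 1 0)) * this

theorem mul_loT {m : SL(2, F)} (h : m 1 1 = 0) (t : F) : m * loT t = upT (-(t * m 0 1 ^ 2)) * m := by
  have := m.det_coe
  rw [Matrix.det_fin_two, h] at this
  ext i j; fin_cases i <;> fin_cases j <;> simp [upT_val, loT_val, h, Matrix.mul_apply, Fin.sum_univ_two]
  linear_combination (-(t * m 0 1)) * this

/-- an irreducible nontrivial module of `SL₂(F)` -/
structure Irr (p : ℕ) (σ : SL(2, F) →* G) (V : Subgroup G) : Prop where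
  ea : IsElementaryAbelian p V
  norm : σ.range ≤ 𝐍(V)
  irr : ∀ U ≤ V, σ.range ≤ 𝐍(U) → U = ⊥ ∨ U = V
  nt : ¬ V ≤ 𝐂(σ.range)
  pg : IsPGroup p (upU F)

namespace Irr

variable {σ : SL(2, F) →* G} {v : G}

omit [Group G] in
theorem mem_up {G : Type*} [Group G] {σ : SL(2, F) →* G} {v : G} :
    v ∈ 𝐂((upU F).map σ) ↔ ∀ t, σ (upT t) * v = v * σ (upT t) :=
  ⟨fun h t => h _ ⟨_, ⟨t, rfl⟩, rfl⟩, by rintro h _ ⟨_, ⟨t, rfl⟩, rfl⟩; exact h t⟩

theorem lo_conj {m : SL(2, F)} (e : m 1 1 = 0) (hv : v ∈ 𝐂((upU F).map σ)) (s : F) :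
    σ (loT s) * ((σ m)⁻¹ * v * σ m) = (σ m)⁻¹ * v * σ m * σ (loT s) := by
  have := congrArg σ (mul_loT e s)
  rw [map_mul, map_mul] at this
  rw [mul_assoc _ (σ m), this, ← mul_assoc ((σ m)⁻¹ * v), mul_assoc _ v (σ (upT _)), ← mem_up.1 hv,
    ← mul_inv_eq_iff_eq_mul.2 this]
  group

theorem up_conj {m : SL(2, F)} (e : m 0 0 = 0) (hv : ∀ s, σ (loT s) * v = v * σ (loT s)) :
    (σ m)⁻¹ * v * σ m ∈ 𝐂((upU F).map σ) := mem_up.2 fun s => by
  have := congrArg σ (mul_upT e s)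
  rw [map_mul, map_mul] at this
  rw [mul_assoc _ (σ m), this, ← mul_assoc ((σ m)⁻¹ * v), mul_assoc _ v (σ (loT _)), ← hv, ← mul_inv_eq_iff_eq_mul.2 this]
  group

variable (h : Irr p σ V)
include h

theorem ab : V ≤ 𝐂(V) := isElemAb_le_centralizer h.ea

theorem nV (m : SL(2, F)) : σ m ∈ 𝐍(V) := h.norm ⟨m, rfl⟩

theorem eq_one (hv : v ∈ V) (h1 : v ∈ 𝐂((upU F).map σ)) (h2 : ∀ s, σ (loT s) * v = v * σ (loT s)) : v = 1 := by
  have := SL2_eq_top_of_upU_le (H := 𝐂(zpowers v).comap σ) (map_le_iff_le_comap.1 (le_centralizer_iff.1 (zpowers_le.2 h1)))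
    (g := loT 1) (centralizer_zpowers v ▸ mem_centralizer_singleton_iff.2 (h2 1) : σ _ ∈ 𝐂(zpowers v)) (by simp [loT_val])
  refine mem_bot.1 (((h.irr _ inf_le_left (le_normalizer_inf h.norm (le_normalizer_centralizer le_normalizer))).resolve_right
    fun e => h.nt (e.ge.trans inf_le_right)).le ⟨hv, ?_⟩)
  rintro _ ⟨m, rfl⟩
  exact (this.ge (mem_top m) v (mem_zpowers v)).symm

variable [Finite G] [Fact p.Prime]

/-- the dual form of the theorem of Curtis and Smith -/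
theorem quad (hc : Nat.card V ≤ Nat.card ↥(V ⊓ 𝐂((upU F).map σ)) ^ 2) : ⁅V, (upU F).map σ⁆ ≤ 𝐂((upU F).map σ) := by
  set S := (upU F).map σ
  have nS : S ≤ 𝐍(V) := (map_le_range _ _).trans h.norm
  have pV := isElemAb_isPGroup h.ea
  have hD : ⁅V, S⁆ ⊔ (V ⊓ 𝐂(S)) ≤ V := sup_le (commutator_le_left_of_le_normalizer nS) inf_le_left
  have key : (⁅V, S⁆ ⊔ (V ⊓ 𝐂(S))) ⊓ cj[(σ (nT 1 one_ne_zero))⁻¹] (V ⊓ 𝐂(S)) = ⊥ := by
    rcases h.irr (⨅ m, cj[σ m] (⁅V, S⁆ ⊔ (V ⊓ 𝐂(S)))) ((iInf_le _ 1).trans (by rwa [map_one, cj_one])) (by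
      rintro _ ⟨k, rfl⟩
      refine mem_normalizer_of_cj_le (le_iInf fun m => (cj_mono _ (iInf_le _ (k⁻¹ * m))).trans ?_)
      rw [← cj_mul, ← map_mul, mul_inv_cancel_left]) with e | e
    · refine le_bot_iff.1 (e ▸ le_iInf fun m v hv => mem_cj.2 ?_)
      have h2 : ∀ s, σ (loT s) * v = v * σ (loT s) := fun s => by
        simpa [mul_assoc] using lo_conj (m := nT 1 one_ne_zero) rfl (mem_cj.1 hv.2).2 s
      by_cases c : m 0 0 = 0
      · exact mem_sup_right ⟨conj_mem_of_mem_normalizer' (h.nV m) (hD hv.1), up_conj c h2⟩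
      have b : σ (loT (-(m 1 0 / m 0 0)) * m) ∈ 𝐍(S) := le_normalizer_map σ ⟨_, mem_normalizer_upU.2 (by
        simp [loT_val, Matrix.mul_apply, Fin.sum_univ_two, c]), rfl⟩
      have := conj_mem_of_mem_normalizer' ((le_normalizer_sup (le_normalizer_commutator inf_le_left inf_le_right)
        (le_normalizer_inf inf_le_left (le_normalizer_centralizer inf_le_right))) (mem_inf.2 ⟨h.nV _, b⟩)) hv.1
      rwa [map_mul, mul_assoc, ← mul_assoc v, ← h2, _root_.mul_inv_rev, mul_assoc, mul_assoc, inv_mul_cancel_left,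
        ← mul_assoc] at this
    · have e' := e.ge.trans (iInf_le _ 1)
      rw [map_one, cj_one] at e'
      exact absurd ((le_of_le_commutator_sup (pV.to_sup_of_normal_left' (h.pg.map σ) nS) le_sup_left le_sup_right
        (sup_le (le_nV h.ab le_rfl inf_le_left) (le_normalizer_inf nS (le_normalizer_centralizer le_normalizer))) e').trans
        inf_le_right) fun c => h.nt fun v hv => by
          rw [h.eq_one hv (c hv) fun s => by
            simpa [mul_assoc] using lo_conj (m := nT 1 one_ne_zero) rfl (c (conj_mem_of_mem_normalizer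
              (h.nV (nT 1 one_ne_zero)) hv)) s]
          exact one_mem _
  have hc' := card_sup_mul_card_inf (le_nV h.ab hD (cj_le_of_mem_normalizer (inv_mem (h.nV (nT 1 one_ne_zero))) inf_le_left) :
    _ ≤ 𝐍(cj[(σ (nT 1 one_ne_zero))⁻¹] (V ⊓ 𝐂(S))))
  rw [key, card_bot, mul_one, card_cj] at hc'
  have := (hc' ▸ card_le_of_le (sup_le hD (cj_le_of_mem_normalizer (inv_mem (h.nV _)) inf_le_left))).trans hc
  rw [pow_two] at this
  exact le_sup_left.trans ((eq_of_le_of_card_ge le_sup_right (Nat.le_of_mul_le_mul_right this Nat.card_pos)).ge.trans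
    inf_le_right)

theorem off [Finite F] (hq : ⁅V, (upU F).map σ⁆ ≤ 𝐂((upU F).map σ)) :
    Nat.card V ≤ Nat.card F * Nat.card ↥(V ⊓ 𝐂((upU F).map σ)) := by
  set S := (upU F).map σ
  have q1 : ∀ t, ∀ v ∈ V, ⁅σ (upT t), v⁆ ∈ 𝐂(S) := fun t v hv =>
    hq (commutator_comm S V ▸ commutator_mem_commutator ⟨_, ⟨t, rfl⟩, rfl⟩ hv)
  have q2 : ∀ t, ∀ v ∈ V, ∀ s, σ (loT s) * ⁅σ (loT t), v⁆ = ⁅σ (loT t), v⁆ * σ (loT s) := fun t v hv s => by
    have := lo_conj (m := nT 1 one_ne_zero) rfl (q1 (-(t * 1 ^ 2)) _ (conj_mem_of_mem_normalizer (h.nV (nT 1 one_ne_zero)) hv)) s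
    have e := congrArg σ (mul_loT (m := nT 1 one_ne_zero) rfl t)
    rw [map_mul, map_mul, ← mul_inv_eq_iff_eq_mul] at e
    rwa [show σ (upT (-(t * 1 ^ 2))) = _ from e.symm, ← cm_conj, show ∀ a b : G, a⁻¹ * (a * b * a⁻¹) * a = b from
      fun _ _ => by group] at this
  have inv : ∀ {t} (t0 : t ≠ 0), σ (nT t t0) = (σ (nT (-t) (neg_ne_zero.2 t0)))⁻¹ := fun t0 => by
    rw [← map_inv]; congr 1; ext i j; fin_cases i <;> fin_cases j <;> simp [nT_val, Matrix.adjugate_fin_two, inv_neg]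
  have k1 : ∀ {t} (t0 : t ≠ 0), ∀ v ∈ V ⊓ 𝐂(S), σ (nT t t0) * v * (σ (nT t t0))⁻¹ = ⁅σ (loT (-t⁻¹)), v⁆ := fun {t} t0 v hv => by
    have c := cm_mem (h.nV (loT (-t⁻¹))) hv.1
    have e : σ (nT t t0) * v * (σ (nT t t0))⁻¹ * ⁅σ (loT (-t⁻¹)), v⁆⁻¹ = ⁅σ (upT t), ⁅σ (loT (-t⁻¹)), v⁆⁆ * v := by
      rw [nT_eq, map_mul, map_mul, mul_assoc _ (σ (upT t)), mem_up.1 hv.2, mul_inv_eq_iff_eq_mul, mul_assoc _ v,
        ← h.ab hv.1 _ c]
      have := mem_up.1 hv.2 t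
      simp only [commutatorElement_def]
      calc _ = σ (upT t) * σ (loT (-t⁻¹)) * v * (σ (loT (-t⁻¹)))⁻¹ * (σ (upT t))⁻¹ := by group
        _ = σ (upT t) * σ (loT (-t⁻¹)) * v * (σ (loT (-t⁻¹)))⁻¹ * v⁻¹ * (σ (upT t))⁻¹ * (σ (upT t) * v * (σ (upT t))⁻¹) := by group
        _ = _ := by rw [this]; group
    refine mul_inv_eq_one.1 (h.eq_one (mul_mem (conj_mem_of_mem_normalizer (h.nV _) hv.1) (inv_mem c))
      (e ▸ mul_mem (q1 t _ c) hv.2) fun s => ?_)
    refine Commute.mul_right ?_ (Commute.inv_right (q2 _ v hv.1 s))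
    rw [inv t0, inv_inv]
    exact lo_conj rfl hv.2 s
  have k2 : ∀ {t} (t0 : t ≠ 0), ∀ v ∈ V, (∀ s, σ (loT s) * v = v * σ (loT s)) →
      σ (nT t t0) * v * (σ (nT t t0))⁻¹ = ⁅σ (upT t), v⁆ := fun {t} t0 v hv hv' => by
    have c := cm_mem (h.nV (upT t)) hv
    have e : σ (nT t t0) * v * (σ (nT t t0))⁻¹ * ⁅σ (upT t), v⁆⁻¹ = ⁅σ (loT (-t⁻¹)), ⁅σ (upT t), v⁆⁆ * v := by
      rw [nT_eq', map_mul, map_mul, mul_assoc _ (σ (loT _)), hv', mul_inv_eq_iff_eq_mul, mul_assoc _ v, ← h.ab hv _ c]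
      have := hv' (-t⁻¹)
      simp only [commutatorElement_def]
      calc _ = σ (loT (-t⁻¹)) * σ (upT t) * v * (σ (upT t))⁻¹ * (σ (loT (-t⁻¹)))⁻¹ := by group
        _ = σ (loT (-t⁻¹)) * σ (upT t) * v * (σ (upT t))⁻¹ * v⁻¹ * (σ (loT (-t⁻¹)))⁻¹ *
          (σ (loT (-t⁻¹)) * v * (σ (loT (-t⁻¹)))⁻¹) := by group
        _ = _ := by rw [this]; group
    refine mul_inv_eq_one.1 (h.eq_one (mul_mem (conj_mem_of_mem_normalizer (h.nV _) hv) (inv_mem c))
      (mul_mem ?_ (inv_mem (q1 t v hv))) fun s => e ▸ Commute.mul_right (q2 _ _ c s) (hv' s))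
    rw [inv t0, inv_inv]
    exact up_conj rfl hv'
  obtain ⟨u, hu, u0⟩ := (bot_or_exists_ne_one _).resolve_left (inf_centralizer_ne_bot (isElemAb_isPGroup h.ea) (h.pg.map σ)
    ((map_le_range _ _).trans h.norm) fun e => h.nt (e ▸ bot_le))
  let f : Multiplicative F →* G := MonoidHom.mk' (fun s => ⁅σ (loT s.toAdd), u⁆) fun s t => by
    rw [toAdd_mul, ← loT_mul, map_mul, cm_left h.ab (h.nV _) (h.nV _) hu.1 (q2 _ u hu.1 _)]
  have hf : ∀ {s} (s0 : s ≠ 0), σ (nT s s0) * u * (σ (nT s s0))⁻¹ ∈ f.range := fun s0 => ⟨.ofAdd _, (k1 s0 u hu).symm⟩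
  have hf' : ∀ r ∈ f.range, r = 1 ∨ ∃ s s0, r = σ (nT s s0) * u * (σ (nT s s0))⁻¹ := by
    rintro _ ⟨s, rfl⟩
    by_cases s0 : s.toAdd = 0
    · exact .inl (by simp [f, s0, loT_zero])
    · exact .inr ⟨-s.toAdd⁻¹, by simpa using s0, by rw [k1 _ u hu]; simp [f]⟩
  have fV : f.range ≤ V := by rintro _ ⟨s, rfl⟩; exact cm_mem (h.nV _) hu.1
  have fl : ∀ r ∈ f.range, ∀ s, σ (loT s) * r = r * σ (loT s) := by rintro _ ⟨s, rfl⟩; exact q2 _ u hu.1
  have hR : cj[σ (nT 1 one_ne_zero)] f.range ≤ V ⊓ 𝐂(S) := le_inf (cj_le_of_mem_normalizer (h.nV _) fV)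
    (cj_le_iff_forall.2 fun r hr => by rw [inv, inv_inv]; exact up_conj rfl (fl r hr))
  have top := SL2_eq_top_of_upU_le (H := 𝐍(cj[σ (nT 1 one_ne_zero)] f.range ⊔ f.range).comap σ) (g := nT 1 one_ne_zero) (by
    rintro _ ⟨t, rfl⟩
    refine mem_normalizer_of_cj_le ?_
    rw [cj_sup, cj_eq_self (centralizer_le_normalizer _ (le_centralizer_iff.1 (hR.trans inf_le_right) ⟨_, ⟨t, rfl⟩, rfl⟩))]
    refine sup_le le_sup_left (cj_le_iff_forall.2 fun r hr => ?_)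
    rw [comm_conj_eq]
    refine mul_mem (mem_sup_left ?_) (mem_sup_right hr)
    rcases eq_or_ne t 0 with rfl | t0
    · simp [upT_zero]
    rw [← k2 t0 r (fV hr) (fl r hr)]
    obtain rfl | ⟨s, s0, rfl⟩ := hf' r hr
    · simp
    have := conj_mem_cj (σ (nT 1 one_ne_zero)) (hf (div_ne_zero s0 t0))
    rwa [show ∀ a b c : G, a * (b * c * b⁻¹) * a⁻¹ = a * b * c * (a * b)⁻¹ from fun _ _ _ => by group, ← map_mul,
      ← nT_mul t0 s0, map_mul, ← show ∀ a b c : G, a * (b * c * b⁻¹) * a⁻¹ = a * b * c * (a * b)⁻¹ from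
        fun _ _ _ => by group] at this) (by
    refine mem_normalizer_of_cj_le ?_
    rw [cj_sup, ← cj_mul]
    refine sup_le (le_sup_of_le_right (cj_le_iff_forall.2 fun r hr => ?_)) le_sup_left
    obtain rfl | ⟨s, s0, rfl⟩ := hf' r hr
    · simp
    have := hf (neg_ne_zero.2 s0)
    rwa [← nT_sq s0, map_mul, map_mul, ← show ∀ a b c : G, a * (b * c * b⁻¹) * a⁻¹ = a * b * c * (a * b)⁻¹ from
      fun _ _ _ => by group] at this) (by simp [nT])
  have e := (h.irr _ (sup_le (hR.trans inf_le_left) fV) (by rintro _ ⟨m, rfl⟩; exact top.ge (mem_top m))).resolve_left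
    fun e => u0 (by simpa using mem_bot.1 (e.le (mem_sup_right (hf one_ne_zero))))
  have c := card_sup_mul_card_inf (le_nV h.ab (hR.trans inf_le_left) fV)
  rw [e] at c
  refine (Nat.le_mul_of_pos_right _ Nat.card_pos).trans (c.le.trans ?_)
  rw [mul_comm]
  exact Nat.mul_le_mul (Nat.card_le_card_of_surjective _ f.rangeRestrict_surjective) (card_le_of_le hR)

theorem acts [Fintype F] [CharP F p] (hi : Injective σ) (hq : ⁅V, (upU F).map σ⁆ ≤ 𝐂((upU F).map σ)) :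
    ActsAsSL2OnSection F ⊤ σ.range V ⊥ := by
  have h3 := CF.PLocal.isSylowIn_upU (F := F) p
  have hS := (isSyl_of_not_dvd_relIndex h3.isPGroup le_top h3.not_dvd).map σ
  have n1 : ¬ (⊤ : Subgroup SL(2, F)) ≤ 𝐍(upU F) := fun c => one_ne_zero (α := F) (mem_normalizer_upU.1 (c (mem_top (loT 1))))
  have hM := UMax.map σ (Y := upU F) ⟨le_normalizer, lt_of_le_not_ge le_top n1, fun X a b g hg => mem_normalizer_upU.2
    (by_contra fun c => b.ne (SL2_eq_top_of_upU_le a hg c))⟩ (by rw [σ.ker_eq_bot_iff.2 hi]; simp)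
  have hO := core_map (p := p) hi ⊤
  have n2 := mt (norm_map_iff hi).1 n1
  rw [pCoreOf_top, CF.PLocal.pCore_SL2_eq_bot, Subgroup.map_bot] at hO
  rw [← MonoidHom.range_eq_map] at hS hM hO n2
  have e0 := (h.irr _ inf_le_left (le_normalizer_inf h.norm (le_normalizer_centralizer le_normalizer))).resolve_right
    fun e => h.nt (e.ge.trans inf_le_right)
  have hy : ¬ V ⊓ 𝐂((upU F).map σ) ≤ 𝐂(σ.range) := fun c => inf_centralizer_ne_bot (isElemAb_isPGroup h.ea) hS.isPGroup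
    (hS.le.trans h.norm) (fun e => h.nt (e ▸ bot_le)) (le_bot_iff.1 (e0 ▸ le_inf inf_le_left c))
  have c1 : Nat.card ((upU F).map σ) = Nat.card F := by rw [card_map_of_injective hi, CF.PLocal.card_upU]
  obtain ⟨F', _, _, ρ, ψ, n, -⟩ := natOn_of_quad hS hM n2 h.ab h.norm (hO ▸ bot_le) hy hq (by
    rw [hO, card_bot, one_mul, c1]; exact h.off hq)
  have c2 := n.card_A
  rw [le_bot_iff.1 ((inf_le_core hS hM (le_normalizer_centralizer h.norm) (not_res_le hS hy)).trans hO.le), card_bot, mul_one, c1,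
    Nat.card_eq_fintype_card, Nat.card_eq_fintype_card] at c2
  have n' := n.map_field (FiniteField.ringEquivOfCardEq c2.symm)
  exact e0 ▸ n'.acts le_rfl h.norm n'.ψsurj

end Irr

end CF.FF
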