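import Cfsg.Agent.Fgs2.FrobCount
import Cfsg.Agent.Solv.Hall


/-! Frobenius' conjecture: the reduction to simple groups. -/

set_option autoImplicit false

open MulAction Subgroup CF.Fgs2

namespace CF.FrC

universe u

variable {G : Type*} [Group G]

variable (G) in
/-- the number of solutions of `x ^ n = 1` -/
noncomputable def fr (n : ℕ) : ℕ := {x : G | x ^ n = 1}.ncard

theorem fr_dvd [Finite G] {n : ℕ} (hn : n ∣ Nat.card G) : n ∣ fr G n := dvd_card_pow_eq_one hn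

theorem fr_pos [Finite G] (n : ℕ) : 0 < fr G n :=
  (Set.ncard_pos (Set.toFinite _)).2 ⟨1, one_pow n⟩

theorem le_fr [Finite G] {n : ℕ} (hn : n ∣ Nat.card G) : n ≤ fr G n :=
  Nat.le_of_dvd (fr_pos n) (fr_dvd hn)

/-- Frobenius' theorem in a coset of a normal subgroup -/
theorem card_dvd_coset [Finite G] (N : Subgroup G) [N.Normal] {H : Subgroup G} (hH : H ≤ N) {n : ℕ}
    (hn : Nat.card H ∣ n) (c : G ⧸ N) :
    Nat.card H ∣ {x : G | x ^ n = 1 ∧ (x : G ⧸ N) = c}.ncard := by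
  have hq : ∀ h ∈ H, (h : G ⧸ N) = 1 := fun h hh => (QuotientGroup.eq_one_iff h).2 (hH hh)
  refine card_dvd_of_equivariant (X := ℕ → G ⧸ H) _ (Set.toFinite _)
    (fun x t => ((x ^ t : G) : G ⧸ H)) (fun x hx h => ⟨h * x * (h : G)⁻¹, ⟨?_, ?_⟩, ?_⟩) fun x hx => ?_
  · rw [conj_pow, hx.1, mul_one, mul_inv_cancel]
  · rw [QuotientGroup.mk_mul, QuotientGroup.mk_mul, hq _ h.2, hq _ (H.inv_mem h.2), one_mul, mul_one,
      hx.2]
  · ext t
    change _ = (((h : G) * x ^ t : G) : G ⧸ H)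
    rw [conj_pow, QuotientGroup.eq]
    simp [mul_assoc]
  set F := stabilizer H (fun t : ℕ => ((x ^ t : G) : G ⧸ H)) with hF
  have hmem : ∀ f : H, f ∈ F ↔ ∀ t : ℕ, (f : G) • ((x ^ t : G) : G ⧸ H) = (x ^ t : G) :=
    fun f => funext_iff
  have hx0 : x ^ (orderOf x - 1 + 1) = 1 := by
    rw [Nat.sub_add_cancel (orderOf_pos x), pow_orderOf_eq_one]
  have hsm : ∀ (y : G) (t : ℕ), ((y ^ (t + 1) : G) : G ⧸ H) = y • ((y ^ t : G) : G ⧸ H) :=
    fun y t => by rw [pow_succ']; rfl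
  rw [← Nat.card_coe_set_eq]
  symm
  refine Nat.card_congr (Equiv.ofBijective (fun f => ⟨f.1 * x, ⟨?_, ?_⟩, ?_⟩) ⟨?_, ?_⟩)
  · have h1 : ∀ a ∈ F.map H.subtype, (f.1 * x)⁻¹ * a * x ∈ F.map H.subtype := by
      rintro _ ⟨a, ha, rfl⟩
      have h2 := (hmem _).1 (F.mul_mem (F.inv_mem f.2) ha)
      have h3 : ∀ t : ℕ, (((f.1 : G) * x)⁻¹ * a * x) • ((x ^ t : G) : G ⧸ H) = (x ^ t : G) := by
        intro t
        have := h2 (t + 1)
        rw [hsm, ← mul_smul, ← inv_smul_eq_iff, ← mul_smul] at this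
        convert this using 2
        simp [mul_assoc]
      have h4 : ((f.1 : G) * x)⁻¹ * a * x ∈ H := by
        have := h3 0
        rw [pow_zero] at this
        have := QuotientGroup.eq.1 this.symm
        simpa using this
      exact ⟨⟨_, h4⟩, (hmem _).2 h3, rfl⟩
    obtain ⟨a, -, ha'⟩ := brauer_pow_conj h1
    have h5 : Nat.card (F.map H.subtype) ∣ n :=
      (card_dvd_of_le (map_subtype_le F)).trans hn
    obtain ⟨k, rfl⟩ := h5
    rw [pow_mul, ha', conj_pow, ← pow_mul, hx.1, mul_one, mul_inv_cancel]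
  · rw [QuotientGroup.mk_mul, hq _ f.1.2, one_mul, hx.2]
  · ext t
    induction t with
    | zero => simp
    | succ t ih => rw [hsm, ih, mul_smul, ← hsm, (hmem _).1 f.2]
  · intro f g hfg
    exact Subtype.ext (Subtype.ext (mul_right_cancel (congrArg Subtype.val hfg)))
  · rintro ⟨y, hy, hy'⟩
    have h1 : ∀ t : ℕ, ((y ^ t : G) : G ⧸ H) = (x ^ t : G) := fun t => congrFun hy' t
    have h2 : ∀ t : ℕ, (y * x⁻¹) • ((x ^ (t + 1) : G) : G ⧸ H) = (x ^ (t + 1) : G) := fun t => by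
      conv_rhs => rw [← h1 (t + 1), hsm y, h1]
      rw [hsm x, mul_smul, inv_smul_smul]
    have h3 : ∀ t : ℕ, (y * x⁻¹) • ((x ^ t : G) : G ⧸ H) = (x ^ t : G) := by
      rintro (_ | t)
      · rw [pow_zero, ← hx0]; exact h2 _
      · exact h2 t
    have h4 : y * x⁻¹ ∈ H := by
      have := h3 0
      rw [pow_zero] at this
      have := QuotientGroup.eq.1 this.symm
      simpa using this
    exact ⟨⟨⟨_, h4⟩, (hmem _).2 h3⟩, Subtype.ext (by simp)⟩

theorem gcd_dvd_coset [Finite G] (N : Subgroup G) [N.Normal] (n : ℕ) (c : G ⧸ N) :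
    Nat.gcd n (Nat.card N) ∣ {x : G | x ^ n = 1 ∧ (x : G ⧸ N) = c}.ncard := by
  rw [Nat.dvd_iff_prime_pow_dvd_dvd]
  intro p k hp hk
  have := Fact.mk hp
  obtain ⟨H, hH⟩ := Sylow.exists_subgroup_card_pow_prime p (hk.trans (Nat.gcd_dvd_right _ _))
  rw [← hH, ← card_map_of_injective N.subtype_injective] at hk ⊢
  exact card_dvd_coset N (map_subtype_le H) (hk.trans (Nat.gcd_dvd_left _ _)) c

theorem fr_subgroup [Finite G] (N : Subgroup G) (n : ℕ) :
    {x : G | x ^ n = 1 ∧ x ∈ N}.ncard = fr N (Nat.gcd n (Nat.card N)) := by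
  rw [fr, ← Set.ncard_image_of_injective _ N.subtype_injective]
  congr 1
  ext x
  refine ⟨fun ⟨h1, h2⟩ => ⟨⟨x, h2⟩, ?_, rfl⟩, ?_⟩
  · exact pow_gcd_eq_one.2 ⟨Subtype.ext h1, pow_card_eq_one'⟩
  · rintro ⟨y, hy, rfl⟩
    exact ⟨congrArg Subtype.val (pow_gcd_eq_one.1 hy).1, y.2⟩

/-- the equation is inherited by normal subgroups and quotients -/
theorem red [Finite G] (N : Subgroup G) [N.Normal] {n m u : ℕ} (hn : n ∣ Nat.card G) (h : fr G n = n)
    (hm : Nat.gcd n (Nat.card N) = m) (hu : n = m * u) :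
    u ∣ Nat.card (G ⧸ N) ∧ fr N m = m ∧ fr (G ⧸ N) u = u := by
  classical
  have hn0 : 0 < n := Nat.pos_of_dvd_of_pos hn Nat.card_pos
  have m0 : 0 < m := hm ▸ Nat.gcd_pos_of_pos_left _ hn0
  obtain ⟨v, hv⟩ : m ∣ Nat.card N := hm ▸ Nat.gcd_dvd_right _ _
  have huv : u.Coprime v := by
    have := Nat.coprime_div_gcd_div_gcd (m := n) (n := Nat.card N) (hm ▸ m0)
    rwa [hm, hu, hv, Nat.mul_div_cancel_left _ m0, Nat.mul_div_cancel_left _ m0] at this
  have hu' : u ∣ Nat.card (G ⧸ N) := by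
    refine huv.dvd_of_dvd_mul_right (Nat.dvd_of_mul_dvd_mul_left m0 ?_)
    rw [← hu, mul_left_comm, ← hv, ← card_eq_card_quotient_mul_card_subgroup]; exact hn
  set T : G ⧸ N → Set G := fun c => {x : G | x ^ n = 1 ∧ (x : G ⧸ N) = c}
  have ne : ∀ c : G ⧸ N, c ^ u = 1 → m ≤ (T c).ncard := by
    intro c hc
    obtain ⟨x, rfl⟩ := QuotientGroup.mk_surjective c
    obtain ⟨e, e1, e2⟩ := Nat.chineseRemainder huv 1 0
    obtain ⟨w, rfl⟩ := (Nat.modEq_zero_iff_dvd.1 e2)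
    refine Nat.le_of_dvd ((Set.ncard_pos (Set.toFinite _)).2 ⟨x ^ (v * w), ?_, ?_⟩)
      (hm ▸ gcd_dvd_coset N n _)
    · have h1 : (x ^ u) ^ Nat.card N = 1 :=
        orderOf_dvd_iff_pow_eq_one.1 (orderOf_dvd_natCard N ((QuotientGroup.eq_one_iff _).1 hc))
      rw [← pow_mul, show v * w * n = u * Nat.card N * w by rw [hu, hv]; ring, pow_mul, pow_mul, h1,
        one_pow]
    · rw [QuotientGroup.mk_pow, pow_eq_pow_iff_modEq.2 (e1.of_dvd (orderOf_dvd_of_pow_eq_one hc)),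
        pow_one]
  set S := (Set.toFinite {c : G ⧸ N | c ^ u = 1}).toFinset
  have hS : S.card = fr (G ⧸ N) u := (Set.ncard_eq_toFinset_card _ _).symm
  have h1 : (1 : G ⧸ N) ∈ S := by simp [S]
  have key : ∑ c ∈ S, (T c).ncard ≤ n := by
    rw [← Finset.sum_congr rfl fun c _ => Set.ncard_eq_toFinset_card (T c) (Set.toFinite _) |>.symm,
      ← Finset.card_biUnion]
    · refine le_of_le_of_eq ?_ h
      rw [fr, Set.ncard_eq_toFinset_card _ (Set.toFinite _)]
      refine Finset.card_le_card fun x hx => ?_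
      obtain ⟨c, -, hc⟩ := Finset.mem_biUnion.1 hx
      exact (Set.Finite.mem_toFinset _).2 ((Set.Finite.mem_toFinset _).1 hc).1
    · intro c _ d _ hcd
      exact Finset.disjoint_left.2 fun x h1 h2 => hcd
        (((Set.Finite.mem_toFinset _).1 h1).2.symm.trans ((Set.Finite.mem_toFinset _).1 h2).2)
  rw [← Finset.add_sum_erase _ _ h1] at key
  have h2 := Finset.card_nsmul_le_sum (S.erase 1) (fun c => (T c).ncard) m fun c hc =>
    ne c (by simpa [S] using Finset.mem_of_mem_erase hc)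
  rw [Finset.card_erase_of_mem h1, hS, smul_eq_mul] at h2
  have h3 : (T 1).ncard = fr N m := by
    rw [← hm, ← fr_subgroup]
    simp only [T, QuotientGroup.eq_one_iff]
  have h4 := le_fr (G := N) ⟨v, hv⟩
  have h5 := le_fr hu'
  have h6 : 0 < u := Nat.pos_of_mul_pos_left (hu ▸ hn0)
  obtain ⟨a, ha⟩ : ∃ a, fr (G ⧸ N) u = a + 1 := ⟨_, (Nat.sub_add_cancel (fr_pos u)).symm⟩
  obtain ⟨b, rfl⟩ : ∃ b, u = b + 1 := ⟨_, (Nat.sub_add_cancel h6).symm⟩
  rw [ha, Nat.add_sub_cancel] at h2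
  rw [h3] at key
  have h7 : b * m ≤ a * m := Nat.mul_le_mul_right _ (by omega)
  refine ⟨hu', by nlinarith, ?_⟩
  have : a * m ≤ b * m := by nlinarith
  have := Nat.le_of_mul_le_mul_right this m0
  omega

theorem eq_of_card [Finite G] {n : ℕ} (h : fr G n = n) {K : Subgroup G} (hK : Nat.card K = n) :
    (K : Set G) = {x : G | x ^ n = 1} :=
  Set.eq_of_subset_of_ncard_le (fun x hx => orderOf_dvd_iff_pow_eq_one.1
    (hK ▸ orderOf_dvd_natCard K hx)) (h.trans hK.symm).le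

theorem normal_of_eq {n : ℕ} {K : Subgroup G} (hK : (K : Set G) = {x : G | x ^ n = 1}) : K.Normal :=
  ⟨fun x hx g => by
    have hx' : x ∈ (K : Set G) := hx
    change _ ∈ (K : Set G)
    rw [hK] at hx' ⊢
    change _ = _
    rw [conj_pow, show x ^ n = 1 from hx', mul_one, mul_inv_cancel]⟩

/-- Frobenius' conjecture for a simple group -/
def FS (G : Type*) [Group G] : Prop := ∀ n, n ∣ Nat.card G → fr G n = n → n = 1 ∨ n = Nat.card G

/-- all composition factors satisfy Frobenius' conjecture -/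
def CFS (G : Type u) [Group G] : Prop := ∀ H : Subgroup G, H.IsSubnormal →
  ∀ (S : Type u) [Group S] (φ : H →* S), Function.Surjective φ → IsSimpleGroup S → FS S

theorem CFS.sub {G : Type u} [Group G] (h : CFS G) (N : Subgroup G) [hN : N.Normal] : CFS N :=
  fun H hH S _ φ hφ s => h _ (hH.trans' hN.isSubnormal) S
    (φ.comp (H.equivMapOfInjective _ N.subtype_injective).symm.toMonoidHom)
    (hφ.comp (MulEquiv.surjective _)) s

theorem CFS.quot {G : Type u} [Group G] (h : CFS G) (N : Subgroup G) [N.Normal] : CFS (G ⧸ N) :=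
  fun H hH S _ φ hφ s => h _ (hH.comap (QuotientGroup.mk' N)) S
    (φ.comp ((QuotientGroup.mk' N).subgroupComap H))
    (hφ.comp (MonoidHom.subgroupComap_surjective_of_surjective _ _ (QuotientGroup.mk'_surjective N))) s

open CF.Solv in
theorem main (G : Type u) [Group G] [Finite G] : CFS G → ∀ n : ℕ, n ∣ Nat.card G →
    fr G n = n → ∃ K : Subgroup G, Nat.card K = n := by
  refine group_induction (P := fun G _ _ => CFS G → ∀ n : ℕ, n ∣ Nat.card G →
    fr G n = n → ∃ K : Subgroup G, Nat.card K = n) ?_ G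
  intro G _ _ ih hG n hn hc
  rcases subsingleton_or_nontrivial G with _ | _
  · exact ⟨⊤, by rw [card_top]; exact (Nat.eq_one_of_dvd_one (Nat.card_unique (α := G) ▸ hn)).symm ▸ Nat.card_unique⟩
  by_cases s : IsSimpleGroup G
  · rcases hG ⊤ .top G (⊤ : Subgroup G).subtype (fun x => ⟨⟨x, trivial⟩, rfl⟩) s n hn hc with e | e
    · exact ⟨⊥, e ▸ card_bot⟩
    · exact ⟨⊤, e ▸ card_top⟩
  obtain ⟨N, hN, n1, n2⟩ : ∃ N : Subgroup G, N.Normal ∧ N ≠ ⊥ ∧ N ≠ ⊤ := by
    by_contra! e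
    exact s ⟨fun N hN => or_iff_not_imp_left.2 (e N hN)⟩
  have key : ∀ (K : Subgroup G) [K.Normal] (u : ℕ), K ≠ ⊥ → n = Nat.gcd n (Nat.card K) * u →
      ∃ M, K ≤ M ∧ K.relIndex M = u := by
    intro K _ u k e
    obtain ⟨a, -, b⟩ := red K hn hc rfl e
    obtain ⟨M, hM⟩ := ih _ (card_quotient_lt k) (hG.quot K) u a b
    exact ⟨_, le_comap_mk' K M, by rw [← Solv.card_map_mk', map_comap_mk', hM]⟩
  obtain ⟨u, hu⟩ := Nat.gcd_dvd_left n (Nat.card N)
  by_cases m1 : Nat.gcd n (Nat.card N) = 1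
  · obtain ⟨M, h1, h2⟩ := key N u n1 hu
    rw [m1, one_mul] at hu
    obtain ⟨K, -, -, -, hK⟩ := exists_complement_of_coprime h1 le_normalizer_of_normal
      (h2 ▸ hu ▸ Nat.Coprime.symm m1)
    exact ⟨K, hK.trans (h2.trans hu.symm)⟩
  obtain ⟨-, a, -⟩ := red N hn hc rfl hu
  obtain ⟨K, hK⟩ := ih _ (card_lt_of_ne_top n2) (hG.sub N) _ (Nat.gcd_dvd_right _ _) a
  have e := eq_of_card a hK
  have : (K.map N.subtype).Normal := ⟨by
    rintro _ ⟨x, hx, rfl⟩ g
    refine ⟨⟨_, hN.conj_mem _ x.2 g⟩, ?_, rfl⟩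
    rw [e] at hx ⊢
    refine Subtype.ext ?_
    rw [coe_pow, conj_pow, show (x : G) ^ _ = 1 from congrArg Subtype.val hx, mul_one, mul_inv_cancel]
    rfl⟩
  rw [← card_map_of_injective N.subtype_injective] at hK
  have d : Nat.gcd n (Nat.card (K.map N.subtype)) = Nat.gcd n (Nat.card N) :=
    by rw [hK]; exact Nat.gcd_eq_right (Nat.gcd_dvd_left _ _)
  obtain ⟨M, h1, h2⟩ := key (K.map N.subtype) u (fun e => m1 (by rw [← hK, e, card_bot])) (d ▸ hu)
  exact ⟨M, by rw [hu, ← hK, ← h2, CF.Solv.card_mul_relIndex h1]⟩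

end CF.FrC
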