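import Cfsg.Agent.PLocal.FrA
import Cfsg.Agent.Small.Basic
import Cfsg.Agent.Invol.Count

/-! Frobenius' conjecture: counting tools for simple groups. -/

set_option autoImplicit false

open MulAction Subgroup CF.Fgs2

namespace CF.FrC

variable {G : Type*} [Group G] [Finite G] {m n p : ℕ} {x y : G}

omit [Finite G] in
theorem fr_congr {H : Type*} [Group H] (e : G ≃* H) (n : ℕ) : fr G n = fr H n := by
  rw [fr, fr, ← Set.ncard_image_of_injective _ e.injective]
  congr 1
  ext y
  obtain ⟨x, rfl⟩ := e.surjective y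
  rw [e.injective.mem_set_image, Set.mem_ofPred_eq, Set.mem_ofPred_eq, ← map_pow, map_eq_one_iff _ e.injective]

omit [Finite G] in
theorem FS.congr {H : Type*} [Group H] (h : FS H) (e : G ≃* H) : FS G := fun n d c => by
  rw [Nat.card_congr e.toEquiv] at d ⊢
  exact h n d (fr_congr e n ▸ c)

theorem fr_mono (h : m ∣ n) : fr G m ≤ fr G n :=
  Set.ncard_le_ncard fun x hx => by
    obtain ⟨k, rfl⟩ := h
    rw [Set.mem_ofPred_eq, pow_mul, show x ^ m = 1 from hx, one_pow]

theorem fr_le_card (n : ℕ) : fr G n ≤ Nat.card G := Set.ncard_le_card _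

theorem fr_add (h : m.Coprime n) : fr G m + fr G n ≤ fr G (m * n) + 1 := by
  rw [fr, fr, ← Set.ncard_union_add_ncard_inter]
  refine add_le_add (Set.ncard_le_ncard ?_) ((Set.ncard_le_ncard (t := {1}) ?_).trans_eq (by simp))
  · rintro x (hx | hx)
    · rw [Set.mem_ofPred_eq, pow_mul, show x ^ m = 1 from hx, one_pow]
    · rw [Set.mem_ofPred_eq, mul_comm, pow_mul, show x ^ n = 1 from hx, one_pow]
  · intro x hx
    have := pow_gcd_eq_one.2 ⟨hx.1, hx.2⟩
    rwa [h, pow_one] at this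

theorem fr_eq_add_one (n : ℕ) : fr G n = {x : G | x ^ n = 1 ∧ x ≠ 1}.ncard + 1 := by
  rw [fr, ← Set.ncard_insert_of_notMem (a := (1 : G)) (by simp)]
  congr 1
  ext x
  by_cases h : x = 1 <;> simp [h]

/-- counting the conjugates of a TI-subgroup -/
theorem ti_count {A N : Subgroup G} (h : ∀ x ∈ A, x ≠ 1 → ∀ g, g * x * g⁻¹ ∈ A → g ∈ N) (u : ℕ) :
    N.index * (fr A u - 1) + 1 ≤ fr G u := by
  classical
  have := Fintype.ofFinite G
  rw [fr_eq_add_one, fr_eq_add_one (G := G), Nat.add_sub_cancel, add_le_add_iff_right,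
    Set.ncard_eq_toFinset_card', Set.ncard_eq_toFinset_card']
  refine Nat.le_of_mul_le_mul_left ?_ (Nat.card_pos (α := N))
  rw [← mul_assoc, card_mul_index, Nat.card_eq_fintype_card, ← Finset.card_univ, ← Finset.card_product]
  refine Finset.card_le_mul_card_image_of_maps_to (f := fun p : G × A => p.1 * (p.2 : G) * p.1⁻¹)
    (fun p hp => ?_) _
    fun y _ => ?_
  · simp only [Finset.mem_product, Set.mem_toFinset, Set.mem_ofPred_eq, Subtype.ext_iff] at hp ⊢
    exact ⟨by rw [conj_pow, ← coe_pow, hp.2.1]; simp, by simpa using hp.2.2⟩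
  refine Nat.le_of_not_lt fun l => l.not_ge ?_
  obtain ⟨⟨g, x⟩, hx⟩ := Finset.card_pos.1 (Nat.zero_le _ |>.trans_lt l)
  rw [Nat.card_eq_fintype_card, Fintype.card_subtype]
  simp only [Finset.mem_filter, Finset.mem_product, Set.mem_toFinset, Set.mem_ofPred_eq] at hx
  refine Finset.card_le_card_of_injOn (fun p => p.1⁻¹ * g) (fun p hp => ?_) fun p hp q hq e => ?_
  · simp only [Finset.coe_filter, Set.mem_ofPred_eq, Finset.mem_univ, true_and] at hp ⊢
    refine h x x.2 (fun e => hx.1.2.2 (Subtype.ext e)) _ ?_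
    rw [show p.1⁻¹ * g * x * (p.1⁻¹ * g)⁻¹ = p.1⁻¹ * (g * x * g⁻¹) * p.1 by group, hx.2, ← hp.2]
    simp [mul_assoc]
  · have e1 : p.1 = q.1 := by simpa using e
    simp only [Finset.coe_filter, Set.mem_ofPred_eq] at hp hq
    have := hp.2.trans hq.2.symm
    rw [e1] at this
    exact Prod.ext e1 (Subtype.ext (by simpa using this))

theorem ti_count' {A N : Subgroup G} (h : ∀ x ∈ A, x ≠ 1 → ∀ g, g * x * g⁻¹ ∈ A → g ∈ N) {u : ℕ}
    (d : u ∣ Nat.card A) : N.index * (u - 1) + 1 ≤ fr G u :=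
  le_trans (by have := le_fr d; gcongr) (ti_count h u)

theorem pow_dvd_of_dvd {o e : ℕ} (hp : p.Prime) (n0 : n ≠ 0) (h1 : o ∣ p * n) (h2 : ¬ o ∣ n)
    (h3 : p ^ e ∣ n) : p ^ (e + 1) ∣ o := by
  have o0 : o ≠ 0 := fun e => mul_ne_zero hp.ne_zero n0 (zero_dvd_iff.1 (e ▸ h1))
  rw [hp.pow_dvd_iff_le_factorization o0]
  rw [hp.pow_dvd_iff_le_factorization n0] at h3
  rw [← Nat.factorization_le_iff_dvd o0 (mul_ne_zero hp.ne_zero n0), Nat.factorization_mul hp.ne_zero n0,
    hp.factorization] at h1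
  by_contra! l
  refine h2 ((Nat.factorization_le_iff_dvd o0 n0).1 fun q => ?_)
  by_cases e : p = q
  · subst e; omega
  · simpa [Finsupp.single_apply, e] using h1 q

theorem exists_ord {e : ℕ} (hp : p.Prime) (h : fr G n = n) (d : p * n ∣ Nat.card G) (he : p ^ e ∣ n) :
    ∃ x : G, p ^ (e + 1) ∣ orderOf x := by
  have n0 : n ≠ 0 := h ▸ (fr_pos n).ne'
  obtain ⟨x, h1, h2⟩ := Set.exists_mem_notMem_of_ncard_lt_ncard (s := {x : G | x ^ n = 1})
    (t := {x : G | x ^ (p * n) = 1}) (h.trans_lt ((lt_mul_of_one_lt_left (Nat.pos_of_ne_zero n0)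
      hp.one_lt).trans_le (le_fr d)))
  exact ⟨x, pow_dvd_of_dvd hp n0 (orderOf_dvd_of_pow_eq_one h1)
    (fun e => h2 (orderOf_dvd_iff_pow_eq_one.1 e)) he⟩

theorem ncard_cl (x : G) : {y | IsConj x y}.ncard = (centralizer {x}).index :=
  CF.Invol.card_isConj_eq_index x

omit [Finite G] in
theorem ord_conj (h : IsConj x y) : orderOf x = orderOf y := by
  obtain ⟨g, rfl⟩ := isConj_iff.1 h
  exact ((MulAut.conj g).orderOf_eq x).symm

theorem index_le_fr (hx : x ^ n = 1) : (centralizer {x}).index ≤ fr G n :=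
  ncard_cl x ▸ Set.ncard_le_ncard fun _ h => orderOf_dvd_iff_pow_eq_one.1
    (ord_conj h ▸ orderOf_dvd_of_pow_eq_one hx)

theorem index_add_le_fr (hx : x ^ n = 1) (hy : y ^ n = 1) (ne : orderOf x ≠ orderOf y) :
    (centralizer {x}).index + (centralizer {y}).index ≤ fr G n := by
  have d : Disjoint {z | IsConj x z} {z | IsConj y z} :=
    Set.disjoint_left.2 fun z a b => ne ((ord_conj a).trans (ord_conj b).symm)
  rw [← ncard_cl, ← ncard_cl, ← Set.ncard_union_eq d]
  refine Set.ncard_le_ncard ?_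
  rintro z (h | h)
  · exact orderOf_dvd_iff_pow_eq_one.1 (ord_conj h ▸ orderOf_dvd_of_pow_eq_one hx)
  · exact orderOf_dvd_iff_pow_eq_one.1 (ord_conj h ▸ orderOf_dvd_of_pow_eq_one hy)

/-- isolated vertices of the prime graph -/
theorem iso_prime {r h : ℕ} (hr : r.Prime) (c : Nat.card G = r * h) (nd : ¬ r ∣ h)
    (i : ∀ x : G, r ∣ orderOf x → orderOf x = r) : ∃ k, fr G r = h * k + 1 ∧ r ∣ h * k + 1 ∧
      ∀ n, n ∣ Nat.card G → fr G n = n → ¬ r ∣ n → n % r = 1 := by
  obtain ⟨k, hk⟩ : h ∣ {x : G | orderOf x = r}.ncard := by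
    refine dvd_ncard_of_fibers _ (Set.toFinite _) ConjClasses.mk _ fun x hx => ?_
    have e : {y ∈ {x : G | orderOf x = r} | ConjClasses.mk y = ConjClasses.mk x} = {y | IsConj x y} :=
      Set.ext fun y => ⟨fun a => (ConjClasses.mk_eq_mk_iff_isConj.1 a.2).symm,
        fun a => ⟨(ord_conj a).symm.trans hx, ConjClasses.mk_eq_mk_iff_isConj.2 a.symm⟩⟩
    rw [e, ncard_cl]
    refine Nat.Coprime.dvd_of_dvd_mul_left (m := Nat.card (centralizer ({x} : Set G))) ?_
      (by rw [(centralizer ({x} : Set G)).card_mul_index, c]; exact dvd_mul_left _ _)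
    refine Nat.coprime_of_dvd fun s hs d1 d2 => ?_
    have := Fact.mk hs
    obtain ⟨y, hy⟩ := exists_prime_orderOf_dvd_card' s d2
    have o : orderOf (y.1 * x) = s * r := by
      rw [← hy, ← orderOf_coe, ← show orderOf x = r from hx]
      refine Commute.orderOf_mul_eq_mul_orderOf_of_coprime (mem_centralizer_singleton_iff.1 y.2) ?_
      rw [orderOf_coe, hy, show orderOf x = r from hx]
      exact (Nat.coprime_primes hs hr).2 fun e => nd (e ▸ d1)
    have := i _ (o ▸ dvd_mul_left _ _)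
    rw [o] at this
    exact hs.one_lt.ne' (Nat.eq_of_mul_eq_mul_right hr.pos (this.trans (one_mul r).symm))
  have key : ∀ n, ¬ r ∣ n → fr G (r * n) = fr G n + h * k := fun n hn => by
    have d : Disjoint {x : G | x ^ n = 1} {x : G | orderOf x = r} := Set.disjoint_left.2 fun x a b =>
      hn ((show orderOf x = r from b) ▸ orderOf_dvd_of_pow_eq_one a)
    rw [← hk, fr, fr, ← Set.ncard_union_eq d]
    congr 1
    ext x
    simp only [Set.mem_union, Set.mem_ofPred_eq, ← orderOf_dvd_iff_pow_eq_one]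
    refine ⟨fun a => or_iff_not_imp_right.2 fun b => ?_, fun a => a.elim (·.mul_left r)
      fun a => a ▸ dvd_mul_right _ _⟩
    exact (hr.coprime_iff_not_dvd.2 fun e => b (i x e)).symm.dvd_of_dvd_mul_left a
  have f1 : fr G 1 = 1 := by simp [fr]
  have e := key 1 hr.not_dvd_one
  rw [mul_one, f1, add_comm] at e
  have d := e ▸ fr_dvd (G := G) (c ▸ dvd_mul_right r h)
  refine ⟨k, e, d, fun n a b l => ?_⟩
  have := (dvd_mul_right r n).trans (fr_dvd ((hr.coprime_iff_not_dvd.2 l).mul_dvd_of_dvd_of_dvd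
    (c ▸ dvd_mul_right r h) a))
  rw [key n l, b] at this
  have : n ≡ 1 [MOD r] := Nat.ModEq.add_right_cancel' (h * k) (((Nat.modEq_zero_iff_dvd).2 this).trans
    ((Nat.modEq_zero_iff_dvd).2 (add_comm (h * k) 1 ▸ d)).symm)
  exact Eq.trans this (Nat.mod_eq_of_lt hr.one_lt)

variable [IsSimpleGroup G]

theorem of_card (h : fr G n = n) {K : Subgroup G} (hK : Nat.card K = n) : n = 1 ∨ n = Nat.card G :=
  ((normal_of_eq (eq_of_card h hK)).eq_bot_or_eq_top).imp (fun e => by rw [← hK, e, card_bot])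
    fun e => by rw [← hK, e, card_top]

theorem of_pow {k : ℕ} (hp : p.Prime) (d : p ^ k ∣ Nat.card G) (h : fr G (p ^ k) = p ^ k) :
    p ^ k = 1 ∨ p ^ k = Nat.card G :=
  have := Fact.mk hp
  (Sylow.exists_subgroup_card_pow_prime p d).elim fun _ => of_card h

theorem not_prime_index (hG : ¬ IsMulCommutative G) (hp : p.Prime) (c : Nat.card G = p * n) :
    fr G n ≠ n := fun h => by
  classical
  have := Fact.mk hp
  have := Fintype.ofFinite (Sylow p G)
  have n0 : n ≠ 0 := h ▸ (fr_pos n).ne'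
  set W := {x : G | x ^ n ≠ 1}
  have h1 : W.ncard + n = p * n := by
    rw [← c, ← Set.ncard_add_ncard_compl W]
    congr 1
    rw [← h, fr]
    congr 1
    ext x
    simp [W, h]
  have h2 : W ⊆ ⋃ P : Sylow p G, W ∩ centralizer (P : Set G) := fun x hx => by
    have d := pow_dvd_of_dvd hp n0 (c ▸ orderOf_dvd_natCard x)
      (fun e => hx (orderOf_dvd_iff_pow_eq_one.1 e)) (Nat.ordProj_dvd n p)
    have o := orderOf_pow_orderOf_div (orderOf_pos x).ne' d
    refine Set.mem_iUnion.2 ⟨Sylow.ofCard (zpowers _) ((Nat.card_zpowers _).trans (o.trans ?_)), hx, ?_⟩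
    · rw [c, Nat.factorization_mul hp.ne_zero n0, hp.factorization]
      simp [add_comm]
    · rintro _ ⟨k, rfl⟩
      exact ((Commute.refl x).pow_left _).zpow_left k
  have h3 : ∀ P : Sylow p G, 2 * p * Fintype.card (Sylow p G) * (W ∩ centralizer (P : Set G)).ncard ≤
      (p - 1) * (p * n) := fun P => by
    set C := centralizer (P : Set G)
    have a1 : (W ∩ C).ncard + fr C (n.gcd (Nat.card C)) = Nat.card C := by
      rw [← fr_subgroup, ← Set.ncard_union_eq (Set.disjoint_left.2 fun x a b => a.1 b.1)]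
      refine congrArg Set.ncard (Set.ext fun x => ?_)
      by_cases e : x ^ n = 1 <;> simp [W, e]
    have a2 := le_fr (G := C) (Nat.gcd_dvd_right n _)
    have a3 : Nat.card C ≤ p * n.gcd (Nat.card C) := Nat.le_of_dvd
      (mul_pos hp.pos (Nat.gcd_pos_of_pos_right _ Nat.card_pos)) (by
      rw [← Nat.gcd_mul_left]
      exact Nat.dvd_gcd (c ▸ card_subgroup_dvd_card C) (dvd_mul_left _ _))
    have a4 : Nat.card C * 2 ≤ Nat.card (normalizer (P : Set G)) := by
      rw [← CF.Solv.card_mul_relIndex (centralizer_le_normalizer (P : Set G))]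
      refine Nat.mul_le_mul_left _ ((Nat.two_le_iff _).2 ⟨index_ne_zero_of_finite, fun e => ?_⟩)
      exact CF.Small.not_normalizer_le_centralizer hG (c ▸ dvd_mul_right p n) P (relIndex_eq_one.1 e)
    rw [← c, ← (normalizer (P : Set G)).card_mul_index, ← P.card_eq_index_normalizer,
      Nat.card_eq_fintype_card (α := Sylow p G)]
    generalize Fintype.card (Sylow p G) = s
    have a5 : p * (W ∩ C).ncard ≤ (p - 1) * Nat.card C := by
      obtain ⟨q, hq⟩ : ∃ q, p = q + 1 := ⟨_, (Nat.sub_add_cancel hp.pos).symm⟩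
      rw [hq] at a3 ⊢
      rw [Nat.add_sub_cancel]
      nlinarith
    calc _ = 2 * s * (p * (W ∩ C).ncard) := by ring
      _ ≤ 2 * s * ((p - 1) * Nat.card C) := by gcongr
      _ = (p - 1) * (Nat.card C * 2 * s) := by ring
      _ ≤ _ := by gcongr
  have h4 := (Set.ncard_le_ncard h2).trans (Set.ncard_iUnion_le_of_fintype _)
  have h5 := Finset.sum_le_card_nsmul Finset.univ _ _ fun P _ => h3 P
  rw [← Finset.mul_sum, Finset.card_univ, smul_eq_mul] at h5
  have h6 := (Nat.mul_le_mul_left _ h4).trans h5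
  obtain ⟨q, rfl⟩ := Nat.exists_eq_add_of_lt hp.one_lt
  rw [show W.ncard = (1 + q) * n by linarith, Nat.add_sub_cancel] at h6
  have : 0 < Fintype.card (Sylow (1 + q + 1) G) * ((1 + q) * ((1 + q + 1) * n)) := by
    have := Fintype.card_pos (α := Sylow (1 + q + 1) G)
    positivity
  nlinarith

end CF.FrC
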