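import Cfsg.Agent.PLocal.FrB
import Cfsg.Agent.Classical.L2
import Cfsg.Agent.BN.SzTori
import Cfsg.Agent.BN.SzModels

/-! Frobenius' conjecture for `L₂(q)` and `Sz(q)`. -/

set_option autoImplicit false

open MulAction Subgroup CF.Classical OnePoint
open scoped MatrixGroups

namespace CF.FrC

theorem dvd_gcd_mul {n a b : ℕ} (c : ℕ) (h : n ∣ a * b * c) : n ∣ n.gcd a * n.gcd b * n.gcd c :=
  (Nat.gcd_eq_left h).symm.dvd.trans ((Nat.gcd_mul_right_dvd_mul_gcd _ _ _).trans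
    (Nat.mul_dvd_mul_right (Nat.gcd_mul_right_dvd_mul_gcd _ _ _) _))

theorem l2_one {q a b d u v J K n : ℕ} (ha : a * d + 1 = q) (hb : b * d = q + 1) (d0 : 0 < d)
    (hJ : 2 * J = q * (b * d)) (hK : 2 * K = q * (a * d)) (u1 : u + 1 ≤ a) (v1 : v + 1 ≤ b)
    (h1 : n ≤ q * d * (u + 1) * (v + 1)) (h2 : q ^ 2 + J * u + K * v ≤ n) : q * d * a * b ≤ n := by
  have q0 : 0 < q * d := by nlinarith
  have e : 2 * (q ^ 2 + J * u + K * v) = q * d * (b * (u + 1) + a * (v + 1)) := by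
    have : q * d * (b * (u + 1) + a * (v + 1)) = q * (b * d) * u + q * (a * d) * v +
      q * (b * d + a * d) := by ring
    rw [this, ← hJ, ← hK, show b * d + a * d = 2 * q by omega]; ring
  have h3 : b * (u + 1) + a * (v + 1) ≤ 2 * ((u + 1) * (v + 1)) :=
    Nat.le_of_mul_le_mul_left (by nlinarith) q0
  have h4 : a = u + 1 := by nlinarith
  have h5 : b = v + 1 := by nlinarith
  subst h4 h5
  nlinarith

theorem l2_two {q a b d u v J K n : ℕ} (h4 : 4 ≤ q) (ha : a * d + 1 = q) (hb : b * d = q + 1) (d2 : d ≤ 2)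
    (hJ : 2 * J = q * (b * d)) (hK : 2 * K = q * (a * d)) (v1 : v + 1 ≤ b)
    (h1 : n ≤ d * (u + 1) * (v + 1)) (h2 : 1 + J * u + K * v ≤ n) : u = 0 ∧ v = 0 := by
  have hu : u = 0 := by
    by_contra e
    have a1 : d * (v + 1) ≤ q + 1 := by nlinarith
    have a2 : n ≤ (q + 1) * (u + 1) := by nlinarith
    have a3 : 2 * (q + 1) ≤ J := by nlinarith
    have : 0 < u := Nat.pos_of_ne_zero e
    nlinarith
  subst hu
  refine ⟨rfl, by_contra fun e => ?_⟩
  have : 0 < v := Nat.pos_of_ne_zero e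
  have a3 : 4 ≤ K := by nlinarith
  nlinarith

variable {G : Type*} [Group G] [Finite G]

omit [Finite G] in
theorem fr_eq_card {n : ℕ} (h : ∀ x : G, x ^ n = 1) : fr G n = Nat.card G :=
  (congrArg Set.ncard (Set.eq_univ_of_forall h)).trans (Set.ncard_univ G)

theorem fr_add3 {a b c n : ℕ} (h1 : a.Coprime b) (h2 : a.Coprime c) (h3 : b.Coprime c) (d1 : a ∣ n)
    (d2 : b ∣ n) (d3 : c ∣ n) : fr G a + fr G b + fr G c ≤ fr G n + 2 := by
  have := fr_add (G := G) h1
  have := fr_add (G := G) (h2.mul_left h3)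
  have := fr_mono (G := G) ((h2.mul_left h3).mul_dvd_of_dvd_of_dvd (h1.mul_dvd_of_dvd_of_dvd d1 d2) d3)
  omega

theorem two_of [IsSimpleGroup G] {n : ℕ} (d : n ∣ Nat.card G) (h : fr G n = n) (h2 : n ≤ 2) :
    n = 1 ∨ n = Nat.card G := by
  have := fr_pos (G := G) n
  obtain rfl | rfl : n = 1 ∨ n = 2 := by omega
  exacts [.inl rfl, of_pow (k := 1) Nat.prime_two d h]

theorem fs_l2 {F : Type*} [Field F] [Finite F] (h4 : 4 ≤ Nat.card F) [IsSimpleGroup PSL(2, F)] :
    FS PSL(2, F) := by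
  intro n hn h
  have L := isL2_PSL F (AlgebraicClosure F)
  have := L.finite
  obtain ⟨p, _⟩ := CharP.exists F
  have := Fintype.ofFinite F
  obtain ⟨f, hp, hq⟩ := FiniteField.card F p
  rw [← Nat.card_eq_fintype_card] at hq
  have n0 : 0 < n := h ▸ fr_pos n
  have xy : (∞ : OnePoint F) ≠ (0 : F) := infty_ne_coe _
  have xy' : ratPt (AlgebraicClosure F) (∞ : OnePoint F) ≠ ratPt _ ((0 : F) : OnePoint F) :=
    fun e => xy (ratPt_injective e)
  have ha := L.card_torus_ratPt xy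
  obtain ⟨t, t1, t2⟩ := L.exists_swap_ratPt _ _ xy
  have hA := card_pairStab xy' t1 t2
  have cA := ti_count' (fun x a b g => mem_pairStab_of_conj_mem xy' b a)
    (Nat.gcd_dvd_right n (Nat.card (torus PSL(2, F) _ _)))
  obtain ⟨x, y, ne, -, nb, hb⟩ := L.exists_nonsplit_torus
  obtain ⟨⟨s, s1, s2⟩, -⟩ := L.torus_cases ne nb
  have hB := card_pairStab ne s1 s2
  have cB := ti_count' (fun x a b g => mem_pairStab_of_conj_mem ne b a)
    (Nat.gcd_dvd_right n (Nat.card (torus PSL(2, F) x y)))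
  have cU := ti_count (A := unip PSL(2, F) (ratPt (AlgebraicClosure F) (∞ : OnePoint F)))
    (N := stabilizer _ (ratPt (AlgebraicClosure F) (∞ : OnePoint F))) (fun x a b g c =>
      (((mem_unip.1 a).resolve_left b).conj g).eq ((mem_unip.1 c).resolve_left (by simpa using b))) p
  rw [index_stabilizer, L.orbit_ratPt, ncard_range_ratPt, fr_eq_card
    (fun g => Subtype.ext (L.pow_eq_one_of_mem_unip_ratPt p g.2)), L.card_unip_ratPt] at cU
  have g1 := L.card_mul_index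
  have iA := (pairStab PSL(2, F) (ratPt (AlgebraicClosure F) (∞ : OnePoint F))
    (ratPt _ ((0 : F) : OnePoint F))).card_mul_index
  have iB := (pairStab PSL(2, F) x y).card_mul_index
  rw [hA] at iA
  rw [hB] at iB
  rw [index_range_pslToPGL] at ha hb g1
  generalize index (pairStab PSL(2, F) (ratPt (AlgebraicClosure F) (∞ : OnePoint F)) _) = J at cA iA
  generalize index (pairStab PSL(2, F) x y) = K at cB iB
  generalize Nat.card (torus PSL(2, F) x y) = b at *
  generalize Nat.card (torus PSL(2, F) (ratPt (AlgebraicClosure F) (∞ : OnePoint F)) _) = a at *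
  generalize Nat.card F = q at *
  have d2 : Nat.gcd 2 (q - 1) ≤ 2 := Nat.gcd_le_left _ two_pos
  have d0 : 0 < Nat.gcd 2 (q - 1) := Nat.gcd_pos_of_pos_left _ two_pos
  have ab : a.Coprime b := by
    have := Nat.gcd_mul_right a (Nat.gcd 2 (q - 1)) b
    rw [ha, hb, show q + 1 = 2 + (q - 1) by omega, Nat.gcd_add_self_right, Nat.gcd_comm] at this
    exact Nat.eq_of_mul_eq_mul_right d0 (this.symm.trans (one_mul _).symm)
  generalize Nat.gcd 2 (q - 1) = d at *
  replace ha : a * d + 1 = q := by omega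
  have a0 : 0 < a := Nat.pos_of_ne_zero fun e => by rw [e] at ha; omega
  have b0 : 0 < b := Nat.pos_of_ne_zero fun e => by rw [e] at hb; omega
  have g2 : Nat.card PSL(2, F) = q * d * a * b := Nat.eq_of_mul_eq_mul_right d0 (by
    rw [g1, show q ^ 2 - 1 = (a * d) * (b * d) by rw [hb, ← ha]; exact Nat.sub_eq_of_eq_add (by ring)]
    ring)
  have hJ : 2 * J = q * (b * d) := Nat.eq_of_mul_eq_mul_left a0 (by rw [g2] at iA; linarith)
  have hK : 2 * K = q * (a * d) := Nat.eq_of_mul_eq_mul_left b0 (by rw [g2] at iB; linarith)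
  have u1 := Nat.gcd_le_right n a0
  have v1 := Nat.gcd_le_right n b0
  have uv : (n.gcd a).Coprime (n.gcd b) := (ab.gcd_left n).gcd_right n
  have dn := Nat.le_of_dvd (by positivity) (dvd_gcd_mul b (g2 ▸ hn))
  obtain ⟨u, hu⟩ := Nat.exists_eq_add_one.2 (Nat.gcd_pos_of_pos_left a n0)
  obtain ⟨v, hv⟩ := Nat.exists_eq_add_one.2 (Nat.gcd_pos_of_pos_left b n0)
  have pq : p ∣ q := hq ▸ dvd_pow_self p f.ne_zero
  by_cases hpn : p ∣ n
  · have := fr_add3 (G := PSL(2, F)) (a := p) (hp.coprime_iff_not_dvd.2 fun e => hp.not_dvd_one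
      ((Nat.dvd_add_right ((e.trans (Nat.gcd_dvd_right n a)).mul_right d)).1 (ha ▸ pq)))
      (hp.coprime_iff_not_dvd.2 fun e => hp.not_dvd_one ((Nat.dvd_add_right pq).1
        (hb ▸ (e.trans (Nat.gcd_dvd_right n b)).mul_right d))) uv hpn (Nat.gcd_dvd_left _ _)
      (Nat.gcd_dvd_left _ _)
    simp only [hu, hv, Nat.add_sub_cancel] at cA cB u1 v1 dn this
    refine .inr (le_antisymm (Nat.le_of_dvd Nat.card_pos hn) (g2 ▸ l2_one ha hb d0 hJ hK u1 v1
      (dn.trans ?_) ?_))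
    · have := Nat.gcd_le_right n (show 0 < q * d by positivity)
      gcongr
    · have : q ^ 2 = (q + 1) * (q - 1) + 1 := by rw [← ha, Nat.add_sub_cancel]; ring
      omega
  · have := (fr_add (G := PSL(2, F)) uv).trans (Nat.add_le_add_right (fr_mono
      (uv.mul_dvd_of_dvd_of_dvd (Nat.gcd_dvd_left _ _) (Nat.gcd_dvd_left _ _))) 1)
    have e : n.gcd (q * d) ≤ d := by
      rw [Nat.Coprime.gcd_mul_left_cancel_right d (hq ▸ (hp.coprime_iff_not_dvd.2 hpn).pow_left _)]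
      exact Nat.gcd_le_right _ d0
    simp only [hu, hv, Nat.add_sub_cancel] at cA cB u1 v1 dn this
    have l : n ≤ d * (u + 1) * (v + 1) := dn.trans (by gcongr)
    obtain ⟨rfl, rfl⟩ := l2_two h4 ha hb d2 hJ hK v1 l (by omega)
    exact two_of hn h (by omega)

theorem sz_one {s a b c u v w J K L n : ℕ} (s0 : 0 < s) (e : 4 * s = 2 * (b * c) + a * c + a * b)
    (hJ : 2 * J = s * (b * c)) (hK : 4 * K = s * (a * c)) (hL : 4 * L = s * (a * b))
    (u1 : u + 1 ≤ a) (v1 : v + 1 ≤ b) (w1 : w + 1 ≤ c) (h1 : n ≤ s * (u + 1) * (v + 1) * (w + 1))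
    (h2 : s ^ 2 + J * u + K * v + L * w ≤ n) : s * a * b * c ≤ n := by
  have e1 : 4 * (s ^ 2 + J * u + K * v + L * w) =
      s * (2 * ((u + 1) * b * c) + a * (v + 1) * c + a * b * (w + 1)) := by
    have : s * (2 * ((u + 1) * b * c) + a * (v + 1) * c + a * b * (w + 1)) =
      2 * (s * (b * c)) * u + s * (a * c) * v + s * (a * b) * w +
        s * (2 * (b * c) + a * c + a * b) := by ring
    rw [this, ← hJ, ← hK, ← hL, ← e]; ring
  have h3 : 2 * ((u + 1) * b * c) + a * (v + 1) * c + a * b * (w + 1) ≤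
      4 * ((u + 1) * (v + 1) * (w + 1)) := Nat.le_of_mul_le_mul_left (by nlinarith) s0
  have a1 : (u + 1) * (v + 1) * (w + 1) ≤ (u + 1) * b * c := by gcongr
  have a2 : (u + 1) * (v + 1) * (w + 1) ≤ (u + 1) * (v + 1) * c := by gcongr
  have a3 : (u + 1) * (v + 1) * c ≤ a * (v + 1) * c := by gcongr
  have a4 : (u + 1) * (v + 1) * (w + 1) ≤ (u + 1) * b * (w + 1) := by gcongr
  have a5 : (u + 1) * b * (w + 1) ≤ a * b * (w + 1) := by gcongr
  have b1 : c = w + 1 := Nat.eq_of_mul_eq_mul_left (show 0 < (u + 1) * (v + 1) by positivity) (by omega)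
  subst b1
  have b2 : (u + 1) * b = (u + 1) * (v + 1) := Nat.eq_of_mul_eq_mul_right w.add_one_pos (by omega)
  obtain rfl := Nat.eq_of_mul_eq_mul_left (Nat.succ_pos u) b2
  have b3 : a * (v + 1) = (u + 1) * (v + 1) := Nat.eq_of_mul_eq_mul_right w.add_one_pos (by omega)
  obtain rfl := Nat.eq_of_mul_eq_mul_right (Nat.succ_pos v) b3
  nlinarith

theorem sz_two {s b c u v w J n : ℕ} (s0 : 16 ≤ s) (hJ : s * (b * c) ≤ 4 * J) (v1 : v + 1 ≤ b)
    (w1 : w + 1 ≤ c) (h1 : n ≤ 2 * ((u + 1) * (v + 1) * (w + 1))) (h2 : 1 + J * u ≤ n) : u = 0 := by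
  by_contra e
  have : 0 < u := Nat.pos_of_ne_zero e
  have a1 : (u + 1) * (v + 1) * (w + 1) ≤ (2 * u) * b * c := by gcongr; omega
  have a2 : 4 * (b * c) ≤ J := by nlinarith
  nlinarith

open CF.BN CF.BN.Suz in
theorem fs_sz [IsSimpleGroup G] (s : Cfsg.Lie.IsoSuzuki G) : FS G := by
  intro n hn h
  obtain ⟨F, _, _, m, m1, cF, ⟨e⟩⟩ := s
  have D := (lieD F m cF).ofEquiv e
  have h8 := eight_le_card m1 cF
  rw [← Nat.card_eq_fintype_card] at cF h8
  have hr := sq_two_pow cF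
  have ev : Even (Nat.card F) := cF ▸ (Nat.even_pow.2 ⟨even_two, by omega⟩)
  obtain ⟨x, y, hx, hy, c1, c2, c3, c4, -⟩ := D.exists_tori hr h8
  obtain ⟨t1, t2, t3⟩ := tori_arith ev hr h8
  have n0 : 0 < n := h ▸ fr_pos n
  have cA := ti_count' (fun x a b g => D.mem_normalizer_H_of_conj a b) (Nat.gcd_dvd_right n _)
  have cB := ti_count' (fun z a b g => hx.mem_normalizer_of_conj g z a b) (Nat.gcd_dvd_right n _)
  have cC := ti_count' (fun z a b g => hy.mem_normalizer_of_conj g z a b) (Nat.gcd_dvd_right n _)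
  have cU : (conjSet D.U).ncard + 1 ≤ fr G 4 := by
    rw [fr_eq_add_one]
    refine Nat.add_le_add_right (Set.ncard_le_ncard ?_) 1
    rintro z ⟨a, g, b⟩
    refine ⟨?_, a⟩
    have := D.pow_four_of_mem_U b
    rwa [show g⁻¹ * z * g = g⁻¹ * z * g⁻¹⁻¹ by rw [inv_inv], conj_pow, conj_eq_one_iff] at this
  have iA := (normalizer (D.H : Set G)).card_mul_index
  have iB := (normalizer (centralizer ({x} : Set G) : Set G)).card_mul_index
  have iC := (normalizer (centralizer ({y} : Set G) : Set G)).card_mul_index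
  rw [D.card_normalizer_H (exists_unit_ne_one (by omega))] at iA
  rw [c3] at iB
  rw [c4] at iC
  rw [D.ncard_conjSet_U] at cU
  rw [D.card_H] at cA
  rw [c1] at cB
  rw [c2] at cC
  have g := D.card_G
  have ab := coprime_sq_add_one ev (Dvd.intro _ t1)
  have ac := coprime_sq_add_one ev (Dvd.intro_left _ t1)
  generalize index (normalizer (D.H : Set G)) = J at *
  generalize index (normalizer (centralizer ({x} : Set G) : Set G)) = K at *
  generalize index (normalizer (centralizer ({y} : Set G) : Set G)) = L at *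
  have e4 : 4 * Nat.card F ^ 2 = 2 * ((Nat.card F + 2 ^ (m + 1) + 1) * (Nat.card F - 2 ^ (m + 1) + 1)) +
      (Nat.card F - 1) * (Nat.card F - 2 ^ (m + 1) + 1) +
      (Nat.card F - 1) * (Nat.card F + 2 ^ (m + 1) + 1) := by
    rw [t1, add_assoc, ← mul_add, show Nat.card F - 2 ^ (m + 1) + 1 + (Nat.card F + 2 ^ (m + 1) + 1) =
      2 * (Nat.card F - 1 + 2) by omega]
    obtain ⟨k, hk⟩ : ∃ k, Nat.card F = k + 1 := ⟨_, (Nat.sub_add_cancel (by omega)).symm⟩
    rw [hk, Nat.add_sub_cancel]; ring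
  have s0 : 16 ≤ Nat.card F ^ 2 := (Nat.pow_le_pow_left (by omega : 4 ≤ Nat.card F) 2 :)
  have e5 : (Nat.card F ^ 2 + 1) * (Nat.card F ^ 2 - 1) + 1 = (Nat.card F ^ 2) ^ 2 := by
    obtain ⟨k, hk⟩ : ∃ k, Nat.card F ^ 2 = k + 1 := ⟨_, (Nat.sub_add_cancel (by omega)).symm⟩
    rw [hk, Nat.add_sub_cancel]; ring
  have a2 : (Nat.card F - 1).Coprime 2 := (Nat.Even.sub_odd (by omega) ev odd_one).coprime_two_right
  have hs : Nat.card F ^ 2 = 2 ^ ((2 * m + 1) * 2) := by rw [cF, ← pow_mul]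
  rw [← t1, ← mul_assoc] at g
  rw [e5] at cU
  have a0 : 0 < Nat.card F - 1 := by omega
  have b0 : 0 < Nat.card F + 2 ^ (m + 1) + 1 := by omega
  have c0 : 0 < Nat.card F - 2 ^ (m + 1) + 1 := by omega
  generalize Nat.card F + 2 ^ (m + 1) + 1 = b at *
  generalize Nat.card F - 2 ^ (m + 1) + 1 = c at *
  generalize Nat.card F - 1 = a at *
  generalize Nat.card F ^ 2 = s at *
  have hJ : 2 * J = s * (b * c) := Nat.eq_of_mul_eq_mul_left a0 (by rw [g] at iA; linarith)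
  have hK : 4 * K = s * (a * c) := Nat.eq_of_mul_eq_mul_left b0 (by rw [g] at iB; linarith)
  have hL : 4 * L = s * (a * b) := Nat.eq_of_mul_eq_mul_left c0 (by rw [g] at iC; linarith)
  have u1 := Nat.gcd_le_right n a0
  have v1 := Nat.gcd_le_right n b0
  have w1 := Nat.gcd_le_right n c0
  have uv : (n.gcd a).Coprime (n.gcd b) :=
    ((ab.symm.coprime_mul_left).gcd_left n).gcd_right n
  have uw : (n.gcd a).Coprime (n.gcd c) :=
    ((ac.symm.coprime_mul_left).gcd_left n).gcd_right n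
  have vw : (n.gcd b).Coprime (n.gcd c) := (t2.gcd_left n).gcd_right n
  have dn := (dvd_gcd_mul c (g ▸ hn)).trans (Nat.mul_dvd_mul_right (Nat.mul_dvd_mul_right
    (Nat.gcd_mul_right_dvd_mul_gcd n s a) _) _)
  replace dn := Nat.le_of_dvd (by positivity) dn
  have f3 := fr_add (G := G) uv
  have f4 := fr_add (G := G) (uw.mul_left vw)
  have d3 := (uw.mul_left vw).mul_dvd_of_dvd_of_dvd (uv.mul_dvd_of_dvd_of_dvd (Nat.gcd_dvd_left _ _)
    (Nat.gcd_dvd_left _ _)) (Nat.gcd_dvd_left _ _)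
  have o : (n.gcd a * n.gcd b * n.gcd c).Coprime (2 ^ 2) := (((a2.gcd_left n).mul_left
    (ab.coprime_mul_right_right.coprime_mul_right_right.gcd_left n)).mul_left
    (ac.coprime_mul_right_right.coprime_mul_right_right.gcd_left n)).pow_right 2
  obtain ⟨u, hu⟩ := Nat.exists_eq_add_one.2 (Nat.gcd_pos_of_pos_left a n0)
  obtain ⟨v, hv⟩ := Nat.exists_eq_add_one.2 (Nat.gcd_pos_of_pos_left b n0)
  obtain ⟨w, hw⟩ := Nat.exists_eq_add_one.2 (Nat.gcd_pos_of_pos_left c n0)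
  simp only [hu, hv, hw, Nat.add_sub_cancel] at cA cB cC u1 v1 w1 dn f3 f4 d3 o
  by_cases h4 : 2 ^ 2 ∣ n
  · have f5 := fr_add (G := G) o
    have f6 := fr_mono (G := G) (o.mul_dvd_of_dvd_of_dvd d3 h4)
    refine .inr (le_antisymm (Nat.le_of_dvd Nat.card_pos hn) (g ▸ sz_one (by omega) e4 hJ hK hL u1 v1 w1
      (dn.trans ?_) (by norm_num at f5 f6; omega)))
    have := Nat.gcd_le_right n (show 0 < s by omega)
    gcongr
  have f6 := fr_mono (G := G) d3
  have e : n.gcd s ≤ 2 := by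
    obtain ⟨k, -, hk⟩ := (Nat.dvd_prime_pow Nat.prime_two).1 ((Nat.gcd_dvd_right n s).trans hs.dvd)
    rw [hk]
    refine Nat.pow_le_pow_right (j := 1) two_pos (Nat.le_of_not_lt fun l => h4 ?_)
    exact (pow_dvd_pow 2 l).trans (hk ▸ Nat.gcd_dvd_left n s)
  have l : n ≤ 2 * ((u + 1) * (v + 1) * (w + 1)) :=
    dn.trans (le_of_le_of_eq (b := 2 * (u + 1) * (v + 1) * (w + 1)) (by gcongr) (by ring))
  obtain rfl := sz_two (J := J) s0 (by omega) v1 w1 l (by omega)
  obtain rfl := sz_two (v := 0) s0 hK.ge u1 w1 (l.trans_eq (by ring)) (by omega)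
  obtain rfl := sz_two (v := 0) (w := 0) s0 hL.ge u1 v1 (l.trans_eq (by ring)) (by omega)
  exact two_of hn h (by omega)

end CF.FrC
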