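import Cfsg.Agent.Coprime.PGroup
import Cfsg.Agent.Transfer.Frobenius

/-! Homogeneous finite groups: basic facts and the action on maximal elementary abelian
subgroups. -/

set_option autoImplicit false

open Subgroup CF.Transfer

namespace CF.Hmg

/-- every isomorphism between subgroups extends to an automorphism -/
def Hom (G : Type*) [Group G] : Prop :=
  ∀ (A B : Subgroup G) (e : ↥A ≃* ↥B), ∃ φ : G ≃* G, ∀ a : ↥A, φ (a : G) = (e a : G)

variable {G : Type*} [Group G] {p : ℕ}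

theorem Hom.ext (h : Hom G) (P : Subgroup G) (f : G → G)
    (hm : ∀ x ∈ P, ∀ y ∈ P, f (x * y) = f x * f y) (hi : ∀ x ∈ P, f x = 1 → x = 1) :
    ∃ α : G ≃* G, ∀ x ∈ P, α x = f x := by
  let φ : P →* G := MonoidHom.mk' (fun x => f x) fun x y => hm _ x.2 _ y.2
  have hφ : Function.Injective φ :=
    (injective_iff_map_eq_one φ).2 fun x hx => Subtype.ext (hi _ x.2 hx)
  obtain ⟨α, hα⟩ := h P φ.range (MonoidHom.ofInjective hφ)
  exact ⟨α, fun x hx => hα ⟨x, hx⟩⟩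

theorem Hom.exists_of_orderOf (h : Hom G) {x y : G} (e : orderOf x = orderOf y) :
    ∃ α : G ≃* G, α x = y := by
  have h1 : ∀ z : zpowers x, z ∈ zpowers (⟨x, mem_zpowers x⟩ : zpowers x) := by
    rintro ⟨_, n, rfl⟩; exact ⟨n, rfl⟩
  have h2 : ∀ z : zpowers y, z ∈ zpowers (⟨y, mem_zpowers y⟩ : zpowers y) := by
    rintro ⟨_, n, rfl⟩; exact ⟨n, rfl⟩
  obtain ⟨α, hα⟩ := h _ _ (mulEquivOfOrderOfEq h1 h2 (by simpa using e))
  refine ⟨α, (hα ⟨x, mem_zpowers x⟩).trans ?_⟩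
  rw [mulEquivOfOrderOfEq_apply_gen]

theorem Hom.of_equiv {H : Type*} [Group H] (h : Hom G) (e : G ≃* H) : Hom H := by
  intro A B f
  obtain ⟨α, hα⟩ := h.ext (A.comap e.toMonoidHom)
    (fun x => by classical exact if hx : e x ∈ A then e.symm (f ⟨e x, hx⟩) else 1) (by
      intro x hx y hy
      have hx' : e x ∈ A := hx
      have hy' : e y ∈ A := hy
      have hxy : e (x * y) ∈ A := mul_mem hx hy
      simp only [dif_pos hx', dif_pos hy', dif_pos hxy]
      rw [← map_mul, ← Subgroup.coe_mul, ← map_mul]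
      congr 3
      exact Subtype.ext (map_mul e x y)) (by
      intro x hx h1
      have hx' : e x ∈ A := hx
      simp only [dif_pos hx', map_eq_one_iff _ e.symm.injective, OneMemClass.coe_eq_one,
        map_eq_one_iff _ f.injective] at h1
      exact (map_eq_one_iff _ e.injective).1 (congrArg Subtype.val h1))
  refine ⟨e.symm.trans (α.trans e), fun a => ?_⟩
  have ha : e (e.symm a) ∈ A := by simp
  simp only [MulEquiv.trans_apply]
  rw [hα _ ha]
  simp [dif_pos ha]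

theorem Hom.subgroup (h : Hom G) (K : Subgroup G) [hK : K.Characteristic] : Hom K := by
  intro A B f
  obtain ⟨α, hα⟩ := h (A.map K.subtype) (B.map K.subtype)
    ((A.equivMapOfInjective _ K.subtype_injective).symm.trans
      (f.trans (B.equivMapOfInjective _ K.subtype_injective)))
  have e : K.map α.toMonoidHom = K := characteristic_iff_map_eq.1 hK α
  refine ⟨(α.subgroupMap K).trans (MulEquiv.subgroupCongr e), fun a => Subtype.ext ?_⟩
  have := hα (A.equivMapOfInjective _ K.subtype_injective a)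
  simp only [MulEquiv.trans_apply, MulEquiv.symm_apply_apply] at this
  exact this

/-- an isomorphism type of cyclic subgroups lies in a characteristic subgroup or avoids it -/
theorem Hom.mem_of_orderOf (h : Hom G) {K : Subgroup G} [hK : K.Characteristic] {x y : G}
    (hx : x ∈ K) (e : orderOf x = orderOf y) : y ∈ K := by
  obtain ⟨α, rfl⟩ := h.exists_of_orderOf e
  rw [← characteristic_iff_map_eq.1 hK α]
  exact mem_map_of_mem _ hx

theorem map_one_of_mul {P : Subgroup G} {δ : G → G}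
    (hm : ∀ x ∈ P, ∀ y ∈ P, δ (x * y) = δ x * δ y) : δ 1 = 1 := by
  have := hm 1 P.one_mem 1 P.one_mem
  rw [mul_one] at this
  exact mul_eq_left.1 this.symm

/-- the automorphism `x ↦ x δ(x)` -/
theorem Hom.exists_delta (h : Hom G) {P : Subgroup G} (δ : G → G)
    (hm : ∀ x ∈ P, ∀ y ∈ P, δ (x * y) = δ x * δ y) (hP : ∀ x ∈ P, δ x ∈ P)
    (h0 : ∀ x ∈ P, δ (δ x) = 1) (hc : ∀ x ∈ P, ∀ y ∈ P, δ x * y = y * δ x) :
    ∃ α : G ≃* G, (∀ x ∈ P, α x = x * δ x) ∧ ∀ x ∈ P, α.symm x = x * (δ x)⁻¹ := by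
  have h1 := map_one_of_mul hm
  obtain ⟨α, hα⟩ := h.ext P (fun x => x * δ x) (fun x hx y hy => by
    rw [hm x hx y hy, mul_assoc x (δ x), ← mul_assoc (δ x), hc x hx y hy]; group) fun x hx e => by
    have := hm x hx _ (hP x hx)
    rw [e, h1, h0 x hx, mul_one] at this
    rwa [← this, mul_one] at e
  refine ⟨α, hα, fun x hx => ?_⟩
  have h2 : δ (δ x)⁻¹ = 1 := by
    have := hm _ (hP x hx) _ (P.inv_mem (hP x hx))
    rw [mul_inv_cancel, h1, h0 x hx, one_mul] at this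
    exact this.symm
  rw [MulEquiv.symm_apply_eq, hα _ (P.mul_mem hx (P.inv_mem (hP x hx))),
    hm _ hx _ (P.inv_mem (hP x hx)), h2]
  group

theorem conj_aut (α : G ≃* G) (γ x : G) :
    γ⁻¹ * α γ * x * (γ⁻¹ * α γ)⁻¹ = γ⁻¹ * α (γ * α.symm x * γ⁻¹) * γ := by
  simp only [map_mul, map_inv, MulEquiv.apply_symm_apply]; group

/-- the commutator of a central automorphism with an inner one is inner -/
theorem Hom.trick (h : Hom G) {P D : Subgroup G} (δ : G → G)
    (hm : ∀ x ∈ P, ∀ y ∈ P, δ (x * y) = δ x * δ y) (hD : ∀ x ∈ P, δ x ∈ D) (hDP : D ≤ P)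
    (h0 : ∀ d ∈ D, δ d = 1) (hc : ∀ d ∈ D, ∀ x ∈ P, d * x = x * d) {γ : G}
    (hγP : ∀ x ∈ P, γ * x * γ⁻¹ ∈ P) (hγD : ∀ d ∈ D, γ * d * γ⁻¹ ∈ D) :
    ∃ k : G, ∀ x ∈ P, k * x * k⁻¹ = x * (δ x)⁻¹ * (γ⁻¹ * δ (γ * x * γ⁻¹) * γ) := by
  obtain ⟨α, h1, h2⟩ := h.exists_delta δ hm (fun x hx => hDP (hD x hx))
    (fun x hx => h0 _ (hD x hx)) fun x hx y hy => hc _ (hD x hx) y hy
  refine ⟨γ⁻¹ * α γ, fun x hx => ?_⟩
  have hd := D.inv_mem (hD x hx)
  have e : γ * (x * (δ x)⁻¹) * γ⁻¹ = γ * x * γ⁻¹ * (γ * (δ x)⁻¹ * γ⁻¹) := by group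
  rw [conj_aut, h2 x hx, h1 _ (hγP _ (P.mul_mem hx (hDP hd))), e,
    hm _ (hγP x hx) _ (hDP (hγD _ hd)), h0 _ (hγD _ hd)]
  group

/-- elementary abelian `p`-subgroups -/
structure EA (p : ℕ) (E : Subgroup G) : Prop where
  comm : ∀ x ∈ E, ∀ y ∈ E, x * y = y * x
  pow : ∀ x ∈ E, x ^ p = 1

/-- power with exponent in `ZMod p` -/
def zp (c : G) (a : ZMod p) : G := c ^ a.val

theorem zp_mem (c : G) (a : ZMod p) : zp c a ∈ zpowers c := npow_mem_zpowers c _

theorem zp_zero (c : G) : zp c (0 : ZMod p) = 1 := by simp [zp]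

theorem zp_one [Fact p.Prime] (c : G) : zp c (1 : ZMod p) = c := by simp [zp, ZMod.val_one]

theorem zp_add [Fact p.Prime] {c : G} (hc : c ^ p = 1) (a b : ZMod p) :
    zp c (a + b) = zp c a * zp c b := by
  rw [zp, zp, zp, ← pow_add, ZMod.val_add]
  conv_rhs => rw [← Nat.mod_add_div (a.val + b.val) p, pow_add, pow_mul, hc, one_pow, mul_one]

theorem zp_neg [Fact p.Prime] {c : G} (hc : c ^ p = 1) (a : ZMod p) : zp c (-a) = (zp c a)⁻¹ := by
  rw [eq_inv_iff_mul_eq_one, ← zp_add hc, neg_add_cancel, zp_zero]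

theorem conj_zp (g c : G) (a : ZMod p) : g * zp c a * g⁻¹ = zp (g * c * g⁻¹) a := by
  rw [zp, zp, conj_pow]

theorem mem_zpowers_of_mem [Fact p.Prime] {a b : G} (ha : a ^ p = 1) (hb : b ≠ 1)
    (h : b ∈ zpowers a) : a ∈ zpowers b := by
  have h1 : a ≠ 1 := by rintro rfl; simp_all
  have ho : orderOf a = p := orderOf_eq_prime ha h1
  have hc : (Nat.card (zpowers a)).Prime := by rw [Nat.card_zpowers, ho]; exact Fact.out
  have := Fact.mk hc
  have := (((zpowers b).subgroupOf (zpowers a)).eq_bot_or_eq_top_of_prime_card).resolve_left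
    fun e => hb (congrArg Subtype.val ((eq_bot_iff_forall _).1 e ⟨b, h⟩ (mem_zpowers b)))
  exact (mem_subgroupOf (h := ⟨a, mem_zpowers a⟩)).1 (this ▸ mem_top _)

theorem zp_ne_one [Fact p.Prime] {c : G} (hc : c ^ p = 1) (h1 : c ≠ 1) {a : ZMod p} (ha : a ≠ 0) :
    zp c a ≠ 1 := fun e => by
  have := orderOf_dvd_of_pow_eq_one e
  rw [orderOf_eq_prime hc h1] at this
  exact ha ((ZMod.val_eq_zero a).1 (Nat.eq_zero_of_dvd_of_lt this (ZMod.val_lt a)))

/-- additive maps on a subgroup -/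
def Ad (E : Subgroup G) (κ : G → ZMod p) : Prop := ∀ x ∈ E, ∀ y ∈ E, κ (x * y) = κ x + κ y

theorem Ad.one {E : Subgroup G} {κ : G → ZMod p} (h : Ad E κ) : κ 1 = 0 := by
  have := h 1 E.one_mem 1 E.one_mem
  rw [mul_one] at this
  exact left_eq_add.1 this

theorem Ad.inv {E : Subgroup G} {κ : G → ZMod p} (h : Ad E κ) {x : G} (hx : x ∈ E) :
    κ x⁻¹ = -κ x := by
  have := h x hx _ (E.inv_mem hx)
  rw [mul_inv_cancel, h.one] at this
  exact (neg_eq_of_add_eq_zero_right this.symm).symm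

theorem Ad.pow {E : Subgroup G} {κ : G → ZMod p} (h : Ad E κ) {x : G} (hx : x ∈ E) (n : ℕ) :
    κ (x ^ n) = n * κ x := by
  induction n with
  | zero => simpa using h.one
  | succ n ih => rw [pow_succ, h _ (E.pow_mem hx n) _ hx, ih]; push_cast; ring

theorem Ad.zp [Fact p.Prime] {E : Subgroup G} {κ : G → ZMod p} (h : Ad E κ) {x : G} (hx : x ∈ E)
    (a : ZMod p) : κ (zp x a) = a * κ x := by
  rw [Hmg.zp, h.pow hx, ZMod.natCast_zmod_val]

/-- the kernel of an additive map -/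
def Ad.ker {E : Subgroup G} {κ : G → ZMod p} (h : Ad E κ) : Subgroup G where
  carrier := {x | x ∈ E ∧ κ x = 0}
  one_mem' := ⟨E.one_mem, h.one⟩
  mul_mem' := fun {x y} hx hy => ⟨E.mul_mem hx.1 hy.1, by rw [h x hx.1 y hy.1, hx.2, hy.2, add_zero]⟩
  inv_mem' := fun {x} hx => ⟨E.inv_mem hx.1, by rw [h.inv hx.1, hx.2, neg_zero]⟩

theorem exists_fun_aux [Fact p.Prime] {V : Type*} [AddCommGroup V] (hV : ∀ x : V, p • x = 0)
    (W : AddSubgroup V) {v : V} (hv : v ∉ W) :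
    ∃ κ : V →+ ZMod p, (∀ x ∈ W, κ x = 0) ∧ κ v = 1 := by
  obtain ⟨_⟩ : Nonempty (Module (ZMod p) V) := ⟨AddCommGroup.zmodModule hV⟩
  obtain ⟨f, h1, h2⟩ := Submodule.exists_le_ker_of_notMem (K := ZMod p)
    (p := AddSubgroup.toZModSubmodule p W) (v := v) hv
  refine ⟨((f v)⁻¹ • f).toAddMonoidHom, fun x hx => ?_, ?_⟩
  · simp [show f x = 0 from h2 hx]
  · simp [inv_mul_cancel₀ h1]

theorem EA.exists_fun [Fact p.Prime] {E : Subgroup G} (hE : EA p E) (W : Subgroup G) {v : G}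
    (hv : v ∈ E) (hvW : v ∉ W) :
    ∃ κ : G → ZMod p, Ad E κ ∧ (∀ x ∈ E, x ∈ W → κ x = 0) ∧ κ v = 1 := by
  classical
  let _ : CommGroup E := { mul_comm := fun x y => Subtype.ext (hE.comm _ x.2 _ y.2) }
  obtain ⟨f, h1, h2⟩ := exists_fun_aux (p := p) (V := Additive E)
    (fun x => Subtype.ext (hE.pow _ x.toMul.2)) (Subgroup.toAddSubgroup (W.subgroupOf E))
    (v := Additive.ofMul ⟨v, hv⟩) hvW
  refine ⟨fun x => if hx : x ∈ E then f (.ofMul ⟨x, hx⟩) else 0,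
    fun x hx y hy => ?_, fun x hx hW => ?_, ?_⟩
  · simp only [dif_pos hx, dif_pos hy, dif_pos (E.mul_mem hx hy)]
    rw [← map_add]
    rfl
  · simp only [dif_pos hx]
    exact h1 _ hW
  · simp only [dif_pos hv]
    exact h2

/-- transvections of `E` extend to automorphisms -/
theorem Hom.exists_tv [Fact p.Prime] (h : Hom G) {E : Subgroup G} (hE : EA p E) {κ : G → ZMod p}
    (hκ : Ad E κ) {c : G} (hc : c ∈ E) (h0 : κ c = 0) :
    ∃ α : G ≃* G, (∀ x ∈ E, α x = x * zp c (κ x)) ∧ ∀ x ∈ E, α.symm x = x * (zp c (κ x))⁻¹ :=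
  have hz : ∀ a : ZMod p, zp c a ∈ E := fun _ => E.pow_mem hc _
  h.exists_delta (fun x => zp c (κ x))
    (fun x hx y hy => by rw [hκ x hx y hy, zp_add (hE.pow c hc)]) (fun _ _ => hz _)
    (fun x _ => by rw [hκ.zp hc, h0, mul_zero, zp_zero]) fun x _ y hy => hE.comm _ (hz _) y hy

theorem exists_pow_pElt [Finite G] [hp : Fact p.Prime] (x : G) :
    ∃ m j : ℕ, m.Coprime p ∧ (x ^ m) ^ p ^ j = 1 := by
  have h0 : orderOf x ≠ 0 := (orderOf_pos x).ne'
  refine ⟨ordCompl[p] (orderOf x), (orderOf x).factorization p,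
    (Nat.coprime_ordCompl hp.out h0).symm, ?_⟩
  rw [← pow_mul, mul_comm, Nat.ordProj_mul_ordCompl_eq_self, pow_orderOf_eq_one]

theorem conj_pow_eq {k g a : G} (h : k * g * k⁻¹ = g * a) (hc : k * a = a * k) (n : ℕ) :
    k ^ n * g * (k ^ n)⁻¹ = g * a ^ n := by
  induction n with
  | zero => simp
  | succ n ih =>
    have e : k * a ^ n * k⁻¹ = a ^ n := by
      rw [mul_inv_eq_iff_eq_mul]; exact (Commute.pow_right hc n).eq
    calc k ^ (n + 1) * g * (k ^ (n + 1))⁻¹ = k * (k ^ n * g * (k ^ n)⁻¹) * k⁻¹ := by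
          rw [pow_succ']; group
      _ = k * g * k⁻¹ * (k * a ^ n * k⁻¹) := by rw [ih]; group
      _ = g * a ^ (n + 1) := by rw [h, e, pow_succ', mul_assoc]

end CF.Hmg
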