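import Cfsg.Agent.PLocal.HomA

/-! In a homogeneous group, normalizers of maximal elementary abelian subgroups of rank at least 3
act by scalars. -/

set_option autoImplicit false

open Subgroup CF.Transfer

namespace CF.Hmg

variable {G : Type*} [Group G] {p : ℕ}

/-- maximal elementary abelian `p`-subgroups -/
structure MEA (p : ℕ) (E : Subgroup G) : Prop extends EA p E where
  max : ∀ x, x ^ p = 1 → x ∈ centralizer (E : Set G) → x ∈ E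

theorem EA.le_cent {E : Subgroup G} (hE : EA p E) : E ≤ centralizer (E : Set G) :=
  fun x hx => mem_centralizer_iff.2 fun y hy => hE.comm y hy x hx

variable [Finite G] [hp : Fact p.Prime] {E : Subgroup G}

theorem Hom.mem_of_cent (h : Hom G) (hE : MEA p E) {g e : G} (hg : g ∈ normalizer (E : Set G))
    (he : e ∈ E) (hge : g * e * g⁻¹ ∉ zpowers e) {y : G}
    (hy : y ∈ centralizer (centralizer (E : Set G) : Set G)) {j : ℕ} (hj : y ^ p ^ j = 1) :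
    y ∈ E := by
  classical
  set Z := centralizer (centralizer (E : Set G) : Set G) with hZ
  have hZC : Z ≤ centralizer (E : Set G) := centralizer_le hE.le_cent
  have hZc : ∀ x ∈ Z, ∀ w ∈ Z, x * w = w * x := fun x hx w hw => hw x (hZC hx)
  have hEZ : E ≤ Z := fun x hx c hc => (hc x hx).symm
  by_contra hyE
  have hex : ∃ i, y ^ p ^ i ∈ E := ⟨j, hj ▸ E.one_mem⟩
  obtain ⟨i, hi⟩ : ∃ i, Nat.find hex = i + 1 :=
    Nat.exists_eq_succ_of_ne_zero fun e => hyE (by simpa [e] using Nat.find_spec hex)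
  have hw1 : y ^ p ^ i ∉ E := Nat.find_min hex (by omega)
  have hw2 : (y ^ p ^ i) ^ p ∈ E := by
    rw [← pow_mul, ← pow_succ, ← hi]; exact Nat.find_spec hex
  have hwZ : y ^ p ^ i ∈ Z := Z.pow_mem hy _
  generalize y ^ p ^ i = w at hw1 hw2 hwZ
  have hu : w ^ p ≠ 1 := fun e => hw1 (hE.max w e (hZC hwZ))
  obtain ⟨κ, hκ, -, hκu⟩ := hE.exists_fun ⊥ hw2 hu
  let W : Subgroup G :=
    { carrier := {x | x ∈ Z ∧ x ^ p ∈ E}
      one_mem' := ⟨Z.one_mem, by simp⟩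
      mul_mem' := fun {a b} ha hb => ⟨Z.mul_mem ha.1 hb.1, by
        rw [Commute.mul_pow (hZc a ha.1 b hb.1)]; exact E.mul_mem ha.2 hb.2⟩
      inv_mem' := fun {a} ha => ⟨Z.inv_mem ha.1, by rw [inv_pow]; exact E.inv_mem ha.2⟩ }
  have hgZ : g ∈ normalizer (Z : Set G) :=
    normalizer_le_normalizer_centralizer _ (normalizer_le_normalizer_centralizer _ hg)
  obtain ⟨k, hk⟩ := h.trick (P := W) (D := E) (fun x => zp e (κ (x ^ p)))
    (fun x hx w hw => by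
      rw [Commute.mul_pow (hZc x hx.1 w hw.1), hκ _ hx.2 _ hw.2, zp_add (hE.pow e he)])
    (fun x _ => E.pow_mem he _) (fun x hx => ⟨hEZ hx, E.pow_mem hx _⟩)
    (fun d hd => by rw [hE.pow d hd, hκ.one, zp_zero])
    (fun d hd x hx => hZC hx.1 d hd) (γ := g)
    (fun x hx => ⟨conj_mem_of_mem_normalizer hgZ hx.1, by
      rw [conj_pow]; exact conj_mem_of_mem_normalizer hg hx.2⟩)
    fun d hd => conj_mem_of_mem_normalizer hg hd
  have hkC : k ∈ centralizer (E : Set G) := fun x hx => by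
    have := hk x ⟨hEZ hx, E.pow_mem hx _⟩
    rw [hE.pow x hx, hE.pow _ (conj_mem_of_mem_normalizer hg hx), hκ.one, zp_zero] at this
    rw [← mul_inv_eq_iff_eq_mul.1 (by simpa using this)]
  have := hk w ⟨hwZ, hw2⟩
  rw [hκu, zp_one, hwZ k hkC, mul_inv_cancel_right, mul_assoc, left_eq_mul] at this
  refine hge ?_
  have e1 := inv_mul_eq_one.1 this
  have e2 : g * e * g⁻¹ = zp e (κ ((g * w * g⁻¹) ^ p)) := by
    conv_lhs => rw [e1]
    group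
  rw [e2]
  exact zp_mem _ _

omit [Finite G] in
theorem EA.act (hE : EA p E) {κ : G → ZMod p} (hκ : Ad E κ) {e x : G} (he : e ∈ E) (hκe : κ e = 1)
    (hx : x ∈ centralizer (hκ.ker : Set G)) (hd : x * e * x⁻¹ * e⁻¹ ∈ E) {v : G} (hv : v ∈ E) :
    x * v * x⁻¹ = v * zp (x * e * x⁻¹ * e⁻¹) (κ v) := by
  have hz : zp e (κ v) ∈ E := E.pow_mem he _
  have hu : v * (zp e (κ v))⁻¹ ∈ hκ.ker := ⟨E.mul_mem hv (E.inv_mem hz), by
    rw [hκ v hv _ (E.inv_mem hz), hκ.inv hz, hκ.zp he, hκe]; ring⟩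
  have h1 : zp (x * e * x⁻¹) (κ v) = zp e (κ v) * zp (x * e * x⁻¹ * e⁻¹) (κ v) := by
    rw [zp, zp, zp, ← Commute.mul_pow (hE.comm e he _ hd), hE.comm e he _ hd]
    simp
  calc x * v * x⁻¹ = x * (v * (zp e (κ v))⁻¹) * x⁻¹ * (x * zp e (κ v) * x⁻¹) := by group
    _ = _ := by rw [← hx _ hu, conj_zp, h1]; group

theorem Hom.no_tv_aux (h : Hom G) (hE : MEA p E) {κ : G → ZMod p} (hκ : Ad E κ) {e b g γ : G}
    (he : e ∈ E) (hκe : κ e = 1) (hb : b ∈ E) (hκb : κ b = 0) (hb1 : b ≠ 1)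
    (hg : ∀ x ∈ E, g * x * g⁻¹ = x * zp b (κ x)) (hγ : γ ∈ normalizer (E : Set G))
    (hγκ : ∀ x ∈ E, κ (γ * x * γ⁻¹) = κ x) (hγb : γ * b * γ⁻¹ ∉ zpowers b) : False := by
  have hm : ∀ x y : G, x ∈ centralizer (hκ.ker : Set G) → y * e * y⁻¹ * e⁻¹ ∈ hκ.ker →
      x * y * e * (x * y)⁻¹ * e⁻¹ = y * e * y⁻¹ * e⁻¹ * (x * e * x⁻¹ * e⁻¹) := fun x y hx hy => by
    have e1 : x * y * e * (x * y)⁻¹ * e⁻¹ = x * (y * e * y⁻¹ * e⁻¹) * (e * x⁻¹ * e⁻¹) := by group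
    rw [e1, ← hx _ hy]; group
  let P : Subgroup G :=
    { carrier := {x | x ∈ centralizer (hκ.ker : Set G) ∧ x * e * x⁻¹ * e⁻¹ ∈ hκ.ker}
      one_mem' := ⟨one_mem _, by simp⟩
      mul_mem' := fun {x y} hx hy => ⟨mul_mem hx.1 hy.1, by
        rw [hm x y hx.1 hy.2]; exact mul_mem hy.2 hx.2⟩
      inv_mem' := fun {x} hx => ⟨inv_mem hx.1, by
        have e1 : x⁻¹ * e * x⁻¹⁻¹ * e⁻¹ = x⁻¹ * ((x * e * x⁻¹ * e⁻¹)⁻¹ * x) := by group
        rw [e1, hx.1 _ (inv_mem hx.2), inv_mul_cancel_left]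
        exact inv_mem hx.2⟩ }
  have hγU : ∀ x ∈ hκ.ker, γ * x * γ⁻¹ ∈ hκ.ker := fun x hx =>
    ⟨conj_mem_of_mem_normalizer hγ hx.1, (hγκ x hx.1).trans hx.2⟩
  have hγN : γ ∈ normalizer (hκ.ker : Set G) := mem_normalizer_of_cj_le (cj_le_iff_forall.2 hγU)
  have he' := inv_conj_mem_of_mem_normalizer hγ he
  have hκe' : κ (γ⁻¹ * e * γ) = 1 := by rw [← hγκ _ he', ← hκe]; congr 1; group
  have hd : ∀ x ∈ P, γ * x * γ⁻¹ * e * (γ * x * γ⁻¹)⁻¹ * e⁻¹ =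
      γ * (x * e * x⁻¹ * e⁻¹) * γ⁻¹ := fun x hx => by
    have e1 : γ * x * γ⁻¹ * e * (γ * x * γ⁻¹)⁻¹ * e⁻¹ =
        γ * (x * (γ⁻¹ * e * γ) * x⁻¹ * (γ⁻¹ * e * γ)⁻¹) * γ⁻¹ := by group
    rw [e1, hE.act hκ he hκe hx.1 hx.2.1 he', hκe', zp_one, hE.comm _ he' _ hx.2.1,
      mul_inv_cancel_right]
  have hCP : ∀ x ∈ centralizer (E : Set G), x ∈ P ∧ x * e * x⁻¹ * e⁻¹ = 1 := fun x hx => by
    have : x * e * x⁻¹ * e⁻¹ = 1 := by rw [← hx e he]; group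
    exact ⟨⟨fun u hu => hx u hu.1, this ▸ one_mem _⟩, this⟩
  obtain ⟨μ, hμ, hμ0, hμ1⟩ := hE.exists_fun _ (conj_mem_of_mem_normalizer hγ hb) hγb
  have hbU : b ∈ hκ.ker := ⟨hb, hκb⟩
  obtain ⟨k, hk⟩ := h.trick (P := P) (D := hκ.ker) (fun x => zp b (μ (x * e * x⁻¹ * e⁻¹)))
    (fun x hx y hy => by
      rw [hm x y hx.1 hy.2, hμ _ hy.2.1 _ hx.2.1, add_comm, zp_add (hE.pow b hb)])
    (fun x _ => pow_mem hbU _) (fun u hu => (hCP u (hE.le_cent hu.1)).1)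
    (fun u hu => by rw [(hCP u (hE.le_cent hu.1)).2, hμ.one, zp_zero])
    (fun u hu x hx => hx.1 u hu) (γ := γ)
    (fun x hx => ⟨conj_mem_of_mem_normalizer (normalizer_le_normalizer_centralizer _ hγN) hx.1,
      hd x hx ▸ hγU _ hx.2⟩) hγU
  have hkZ : k ∈ centralizer (centralizer (E : Set G) : Set G) := fun x hx => by
    have := hk x (hCP x hx).1
    rw [hd x (hCP x hx).1, (hCP x hx).2, mul_one, mul_inv_cancel, hμ.one, zp_zero] at this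
    rw [← mul_inv_eq_iff_eq_mul.1 (by simpa using this)]
  have hgb : g * b * g⁻¹ = b := by rw [hg b hb, hκb, zp_zero, mul_one]
  have hge : g * e * g⁻¹ = e * b := by rw [hg e he, hκe, zp_one]
  have hdg : g * e * g⁻¹ * e⁻¹ = b := by rw [hge, hE.comm e he b hb, mul_inv_cancel_right]
  have hgP : g ∈ P := ⟨fun u hu => by
    have := hg u hu.1
    rw [hu.2, zp_zero, mul_one] at this
    exact (mul_inv_eq_iff_eq_mul.1 this).symm, hdg ▸ hbU⟩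
  have hkg := hk g hgP
  rw [hd g hgP, hdg, hμ0 b hb (mem_zpowers b), hμ1, zp_zero, zp_one, inv_one, mul_one] at hkg
  have ha := inv_conj_mem_of_mem_normalizer hγ hb
  obtain ⟨m, j, hmp, hj⟩ := exists_pow_pElt (p := p) k
  have hy := conj_pow_eq hkg (hkZ _ (hE.le_cent ha)).symm m
  have hgN : g ∈ normalizer (E : Set G) := mem_normalizer_of_cj_le (cj_le_iff_forall.2
    fun x hx => hg x hx ▸ E.mul_mem hx (E.pow_mem hb _))
  have hyE : k ^ m ∈ E := h.mem_of_cent hE hgN he (fun hh => by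
    rw [hge] at hh
    obtain ⟨n, hn⟩ := mem_powers_iff_mem_zpowers.2 (mem_zpowers_of_mem (hE.pow e he) hb1
      ((mul_mem_cancel_left (mem_zpowers e)).1 hh))
    have := hκ.pow hb n
    simp only at hn
    rw [hn, hκe, hκb, mul_zero] at this
    exact one_ne_zero this) (pow_mem hkZ m) hj
  have h1 := hg _ (E.inv_mem hyE)
  have h2 : (γ⁻¹ * b * γ) ^ m = g⁻¹ * zp b (κ (k ^ m)⁻¹) * g := by
    rw [← mul_right_inj g, ← hy, ← inv_mul_eq_iff_eq_mul.2 h1]; group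
  have h3 : (γ⁻¹ * b * γ) ^ m ∈ zpowers b := by
    have := conj_zp g b (κ (k ^ m)⁻¹)
    rw [hgb] at this
    rw [h2, ← this]
    simpa [mul_assoc] using zp_mem b (κ (k ^ m)⁻¹)
  have ha1 : γ⁻¹ * b * γ ≠ 1 := fun e => hb1 (by simpa [mul_assoc] using congrArg (γ * · * γ⁻¹) e)
  have h4 : γ⁻¹ * b * γ ∈ zpowers b := by
    refine zpowers_le.2 h3 (mem_zpowers_of_mem (hE.pow _ ha) (fun e => ?_) (npow_mem_zpowers _ m))
    have := orderOf_dvd_of_pow_eq_one e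
    rw [orderOf_eq_prime (hE.pow _ ha) ha1] at this
    exact hp.out.one_lt.ne' (hmp.symm.eq_one_of_dvd this)
  have h5 : γ⁻¹ ∈ normalizer (zpowers b : Set G) := mem_normalizer_of_cj_le (by
    rw [cj_zpowers, zpowers_le, inv_inv]; exact h4)
  exact hγb (conj_mem_of_mem_normalizer (inv_mem_iff.1 h5) (mem_zpowers b))

theorem map_zp (α : G ≃* G) (c : G) (a : ZMod p) : α (zp c a) = zp (α c) a := map_pow α _ _

theorem Hom.no_tv (h : Hom G) (hE : MEA p E)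
    (h3 : ∀ a ∈ E, ∀ b ∈ E, ∃ c ∈ E, c ∉ zpowers a ⊔ zpowers b) {κ : G → ZMod p} (hκ : Ad E κ)
    {e b g : G} (he : e ∈ E) (hκe : κ e = 1) (hb : b ∈ E) (hκb : κ b = 0) (hb1 : b ≠ 1)
    (hg : ∀ x ∈ E, g * x * g⁻¹ = x * zp b (κ x)) : False := by
  have hz : ∀ c ∈ E, ∀ a : ZMod p, zp c a ∈ E := fun c hc a => E.pow_mem hc _
  obtain ⟨t, ht, htn⟩ := h3 b hb e he
  obtain ⟨a, ha, hκa, hab⟩ : ∃ a ∈ E, κ a = 0 ∧ a ∉ zpowers b := by
    refine ⟨t * (zp e (κ t))⁻¹, E.mul_mem ht (E.inv_mem (hz e he _)), ?_, fun hh => htn ?_⟩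
    · rw [hκ t ht _ (E.inv_mem (hz e he _)), hκ.inv (hz e he _), hκ.zp he, hκe]; ring
    · simpa using mul_mem (mem_sup_left hh) (mem_sup_right (S := zpowers b) (zp_mem e (κ t)))
  have hc := E.mul_mem ha (E.inv_mem hb)
  obtain ⟨κ1, hκ1, h10, h11⟩ := hE.exists_fun (zpowers (a * b⁻¹)) hb fun hh => hab (by
    simpa using mul_mem (mem_zpowers_of_mem (hE.pow _ hc) hb1 hh) (mem_zpowers b))
  obtain ⟨κ', hκ', h20, h21⟩ := hE.exists_fun (zpowers a) hb fun hh =>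
    hab (mem_zpowers_of_mem (hE.pow _ ha) hb1 hh)
  have hκ2 : Ad E fun x => κ' x - κ' e * κ x := fun x hx y hy => by
    simp only [hκ x hx y hy, hκ' x hx y hy]; ring
  obtain ⟨α1, hα1, hβ1⟩ := h.exists_tv hE.toEA hκ1 hc (h10 _ hc (mem_zpowers _))
  obtain ⟨α2, hα2, hβ2⟩ := h.exists_tv hE.toEA hκ2 he (by simp [hκe])
  have e1 : α1 b = a := by rw [hα1 b hb, h11, zp_one, hE.comm b hb _ hc, inv_mul_cancel_right]
  have e2 : α2 a = a := by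
    rw [hα2 a ha, h20 a ha (mem_zpowers a), hκa, mul_zero, sub_zero, zp_zero, mul_one]
  have m1 : ∀ x ∈ E, α1.symm x ∈ E := fun x hx => hβ1 x hx ▸ E.mul_mem hx (E.inv_mem (hz _ hc _))
  have m2 : ∀ x ∈ E, α2.symm x ∈ E := fun x hx => hβ2 x hx ▸ E.mul_mem hx (E.inv_mem (hz _ he _))
  have k1 : ∀ x ∈ E, κ (α1.symm x) = κ x := fun x hx => by
    rw [hβ1 x hx, hκ x hx _ (E.inv_mem (hz _ hc _)), hκ.inv (hz _ hc _), hκ.zp hc,
      hκ a ha _ (E.inv_mem hb), hκ.inv hb, hκa, hκb]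
    ring
  have hγ : ∀ x ∈ E, α2 (α1 g) * x * (α2 (α1 g))⁻¹ = x * zp a (κ (α2.symm x)) := fun x hx => by
    have := congrArg (fun y => α2 (α1 y)) (hg _ (m1 _ (m2 x hx)))
    simpa only [map_mul, map_inv, MulEquiv.apply_symm_apply, map_zp, e1, e2, k1 _ (m2 x hx)]
      using this
  refine h.no_tv_aux hE hκ he hκe hb hκb hb1 hg (γ := α2 (α1 g)) (mem_normalizer_of_cj_le
    (cj_le_iff_forall.2 fun x hx => hγ x hx ▸ E.mul_mem hx (hz a ha _))) (fun x hx => ?_)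
    fun hh => hab ?_
  · rw [hγ x hx, hκ x hx _ (hz a ha _), hκ.zp ha, hκa, mul_zero, add_zero]
  · rw [hγ b hb, hβ2 b hb, h21, hκb, mul_zero, sub_zero, zp_one, hκ b hb _ (E.inv_mem he),
      hκ.inv he, hκb, hκe, zero_add, zp_neg (hE.pow a ha), zp_one] at hh
    exact inv_mem_iff.1 ((mul_mem_cancel_left (mem_zpowers b)).1 hh)

/-- the normalizer of a maximal elementary abelian subgroup of rank at least 3 acts by scalars -/
theorem Hom.conj_mem_zpowers (h : Hom G) (hE : MEA p E)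
    (h3 : ∀ a ∈ E, ∀ b ∈ E, ∃ c ∈ E, c ∉ zpowers a ⊔ zpowers b) {g : G}
    (hg : g ∈ normalizer (E : Set G)) {x : G} (hx : x ∈ E) : g * x * g⁻¹ ∈ zpowers x := by
  have hz : ∀ c ∈ E, ∀ a : ZMod p, zp c a ∈ E := fun c hc a => E.pow_mem hc _
  have comm : ∀ (α : G ≃* G) (r v : G),
      r * α r⁻¹ * v * (r * α r⁻¹)⁻¹ = r * α (r⁻¹ * α.symm v * r) * r⁻¹ := fun α r v => by
    simpa using conj_aut α r⁻¹ v
  by_contra hy
  have hyE := conj_mem_of_mem_normalizer hg hx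
  obtain ⟨l, hl, hl0, hl1⟩ := hE.exists_fun _ hyE hy
  obtain ⟨α, hα, hβ⟩ := h.exists_tv hE.toEA hl hx (hl0 x hx (mem_zpowers x))
  obtain ⟨r, hr⟩ : ∃ r : G, ∀ v ∈ E, ∃ i : ZMod p,
      r * v * r⁻¹ = v * ((zp x (l v))⁻¹ * zp (g * x * g⁻¹) i) := by
    refine ⟨g * α g⁻¹, fun v hv => ⟨l (g⁻¹ * (v * (zp x (l v))⁻¹) * g), ?_⟩⟩
    rw [comm, hβ v hv, hα _ (inv_conj_mem_of_mem_normalizer hg
      (E.mul_mem hv (E.inv_mem (hz x hx _)))), ← conj_zp]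
    group
  obtain ⟨c, hc, hcn⟩ := h3 x hx _ hyE
  obtain ⟨κ, hκ, hκ0, hκ1⟩ := hE.exists_fun _ hc hcn
  have hr' : ∀ v ∈ E, ∃ w ∈ hκ.ker, r * v * r⁻¹ = v * w := fun v hv => by
    obtain ⟨i, hi⟩ := hr v hv
    have hw := E.mul_mem (E.inv_mem (hz x hx (l v))) (hz _ hyE i)
    exact ⟨_, ⟨hw, hκ0 _ hw (mul_mem (inv_mem (mem_sup_left (zp_mem _ _)))
      (mem_sup_right (zp_mem _ _)))⟩, hi⟩
  have hrN : r ∈ normalizer (E : Set G) := mem_normalizer_of_cj_le (cj_le_iff_forall.2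
    fun v hv => by
      obtain ⟨w, hw, e⟩ := hr' v hv
      exact e ▸ E.mul_mem hv hw.1)
  have hrκ : ∀ v ∈ E, κ (r * v * r⁻¹) = κ v := fun v hv => by
    obtain ⟨w, hw, e⟩ := hr' v hv
    rw [e, hκ v hv w hw.1, hw.2, add_zero]
  by_cases hrU : r ∈ centralizer (hκ.ker : Set G)
  · obtain ⟨w, hw, e⟩ := hr' c hc
    have e' : r * c * r⁻¹ * c⁻¹ = w := by rw [e, hE.comm c hc w hw.1, mul_inv_cancel_right]
    have hact := fun v hv => hE.act hκ hc hκ1 hrU (e' ▸ hw.1) (v := v) hv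
    rw [e'] at hact
    refine h.no_tv hE h3 hκ hc hκ1 hw.1 hw.2 (fun hw1 => ?_) hact
    obtain ⟨i, hi⟩ := hr _ hyE
    rw [hact _ hyE, hw1, hl1, zp_one, mul_right_inj, zp, one_pow, eq_inv_mul_iff_mul_eq,
      mul_one] at hi
    have hx1 : x ≠ 1 := by rintro rfl; simp at hy
    have := zp_mem (g * x * g⁻¹) i
    rw [← hi] at this
    exact hy (mem_zpowers_of_mem (hE.pow _ hyE) hx1 this)
  · obtain ⟨u, hu, hru⟩ : ∃ u ∈ hκ.ker, u * r ≠ r * u := by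
      by_contra! hh; exact hrU hh
    obtain ⟨α', hα', hβ'⟩ := h.exists_tv hE.toEA hκ hu.1 hu.2
    have hu' := conj_mem_of_mem_normalizer hrN hu.1
    refine h.no_tv hE h3 hκ hc hκ1 (b := u⁻¹ * (r * u * r⁻¹)) (g := r * α' r⁻¹)
      (E.mul_mem (E.inv_mem hu.1) hu') ?_ (fun e => hru ?_) fun v hv => ?_
    · rw [hκ _ (E.inv_mem hu.1) _ hu', hκ.inv hu.1, hrκ u hu.1]; ring
    · exact (mul_inv_eq_iff_eq_mul.1 (inv_mul_eq_one.1 e).symm).symm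
    · have hv1 := E.mul_mem hv (E.inv_mem (hz u hu.1 (κ v)))
      have hv2 := inv_conj_mem_of_mem_normalizer hrN hv1
      have e1 : κ (r⁻¹ * (v * (zp u (κ v))⁻¹) * r) = κ v := by
        rw [← hrκ _ hv2, show r * (r⁻¹ * (v * (zp u (κ v))⁻¹) * r) * r⁻¹ = v * (zp u (κ v))⁻¹ by
          group, hκ v hv _ (E.inv_mem (hz u hu.1 _)), hκ.inv (hz u hu.1 _), hκ.zp hu.1, hu.2]
        ring
      have e2 : zp (u⁻¹ * (r * u * r⁻¹)) (κ v) = (zp u (κ v))⁻¹ * zp (r * u * r⁻¹) (κ v) := by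
        rw [zp, zp, zp, Commute.mul_pow (hE.comm _ (E.inv_mem hu.1) _ hu'), inv_pow]
      rw [comm, hβ' v hv, hα' _ hv2, e1, e2, ← conj_zp]
      group

end CF.Hmg
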