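import Cfsg.Agent.PLocal.HomB
import Cfsg.Agent.Solv.Frattini
import Cfsg.Agent.Coprime.Abelian

/-! A homogeneous group whose maximal elementary abelian 2-subgroups are noncyclic and central in
their normalizers has a normal 2-complement. -/

set_option autoImplicit false

open Subgroup CF.Transfer

namespace CF.Hmg

variable {G : Type*} [Group G] {p : ℕ}

theorem mem_of_pow {K : Subgroup G} {x : G} {n : ℕ} (hx : x ^ n ∈ K)
    (h : (orderOf x).Coprime n) : x ∈ K := by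
  obtain ⟨m, hm⟩ := exists_pow_eq_self_of_coprime h.symm
  rw [← hm]
  exact K.pow_mem hx m

theorem exists_mul_pow {K : Subgroup G} {k a : G} (hk : k ∈ K) (ha : a ∈ normalizer (K : Set G))
    (n : ℕ) : ∃ k' ∈ K, (k * a) ^ n = k' * a ^ n := by
  induction n with
  | zero => exact ⟨1, K.one_mem, by simp⟩
  | succ n ih =>
    obtain ⟨k', hk', e⟩ := ih
    exact ⟨k' * (a ^ n * k * (a ^ n)⁻¹), K.mul_mem hk'
      (conj_mem_of_mem_normalizer (pow_mem ha n) hk), by rw [pow_succ, e, pow_succ]; group⟩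

variable [Finite G] [hp : Fact p.Prime]

theorem exists_pow_coprime (x : G) : ∃ k, (orderOf (x ^ p ^ k)).Coprime p := by
  have h0 : orderOf x ≠ 0 := (orderOf_pos x).ne'
  refine ⟨(orderOf x).factorization p, ?_⟩
  rw [orderOf_pow_of_dvd (pow_ne_zero _ hp.out.ne_zero) (Nat.ordProj_dvd _ _)]
  exact (Nat.coprime_ordCompl hp.out h0).symm

/-- a `p`-subgroup maximal with a nontrivial `p'`-automorphism is radical -/
theorem mem_of_rad {P O : Subgroup G} (hP : IsPGroup p P) {γ : G}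
    (hγ : γ ∈ normalizer (P : Set G)) (hγo : (orderOf γ).Coprime p)
    (hγc : γ ∉ centralizer (P : Set G))
    (hmax : ∀ Q : Subgroup G, IsPGroup p Q → Nat.card P < Nat.card Q →
      ∀ g ∈ normalizer (Q : Set G), (orderOf g).Coprime p → g ∈ centralizer (Q : Set G))
    (hO : O ≤ normalizer (P : Set G)) (hON : γ ∈ normalizer (O : Set G))
    (hON' : normalizer (P : Set G) ≤ normalizer (O : Set G))
    (hOc : ∀ x ∈ O, (orderOf x).Coprime p → x ∈ centralizer (P : Set G)) {y : G} (hy : y ∈ O)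
    {j : ℕ} (hj : y ^ p ^ j = 1) : y ∈ P := by
  obtain ⟨i, -, hi⟩ := (Nat.dvd_prime_pow hp.out).1 (orderOf_dvd_of_pow_eq_one hj)
  obtain ⟨T, hyT, hT⟩ := exists_isSylowIn_ge (isPGroup_zpowers hi) (zpowers_le.2 hy)
  by_contra hyP
  have hlt : P < P ⊔ T :=
    lt_of_le_of_ne le_sup_left fun e => hyP (e ▸ mem_sup_right (hyT (mem_zpowers y)))
  obtain ⟨o, ho, n, hn, rfl⟩ := hT.frattini hON
  have hnP : n ∈ normalizer (P : Set G) := (mul_mem_cancel_left (hO ho)).1 hγ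
  have hnQ : n ∈ normalizer ((P ⊔ T : Subgroup G) : Set G) := by
    rw [mem_normalizer_iff_cj] at hn hnP ⊢
    rw [cj_sup, hn, hnP]
  obtain ⟨a, ha, b, hb, ⟨k, hk⟩, hbo, e, -⟩ := exists_pPart_pPrimePart (p := p)
    (isOfFinOrder_of_finite n)
  have hbC : b ∈ centralizer (P : Set G) := centralizer_le (SetLike.coe_subset_coe.2 le_sup_left)
    (hmax _ (hP.to_sup_of_normal_left' hT.isPGroup (hT.le.trans hO)) (card_lt_of_lt hlt) b
      (zpowers_le.2 hnQ hb) hbo)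
  have haP : a ∈ normalizer (P : Set G) := zpowers_le.2 hnP ha
  obtain ⟨o', ho', e1⟩ := exists_mul_pow ho (hON' haP) (p ^ k)
  rw [← hk, pow_orderOf_eq_one, mul_one, hk] at e1
  obtain ⟨l, hl⟩ := exists_pow_coprime (p := p) o'
  have hoa := mul_mem (hO ho) haP
  obtain ⟨c, hc, e2⟩ := exists_mul_pow (conj_mem_of_mem_normalizer
    (normalizer_le_normalizer_centralizer _ hoa) hbC)
    (normalizer_le_normalizer_centralizer _ hoa) (p ^ (k + l))
  refine hγc (mem_of_pow (n := p ^ (k + l)) ?_ (hγo.pow_right _))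
  rw [e, show o * (a * b) = o * a * b * (o * a)⁻¹ * (o * a) by group, e2, pow_add, pow_mul, e1]
  exact mul_mem hc (hOc _ (pow_mem ho' _) hl)

omit hp in
theorem exists_chi {C P : Subgroup G} (hP : IsPGroup 2 P) (h : ¬ P ≤ C) :
    ∃ χ : G → ZMod 2, Ad P χ ∧ (∀ x ∈ P, x ∈ C → χ x = 0) ∧ ∃ x ∈ P, χ x ≠ 0 := by
  classical
  obtain ⟨M, hM, hle⟩ := CF.Solv.exists_isCoatom_ge (H := C.subgroupOf P)
    fun e => h (subgroupOf_eq_top.1 e)
  have hi := CF.Solv.index_eq_of_isCoatom_of_isPGroup hP hM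
  refine ⟨fun x => if hx : x ∈ P then (if (⟨x, hx⟩ : P) ∈ M then 0 else 1) else 0,
    fun x hx y hy => ?_, fun x hx hC => ?_, ?_⟩
  · have := mul_mem_iff_of_index_two hi (a := ⟨x, hx⟩) (b := ⟨y, hy⟩)
    simp only [dif_pos hx, dif_pos hy, dif_pos (P.mul_mem hx hy)]
    by_cases h1 : (⟨x, hx⟩ : P) ∈ M <;> by_cases h2 : (⟨y, hy⟩ : P) ∈ M <;>
      simp only [h1, h2, iff_self, iff_true, iff_false, true_iff, false_iff, not_true,
        not_false_iff] at this <;>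
      simp only [h1, h2, if_true, if_false]
    · exact (if_pos this).trans (by decide)
    · exact (if_neg this).trans (by decide)
    · exact (if_neg this).trans (by decide)
    · exact (if_pos this).trans (by decide)
  · simp only [dif_pos hx]
    exact if_pos (hle hC)
  · obtain ⟨x, hx⟩ : ∃ x, x ∉ M := by
      by_contra! hh; exact hM.1 (eq_top_iff.2 fun x _ => hh x)
    exact ⟨x, x.2, by simp [hx]⟩

omit [Finite G] in
theorem zp_inj {c : G} (hc : c ^ p = 1) (h1 : c ≠ 1) {a b : ZMod p} (h : zp c a = zp c b) :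
    a = b := by
  by_contra hab
  refine zp_ne_one hc h1 (sub_ne_zero.2 hab) ?_
  rw [sub_eq_add_neg, zp_add hc, zp_neg hc, h, mul_inv_cancel]

omit hp in
theorem Hom.npc (h : Hom G) (H : ∀ P : Subgroup G, IsPGroup 2 P → ∃ E : Subgroup G, MEA 2 E ∧
    E ≤ centralizer (P : Set G) ∧ normalizer (E : Set G) ≤ centralizer (E : Set G) ∧
      ∀ c ∈ E, ∃ c' ∈ E, c' ∉ zpowers c) : Cfsg.HasNormalPComplement 2 G := by
  refine frobenius_hasNPC' fun Q hQ _ g hg hgo => by_contra fun hgc => ?_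
  obtain ⟨P, ⟨hP, γ, hγ, hγo, hγc⟩, hmax⟩ := Set.Finite.exists_maximalFor
    (fun P : Subgroup G => Nat.card P) {P : Subgroup G | IsPGroup 2 P ∧
      ∃ γ ∈ normalizer (P : Set G), (orderOf γ).Coprime 2 ∧ γ ∉ centralizer (P : Set G)}
    (Set.toFinite _) ⟨Q, hQ, g, hg, hgo, hgc⟩
  clear hQ hg hgo hgc
  have rad := fun O => @mem_of_rad G _ 2 _ _ P O hP γ hγ hγo hγc fun Q hQ hlt g hg hgo =>
    by_contra fun hgc => hlt.not_ge (hmax ⟨hQ, g, hg, hgo, hgc⟩ hlt.le)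
  obtain ⟨E, hE, hEC, hNC, hE2⟩ := H P hP
  have hEP : E ≤ P := fun x hx => rad _ (centralizer_le_normalizer _)
    (normalizer_le_normalizer_centralizer _ hγ) (normalizer_le_normalizer_centralizer _)
    (fun _ hx _ => hx) (hEC hx) (j := 1) (hE.pow x hx)
  have hin : ∀ x ∈ P, x ^ 2 = 1 → x ∈ E := fun x hx e => hE.max x e fun u hu => (hEC hu x hx).symm
  have hN : ∀ g ∈ normalizer (P : Set G), ∀ u ∈ E, g * u * g⁻¹ = u := fun g hg u hu => by
    rw [← hNC (mem_normalizer_of_cj_le (cj_le_iff_forall.2 fun x hx =>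
      hin _ (conj_mem_of_mem_normalizer hg (hEP hx)) (by
        rw [conj_pow, hE.pow x hx]; group))) u hu, mul_inv_cancel_right]
  let O : Subgroup G :=
    { carrier := {g | g ∈ normalizer (P : Set G) ∧ ∀ x ∈ P, g * x * g⁻¹ * x⁻¹ ∈ E}
      one_mem' := ⟨one_mem _, by simp⟩
      mul_mem' := fun {a b} ha hb => ⟨mul_mem ha.1 hb.1, fun x hx => by
        have e : a * b * x * (a * b)⁻¹ * x⁻¹ =
          a * (b * x * b⁻¹ * x⁻¹) * a⁻¹ * (a * x * a⁻¹ * x⁻¹) := by group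
        rw [e, hN a ha.1 _ (hb.2 x hx)]
        exact mul_mem (hb.2 x hx) (ha.2 x hx)⟩
      inv_mem' := fun {a} ha => ⟨inv_mem ha.1, fun x hx => by
        simpa [mul_assoc] using inv_mem (ha.2 _ (inv_conj_mem_of_mem_normalizer ha.1 hx))⟩ }
  have hNO : normalizer (P : Set G) ≤ normalizer (O : Set G) := fun n hn =>
    mem_normalizer_of_cj_le (cj_le_iff_forall.2 fun a ha =>
      ⟨mul_mem (mul_mem hn ha.1) (inv_mem hn), fun x hx => by
        have := ha.2 _ (inv_conj_mem_of_mem_normalizer hn hx)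
        rw [← hN n hn _ this] at this
        simpa [mul_assoc] using this⟩)
  have hOP : ∀ y ∈ O, ∀ j, y ^ 2 ^ j = 1 → y ∈ P := fun y hy j hj =>
    rad O (fun _ ha => ha.1) (hNO hγ) hNO (fun a ha hao => mem_of_pow (n := 2) (fun x hx => by
      have h1 := ha.2 x hx
      have e : a ^ 2 * x * (a ^ 2)⁻¹ =
        a * (a * x * a⁻¹ * x⁻¹) * a⁻¹ * (a * x * a⁻¹ * x⁻¹) * x := by rw [pow_two]; group
      rw [hN a ha.1 _ h1, ← pow_two _, hE.pow _ h1, one_mul] at e
      exact (mul_inv_eq_iff_eq_mul.1 e).symm) hao) hy hj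
  obtain ⟨χ, hχ, hχ0, x0, hx0, hχ1⟩ := exists_chi (C := centralizer {γ}) hP fun hle =>
    hγc fun x hx => (mem_centralizer_singleton_iff.1 (hle hx))
  have hχE : ∀ u ∈ E, χ u = 0 := fun u hu => hχ0 u (hEP hu) (mem_centralizer_singleton_iff.2
    (mul_inv_eq_iff_eq_mul.1 (hN γ hγ u hu)).symm)
  have hz : ∀ c ∈ E, ∀ a : ZMod 2, zp c a ∈ E := fun c hc a => E.pow_mem hc _
  have key : ∀ c ∈ E, ∃ y ∈ P, ∀ x ∈ P, y * x * y⁻¹ = x * zp c (χ x + χ (γ * x * γ⁻¹)) := by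
    intro c hc
    obtain ⟨k, hk⟩ := h.trick (P := P) (D := E) (fun x => zp c (χ x))
      (fun x hx y hy => by rw [hχ x hx y hy, zp_add (hE.pow c hc)]) (fun _ _ => hz c hc _) hEP
      (fun d hd => by rw [hχE d hd, zp_zero]) (fun d hd x hx => (hEC hd x hx).symm) (γ := γ)
      (fun x hx => conj_mem_of_mem_normalizer hγ hx) fun d hd => (hN γ hγ d hd).symm ▸ hd
    have hk' : ∀ x ∈ P, k * x * k⁻¹ = x * zp c (χ x + χ (γ * x * γ⁻¹)) := fun x hx => by
      have := hN γ⁻¹ (inv_mem hγ) _ (hz c hc (χ (γ * x * γ⁻¹)))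
      rw [inv_inv] at this
      rw [hk x hx, this, ← zp_neg (hE.pow c hc), mul_assoc, ← zp_add (hE.pow c hc),
        ZMod.neg_eq_self_mod_two]
    have hkN : k ∈ normalizer (P : Set G) := mem_normalizer_of_cj_le (cj_le_iff_forall.2
      fun x hx => hk' x hx ▸ mul_mem hx (hEP (hz c hc _)))
    have hkO : k ∈ O := ⟨hkN, fun x hx => by
      rw [hk' x hx, hEC (hz c hc _) x hx, mul_inv_cancel_right]; exact hz c hc _⟩
    obtain ⟨m, j, hm, hj⟩ := exists_pow_pElt (p := 2) k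
    refine ⟨k ^ m, hOP _ (pow_mem hkO m) j hj, fun x hx => ?_⟩
    obtain ⟨i, rfl⟩ := Nat.coprime_two_right.1 hm
    rw [conj_pow_eq (hk' x hx) (mul_inv_eq_iff_eq_mul.1 (hN k hkN _ (hz c hc _))), pow_succ,
      pow_mul, hE.pow _ (hz c hc _), one_pow, one_mul]
  obtain ⟨c, hc, hc1⟩ := hE2 1 E.one_mem
  replace hc1 : c ≠ 1 := by rintro rfl; simp at hc1
  obtain ⟨c', hc', hcc⟩ := hE2 c hc
  obtain ⟨y, hy, ky⟩ := key c hc
  obtain ⟨y', hy', ky'⟩ := key c' hc'
  have kw : ∀ g ∈ normalizer (P : Set G), ∀ x ∈ P, g * y * g⁻¹ * x * (g * y * g⁻¹)⁻¹ =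
      x * zp c (χ (g⁻¹ * x * g) + χ (γ * (g⁻¹ * x * g) * γ⁻¹)) := fun g hg x hx => by
    rw [← hN g hg _ (hz c hc _), show x * (g * zp c (χ (g⁻¹ * x * g) +
      χ (γ * (g⁻¹ * x * g) * γ⁻¹)) * g⁻¹) = g * (g⁻¹ * x * g * zp c (χ (g⁻¹ * x * g) +
      χ (γ * (g⁻¹ * x * g) * γ⁻¹))) * g⁻¹ by group,
      ← ky _ (inv_conj_mem_of_mem_normalizer hg hx)]
    group
  have hcomm : ∀ g ∈ normalizer (P : Set G), y * (g * y * g⁻¹) = g * y * g⁻¹ * y := by
    intro g hg
    have hw := conj_mem_of_mem_normalizer hg hy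
    have h1 := kw g hg y' hy'
    have h2 := ky' _ hw
    have h3 := ky _ hw
    generalize g * y * g⁻¹ = w at hw h1 h2 h3
    rcases (by decide : ∀ a : ZMod 2, a = 0 ∨ a = 1) (χ w + χ (γ * w * γ⁻¹)) with e | e
    · rw [e, zp_zero, mul_one] at h3
      exact mul_inv_eq_iff_eq_mul.1 h3
    · rw [e, zp_one, hEC hc' w hw] at h2
      rw [hEC (hz c hc _) y' hy'] at h1
      refine (hcc ?_).elim
      rw [← mul_inv_eq_iff_eq_mul.2 h2, ← inv_mem_iff,
        show (y' * w * y'⁻¹ * w⁻¹)⁻¹ = w * y' * w⁻¹ * y'⁻¹ by group, h1, mul_inv_cancel_right]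
      exact zp_mem _ _
  have hγy : γ * y * γ⁻¹ = y := by
    let Y := closure {w | ∃ g ∈ normalizer (P : Set G), w = g * y * g⁻¹}
    have hYP : Y ≤ P := (closure_le _).2 (by
      rintro _ ⟨g, hg, rfl⟩; exact conj_mem_of_mem_normalizer hg hy)
    have : IsMulCommutative Y := isMulCommutative_closure (by
      rintro _ ⟨a, ha, rfl⟩ _ ⟨b, hb, rfl⟩
      have := congrArg (a * · * a⁻¹) (hcomm _ (mul_mem (inv_mem ha) hb))
      simpa [mul_assoc] using this)
    have := CF.Coprime.le_centralizer_of_abelian_of_prime_order (zpowers γ) Y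
      (zpowers_le.2 (mem_normalizer_of_cj_le (by
        rw [cj_closure]
        refine closure_mono ?_
        rintro _ ⟨_, ⟨g, hg, rfl⟩, rfl⟩
        exact ⟨γ * g, mul_mem hγ hg, by group⟩)))
      (CF.Coprime.coprime_card_of_isPGroup (hP.to_le hYP) (by rwa [Nat.card_zpowers]))
      (fun v hv hvp => ?_) (mem_zpowers γ) y (subset_closure ⟨1, one_mem _, by simp⟩)
    · rw [← this, mul_inv_cancel_right]
    · have hvP : v ∈ P := CF.Coprime.commutator_le_of_le_normalizer (zpowers_le.2 hγ)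
        (commutator_mono hYP le_rfl hv)
      obtain ⟨i, hi⟩ := orderOf_eq_pow_of_mem hP hvP
      have h2 : orderOf v = 2 :=
        (Nat.prime_dvd_prime_iff_eq hvp Nat.prime_two).1 (hvp.dvd_of_dvd_pow hi.dvd)
      exact fun g hg => mul_inv_eq_iff_eq_mul.1
        (hN g (zpowers_le.2 hγ hg) v (hin v hvP (h2 ▸ pow_orderOf_eq_one v)))
  let B : Subgroup G :=
    { carrier := {g | g ∈ normalizer (P : Set G) ∧ ∀ x ∈ P, χ (g * x * g⁻¹) = χ x}
      one_mem' := ⟨one_mem _, by simp⟩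
      mul_mem' := fun {a b} ha hb => ⟨mul_mem ha.1 hb.1, fun x hx => by
        rw [← hb.2 x hx, ← ha.2 _ (conj_mem_of_mem_normalizer hb.1 hx)]; congr 1; group⟩
      inv_mem' := fun {a} ha => ⟨inv_mem ha.1, fun x hx => by
        rw [inv_inv, ← ha.2 _ (inv_conj_mem_of_mem_normalizer ha.1 hx)]; congr 1; group⟩ }
  have hγB : zpowers γ ≤ B := zpowers_le.2 (mem_of_pow (n := 2) ⟨pow_mem hγ 2, fun x hx => by
    have hx' := conj_mem_of_mem_normalizer hγ hx
    have := kw γ hγ _ hx'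
    rw [hγy, ky _ hx', mul_right_inj, show γ⁻¹ * (γ * x * γ⁻¹) * γ = x by group] at this
    have := zp_inj (hE.pow c hc) hc1 this
    rw [add_comm, add_left_inj] at this
    rw [← this]; congr 1; rw [pow_two]; group⟩ hγo)
  obtain ⟨n, hn, u, hu, e⟩ := CF.Coprime.exists_mul_centralizer_of_commutator_le (zpowers γ) P hχ.ker
    (fun _ hx => hx.1) (fun g hg => mem_normalizer_of_cj_le (cj_le_iff_forall.2 fun x hx =>
      ⟨conj_mem_of_mem_normalizer (hγB hg).1 hx.1, ((hγB hg).2 x hx.1).trans hx.2⟩))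
    (CF.Coprime.coprime_card_of_isPGroup (hP.to_le fun _ hx => hx.1) (by rwa [Nat.card_zpowers]))
    (Or.inl inferInstance) (commutator_le.2 fun x hx g hg => by
      have h1 := conj_mem_of_mem_normalizer (hγB hg).1 (P.inv_mem hx)
      rw [commutatorElement_def, show x * g * x⁻¹ * g⁻¹ = x * (g * x⁻¹ * g⁻¹) by group]
      exact ⟨mul_mem hx h1, by
        rw [hχ x hx _ h1, (hγB hg).2 _ (P.inv_mem hx), hχ.inv hx, add_neg_cancel]⟩) hx0
  refine hχ1 ?_
  rw [e, hχ n hn.1 u hu.1, hn.2, hχ0 u hu.1 (centralizer_le (by simp) hu.2), add_zero]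

end CF.Hmg
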