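import Cfsg.Agent.PLocal.HomC
import Cfsg.Agent.Fgs2.AutP
import Cfsg.Prelude.Def_CaseTheorems

/-! Homogeneous groups: the 2-rank and divisors of the order of the automorphism group. -/

set_option autoImplicit false

open Subgroup CF.Transfer

namespace CF.Hmg

variable {G : Type*} [Group G] {p : ℕ} [Finite G] [hp : Fact p.Prime]

omit [Finite G] hp in
theorem EA.cj {E : Subgroup G} (hE : EA p E) (g : G) : EA p (cj g E) := by
  refine ⟨fun x hx y hy => ?_, fun x hx => ?_⟩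
  · obtain ⟨a, ha, rfl⟩ := mem_cj'.1 hx
    obtain ⟨b, hb, rfl⟩ := mem_cj'.1 hy
    simpa [mul_assoc] using congrArg (· * g⁻¹) (hE.comm a ha b hb)
  · obtain ⟨a, ha, rfl⟩ := mem_cj'.1 hx
    rw [conj_pow, hE.pow a ha]; group

omit [Finite G] hp in
theorem EA.isPGroup {E : Subgroup G} (hE : EA p E) : IsPGroup p E := fun x =>
  ⟨1, Subtype.ext (by simpa using hE.pow _ x.2)⟩

omit hp in
theorem EA.mea {E : Subgroup G} (hE : EA p E)
    (hm : ∀ E' : Subgroup G, EA p E' → Nat.card E' ≤ Nat.card E) : MEA p E := by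
  refine ⟨hE, fun x hx hc => ?_⟩
  let F : Subgroup G :=
    { carrier := {y | ∃ e ∈ E, ∃ n : ℕ, y = e * x ^ n}
      one_mem' := ⟨1, E.one_mem, 0, by simp⟩
      mul_mem' := by
        rintro _ _ ⟨a, ha, m, rfl⟩ ⟨b, hb, n, rfl⟩
        exact ⟨a * b, E.mul_mem ha hb, m + n, by
          rw [mul_assoc, ← mul_assoc (x ^ m), ← pow_mem hc m b hb, pow_add]; group⟩
      inv_mem' := by
        rintro _ ⟨a, ha, m, rfl⟩
        obtain ⟨n, hn⟩ := mem_powers_iff_mem_zpowers.2 (inv_mem (npow_mem_zpowers x m))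
        exact ⟨a⁻¹, E.inv_mem ha, n, by
          rw [mul_inv_rev, ← hn]; exact (pow_mem hc n _ (E.inv_mem ha)).symm⟩ }
  have hF : EA p F := ⟨by
    rintro _ ⟨a, ha, m, rfl⟩ _ ⟨b, hb, n, rfl⟩
    have h1 : Commute a b := hE.comm a ha b hb
    have h2 : Commute a (x ^ n) := pow_mem hc n a ha
    have h3 : Commute b (x ^ m) := pow_mem hc m b hb
    exact ((h1.mul_right h2).mul_left (h3.symm.mul_right (Commute.pow_pow_self x m n))).eq, by
    rintro _ ⟨a, ha, m, rfl⟩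
    rw [Commute.mul_pow (pow_mem hc m a ha), hE.pow a ha, ← pow_mul, mul_comm m, pow_mul, hx]
    simp⟩
  have := eq_of_le_of_card_ge (H := E) (K := F) (fun a ha => ⟨a, ha, 0, by simp⟩) (hm F hF)
  exact this ▸ (⟨1, E.one_mem, 1, by simp⟩ : x ∈ F)

omit hp in
theorem exists_max_ea (p : ℕ) : ∃ E : Subgroup G, EA p E ∧
    ∀ E' : Subgroup G, EA p E' → Nat.card E' ≤ Nat.card E := by
  obtain ⟨E, hE, hm⟩ := Set.Finite.exists_maximalFor (fun E : Subgroup G => Nat.card E)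
    {E | EA p E} (Set.toFinite _) ⟨⊥, by simp, by simp⟩
  exact ⟨E, hE, fun E' h' => (le_total _ _).elim id (hm h')⟩

theorem EA.exists_not_mem {E : Subgroup G} (hE : EA p E) (h : p ^ 2 < Nat.card E) :
    ∀ a ∈ E, ∀ b ∈ E, ∃ c ∈ E, c ∉ zpowers a ⊔ zpowers b := by
  intro a ha b hb
  by_contra! hh
  have hc : Commute a b := hE.comm a ha b hb
  let F : Subgroup G :=
    { carrier := Set.range fun t : ZMod p × ZMod p => zp a t.1 * zp b t.2
      one_mem' := ⟨0, by simp [zp_zero]⟩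
      mul_mem' := by
        rintro _ _ ⟨s, rfl⟩ ⟨t, rfl⟩
        refine ⟨s + t, ?_⟩
        have : zp b s.2 * zp a t.1 = zp a t.1 * zp b s.2 := (hc.pow_pow _ _).eq.symm
        simp only [Prod.fst_add, Prod.snd_add, zp_add (hE.pow a ha), zp_add (hE.pow b hb)]
        rw [mul_assoc, mul_assoc, ← mul_assoc (zp b s.2), this, mul_assoc]
      inv_mem' := by
        rintro _ ⟨s, rfl⟩
        refine ⟨-s, ?_⟩
        have : zp a s.1 * zp b s.2 = zp b s.2 * zp a s.1 := (hc.pow_pow _ _).eq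
        simp only [Prod.fst_neg, Prod.snd_neg, zp_neg (hE.pow a ha), zp_neg (hE.pow b hb)]
        rw [this, mul_inv_rev] }
  have h1 : E ≤ F := fun c hc => (sup_le (zpowers_le.2 ⟨(1, 0), by simp [zp_zero, zp_one]⟩)
    (zpowers_le.2 ⟨(0, 1), by simp [zp_zero, zp_one]⟩) : zpowers a ⊔ zpowers b ≤ F) (hh c hc)
  have h2 : Nat.card F ≤ Nat.card (ZMod p × ZMod p) := Finite.card_range_le _
  rw [Nat.card_prod, Nat.card_zmod, ← pow_two] at h2
  exact h.not_ge ((card_le_of_le h1).trans h2)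

/-- a `p`-subgroup containing `E` centralizes it if its elements normalizing `E` do -/
theorem MEA.le_cent' {E S : Subgroup G} (hE : MEA p E) (hS : IsPGroup p S) (hES : E ≤ S)
    (h : ∀ g ∈ S, g ∈ normalizer (E : Set G) → g ∈ centralizer (E : Set G)) :
    S ≤ centralizer (E : Set G) := by
  by_contra hn
  obtain ⟨g, hg, hgC⟩ := SetLike.exists_of_lt (lt_inf_normalizer_of_lt hS
    (lt_of_le_of_ne inf_le_left fun e => hn (inf_eq_left.1 e) : S ⊓ centralizer (E : Set G) < S))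
  refine hgC ⟨hg.1, h g hg.1 (mem_normalizer_of_cj_le (cj_le_iff_forall.2 fun x hx => ?_))⟩
  refine hE.max _ (by rw [conj_pow, hE.pow x hx]; group) ?_
  exact (conj_mem_of_mem_normalizer hg.2 ⟨hES hx, hE.le_cent hx⟩).2

omit [Finite G] hp in
theorem eq_of_mem_zpowers_two {x y : G} (hx : x ^ 2 = 1) (hy : y ≠ 1) (h : y ∈ zpowers x) :
    y = x := by
  obtain ⟨n, rfl⟩ := h
  have h2 : x ^ (2 : ℤ) = 1 := by exact_mod_cast hx
  rcases Int.even_or_odd' n with ⟨k, rfl | rfl⟩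
  · simp [zpow_mul, h2] at hy
  · simp [zpow_add, zpow_mul, h2]

omit hp in
theorem Hom.rank_le_two (h : Hom G) (hn : ¬ Cfsg.HasNormalPComplement 2 G) :
    Cfsg.PRankLE 2 2 G := by
  intro A hA hA2
  by_contra! hlt
  refine hn (h.npc fun P hP => ?_)
  obtain ⟨E0, hE0, hm⟩ := exists_max_ea (G := G) 2
  obtain ⟨S, hPS, hS⟩ := exists_isSylowIn_ge hP le_top
  obtain ⟨g, -, hg⟩ := hS.exists_cj_le hE0.isPGroup le_top
  have hE : MEA 2 (cj g E0) := (hE0.cj g).mea (by simpa using hm)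
  have h3 := hE.exists_not_mem (hlt.trans_le (by
    simpa using hm A ⟨fun x hx y hy => congrArg Subtype.val
      (hA.is_comm.comm ⟨x, hx⟩ ⟨y, hy⟩), hA2⟩))
  generalize cj g E0 = E at hg hE h3
  have hNC : normalizer (E : Set G) ≤ centralizer (E : Set G) := fun x hx e he => by
    by_cases h1 : e = 1
    · simp [h1]
    · refine (mul_inv_eq_iff_eq_mul.1 (eq_of_mem_zpowers_two (hE.pow e he) (fun e1 => h1 ?_)
        (h.conj_mem_zpowers hE h3 hx he))).symm
      simpa [mul_assoc] using congrArg (x⁻¹ * · * x) e1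
  refine ⟨E, hE, fun e he x hx => ?_, hNC, fun c hc => ?_⟩
  · exact (hE.le_cent' hS.isPGroup hg (fun _ _ hx => hNC hx) (hPS hx) e he).symm
  · obtain ⟨c', h1, h2⟩ := h3 c hc c hc
    exact ⟨c', h1, by simpa using h2⟩

omit hp in
theorem Hom.eq_of_center (h : Hom G) (hn : ¬ Cfsg.HasNormalPComplement 2 G) {z t : G}
    (hz : z ∈ center G) (hz2 : orderOf z = 2) (ht : orderOf t = 2) : t = z := by
  by_contra hne
  have hc : ∀ x : G, x ^ 2 = 1 → x ∈ center G := fun x hx => by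
    by_cases h1 : x = 1
    · exact h1 ▸ one_mem _
    · exact h.mem_of_orderOf hz (hz2.trans (orderOf_eq_prime hx h1).symm)
  let E : Subgroup G :=
    { carrier := {x | x ^ 2 = 1}
      one_mem' := one_pow 2
      mul_mem' := fun {a b} ha hb => by
        change (a * b) ^ 2 = 1
        rw [Commute.mul_pow (mem_center_iff.1 (hc b hb) a), ha, hb, mul_one]
      inv_mem' := fun {a} ha => by
        change a⁻¹ ^ 2 = 1
        rw [inv_pow, ha, inv_one] }
  refine hn (h.npc fun P _ => ⟨E, ⟨⟨fun x _ y hy => mem_center_iff.1 (hc y hy) x, fun _ hx => hx⟩,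
    fun _ hx _ => hx⟩, fun e he x _ => mem_center_iff.1 (hc e he) x,
    fun x _ e he => (mem_center_iff.1 (hc e he) x).symm, fun c hc2 => ?_⟩)
  have hz1 : z ≠ 1 := by rintro rfl; simp at hz2
  have ht1 : t ≠ 1 := by rintro rfl; simp at ht
  by_contra! hh
  exact hne ((eq_of_mem_zpowers_two hc2 ht1 (hh t (show t ^ 2 = 1 from ht ▸ pow_orderOf_eq_one t))).trans
    (eq_of_mem_zpowers_two hc2 hz1 (hh z (show z ^ 2 = 1 from hz2 ▸ pow_orderOf_eq_one z))).symm)

theorem Ad.card_ker {P : Subgroup G} {κ : G → ZMod p} (hκ : Ad P κ) {v : G} (hv : v ∈ P)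
    (h1 : κ v = 1) : Nat.card hκ.ker * p = Nat.card P := by
  let φ : P →* Multiplicative (ZMod p) :=
    MonoidHom.mk' (fun x => .ofAdd (κ x)) fun x y => congrArg _ (hκ _ x.2 _ y.2)
  have hs : Function.Surjective φ := fun a => ⟨⟨v ^ a.toAdd.val, P.pow_mem hv _⟩, by
    change Multiplicative.ofAdd (κ (v ^ a.toAdd.val)) = a
    rw [hκ.pow hv, h1, mul_one, ZMod.natCast_zmod_val]; rfl⟩
  have e : φ.ker = hκ.ker.subgroupOf P := by
    ext x
    exact ⟨fun hx => ⟨x.2, hx⟩, fun hx => hx.2⟩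
  rw [← φ.ker.card_mul_index, index_ker, MonoidHom.range_eq_top.2 hs, card_top,
    Nat.card_congr Multiplicative.toAdd, Nat.card_zmod, e,
    Nat.card_congr (subgroupOfEquivOfLe (H := hκ.ker) fun _ hx => hx.1).toEquiv]

theorem Hom.sq_dvd (h : Hom G) {P : Subgroup G} (hc : ∀ x ∈ P, ∀ y ∈ P, x * y = y * x)
    (hZ : P ⊓ center G = ⊥) {κ : G → ZMod p} (hκ : Ad P κ) {v : G} (hv : v ∈ P) (h1 : κ v = 1)
    (hD : ∀ d ∈ hκ.ker, d ^ p = 1) : Nat.card P ^ 2 ∣ p * Nat.card (MulAut G) := by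
  have hz : ∀ d ∈ hκ.ker, ∀ a : ZMod p, zp d a ∈ hκ.ker := fun d hd a => pow_mem hd _
  have key : ∀ α : MulAut G, ∀ d ∈ hκ.ker, (∀ x ∈ P, α x = x * zp d (κ x)) → ∀ e ∈ hκ.ker,
      α e = e := fun α d hd hα e he => by rw [hα e he.1, he.2, zp_zero, mul_one]
  let Γ : Subgroup (MulAut G) :=
    { carrier := {α | ∃ d ∈ hκ.ker, ∀ x ∈ P, α x = x * zp d (κ x)}
      one_mem' := ⟨1, one_mem _, fun x _ => by simp [zp]⟩
      mul_mem' := by
        rintro α β ⟨d, hd, hα⟩ ⟨e, he, hβ⟩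
        refine ⟨d * e, mul_mem hd he, fun x hx => ?_⟩
        rw [MulAut.mul_apply, hβ x hx, map_mul, hα x hx, key α d hd hα _ (hz e he _), zp, zp, zp,
          Commute.mul_pow (hc d hd.1 e he.1), mul_assoc]
      inv_mem' := by
        rintro α ⟨d, hd, hα⟩
        refine ⟨d⁻¹, inv_mem hd, fun x hx => ?_⟩
        rw [MulAut.inv_apply, MulEquiv.symm_apply_eq, map_mul, hα x hx,
          key α d hd hα _ (hz _ (inv_mem hd) _), zp, zp, inv_pow, mul_inv_cancel_right] }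
  have hv' : ∀ α : MulAut G, ∀ d, (∀ x ∈ P, α x = x * zp d (κ x)) → v⁻¹ * α v = d :=
    fun α d hα => by rw [hα v hv, h1, zp_one, inv_mul_cancel_left]
  let π : Γ →* G := MonoidHom.mk' (fun α => v⁻¹ * α.1 v) (by
    rintro ⟨α, d, hd, hα⟩ ⟨β, e, he, hβ⟩
    change v⁻¹ * α (β v) = v⁻¹ * α v * (v⁻¹ * β v)
    rw [hv' β e hβ, hβ v hv, h1, zp_one, map_mul, key α d hd hα e he, mul_assoc])
  have hr : hκ.ker ≤ π.range := fun d hd => by
    obtain ⟨α, hα, -⟩ := h.exists_delta (P := P) (fun x => zp d (κ x))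
      (fun x hx y hy => by rw [hκ x hx y hy, zp_add (hD d hd)]) (fun x _ => (hz d hd _).1)
      (fun x _ => by rw [(hz d hd _).2, zp_zero]) fun x _ y hy => hc _ (hz d hd _).1 y hy
    exact ⟨⟨α, d, hd, hα⟩, hv' α d hα⟩
  let ι : P →* π.ker := MonoidHom.codRestrict (MonoidHom.codRestrict
    (MulAut.conj.comp P.subtype) Γ fun x => ⟨1, one_mem _, fun y hy => by
      simp [zp, hc _ x.2 y hy]⟩) π.ker fun x => by
    change v⁻¹ * (x * v * (x : G)⁻¹) = 1
    rw [hc _ x.2 v hv]; group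
  have hι : Function.Injective ι := (injective_iff_map_eq_one ι).2 fun x hx => by
    have h2 : MulAut.conj (x : G) = 1 := congrArg (fun t : π.ker => t.1.1) hx
    exact Subtype.ext ((eq_bot_iff_forall _).1 hZ x ⟨x.2, mem_center_iff.2 fun y =>
      (mul_inv_eq_iff_eq_mul.1 (MulEquiv.ext_iff.1 h2 y :)).symm⟩)
  have : Finite (MulAut G) := Finite.of_injective _ (DFunLike.coe_injective (F := MulAut G))
  have e1 := π.ker.card_mul_index
  rw [index_ker] at e1
  rw [pow_two]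
  nth_rw 2 [← hκ.card_ker hv h1]
  rw [← mul_assoc, mul_comm]
  exact Nat.mul_dvd_mul_left p ((e1 ▸ Nat.mul_dvd_mul (card_dvd_of_injective ι hι)
    (card_dvd_of_le hr)).trans (card_subgroup_dvd_card Γ))

theorem Hom.sq_dvd_of_ea (h : Hom G) {P : Subgroup G} (hP : EA p P) (hZ : P ⊓ center G = ⊥) :
    Nat.card P ^ 2 ∣ p * Nat.card (MulAut G) := by
  by_cases h1 : P = ⊥
  · simp [h1]
  obtain ⟨⟨v, hv⟩, hv1⟩ := ne_bot_iff_exists_ne_one.1 h1
  obtain ⟨κ, hκ, -, h2⟩ := hP.exists_fun ⊥ hv fun e => hv1 (Subtype.ext e)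
  exact h.sq_dvd hP.comm hZ hκ hv h2 fun d hd => hP.pow d hd.1

theorem Hom.cube_dvd (h : Hom G) (hd : p ^ 2 ∣ Nat.card G) (hZ : ¬ p ∣ Nat.card (center G)) :
    p ^ 3 ∣ Nat.card (MulAut G) := by
  obtain ⟨P, hP⟩ := Sylow.exists_subgroup_card_pow_prime p hd
  have hZ' : P ⊓ center G = ⊥ := (disjoint_iff.1 (disjoint_of_coprime_natCard (by
    rw [hP]; exact ((Nat.Prime.coprime_iff_not_dvd hp.out).2 hZ).pow_left 2)))
  suffices hs : Nat.card P ^ 2 ∣ p * Nat.card (MulAut G) by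
    rw [hP, ← pow_mul, show 2 * 2 = 3 + 1 by rfl, pow_succ'] at hs
    exact Nat.dvd_of_mul_dvd_mul_left hp.out.pos hs
  have hc : ∀ x ∈ P, ∀ y ∈ P, x * y = y * x := fun x hx y hy => congrArg Subtype.val
    (IsPGroup.commutative_of_card_eq_prime_sq hP ⟨x, hx⟩ ⟨y, hy⟩)
  by_cases he : ∀ x ∈ P, x ^ p = 1
  · exact h.sq_dvd_of_ea ⟨hc, he⟩ hZ'
  push Not at he
  obtain ⟨v, hv, hvp⟩ := he
  have ho : orderOf v = p ^ 2 := orderOf_eq_prime_pow (n := 1) (by simpa using hvp)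
    (by rw [← hP]; exact congrArg Subtype.val (pow_card_eq_one' (x := (⟨v, hv⟩ : P))))
  have hPv : zpowers v = P := eq_of_le_of_card_ge (zpowers_le.2 hv) (by
    rw [Nat.card_zpowers, ho, hP])
  have hex : ∀ x, ∃ n : ℕ, x ∈ P → v ^ n = x := fun x => by
    by_cases hx : x ∈ P
    · obtain ⟨n, hn⟩ := mem_powers_iff_mem_zpowers.2 (hPv ▸ hx)
      exact ⟨n, fun _ => hn⟩
    · exact ⟨0, fun h => (hx h).elim⟩
  choose l hl using hex
  have hl' : ∀ m n : ℕ, v ^ m = v ^ n → (m : ZMod p) = n := fun m n e => by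
    rw [pow_eq_pow_iff_modEq, ho] at e
    exact (ZMod.natCast_eq_natCast_iff _ _ _).2 (e.of_dvd (dvd_pow_self p two_ne_zero))
  have hκ : Ad P fun x => (l x : ZMod p) := fun x hx y hy => by
    rw [← Nat.cast_add]
    exact hl' _ _ (by rw [pow_add, hl x hx, hl y hy, hl _ (P.mul_mem hx hy)])
  refine h.sq_dvd hc hZ' hκ hv (by simpa using hl' (l v) 1 (by rw [hl v hv, pow_one])) fun d hd => ?_
  obtain ⟨k, hk⟩ := (ZMod.natCast_eq_zero_iff _ _).1 hd.2
  rw [← hl d hd.1, hk, ← pow_mul, mul_right_comm, ← pow_two, ← ho, pow_mul, pow_orderOf_eq_one,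
    one_pow]

omit [Finite G] hp in
theorem quotAut_center_injective [Group.IsPerfect G] :
    Function.Injective (CF.Fgs2.quotAut (center G)) := by
  rw [← MonoidHom.ker_eq_bot_iff, eq_bot_iff_forall]
  intro α hα
  have h1 := CF.Fgs2.mem_ker_quotAut.1 hα
  let φ : G →* center G := MonoidHom.mk' (fun x => ⟨x⁻¹ * α x, h1 x⟩) fun x y => Subtype.ext (by
    change (x * y)⁻¹ * α (x * y) = x⁻¹ * α x * (y⁻¹ * α y)
    rw [← mul_assoc, ← mem_center_iff.1 (h1 x) y⁻¹, map_mul]; group)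
  have h2 : commutator G ≤ φ.ker := commutator_le.2 fun x _ y _ => by
    rw [MonoidHom.mem_ker, map_commutatorElement, commutatorElement_eq_one_iff_mul_comm]
    exact Subtype.ext (mem_center_iff.1 (φ y).2 _)
  rw [Group.IsPerfect.commutator_eq_top] at h2
  ext x
  exact (inv_mul_eq_one.1 (congrArg Subtype.val (h2 (mem_top x)))).symm

end CF.Hmg
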