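/-
Replacement arguments for abelian subgroups of largest order not contained in a given normal
subgroup (towards control of transfer by the Thompson subgroup).
-/
import Cfsg.Agent.PLocal.Replace
import Cfsg.Agent.Transfer.KInf3
import Cfsg.Agent.Loc.SPE

set_option autoImplicit false

namespace CF.JE

open Subgroup Cfsg CF.Loc
open CF.PLocal (maxAb)
open scoped commutatorElement

variable {G : Type*} [Group G] {p : ℕ} {T A Q C K V W₁ W₂ W₃ : Subgroup G} {x y : G}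

theorem cj_eq (m a : G) : a * m * a⁻¹ = ⁅m, a⁆⁻¹ * m := by simp only [commutatorElement_def]; group
theorem cm_mul_right (x a b : G) : ⁅x, a * b⁆ = ⁅x, a⁆ * (a * ⁅x, b⁆ * a⁻¹) := by
  simp only [commutatorElement_def]; group
theorem cm_mul_left (m n a : G) : ⁅m * n, a⁆ = m * ⁅n, a⁆ * m⁻¹ * ⁅m, a⁆ := by
  simp only [commutatorElement_def]; group
theorem cm_inv_left (m a : G) : ⁅m⁻¹, a⁆ = m⁻¹ * ⁅m, a⁆⁻¹ * m := by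
  simp only [commutatorElement_def]; group
theorem cm_inv_right (m a : G) : ⁅m, a⁻¹⁆ = a⁻¹ * ⁅m, a⁆⁻¹ * a := by
  simp only [commutatorElement_def]; group
theorem cm_one {a b : G} (h : a * b = b * a) : ⁅a, b⁆ = 1 :=
  commutatorElement_eq_one_iff_mul_comm.2 h
theorem conj_of_comm {a b : G} (h : a * b = b * a) : a * b * a⁻¹ = b := by rw [h, mul_inv_cancel_right]
theorem cm_swap {m a b : G} (h : a * b = b * a) :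
    ⁅⁅m, a⁆, b⁆ = ⁅m, a⁆ * ⁅m, b⁆⁻¹ * ⁅⁅m, b⁆, a⁆ * ⁅m, a⁆⁻¹ * ⁅m, b⁆ := by
  have h1 : a⁻¹ * b⁻¹ = b⁻¹ * a⁻¹ := by rw [← mul_inv_rev, ← h, mul_inv_rev]
  simp only [commutatorElement_def]
  calc _ = m * a * m⁻¹ * a⁻¹ * (b * a) * m * (a⁻¹ * b⁻¹) * b * m⁻¹ * b⁻¹ := by group
    _ = _ := by rw [← h, h1]; group

theorem cm_mem {m a : G} (ha : a ∈ 𝐍(V)) (hm : m ∈ V) : ⁅m, a⁆ ∈ V := by
  have := mul_mem hm (conj_mem_of_mem_normalizer ha (inv_mem hm))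
  simpa only [commutatorElement_def, mul_assoc] using this

theorem f_mul_right {m c d : G} (hc : c ∈ C) (h : ⁅m, d⁆ ∈ C ⊓ 𝐂(C)) : ⁅m, c * d⁆ = ⁅m, c⁆ * ⁅m, d⁆ := by
  rw [cm_mul_right, conj_of_comm (h.2 c hc)]
theorem f_inv_right {m c : G} (hc : c ∈ C) (h : ⁅m, c⁆ ∈ C ⊓ 𝐂(C)) : ⁅m, c⁻¹⁆ = ⁅m, c⁆⁻¹ := by
  rw [cm_inv_right, (inv_mem h : _ ∈ C ⊓ 𝐂(C)).2 _ (inv_mem hc), inv_mul_cancel_right]
theorem f_mul_left {m n c : G} (hm : m ∈ C) (h : ⁅n, c⁆ ∈ C ⊓ 𝐂(C)) (h' : ⁅m, c⁆ ∈ C) :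
    ⁅m * n, c⁆ = ⁅m, c⁆ * ⁅n, c⁆ := by
  rw [cm_mul_left, conj_of_comm (h.2 m hm), h.2 _ h']
theorem f_inv_left {m c : G} (hm : m ∈ C) (h : ⁅m, c⁆ ∈ C ⊓ 𝐂(C)) : ⁅m⁻¹, c⁆ = ⁅m, c⁆⁻¹ := by
  rw [cm_inv_left, (inv_mem h : _ ∈ C ⊓ 𝐂(C)).2 _ (inv_mem hm), inv_mul_cancel_right]

/-- the commutative group structure on an abelian subgroup -/
@[reducible] def cg (ab : V ≤ 𝐂(V)) : CommGroup V :=
  { (inferInstance : Group V) with mul_comm := fun a b => Subtype.ext (ab b.2 a a.2) }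

theorem move {W : Subgroup G} (l : W ≤ C) (hf : ∀ m ∈ W, ∀ c ∈ C, ⁅m, c⁆ ∈ C ⊓ 𝐂(C)) {c d a : G} (hc : c ∈ W)
    (hc' : ⁅c, a⁆ ∈ W) (hd : d ∈ C) (hd' : ⁅d, a⁆ ∈ C) :
    ⁅⁅c, a⁆, d⁆ * ⁅c, ⁅d, a⁆⁆ = ⁅⁅c, a⁆, ⁅d, a⁆⁆ * ⁅⁅c, d⁆, a⁆ := by
  have e : a * ⁅c, d⁆ * a⁻¹ = ⁅a * c * a⁻¹, a * d * a⁻¹⁆ := conjugate_commutatorElement c d a
  have h1 := hf _ hc' _ hd
  have h2 := hf _ hc _ hd'
  have h3 := hf _ hc' _ hd'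
  have h4 := hf _ hc _ hd
  have h5 := mul_mem (inv_mem hd') hd
  rw [cj_eq c, cj_eq d, f_mul_left (l (inv_mem hc')) (hf _ hc _ h5) (hf _ (inv_mem hc') _ h5).1,
    f_inv_left (l hc') (hf _ hc' _ h5), f_mul_right (inv_mem hd') h1, f_mul_right (inv_mem hd') h4,
    f_inv_right hd' h3, f_inv_right hd' h2] at e
  have e' : ⁅⁅c, d⁆, a⁆ = ⁅c, d⁆ * (a * ⁅c, d⁆ * a⁻¹)⁻¹ := by rw [commutatorElement_def ⁅c, d⁆]; group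
  rw [e', e]
  generalize ⁅⁅c, a⁆, d⁆ = g₁ at h1; generalize ⁅c, ⁅d, a⁆⁆ = g₂ at h2
  generalize ⁅⁅c, a⁆, ⁅d, a⁆⁆ = g₃ at h3; generalize ⁅c, d⁆ = g₄ at h4
  lift g₁ to ↥(C ⊓ 𝐂(C)) using h1; lift g₂ to ↥(C ⊓ 𝐂(C)) using h2
  lift g₃ to ↥(C ⊓ 𝐂(C)) using h3; lift g₄ to ↥(C ⊓ 𝐂(C)) using h4
  letI := cg (center_le_centralizer_self C)
  norm_cast
  simp only [mul_inv_rev, inv_inv]
  calc g₁ * g₂ = g₁ * g₂ * (g₃ * g₃⁻¹) * (g₄ * g₄⁻¹) := by group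
    _ = _ := by ac_rfl

theorem count {α β γ : Type*} [Finite β] [Finite γ] (f : α → β) (r : α → α → γ → Prop)
    (h1 : ∀ a q, f a = f q → ∃ c, r a q c) (h2 : ∀ a b q c, r a q c → r b q c → a = b) :
    Nat.card α ≤ Nat.card β * Nat.card γ := by
  rcases isEmpty_or_nonempty α with _ | _
  · simp
  choose g hg using fun a => h1 a (Function.invFun f (f a)) (Function.invFun_eq ⟨a, rfl⟩).symm
  rw [← Nat.card_prod]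
  refine Nat.card_le_card_of_injective (fun a => (f a, g a)) fun a b e => ?_
  have e1 : f a = f b := congrArg Prod.fst e
  have e2 : g a = g b := congrArg Prod.snd e
  exact h2 a b _ _ (hg a) (by rw [e1, e2]; exact hg b)

/-- The elements whose commutator with `x` lies in `L`. -/
def xc (x : G) (L : Subgroup G) : Subgroup G where
  carrier := {g | g ∈ 𝐍(L) ∧ ⁅x, g⁆ ∈ L}
  one_mem' := ⟨one_mem _, by simp [L.one_mem]⟩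
  mul_mem' := fun {a b} ha hb => ⟨mul_mem ha.1 hb.1, by
    rw [cm_mul_right]; exact mul_mem ha.2 (conj_mem_of_mem_normalizer ha.1 hb.2)⟩
  inv_mem' := fun {a} ha => ⟨inv_mem ha.1, by
    rw [cm_inv_right]; exact conj_mem_of_mem_normalizer' ha.1 (inv_mem ha.2)⟩

/-- The choice of `A`. -/
structure Base (p : ℕ) (T A Q C : Subgroup G) : Prop where
  hT : IsPGroup p T
  hA : A ∈ maxAb 0 T
  hmax : ∀ A' ∈ maxAb 0 T, ¬ A' ≤ Q → Nat.card ↥(A' ⊓ C) ≤ Nat.card ↥(A ⊓ C)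
  CQ : C ≤ Q
  CT : C ≤ T

theorem Base.comm (h : Base p T A Q C) {a b : G} (ha : a ∈ A) (hb : b ∈ A) : a * b = b * a :=
  CF.PLocal.comm_of_isMulCommutative h.hA.2.1.1 ha hb

theorem Base.ab (h : Base p T A Q C) : A ≤ 𝐂(A) := fun _ ha _ hb => h.comm hb ha

variable [Finite G]

theorem Base.mem (h : Base p T A Q C) (hx : x ∈ T) (hc : x ∈ 𝐂(A)) : x ∈ A :=
  CF.PLocal.mem_of_mem_centralizer_maxAb h.hA hx hc (pow_zero x)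

omit [Finite G] in
theorem Base.mem_cent (h : Base p T A Q C) (ab : V ≤ 𝐂(V)) (n : A ≤ 𝐍(V)) (hy : y ∈ V) {a : G}
    (ha : a ∈ A) (h1 : ⁅y, a⁆ ∈ A) : a ∈ 𝐂(⁅zpowers y, A⁆) := by
  have h2 : ⁅zpowers y, zpowers a⁆ ≤ A ⊓ V := by
    refine CF.PLocal.commutator_zpowers_zpowers_le
      (centralizer_le_normalizer _ (centralizer_le (inf_le_right : A ⊓ V ≤ V) (ab hy)))
      (inf_normalizer_le_normalizer_inf ⟨le_normalizer ha, n ha⟩) ⟨h1, ?_⟩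
    exact cm_mem (n ha) hy
  apply zpowers_le.mp
  apply CF.PLocal.le_centralizer_of_commutator_eq_bot'
  apply commutator_commutator_eq_bot_of_rotate
  · rw [commutator_eq_bot_iff_le_centralizer.mpr
      (h.ab.trans (centralizer_le (zpowers_le.2 ha))), commutator_bot_left]
  · rw [commutator_comm (zpowers a)]
    exact commutator_eq_bot_iff_le_centralizer.mpr ((h2.trans inf_le_left).trans h.ab)

theorem Base.mem_of_cent (h : Base p T A Q C) (hy : y ∈ T) {a : G} (ha : a ∈ A)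
    (h1 : a ∈ 𝐂(⁅zpowers y, A⁆)) : ⁅y, a⁆ ∈ A := by
  refine h.mem (mul_mem (mul_mem (mul_mem hy (h.hA.1 ha)) (inv_mem hy)) (inv_mem (h.hA.1 ha))) ?_
  refine commutator_eq_bot_iff_le_centralizer.1 (?_ : ⁅⁅zpowers y, zpowers a⁆, A⁆ = ⊥)
    (commutator_mem_commutator (mem_zpowers y) (mem_zpowers a))
  apply commutator_commutator_eq_bot_of_rotate
  · rw [commutator_eq_bot_iff_le_centralizer.mpr ((zpowers_le.2 ha).trans h.ab), commutator_bot_left]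
  · rw [commutator_comm A, commutator_comm]
    exact commutator_eq_bot_iff_le_centralizer.mpr (zpowers_le.2 h1)

/-- non-degeneracy -/
theorem Base.nd (h : Base p T A Q C) (hV : V ≤ C) (ab : V ≤ 𝐂(V)) (n : A ≤ 𝐍(V)) (hy : y ∈ V)
    (h1 : ∀ c ∈ A, c ∈ C → ⁅y, c⁆ ∈ A) {b : G} (hb : b ∈ A) (h2 : ⁅y, b⁆ ∉ A) :
    ⁅zpowers y, A⁆ ⊔ (A ⊓ 𝐂(⁅zpowers y, A⁆)) ∈ maxAb 0 T ∧
      ⁅zpowers y, A⁆ ⊔ (A ⊓ 𝐂(⁅zpowers y, A⁆)) ≤ Q := by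
  have r := CF.PLocal.maxAb_replacement' h.hA (hV.trans h.CT)
    (isElementaryAbelian_iff.2 ⟨ab, fun x _ => pow_zero x⟩) n (zpowers_le.2 hy)
  refine ⟨r, ?_⟩
  by_contra hc
  have h3 := h.hmax _ r hc
  have hM : ⁅zpowers y, A⁆ ≤ C :=
    ((commutator_mono (zpowers_le.2 hy) le_rfl).trans (le_normalizer_iff_commutator_le_left.1 n)).trans hV
  set M := ⁅zpowers y, A⁆ with hMd
  set B := A ⊓ 𝐂(M) with hB
  have nB : B ≤ 𝐍(M) := inf_le_right.trans (centralizer_le_normalizer _)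
  have e1 := card_sup_mul_card_inf' nB
  rw [CF.PLocal.card_eq_of_mem_maxAb r h.hA] at e1
  have e2 := card_sup_mul_card_inf' ((inf_le_left : B ⊓ C ≤ B).trans nB)
  rw [← inf_assoc, inf_of_le_left (inf_le_left.trans hM : M ⊓ B ≤ C)] at e2
  have e3 : Nat.card ↥(M ⊔ B ⊓ C) ≤ Nat.card ↥(A ⊓ C) := (card_le_of_le (le_inf
    (sup_le_sup_left inf_le_left _) (sup_le hM inf_le_right))).trans h3
  have e4 := card_sup_mul_card_inf' (H := A ⊓ C) (N := B)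
    (((inf_le_left.trans h.ab).trans (centralizer_le (inf_le_left : A ⊓ C ≤ A))).trans
      (centralizer_le_normalizer _))
  rw [show A ⊓ C ⊓ B = B ⊓ C from le_antisymm (le_inf inf_le_right (inf_le_left.trans inf_le_right))
    (le_inf (inf_le_inf_right _ inf_le_left) inf_le_left)] at e4
  have e5 : Nat.card A ≤ Nat.card ↥(A ⊓ C ⊔ B) := by
    have p1 : 0 < Nat.card ↥(M ⊓ B) := Nat.card_pos
    have p2 : 0 < Nat.card ↥(B ⊓ C) := Nat.card_pos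
    refine Nat.le_of_mul_le_mul_right (c := Nat.card ↥(M ⊓ B) * Nat.card ↥(B ⊓ C)) ?_ (by positivity)
    calc _ = Nat.card M * Nat.card ↥(B ⊓ C) * Nat.card B := by rw [← mul_assoc, e1]; ring
      _ ≤ Nat.card ↥(A ⊓ C) * Nat.card ↥(M ⊓ B) * Nat.card B := by rw [← e2]; gcongr
      _ = _ := by rw [mul_right_comm, ← e4]; ring
  have e6 : A ⊓ C ⊔ B = A := eq_of_le_of_card_ge (sup_le inf_le_left inf_le_left) e5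
  rw [← e6, mem_sup_of_le_normalizer (((inf_le_left.trans h.ab).trans
    (centralizer_le (inf_le_left : A ⊓ C ≤ A))).trans (centralizer_le_normalizer _))] at hb
  obtain ⟨c, hc, d, hd, rfl⟩ := hb
  refine h2 ?_
  rw [cm_mul_right]
  exact mul_mem (h1 c hc.1 hc.2) (mul_mem (mul_mem hc.1
    (h.mem_of_cent (h.CT (hV hy)) hd.1 hd.2)) (inv_mem hc.1))

theorem Base.nd' (h : Base p T A Q C) (hV : V ≤ C) (ab : V ≤ 𝐂(V)) (n : A ≤ 𝐍(V)) (hy : y ∈ V)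
    (h1 : ∀ c ∈ A, c ∈ C → ⁅y, c⁆ ∈ A) {b : G} (hb : b ∈ A) (h2 : ⁅y, b⁆ ∉ A) {a : G} (ha : a ∈ A)
    (h3 : ⁅y, a⁆ ∈ A) : a ∈ Q :=
  (h.nd hV ab n hy h1 hb h2).2 (mem_sup_right ⟨ha, h.mem_cent ab n hy ha h3⟩)

/-- `A` acts quadratically on the part of `Z(C)` centralizing `Q`. -/
theorem Base.quad [Fact p.Prime] (h : Base p T A Q C) (n : A ≤ 𝐍(C ⊓ 𝐂(C))) (hy : y ∈ C ⊓ 𝐂(C))
    (hQ : y ∈ 𝐂(Q)) {b : G} (hb : b ∈ A) : ⁅y, b⁆ ∈ A := by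
  by_contra h2
  obtain ⟨r, l⟩ := h.nd inf_le_left (center_le_centralizer_self C) n hy
    (fun c _ hc => by rw [cm_one (hy.2 c hc).symm]; exact one_mem _) hb h2
  have h3 := CF.PLocal.mem_of_mem_centralizer_maxAb r (h.CT hy.1) (centralizer_le l hQ) (pow_zero y)
  have hM : ⁅zpowers y, A⁆ ≤ T := (commutator_mono (zpowers_le.2 (h.CT hy.1)) h.hA.1).trans
    (le_normalizer_iff_commutator_le_left.1 le_normalizer)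
  have nM : A ≤ 𝐍(⁅zpowers y, A⁆) := normalizer_commutator_ge_right _ _
  have h4 : ⁅zpowers y, A⁆ ≤ ⁅⁅zpowers y, A⁆, A⁆ := by
    refine (commutator_mono (zpowers_le.2 h3) le_rfl).trans (CF.PLocal.commutator_sup_le
      (normalizer_commutator_ge_left _ _)
      (inf_le_left.trans (normalizer_commutator_ge_right _ _)) le_rfl ?_)
    rw [commutator_eq_bot_iff_le_centralizer.2 (inf_le_left.trans h.ab)]
    exact bot_le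
  have h5 := CF.PLocal.eq_bot_of_le_commutator_pgroup (h.hT.to_le hM) (h.hT.to_le h.hA.1) nM h4
  refine h2 ?_
  have := commutator_mem_commutator (mem_zpowers y) hb
  rw [h5, mem_bot] at this
  rw [this]; exact one_mem _

omit [Finite G] in
/-- The data of the generalized replacement argument. -/
structure Cfg (p : ℕ) (T A Q C K W₁ W₂ W₃ : Subgroup G) : Prop extends Base p T A Q C where
  h2 : p ≠ 2
  nZ : A ≤ 𝐍(C ⊓ 𝐂(C))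
  nK : A ≤ 𝐍(K)
  KZ : K ≤ C ⊓ 𝐂(C)
  KQ : K ≤ 𝐂(Q)
  l1 : W₁ ≤ C
  l2 : W₂ ≤ W₁
  l3 : W₃ ≤ W₂
  lZ : C ⊓ 𝐂(C) ≤ W₃
  d1 : ∀ m ∈ W₁, ∀ a ∈ A, ⁅m, a⁆ ∈ W₂
  d2 : ∀ m ∈ W₂, ∀ a ∈ A, ⁅m, a⁆ ∈ W₃
  fK : ∀ m ∈ W₁, ∀ c ∈ C, ⁅m, c⁆ ∈ K
  f22 : ∀ m ∈ W₂, ∀ c ∈ W₂, ⁅m, c⁆ ∈ A
  f13 : ∀ m ∈ W₁, ∀ c ∈ W₃, ⁅m, c⁆ ∈ A
  f23 : ∀ m ∈ W₂, ∀ c ∈ W₃, m * c = c * m
  dQ : ∀ m ∈ W₁, ∀ q ∈ Q, ⁅m, q⁆ ∈ C ⊓ 𝐂(C)

variable [Fact p.Prime]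

namespace Cfg
variable (h : Cfg p T A Q C K W₁ W₂ W₃)
include h

theorem kA {k a : G} (hk : k ∈ K) (ha : a ∈ A) : ⁅k, a⁆ ∈ K ⊓ A :=
  ⟨cm_mem (h.nK ha) hk, h.quad h.nZ (h.KZ hk) (h.KQ hk) ha⟩

omit [Finite G] [Fact p.Prime] in
theorem kC {k c : G} (hk : k ∈ K) (hc : c ∈ C) : c * k = k * c := (h.KZ hk).2 c hc

omit [Finite G] [Fact p.Prime] in
theorem l2C : W₂ ≤ C := h.l2.trans h.l1

/-- multiplying by elements of `A ⊓ W₂` and `K` -/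
theorem cm_err {m s k b : G} (hm : m ∈ W₂) (hs : s ∈ A) (hs' : s ∈ W₂) (hk : k ∈ K) (hb : b ∈ A) :
    ⁅s * m * k, b⁆ = ⁅m, b⁆ * ⁅k, b⁆ := by
  have h1 := h.kA hk hb
  have h3 : ⁅m * k, b⁆ = ⁅m, b⁆ * ⁅k, b⁆ := by
    rw [cm_mul_left, conj_of_comm (h.kC h1.1 (h.l2C hm)), h.kC h1.1 (h.l2C (h.l3 (h.d2 m hm b hb)))]
  rw [mul_assoc, cm_mul_left, cm_one (h.comm hs hb), mul_one, h3,
    conj_of_comm (h.f23 s hs' _ (mul_mem (h.d2 m hm b hb) (h.lZ (h.KZ h1.1))))]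

omit [Finite G] [Fact p.Prime] in
theorem swap2 {m a b : G} (hm : m ∈ W₂) (ha : a ∈ A) (hb : b ∈ A) : ⁅⁅m, a⁆, b⁆ = ⁅⁅m, b⁆, a⁆ := by
  have h1 := h.d2 m hm a ha
  have h2 := h.d2 m hm b hb
  have h3 := h.d2 _ (h.l3 h2) a ha
  rw [cm_swap (h.comm ha hb), h.f23 _ (h.l3 (mul_mem h1 (inv_mem h2))) _ h3, mul_assoc, mul_assoc,
    mul_assoc, ← mul_assoc (⁅m, b⁆⁻¹), h.f23 _ (h.l3 (inv_mem h2)) _ (inv_mem h1)]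
  group

omit [Finite G] [Fact p.Prime] in
theorem swap1 {m a b : G} (hm : m ∈ W₁) (ha : a ∈ A) (hb : b ∈ A) :
    ∃ e ∈ K ⊓ A, ⁅⁅m, a⁆, b⁆ = ⁅⁅m, b⁆, a⁆ * e := by
  have h1 := h.d1 m hm a ha
  have h2 := h.d1 m hm b hb
  have h3 := h.d2 _ h2 a ha
  refine ⟨⁅⁅m, a⁆, ⁅m, b⁆⁻¹⁆, ⟨h.fK _ (h.l2 h1) _ (h.l2C (inv_mem h2)), h.f22 _ h1 _ (inv_mem h2)⟩, ?_⟩
  rw [cm_swap (h.comm ha hb), h.f23 _ (mul_mem h1 (inv_mem h2)) _ h3]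
  simp only [commutatorElement_def (⁅m, a⁆) (⁅m, b⁆⁻¹)]
  group

end Cfg

omit [Finite G] [Fact p.Prime] in
/-- iterated commutation with elements of `A` -/
structure Op (A K W₂ : Subgroup G) (φ : G → G) : Prop where
  mem : ∀ m ∈ W₂, φ m ∈ W₂
  cm : ∀ m ∈ W₂, ∀ a ∈ A, φ ⁅m, a⁆ = ⁅φ m, a⁆
  err : ∀ m ∈ W₂, ∀ e ∈ K ⊓ A, ∃ e' ∈ K ⊓ A, φ (m * e) = φ m * e'

namespace Cfg
variable (h : Cfg p T A Q C K W₁ W₂ W₃)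
include h

theorem op_cm {φ : G → G} (o : Op A K W₂ φ) {c : G} (hc : c ∈ A) : Op A K W₂ fun m => ⁅φ m, c⁆ := by
  refine ⟨fun m hm => h.l3 (h.d2 _ (o.mem m hm) c hc), fun m hm a ha => ?_, fun m hm e he => ?_⟩
  · rw [o.cm m hm a ha, h.swap2 (o.mem m hm) ha hc]
  · obtain ⟨e', he', e1⟩ := o.err m hm e he
    refine ⟨1, one_mem _, ?_⟩
    have := h.cm_err (o.mem m hm) (one_mem _) (one_mem _) he'.1 hc
    rw [one_mul, cm_one (h.comm he'.2 hc)] at this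
    simp only [e1, this]

theorem exists_op (hx : x ∈ W₁) {a b : G} (ha : a ∈ A) (hb : b ∈ A) (hn : ⁅⁅x, a⁆, b⁆ ∉ A) :
    ∃ φ, Op A K W₂ φ ∧ (∃ a ∈ A, ∃ b ∈ A, φ ⁅⁅x, a⁆, b⁆ ∉ A) ∧
      ∀ a ∈ A, ∀ b ∈ A, ∀ c ∈ A, ⁅φ ⁅⁅x, a⁆, b⁆, c⁆ ∈ A := by
  by_contra! hc
  obtain ⟨n, hn'⟩ := exists_iterCommutator_eq_bot (h.hT.to_le (h.l2C.trans h.CT)) (h.hT.to_le h.hA.1)
    (le_normalizer_iff_commutator_le_left.2 (commutator_le.2 fun m hm a ha => h.l3 (h.d2 m hm a ha)))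
  have key : ∀ n, ∃ φ, Op A K W₂ φ ∧ (∃ a ∈ A, ∃ b ∈ A, φ ⁅⁅x, a⁆, b⁆ ∉ A) ∧
      ∀ m ∈ W₂, φ m ∈ iterCommutator W₂ A n := by
    intro n
    induction n with
    | zero => exact ⟨id, ⟨fun _ h => h, fun _ _ _ _ => rfl, fun _ _ e he => ⟨e, he, rfl⟩⟩,
        ⟨a, ha, b, hb, hn⟩, fun _ h => h⟩
    | succ n ih =>
      obtain ⟨φ, o, b1, b2⟩ := ih
      obtain ⟨a, ha, b, hb, c, hc, h4⟩ := hc φ o b1
      exact ⟨_, h.op_cm o hc, ⟨a, ha, b, hb, h4⟩, fun m hm => commutator_mem_commutator (b2 m hm) hc⟩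
  obtain ⟨φ, -, ⟨a, ha, b, hb, h4⟩, b2⟩ := key n
  have := b2 _ (h.l3 (h.d2 _ (h.d1 x hx a ha) b hb))
  rw [hn', mem_bot] at this
  exact h4 (this ▸ one_mem _)

/-- the test element -/
theorem test (hx : x ∈ W₁) {a₀ b₀ : G} (ha₀ : a₀ ∈ A) (hb₀ : b₀ ∈ A) (hn : ⁅⁅x, a₀⁆, b₀⁆ ∉ A)
    {a b c s k : G} (ha : a ∈ A) (hb : b ∈ A) (hc : c ∈ A) (hs : s ∈ A) (hk : k ∈ K)
    (e : ⁅⁅x, a⁆, b⁆ = s * ⁅x, c⁆ * k) : c ∈ Q := by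
  obtain ⟨φ, o, ⟨a₁, ha₁, b₁, hb₁, h1⟩, h3⟩ := h.exists_op hx ha₀ hb₀ hn
  have hy := o.mem _ (h.d1 x hx a₁ ha₁)
  rw [o.cm _ (h.d1 x hx a₁ ha₁) _ hb₁] at h1
  have key : ∀ {a b c s k : G}, a ∈ A → b ∈ A → c ∈ A → s ∈ A → k ∈ K →
      ⁅⁅x, a⁆, b⁆ = s * ⁅x, c⁆ * k → ⁅φ ⁅x, a₁⁆, c⁆ ∈ A := by
    intro a b c s k ha hb hc hs hk e
    have hw := h.l3 (h.d2 _ (h.d1 x hx a ha) b hb)
    have hu := h.d1 x hx c hc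
    have hs' : s ∈ W₂ := by
      have : s = ⁅⁅x, a⁆, b⁆ * k⁻¹ * ⁅x, c⁆⁻¹ := by rw [e]; group
      rw [this]
      exact mul_mem (mul_mem hw (inv_mem (h.l3 (h.lZ (h.KZ hk))))) (inv_mem hu)
    obtain ⟨e₁, he₁, e1⟩ := h.swap1 hx ha₁ hc
    have h4 := h3 a ha b hb a₁ ha₁
    rw [← o.cm _ hw _ ha₁, e, h.cm_err hu hs hs' hk ha₁] at h4
    have hv := h.l3 (h.d2 _ hu a₁ ha₁)
    obtain ⟨e₂, he₂, e2⟩ := o.err _ hv _ (h.kA hk ha₁)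
    obtain ⟨e₃, he₃, e3⟩ := o.err _ hv _ he₁
    rw [e2, mul_mem_cancel_right (mem_inf.1 he₂).2] at h4
    rw [← o.cm _ (h.d1 x hx a₁ ha₁) _ hc, e1, e3]
    exact mul_mem h4 he₃.2
  set y := φ ⁅x, a₁⁆
  have c3 : W₃ ≤ 𝐂(zpowers y ⊔ W₃) := le_centralizer_iff.1 (sup_le (zpowers_le.2 fun c hc => (h.f23 y hy c hc).symm)
    fun m hm c hc => h.f23 c (h.l3 hc) m hm)
  refine h.nd' (V := zpowers y ⊔ W₃) (sup_le (zpowers_le.2 (h.l2C hy)) (h.l3.trans h.l2C))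
    (sup_le (le_centralizer_iff.1 (sup_le (le_centralizer _) (le_centralizer_iff.1
      (zpowers_le.2 fun c hc => (h.f23 y hy c hc).symm)))) c3) ?_
    (mem_sup_left (mem_zpowers y)) (fun c hc hc' => ?_) hb₁ h1 hc (key ha hb hc hs hk e)
  · refine le_normalizer_iff_commutator_le_left.2 ((commutator_mono (sup_le (zpowers_le.2 hy) h.l3) le_rfl).trans
      ((commutator_le.2 h.d2).trans le_sup_right))
  · exact key (one_mem _) (one_mem _) hc (one_mem _) (inv_mem (h.fK x hx c hc'))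
      (by rw [one_mul, mul_inv_cancel, commutatorElement_one_right])

omit [Finite G] [Fact p.Prime] in
theorem abZ : C ⊓ 𝐂(C) ≤ 𝐂(C ⊓ 𝐂(C)) := center_le_centralizer_self C

omit [Finite G] [Fact p.Prime] in
theorem memL {l : G} : l ∈ C ⊓ 𝐂(C) ⊓ A ⊔ K ↔ ∃ z ∈ C ⊓ 𝐂(C) ⊓ A, ∃ k ∈ K, z * k = l :=
  mem_sup_of_le_normalizer ((h.KZ.trans h.abZ).trans (centralizer_le_normalizer_of_le inf_le_left))

omit [Finite G] [Fact p.Prime] in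
theorem LZ : C ⊓ 𝐂(C) ⊓ A ⊔ K ≤ C ⊓ 𝐂(C) := sup_le inf_le_left h.KZ

omit [Finite G] [Fact p.Prime] in
theorem nL : A ≤ 𝐍(C ⊓ 𝐂(C) ⊓ A ⊔ K) :=
  le_normalizer_sup ((le_inf h.nZ le_normalizer).trans inf_normalizer_le_normalizer_inf) h.nK

theorem LA {l a : G} (hl : l ∈ C ⊓ 𝐂(C) ⊓ A ⊔ K) (ha : a ∈ A) : ⁅l, a⁆ ∈ K ⊓ A := by
  obtain ⟨z, hz, k, hk, rfl⟩ := h.memL.1 hl
  have := h.cm_err (one_mem _) hz.2 (h.l3 (h.lZ hz.1)) hk ha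
  rw [mul_one, commutatorElement_one_left, one_mul] at this
  exact this ▸ h.kA hk ha

omit [Finite G] [Fact p.Prime] in
theorem LQ {l s : G} (hl : l ∈ C ⊓ 𝐂(C) ⊓ A ⊔ K) (hs : s ∈ A) (hs' : s ∈ Q) : s * l = l * s := by
  obtain ⟨z, hz, k, hk, rfl⟩ := h.memL.1 hl
  rw [← mul_assoc, h.comm hs hz.2, mul_assoc, h.KQ hk s hs', mul_assoc]

omit [Finite G] [Fact p.Prime] in
theorem fZ {m c : G} (hm : m ∈ W₁) (hc : c ∈ C) : ⁅m, c⁆ ∈ C ⊓ 𝐂(C) := h.KZ (h.fK m hm c hc)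

theorem cj1 (hx : x ∈ W₁) {s a : G} (hs : s ∈ A) (hl : ⁅x, s⁆ ∈ C ⊓ 𝐂(C) ⊓ A ⊔ K) (ha : a ∈ A) :
    s * ⁅x, a⁆ * s⁻¹ = ⁅x, a⁆ * ⁅⁅x, s⁆, a⁆⁻¹ := by
  have hz := h.LZ hl
  have hu := h.l2C (h.d1 x hx a ha)
  rw [conjugate_commutatorElement, conj_of_comm (h.comm hs ha), cj_eq, cm_mul_left,
    conj_of_comm ((inv_mem hz : _ ∈ C ⊓ 𝐂(C)).2 _ hu).symm, cm_inv_left,
    h.kC (inv_mem (h.LA hl ha).1) (inv_mem hz.1), inv_mul_cancel_right]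

theorem sq_cancel {a b : G} (ha : a ∈ C ⊓ 𝐂(C)) (hb : b ∈ C ⊓ 𝐂(C)) (e : a ^ 2 = b ^ 2) : a = b := by
  have h1 : (a * b⁻¹) ^ 2 = 1 := by
    rw [Commute.mul_pow ((inv_mem hb : _ ∈ C ⊓ 𝐂(C)).2 a ha.1), e, inv_pow, mul_inv_cancel]
  obtain ⟨k, hk⟩ := h.hT ⟨a * b⁻¹, h.CT (mul_mem ha.1 (inv_mem hb.1))⟩
  have h3 : (a * b⁻¹) ^ p ^ k = 1 := congrArg Subtype.val hk
  have h4 := pow_gcd_eq_one.2 ⟨h1, h3⟩
  rw [Nat.Coprime.gcd_eq_one (((Nat.coprime_primes Nat.prime_two Fact.out).2 h.h2.symm).pow_right k),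
    pow_one] at h4
  exact mul_inv_eq_one.1 h4

theorem t_mul (hx : x ∈ W₁) {s s' a a' : G} (hs : s ∈ A) (hq : s ∈ Q) (hl : ⁅x, s⁆ ∈ C ⊓ 𝐂(C) ⊓ A ⊔ K)
    (hl' : ⁅x, s'⁆ ∈ C ⊓ 𝐂(C) ⊓ A ⊔ K) (ha : a ∈ A) (ha' : a' ∈ A) : ∃ e ∈ A,
    ⁅x, s * s'⁆ ^ 2 * ⁅x, ⁅x, a * a'⁆⁆ = ⁅x, s⁆ ^ 2 * ⁅x, ⁅x, a⁆⁆ * (⁅x, s'⁆ ^ 2 * ⁅x, ⁅x, a'⁆⁆) * e := by
  have hu := h.d1 x hx a ha
  have hu' := h.d1 x hx a' ha'
  have hv := h.d2 _ hu' a ha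
  have h1 := h.fZ hx (h.l2C hu)
  have h2 := h.fZ hx (h.l2C hu')
  have h3 := h.fZ hx (h.l2C (h.l3 hv))
  refine ⟨_, inv_mem (h.f13 x hx _ hv), ?_⟩
  rw [cm_mul_right x s, conj_of_comm (h.LQ hl' hs hq), cm_mul_right x a, cj_eq,
    f_mul_right (h.l2C hu) (h.fZ hx (h.l2C (mul_mem (inv_mem (h.l3 hv)) hu'))),
    f_mul_right (h.l2C (inv_mem (h.l3 hv))) h2, f_inv_right (h.l2C (h.l3 hv)) h3]
  have h4 := h.LZ hl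
  have h5 := h.LZ hl'
  generalize ⁅x, ⁅x, a⁆⁆ = g₁ at h1; generalize ⁅x, ⁅⁅x, a'⁆, a⁆⁆ = g₃ at h3; generalize ⁅x, ⁅x, a'⁆⁆ = g₂ at h2
  generalize ⁅x, s⁆ = g₄ at h4; generalize ⁅x, s'⁆ = g₅ at h5
  lift g₁ to ↥(C ⊓ 𝐂(C)) using h1; lift g₂ to ↥(C ⊓ 𝐂(C)) using h2; lift g₃ to ↥(C ⊓ 𝐂(C)) using h3
  lift g₄ to ↥(C ⊓ 𝐂(C)) using h4; lift g₅ to ↥(C ⊓ 𝐂(C)) using h5
  letI := cg h.abZ
  norm_cast
  rw [mul_pow]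
  ac_rfl

theorem two_f (hx : x ∈ W₁) {a b : G} (ha : a ∈ A) (hb : b ∈ A) :
    ⁅⁅x, a⁆, ⁅x, b⁆⁆ ^ 2 * ⁅⁅x, ⁅x, a⁆⁆, b⁆ = ⁅⁅x, ⁅x, b⁆⁆, a⁆ := by
  have hu := h.d1 x hx a ha
  have hv := h.d1 x hx b hb
  have e1 := move h.l1 (fun _ hm _ => h.fZ hm) hx (h.l2 hu) (h.l2C hv) (h.l2C (h.l3 (h.d2 _ hv a ha)))
  have e2 := move h.l1 (fun _ hm _ => h.fZ hm) hx (h.l2 hv) (h.l2C hu) (h.l2C (h.l3 (h.d2 _ hu b hb)))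
  rw [cm_one (h.f23 _ hu _ (h.d2 _ hv a ha)), one_mul] at e1
  rw [cm_one (h.f23 _ hv _ (h.d2 _ hu b hb)), one_mul] at e2
  obtain ⟨e, he, e3⟩ := h.swap1 hx ha hb
  rw [e3, f_mul_right (h.l2C (h.l3 (h.d2 _ hv a ha))) (h.fZ hx (h.KZ he.1).1), cm_one (h.kC he.1 (h.l1 hx)),
    mul_one, ← commutatorElement_inv ⁅x, a⁆] at e2
  rw [← e1, ← e2, pow_two, mul_assoc, mul_inv_cancel_left]

theorem dZ {z z' a : G} (hz : z ∈ C ⊓ 𝐂(C)) (hz' : z' ∈ C ⊓ 𝐂(C)) (ha : a ∈ A) :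
    ⁅z * z', a⁆ = ⁅z, a⁆ * ⁅z', a⁆ := f_mul_left hz.1 (cm_mem (h.nZ ha) hz') (cm_mem (h.nZ ha) hz).1

theorem comm_E (hx : x ∈ W₁) {s s' a a' : G} (hs : s ∈ A) (hq : s ∈ Q) (hl : ⁅x, s⁆ ∈ C ⊓ 𝐂(C) ⊓ A ⊔ K)
    (hs' : s' ∈ A) (hl' : ⁅x, s'⁆ ∈ C ⊓ 𝐂(C) ⊓ A ⊔ K) (ha : a ∈ A) (ha' : a' ∈ A)
    (t : ⁅x, s⁆ ^ 2 * ⁅x, ⁅x, a⁆⁆ ∈ A) (t' : ⁅x, s'⁆ ^ 2 * ⁅x, ⁅x, a'⁆⁆ ∈ A) :
    s * ⁅x, a⁆ * (s' * ⁅x, a'⁆) = s' * ⁅x, a'⁆ * (s * ⁅x, a⁆) := by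
  have hu := h.d1 x hx a ha
  have hu' := h.d1 x hx a' ha'
  have c1 := h.cj1 hx hs hl ha'
  have c2 := h.cj1 hx hs' hl' ha
  have e0 := h.two_f hx ha ha'
  have e1 := cm_one (h.comm t ha')
  have e2 := cm_one (h.comm t' ha)
  have hz := h.LZ hl
  have hz' := h.LZ hl'
  rw [h.dZ (pow_mem hz 2) (h.fZ hx (h.l2C hu)) ha', pow_two, h.dZ hz hz ha', ← pow_two] at e1
  rw [h.dZ (pow_mem hz' 2) (h.fZ hx (h.l2C hu')) ha, pow_two, h.dZ hz' hz' ha, ← pow_two] at e2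
  have hα := h.LA hl ha'
  have hβ := h.LA hl' ha
  have hγ := h.fK _ (h.l2 hu) _ (h.l2C hu')
  have key : ⁅⁅x, a⁆, ⁅x, a'⁆⁆ * ⁅⁅x, s'⁆, a⁆ = ⁅⁅x, s⁆, a'⁆ := by
    refine h.sq_cancel (h.KZ (mul_mem hγ hβ.1)) (h.KZ hα.1) ?_
    rw [Commute.mul_pow (h.kC hβ.1 (h.KZ hγ).1), eq_inv_of_mul_eq_one_left e1, eq_inv_of_mul_eq_one_left e2, ← e0,
      mul_inv_rev, h.kC (inv_mem (pow_mem hγ 2)) (inv_mem (cm_mem (h.nZ ha') (h.fZ hx (h.l2C hu))).1),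
      mul_inv_cancel_left]
  generalize ⁅⁅x, s⁆, a'⁆ = α at *
  generalize ⁅⁅x, s'⁆, a⁆ = β at *
  generalize ⁅x, a⁆ = u at *
  generalize ⁅x, a'⁆ = u' at *
  have b1 : u * s' = s' * (u * β) := by
    calc u * s' = s' * u * s'⁻¹ * (β * s') := by rw [c2]; group
      _ = _ := by rw [h.comm hβ.2 hs']; group
  have b2 : u' * s = s * (u' * α) := by
    calc u' * s = s * u' * s⁻¹ * (α * s) := by rw [c1]; group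
      _ = _ := by rw [h.comm hα.2 hs]; group
  calc _ = s * (u * s') * u' := by group
    _ = s * s' * (⁅u, u'⁆ * u' * u) * (u'⁻¹ * β * u') := by rw [b1, commutatorElement_def]; group
    _ = s' * s * (u' * (⁅u, u'⁆ * β) * u) := by
      rw [h.kC hβ.1 (inv_mem (h.l2C hu')), inv_mul_cancel_right, h.comm hs hs', ← h.kC hγ (h.l2C hu'),
        mul_assoc (s' * s), mul_assoc _ u, h.kC hβ.1 (h.l2C hu)]
      group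
    _ = s' * (u' * s) * u := by rw [key, b2]; group
    _ = _ := by group

theorem comm_w (hx : x ∈ W₁) {s a a₁ b₁ : G} (hs : s ∈ A) (hl : ⁅x, s⁆ ∈ C ⊓ 𝐂(C) ⊓ A ⊔ K)
    (ha : a ∈ A) (ha₁ : a₁ ∈ A) (hb₁ : b₁ ∈ A) :
    s * ⁅x, a⁆ * ⁅⁅x, a₁⁆, b₁⁆ = ⁅⁅x, a₁⁆, b₁⁆ * (s * ⁅x, a⁆) := by
  have hu := h.d1 x hx a₁ ha₁
  have hα := inv_mem (h.LA hl ha₁)
  have e : s * ⁅⁅x, a₁⁆, b₁⁆ * s⁻¹ = ⁅⁅x, a₁⁆, b₁⁆ := by
    have := h.cm_err hu (one_mem _) (one_mem _) hα.1 hb₁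
    rw [one_mul, cm_one (h.comm hα.2 hb₁), mul_one] at this
    rw [conjugate_commutatorElement, conj_of_comm (h.comm hs hb₁), h.cj1 hx hs hl ha₁, this]
  rw [mul_assoc, h.f23 _ (h.d1 x hx a ha) _ (h.d2 _ hu b₁ hb₁), ← mul_assoc, ← mul_assoc]
  congr 1
  rw [← mul_inv_eq_iff_eq_mul, e]

/-- The generalized replacement argument. -/
theorem core (hx : x ∈ W₁) {a₁ b₁ : G} (ha₁ : a₁ ∈ A) (hb₁ : b₁ ∈ A) :
    ∃ s ∈ A, ∃ c ∈ A ⊓ Q, ∃ k ∈ K, ⁅⁅x, a₁⁆, b₁⁆ = s * ⁅x, c⁆ * k := by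
  by_cases hn : ⁅⁅x, a₁⁆, b₁⁆ ∈ A
  · exact ⟨_, hn, 1, one_mem _, 1, one_mem _, by simp⟩
  by_contra hc
  set L := C ⊓ 𝐂(C) ⊓ A ⊔ K with hL
  set B := A ⊓ xc x L with hB
  have a1 : ∀ c ∈ A, ∀ s ∈ A, ∀ k ∈ K, ⁅x, c⁆ = s * k → c ∈ Q ∧ c ∈ B := by
    intro c hc s hs k hk e
    have h1 := h.test hx ha₁ hb₁ hn (one_mem _) (one_mem _) hc (inv_mem hs) (inv_mem hk)
      (by rw [e, commutatorElement_one_right]; group)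
    refine ⟨h1, hc, h.nL hc, h.memL.2 ⟨s, ⟨?_, hs⟩, k, hk, e.symm⟩⟩
    rw [eq_mul_inv_of_mul_eq e.symm]
    exact (mul_mem (h.dQ x hx c h1) (inv_mem (h.KZ hk)) : _ ∈ C ⊓ 𝐂(C))
  have BQ : ∀ s ∈ B, s ∈ Q := fun s hs => by
    obtain ⟨z, hz, k, hk, e⟩ := h.memL.1 hs.2.2
    exact (a1 s hs.1 z hz.2 k hk e.symm).1
  let P := {q : B × A // ⁅x, (q.1 : G)⁆ ^ 2 * ⁅x, ⁅x, (q.2 : G)⁆⁆ ∈ A}
  have tL : ∀ q : B × A, ⁅x, (q.1 : G)⁆ ^ 2 * ⁅x, ⁅x, (q.2 : G)⁆⁆ ∈ L := fun q =>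
    mul_mem (pow_mem q.1.2.2.2 2) (mem_sup_right (h.fK x hx _ (h.l2C (h.d1 x hx _ q.2.2))))
  choose z hz k hk hzk using fun q => h.memL.1 (tL q)
  have c1 := count (γ := P) (fun q : B × A => ((⟨k q, hk q⟩ : K) : K ⧸ A.subgroupOf K))
    (fun a q c => a = q * c.1) (fun a q e => by
      refine ⟨⟨q⁻¹ * a, ?_⟩, by simp⟩
      have e1 : (k a)⁻¹ * k q ∈ A := (QuotientGroup.eq (s := A.subgroupOf K)).1 e
      obtain ⟨e, he, e2⟩ := h.t_mul hx q.1.2.1 (BQ _ q.1.2) q.1.2.2.2 (q⁻¹ * a).1.2.2.2 q.2.2 (q⁻¹ * a).2.2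
      have e3 : (q.1 : G) * (q⁻¹ * a).1 = a.1 := by simp
      have e4 : (q.2 : G) * (q⁻¹ * a).2 = a.2 := by simp
      rw [e3, e4, ← hzk a, ← hzk q] at e2
      have e5 : ⁅x, ((q⁻¹ * a).1 : G)⁆ ^ 2 * ⁅x, ⁅x, ((q⁻¹ * a).2 : G)⁆⁆ =
          (k q)⁻¹ * ((z q)⁻¹ * z a) * k a * e⁻¹ := by
        rw [mul_assoc, mul_assoc, mul_assoc, ← mul_assoc (z a), e2]; group
      rw [e5, ← h.kC (inv_mem (hk q)) (mul_mem (inv_mem (hz q).1.1) (hz a).1.1), mul_assoc _ _ (k a)]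
      refine mul_mem (mul_mem (mul_mem (inv_mem (hz q).2) (hz a).2) ?_) (inv_mem he)
      simpa using inv_mem e1) (fun a b q c e1 e2 => e1.trans e2.symm)
  set w := ⁅⁅x, a₁⁆, b₁⁆ with hw
  have hw3 : w ∈ W₃ := h.d2 _ (h.d1 x hx _ ha₁) _ hb₁
  let S : Set G := {g | (∃ q : P, g = q.1.1 * ⁅x, (q.1.2 : G)⁆) ∨ g = w ∨ g ∈ K}
  have SQ : ∀ g ∈ S, g ∈ Q ⊓ T := by
    rintro g (⟨q, rfl⟩ | rfl | hg)
    · have := h.l2C (h.d1 x hx _ q.1.2.2)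
      exact mul_mem ⟨BQ _ q.1.1.2, h.hA.1 q.1.1.2.1⟩ ⟨h.CQ this, h.CT this⟩
    · exact ⟨h.CQ (h.l2C (h.l3 hw3)), h.CT (h.l2C (h.l3 hw3))⟩
    · exact ⟨h.CQ (h.KZ hg).1, h.CT (h.KZ hg).1⟩
  have Sc : ∀ g ∈ S, ∀ g' ∈ S, g * g' = g' * g := by
    intro g hg g' hg'
    have h1 := SQ g hg
    have h2 := SQ g' hg'
    rcases hg with ⟨q, rfl⟩ | rfl | hg
    · rcases hg' with ⟨q', rfl⟩ | rfl | hg'
      · exact h.comm_E hx q.1.1.2.1 (BQ _ q.1.1.2) q.1.1.2.2.2 q'.1.1.2.1 q'.1.1.2.2.2 q.1.2.2 q'.1.2.2 q.2 q'.2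
      · exact h.comm_w hx q.1.1.2.1 q.1.1.2.2.2 q.1.2.2 ha₁ hb₁
      · exact h.KQ hg' _ h1.1
    · rcases hg' with ⟨q', rfl⟩ | rfl | hg'
      · exact (h.comm_w hx q'.1.1.2.1 q'.1.1.2.2.2 q'.1.2.2 ha₁ hb₁).symm
      · rfl
      · exact h.KQ hg' _ h1.1
    · exact (h.KQ hg _ h2.1).symm
  set E := closure S with hE
  have EA : Nat.card E ≤ Nat.card A := h.hA.2.2 E ((closure_le _).2 fun g hg => (SQ g hg).2)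
    ⟨isMulCommutative_closure fun g hg g' hg' => Sc g hg g' hg', fun g _ => pow_zero g⟩
  have KE : K ≤ E := fun g hg => subset_closure (Or.inr (Or.inr hg))
  have wE : w ∈ E := subset_closure (Or.inr (Or.inl rfl))
  have qE : ∀ q : P, (q.1.1 : G) * ⁅x, (q.1.2 : G)⁆ ∈ E := fun q => subset_closure (Or.inl ⟨q, rfl⟩)
  choose z₁ hz₁ k₁ hk₁ hzk₁ using fun c : B => h.memL.1 c.2.2.2
  have c2 := count (γ := B × ↥(K ⊓ A))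
    (β := {c : E ⧸ K.subgroupOf E // c ≠ ((⟨w, wE⟩ : E) : E ⧸ K.subgroupOf E)})
    (fun q : P => ⟨((⟨_, qE q⟩ : E) : E ⧸ K.subgroupOf E), fun e => by
      have e1 : ((q.1.1 : G) * ⁅x, (q.1.2 : G)⁆)⁻¹ * w ∈ K := (QuotientGroup.eq (s := K.subgroupOf E)).1 e
      have e2 : w = q.1.1 * ⁅x, (q.1.2 : G)⁆ * (((q.1.1 : G) * ⁅x, (q.1.2 : G)⁆)⁻¹ * w) := by group
      exact hc ⟨_, q.1.1.2.1, _, ⟨q.1.2.2, h.test hx ha₁ hb₁ hn ha₁ hb₁ q.1.2.2 q.1.1.2.1 e1 e2⟩, _, e1, e2⟩⟩)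
    (fun a q c => (a.1.2 : G) = q.1.2 * c.1 ∧ (a.1.1 : G) = q.1.1 * c.2 * (z₁ c.1)⁻¹) (fun a q e => by
      have e1 : ((q.1.1 : G) * ⁅x, (q.1.2 : G)⁆)⁻¹ * (a.1.1 * ⁅x, (a.1.2 : G)⁆) ∈ K :=
        (QuotientGroup.eq (s := K.subgroupOf E)).1 (congrArg Subtype.val e).symm
      obtain ⟨⟨⟨s, hs⟩, ⟨a, ha⟩⟩, ht⟩ := a
      obtain ⟨⟨⟨s', hs'⟩, ⟨a', ha'⟩⟩, ht'⟩ := q
      simp only at e1 ⊢
      have hσ : s⁻¹ * s' ∈ B := mul_mem (inv_mem hs) hs'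
      have hc : a'⁻¹ * a ∈ A := mul_mem (inv_mem ha') ha
      have e2 := h.cj1 hx hσ.1 hσ.2.2 ha'
      have hα := h.LA hσ.2.2 ha'
      have e3 := cm_mul_right x a' (a'⁻¹ * a)
      rw [mul_inv_cancel_left] at e3
      generalize ⁅⁅x, s⁻¹ * s'⁆, a'⁆ = α at e2 hα
      have hk' := mul_mem (inv_mem hα : _ ∈ K ⊓ A).1 (conj_mem_of_mem_normalizer' (h.nK ha') e1)
      have e4 : ⁅x, a'⁻¹ * a⁆ = s⁻¹ * s' * (α⁻¹ * (a'⁻¹ * ((s' * ⁅x, a'⁆)⁻¹ * (s * ⁅x, a⁆)) * a')) := by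
        have e5 : a'⁻¹ * (α⁻¹ * (s⁻¹ * s')) = s⁻¹ * s' * α⁻¹ * a'⁻¹ := by
          rw [h.comm (inv_mem ha') (mul_mem (inv_mem hα : _ ∈ K ⊓ A).2 hσ.1), h.comm hσ.1 (inv_mem hα : _ ∈ K ⊓ A).2]
        calc _ = a'⁻¹ * (⁅x, a'⁆⁻¹ * (s⁻¹ * s' * ⁅x, a'⁆ * (s⁻¹ * s')⁻¹) * (s⁻¹ * s')) *
              ((s' * ⁅x, a'⁆)⁻¹ * (s * ⁅x, a⁆)) * a' := by rw [e3]; group
          _ = _ := by rw [e2, inv_mul_cancel_left, e5]; group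
      have hcB := (a1 _ hc _ hσ.1 _ hk' e4).2
      have e6 := hzk₁ ⟨_, hcB⟩
      refine ⟨(⟨_, hcB⟩, ⟨(s⁻¹ * s')⁻¹ * z₁ ⟨_, hcB⟩, ?_, mul_mem (inv_mem hσ : _ ∈ B).1 (hz₁ _).2⟩), by simp, by simp [mul_assoc]⟩
      rw [eq_mul_inv_of_mul_eq e6, e4, ← mul_assoc, inv_mul_cancel_left]
      exact K.mul_mem hk' (K.inv_mem (hk₁ _))) (fun a b q c e1 e2 => Subtype.ext (Prod.ext (Subtype.ext (e1.2.trans e2.2.symm))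
        (Subtype.ext (e1.1.trans e2.1.symm))))
  have c3 : Nat.card {c : E ⧸ K.subgroupOf E // c ≠ ((⟨w, wE⟩ : E) : E ⧸ K.subgroupOf E)} <
      K.relIndex E := Finite.card_subtype_lt (x := ((⟨w, wE⟩ : E) : E ⧸ K.subgroupOf E)) (by simp)
  have c4 := CF.Transfer.card_mul_relIndex KE
  have c5 := CF.Transfer.card_mul_relIndex (inf_le_left : K ⊓ A ≤ K)
  rw [inf_relIndex_left] at c5
  rw [Nat.card_prod] at c1 c2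
  change _ ≤ A.relIndex K * _ at c1
  have p1 : 0 < Nat.card B := Nat.card_pos
  have p2 : 0 < Nat.card K := Nat.card_pos
  generalize Nat.card {c : E ⧸ K.subgroupOf E // c ≠ ((⟨w, wE⟩ : E) : E ⧸ K.subgroupOf E)} = j at c2 c3
  refine lt_irrefl (Nat.card B * Nat.card A) (c1.trans_lt ?_)
  calc _ ≤ A.relIndex K * (j * (Nat.card B * Nat.card ↥(K ⊓ A))) := Nat.mul_le_mul_left _ c2
    _ = Nat.card B * (Nat.card K * j) := by rw [← c5]; ring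
    _ < Nat.card B * (Nat.card K * K.relIndex E) := by gcongr
    _ ≤ _ := by rw [c4]; gcongr

end Cfg

end CF.JE
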