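/-
If the Thompson subgroup is not normal then some abelian subgroup of largest order acts with small
degree on the chief factors inside `O_p(G)`; control of transfer by the Thompson subgroup.
-/
import Cfsg.Agent.PLocal.JEa

set_option autoImplicit false

namespace CF.JE

open Subgroup Cfsg CF.Loc
open CF.PLocal (maxAb)
open CF.Transfer (IsCrit)
open scoped commutatorElement

universe u

variable {G : Type u} [Group G] {p : ℕ} {T A Q C X Y : Subgroup G} {v : G}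

/-- the ascending series of `A` on `X / Y` -/
def UU (X Y A : Subgroup G) : ℕ → Subgroup G
  | 0 => X ⊓ Y
  | k + 1 => closure {x | x ∈ X ∧ ∀ a ∈ A, ⁅x, a⁆ ∈ UU X Y A k}

theorem UU_le (k : ℕ) : UU X Y A k ≤ X := by
  cases k with
  | zero => exact inf_le_left
  | succ k => exact (closure_le _).2 fun x hx => hx.1

theorem le_UU [X.Normal] [Y.Normal] (k : ℕ) : X ⊓ Y ≤ UU X Y A k := by
  induction k with
  | zero => exact le_rfl
  | succ k ih => exact fun x hx => subset_closure ⟨hx.1, fun a _ => ih (cm_mem (le_normalizer_of_normal (mem_top a)) hx)⟩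

theorem conj_mem_of_le {U : Subgroup G} (h : ⁅X, X⁆ ≤ U) (l : U ≤ X) {x u : G} (hx : x ∈ X) (hu : u ∈ U) :
    x * u * x⁻¹ ∈ U := conj_mem_of_mem_normalizer
      (le_normalizer_of_commutator_le le_rfl ((commutator_mono l le_rfl).trans h) hx) hu

theorem cm_closure {U : Subgroup G} {s : Set G} (h : ⁅X, X⁆ ≤ U) (l : U ≤ X) (hs : s ⊆ X) {a : G}
    (h1 : ∀ m ∈ s, ⁅m, a⁆ ∈ U) {m : G} (hm : m ∈ closure s) : ⁅m, a⁆ ∈ U := by
  induction hm using closure_induction with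
  | mem x hx => exact h1 x hx
  | one => simpa using one_mem U
  | mul x y hx _ h2 h3 => rw [cm_mul_left]; exact mul_mem (conj_mem_of_le h l ((closure_le X).2 hs hx) h3) h2
  | inv x hx h2 =>
    rw [cm_inv_left]
    simpa using conj_mem_of_le h l (inv_mem ((closure_le X).2 hs hx)) (inv_mem h2)

theorem mem_UU [X.Normal] [Y.Normal] (h : ⁅X, X⁆ ≤ Y) {k : ℕ} {x : G} :
    x ∈ UU X Y A (k + 1) ↔ x ∈ X ∧ ∀ a ∈ A, ⁅x, a⁆ ∈ UU X Y A k :=
  ⟨fun hx => ⟨UU_le _ hx, fun a ha => cm_closure ((le_inf (commutator_le_left _ _) h).trans (le_UU k)) (UU_le k)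
    (fun _ h => h.1) (fun _ hm => hm.2 a ha) hx⟩, fun hx => subset_closure hx⟩

theorem iter_le_of_UU [X.Normal] [Y.Normal] (h : ⁅X, X⁆ ≤ Y) (k : ℕ) {W : Subgroup G} (hW : W ≤ UU X Y A k) :
    iterCommutator W A k ≤ Y := by
  induction k generalizing W with
  | zero => exact hW.trans inf_le_right
  | succ k ih =>
    rw [CF.Transfer.iterC_succ']
    exact ih (commutator_le.2 fun m hm a ha => ((mem_UU h).1 (hW hm)).2 a ha)

theorem le_UU_of_iter [X.Normal] (k : ℕ) {W : Subgroup G} (l : W ≤ X) (hW : iterCommutator W A k ≤ Y) :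
    W ≤ UU X Y A k := by
  induction k generalizing W with
  | zero => exact le_inf l hW
  | succ k ih =>
    rw [CF.Transfer.iterC_succ'] at hW
    exact fun m hm => subset_closure ⟨l hm, fun a ha => ih ((commutator_mono l le_rfl).trans (commutator_le_left _ _)) hW
      (commutator_mem_commutator hm ha)⟩

/-- monomials -/
inductive Gen (A : Subgroup G) (v : G) : ℕ → G → Prop
  | zero : Gen A v 0 v
  | succ {j : ℕ} {m a : G} : Gen A v j m → a ∈ A → Gen A v (j + 1) ⁅m, a⁆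

/-- the filtration of the cyclic module -/
def WW (C A : Subgroup G) (v : G) (i : ℕ) : Subgroup G :=
  closure {m | m ∈ C ⊓ 𝐂(C) ∨ ∃ j, i ≤ j ∧ Gen A v j m}

theorem Gen.mem [C.Normal] (hv : v ∈ C) {j : ℕ} {m : G} (h : Gen A v j m) : m ∈ C := by
  induction h with
  | zero => exact hv
  | succ _ _ ih => exact cm_mem (le_normalizer_of_normal (mem_top _)) ih

theorem Gen.WW {j i : ℕ} {m : G} (h : Gen A v j m) (l : i ≤ j) : m ∈ WW C A v i := subset_closure (Or.inr ⟨j, l, h⟩)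

theorem Z_le_WW (i : ℕ) : C ⊓ 𝐂(C) ≤ WW C A v i := fun _ h => subset_closure (Or.inl h)

theorem WW_anti {i j : ℕ} (l : i ≤ j) : WW C A v j ≤ WW C A v i :=
  closure_mono fun _ h => h.imp id fun ⟨k, h1, h2⟩ => ⟨k, l.trans h1, h2⟩

theorem WW_le [C.Normal] (hv : v ∈ C) (i : ℕ) : WW C A v i ≤ C :=
  (closure_le _).2 fun _ h => h.elim (fun h => h.1) fun ⟨_, _, h⟩ => h.mem hv

theorem WW_cm [C.Normal] (hC : ⁅C, C⁆ ≤ C ⊓ 𝐂(C)) (hv : v ∈ C) {i : ℕ} {m a : G} (hm : m ∈ WW C A v i) (ha : a ∈ A) :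
    ⁅m, a⁆ ∈ WW C A v (i + 1) := by
  refine cm_closure (hC.trans (Z_le_WW _)) (WW_le hv _) (subset_closure.trans (WW_le hv i)) ?_ hm
  rintro m (h | ⟨j, h1, h2⟩)
  · exact Z_le_WW _ (cm_mem (le_normalizer_of_normal (mem_top _)) h)
  · exact (h2.succ ha).WW (by omega)

theorem WW_five [C.Normal] (hC : ⁅C, C⁆ ≤ C ⊓ 𝐂(C)) (hv : v ∈ UU C (C ⊓ 𝐂(C)) A 5) {i : ℕ} (l : 5 ≤ i) :
    WW C A v i ≤ C ⊓ 𝐂(C) := by
  have key : ∀ j m, Gen A v j m → m ∈ UU C (C ⊓ 𝐂(C)) A (5 - j) := by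
    intro j m h
    induction h with
    | zero => exact hv
    | @succ j m a _ ha ih =>
      rcases lt_or_ge j 5 with h1 | h1
      · rw [show 5 - j = 5 - (j + 1) + 1 by omega] at ih
        exact ((mem_UU hC).1 ih).2 a ha
      · rw [show 5 - j = 0 by omega] at ih
        exact le_UU _ (cm_mem (le_normalizer_of_normal (mem_top _)) ih)
  refine (closure_le _).2 ?_
  rintro m (h | ⟨j, h1, h2⟩)
  · exact h
  · have := key j m h2
    rw [show 5 - j = 0 by omega] at this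
    exact this.2

/-- bilinear induction in the first variable -/
theorem f_ind [C.Normal] (hC : ⁅C, C⁆ ≤ C ⊓ 𝐂(C)) (hv : v ∈ C) {S : Subgroup G} {i : ℕ} {d : G} (hd : d ∈ C)
    (h : ∀ j m, i ≤ j → Gen A v j m → ⁅m, d⁆ ∈ S) {c : G} (hc : c ∈ WW C A v i) : ⁅c, d⁆ ∈ S := by
  induction hc using closure_induction with
  | mem x hx =>
    rcases hx with hx | ⟨j, h1, h2⟩
    · rw [cm_one (hx.2 d hd).symm]; exact one_mem _
    · exact h j x h1 h2
  | one => simpa using one_mem S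
  | mul x y hx hy h2 h3 =>
    rw [f_mul_left (WW_le hv i hx) (hC (commutator_mem_commutator (WW_le hv i hy) hd))
      (hC (commutator_mem_commutator (WW_le hv i hx) hd)).1]
    exact mul_mem h2 h3
  | inv x hx h2 =>
    rw [f_inv_left (WW_le hv i hx) (hC (commutator_mem_commutator (WW_le hv i hx) hd))]
    exact inv_mem h2

theorem move' (hC : ⁅C, C⁆ ≤ C ⊓ 𝐂(C)) {c d a : G} (hc : c ∈ C) (hd : d ∈ C) (ha : a ∈ 𝐍(C)) :
    ⁅⁅c, a⁆, d⁆ = ⁅c, ⁅d, a⁻¹⁆⁆ * ⁅⁅c, a⁻¹ * d * a⁆, a⁆ := by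
  have hd' := conj_mem_of_mem_normalizer' ha hd
  have hc' := conj_mem_of_mem_normalizer ha hc
  have f : ∀ {m n : G}, m ∈ C → n ∈ C → ⁅m, n⁆ ∈ C ⊓ 𝐂(C) := fun hm hn => hC (commutator_mem_commutator hm hn)
  have e1 : ⁅c, a⁆ = c * (a * c * a⁻¹)⁻¹ := by rw [commutatorElement_def]; group
  have e2 : ⁅d, a⁻¹⁆ = d * (a⁻¹ * d * a)⁻¹ := by rw [commutatorElement_def]; group
  have e3 : ⁅⁅c, a⁻¹ * d * a⁆, a⁆ = ⁅c, a⁻¹ * d * a⁆ * ⁅a * c * a⁻¹, d⁆⁻¹ := by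
    simp only [commutatorElement_def]; group
  rw [e1, e2, e3, f_mul_left hc (f (inv_mem hc') hd) (f hc hd).1, f_inv_left hc' (f hc' hd),
    f_mul_right hd (f hc (inv_mem hd')), f_inv_right hd' (f hc hd')]
  group

theorem f_step [C.Normal] (hC : ⁅C, C⁆ ≤ C ⊓ 𝐂(C)) (hv : v ∈ C) {S : Subgroup G} {n : ℕ}
    (h0 : ∀ d ∈ WW C A v n, ⁅v, d⁆ ∈ S)
    (h1 : ∀ i j, n ≤ i + j + 1 → ∀ c ∈ WW C A v i, ∀ d ∈ WW C A v j, ∀ a ∈ A, ⁅⁅c, d⁆, a⁆ ∈ S) (i : ℕ) :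
    ∀ j, n ≤ i + j → ∀ c ∈ WW C A v i, ∀ d ∈ WW C A v j, ⁅c, d⁆ ∈ S := by
  have key : ∀ i m, Gen A v i m → ∀ j, n ≤ i + j → ∀ d ∈ WW C A v j, ⁅m, d⁆ ∈ S := by
    intro i m h
    induction h with
    | zero => exact fun j l d hd => h0 d (WW_anti (by omega) hd)
    | @succ i m a hm ha ih =>
      intro j l d hd
      rw [move' hC (hm.mem hv) (WW_le hv _ hd) (le_normalizer_of_normal (mem_top a))]
      refine mul_mem (ih (j + 1) (by omega) _ (WW_cm hC hv hd (inv_mem ha))) (h1 i j (by omega) _ (hm.WW le_rfl) _ ?_ a ha)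
      have := cj_eq d a⁻¹
      rw [inv_inv] at this
      rw [this]
      exact mul_mem (inv_mem (WW_anti (Nat.le_succ j) (WW_cm hC hv hd (inv_mem ha)))) hd
  exact fun j l c hc d hd => f_ind hC hv (WW_le hv _ hd) (fun k m h2 h3 => key k m h3 j (by omega) d hd) hc

theorem swapZ [C.Normal] (hC : ⁅C, C⁆ ≤ C ⊓ 𝐂(C)) {m a b : G ⧸ (C ⊓ 𝐂(C))} (hm : m ∈ C.map (QuotientGroup.mk' _))
    (h : a * b = b * a) : ⁅⁅m, a⁆, b⁆ = ⁅⁅m, b⁆, a⁆ := by
  haveI : (C.map (QuotientGroup.mk' (C ⊓ 𝐂(C)))).Normal := Normal.map inferInstance _ (QuotientGroup.mk'_surjective _)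
  have ab : ∀ x ∈ C.map (QuotientGroup.mk' (C ⊓ 𝐂(C))), ∀ y ∈ C.map (QuotientGroup.mk' (C ⊓ 𝐂(C))), x * y = y * x := by
    rintro _ ⟨x, hx, rfl⟩ _ ⟨y, hy, rfl⟩
    rw [← commutatorElement_eq_one_iff_mul_comm, ← map_commutatorElement]
    exact (QuotientGroup.eq_one_iff _).2 (hC (commutator_mem_commutator hx hy))
  have n : ∀ g, g ∈ 𝐍(C.map (QuotientGroup.mk' (C ⊓ 𝐂(C)))) := fun g => le_normalizer_of_normal (mem_top g)
  have h1 := cm_mem (n a) hm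
  have h2 := cm_mem (n b) hm
  have h3 := cm_mem (n a) h2
  rw [cm_swap h, ab _ (mul_mem h1 (inv_mem h2)) _ h3, mul_assoc, mul_assoc,
    mul_assoc, ← mul_assoc (⁅m, b⁆⁻¹), ab _ (inv_mem h2) _ (inv_mem h1)]
  group

theorem rev4 [C.Normal] (hC : ⁅C, C⁆ ≤ C ⊓ 𝐂(C)) (ab : A ≤ 𝐂(A)) (hv : v ∈ C) {a b c e : G} (ha : a ∈ A) (hb : b ∈ A)
    (hc : c ∈ A) (he : e ∈ A) : ⁅v, ⁅⁅⁅⁅v, e⁆, c⁆, b⁆, a⁆⁆ = ⁅v, ⁅⁅⁅⁅v, a⁆, b⁆, c⁆, e⁆⁆ := by
  haveI : (C.map (QuotientGroup.mk' (C ⊓ 𝐂(C)))).Normal := Normal.map inferInstance _ (QuotientGroup.mk'_surjective _)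
  have n : ∀ g, g ∈ 𝐍(C.map (QuotientGroup.mk' (C ⊓ 𝐂(C)))) := fun g => le_normalizer_of_normal (mem_top g)
  have n' : ∀ g, g ∈ 𝐍(C) := fun g => le_normalizer_of_normal (mem_top g)
  let π := QuotientGroup.mk' (C ⊓ 𝐂(C))
  have cm : ∀ {x y}, x ∈ A → y ∈ A → π x * π y = π y * π x := fun hx hy => by
    rw [← map_mul, ← map_mul, ab hy _ hx]
  have h0 : π v ∈ C.map π := mem_map_of_mem π hv
  have e1 : π ⁅⁅⁅⁅v, a⁆, b⁆, c⁆, e⁆ = π ⁅⁅⁅⁅v, e⁆, c⁆, b⁆, a⁆ := by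
    simp only [map_commutatorElement]
    rw [swapZ hC (cm_mem (n _) (cm_mem (n _) h0)) (cm hc he), swapZ hC (cm_mem (n _) h0) (cm hb he),
      swapZ hC h0 (cm ha he), swapZ hC (cm_mem (n _) (cm_mem (n _) h0)) (cm hb hc),
      swapZ hC (cm_mem (n _) h0) (cm ha hc), swapZ hC (cm_mem (n _) (cm_mem (n _) h0)) (cm ha hb)]
  obtain ⟨z, hz, e2⟩ := (QuotientGroup.mk'_eq_mk' _).1 e1
  have e3 : ⁅v, z⁆ = 1 := cm_one (hz.2 v hv)
  rw [← e2, f_mul_right (cm_mem (n' _) (cm_mem (n' _) (cm_mem (n' _) (cm_mem (n' _) hv)))) (e3 ▸ one_mem _), e3, mul_one]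

variable [Finite G] [Fact p.Prime]

omit [Finite G] in
theorem mem_of_sq (hT : IsPGroup p T) (h2 : p ≠ 2) {x : G} (hx : x ∈ T) (h : x ^ 2 ∈ A) : x ∈ A := by
  obtain ⟨k, hk⟩ := CF.Transfer.orderOf_eq_pow_of_mem hT hx
  refine zpowers_le.2 h (mem_zpowers_pow_iff.2 ?_)
  rw [hk]
  exact ((Nat.coprime_primes Nat.prime_two Fact.out).2 h2.symm).pow_right k

theorem Base.cfg1 (h : Base p T A Q C) [C.Normal] (h2 : p ≠ 2) :
    Cfg p T A Q C ⊥ (C ⊓ 𝐂(C)) (C ⊓ 𝐂(C)) (C ⊓ 𝐂(C)) :=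
  have n : ∀ g, g ∈ 𝐍(C ⊓ 𝐂(C)) := fun g => le_normalizer_of_normal (mem_top g)
  { h with
    h2 := h2, nZ := le_normalizer_of_normal, nK := le_normalizer_of_normal, KZ := bot_le, KQ := bot_le
    l1 := inf_le_left, l2 := le_rfl, l3 := le_rfl, lZ := le_rfl
    d1 := fun _ hm a _ => cm_mem (n a) hm, d2 := fun _ hm a _ => cm_mem (n a) hm
    fK := fun _ hm c hc => cm_one (hm.2 c hc).symm
    f22 := fun _ hm c hc => by rw [cm_one (hm.2 c hc.1).symm]; exact one_mem _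
    f13 := fun _ hm c hc => by rw [cm_one (hm.2 c hc.1).symm]; exact one_mem _
    f23 := fun _ hm c hc => (hm.2 c hc.1).symm
    dQ := fun _ hm a _ => cm_mem (n a) hm }

omit [Finite G] [Fact p.Prime] in
theorem cm_mem_of (ab : A ≤ 𝐂(A)) [Y.Normal] {s y c : G} (hs : s ∈ A) (hy : y ∈ Y) (hc : c ∈ A) : ⁅s * y, c⁆ ∈ Y := by
  rw [cm_mul_left, cm_one (ab hc s hs), mul_one]
  exact Normal.conj_mem inferInstance _ (cm_mem (le_normalizer_of_normal (mem_top c)) hy) s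

theorem Base.deg3 (h : Base p T A Q C) [C.Normal] (h2 : p ≠ 2) [X.Normal] [Y.Normal] (l : X ≤ C ⊓ 𝐂(C))
    (hQ : ⁅X, Q⁆ ≤ Y) : iterCommutator X A 3 ≤ Y := by
  have hX : ⁅X, X⁆ ≤ Y := (commutator_mono le_rfl ((l.trans inf_le_left).trans h.CQ)).trans hQ
  have n : ∀ g, g ∈ 𝐍(X) := fun g => le_normalizer_of_normal (mem_top g)
  refine iter_le_of_UU hX 3 fun x hx => (mem_UU hX).2 ⟨hx, fun a ha => (mem_UU hX).2 ⟨cm_mem (n a) hx, fun b hb =>
    (mem_UU hX).2 ⟨cm_mem (n b) (cm_mem (n a) hx), fun c hc => ⟨cm_mem (n c) (cm_mem (n b) (cm_mem (n a) hx)), ?_⟩⟩⟩⟩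
  obtain ⟨s, hs, d, hd, k, hk, e⟩ := (h.cfg1 h2).core (l hx) ha hb
  rw [e, mem_bot.1 hk, mul_one]
  exact cm_mem_of h.ab hs (hQ (commutator_mem_commutator hx hd.2)) hc

theorem Base.cfg2 (h : Base p T A Q C) [C.Normal] (h2 : p ≠ 2) (hQ : ⁅C, Q⁆ ≤ C ⊓ 𝐂(C))
    (hv : v ∈ UU C (C ⊓ 𝐂(C)) A 5) : Cfg p T A Q C ⁅C, C⁆ (WW C A v 1) (WW C A v 2) (WW C A v 3) := by
  have hC : ⁅C, C⁆ ≤ C ⊓ 𝐂(C) := (commutator_mono le_rfl h.CQ).trans hQ
  have hv' := UU_le _ hv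
  have KQ : ⁅C, C⁆ ≤ 𝐂(Q) := by
    have : ⁅⁅C, Q⁆, C⁆ = ⊥ := commutator_eq_bot_iff_le_centralizer.2 (hQ.trans inf_le_right)
    exact commutator_eq_bot_iff_le_centralizer.1 (commutator_commutator_eq_bot_of_rotate this
      (by rwa [commutator_comm Q]))
  have kA : ∀ c ∈ C, ∀ d ∈ C, ∀ a ∈ A, ⁅⁅c, d⁆, a⁆ ∈ A := fun c hc d hd a ha =>
    h.quad le_normalizer_of_normal (hC (commutator_mem_commutator hc hd)) (KQ (commutator_mem_commutator hc hd)) ha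
  have z5 : ∀ (S : Subgroup G), ∀ d ∈ WW C A v 5, ⁅v, d⁆ ∈ S := fun S d hd => by
    rw [cm_one ((WW_five hC hv le_rfl hd).2 v hv')]; exact one_mem _
  have A5 := f_step hC hv' (z5 A) fun i j _ c hc d hd => kA c (WW_le hv' _ hc) d (WW_le hv' _ hd)
  have mv : ∀ i j, 3 ≤ i + j → ∀ c d, Gen A v i c → Gen A v j d → ∀ a ∈ A, ⁅⁅c, a⁆, d⁆ * ⁅c, ⁅d, a⁆⁆ ∈ A := by
    intro i j l c d hc hd a ha
    rw [move le_rfl (fun m hm c hc => hC (commutator_mem_commutator hm hc)) (hc.mem hv') ((hc.succ ha).mem hv')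
      (hd.mem hv') ((hd.succ ha).mem hv')]
    exact mul_mem (A5 (i + 1) (j + 1) (by omega) _ ((hc.succ ha).WW le_rfl) _ ((hd.succ ha).WW le_rfl))
      (kA _ (hc.mem hv') _ (hd.mem hv') a ha)
  have A4 := f_step (n := 4) hC hv' (fun d hd => by
    rw [← inv_mem_iff, commutatorElement_inv]
    refine f_ind hC hv' hv' (fun j m l g => ?_) hd
    rw [← inv_mem_iff, commutatorElement_inv]
    rcases l.eq_or_lt with rfl | l
    swap
    · exact z5 A m (g.WW l)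
    rcases g with _ | ⟨g, he⟩; rcases g with _ | ⟨g, hc⟩; rcases g with _ | ⟨g, hb⟩; rcases g with _ | ⟨g, ha⟩
    cases g
    rename_i e c b a
    have g0 : Gen A v 0 v := .zero
    have m1 := mv 0 3 le_rfl _ _ g0 (((g0.succ ha).succ hb).succ hc) _ he
    have m2 := mv 1 2 le_rfl _ _ (g0.succ he) ((g0.succ ha).succ hb) _ hc
    have m3 := mv 2 1 le_rfl _ _ ((g0.succ he).succ hc) (g0.succ ha) _ hb
    have m4 := mv 3 0 le_rfl _ _ (((g0.succ he).succ hc).succ hb) g0 _ ha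
    rw [← commutatorElement_inv v, rev4 hC h.ab hv' ha hb hc he] at m4
    have m5 := mul_mem (mul_mem (mul_mem (inv_mem m4) m3) (inv_mem m2)) m1
    have f : ∀ {i j m n}, Gen A v i m → Gen A v j n → ⁅m, n⁆ ∈ C ⊓ 𝐂(C) := fun hm hn =>
      hC (commutator_mem_commutator (hm.mem hv') (hn.mem hv'))
    have f0 := f g0 ((((g0.succ ha).succ hb).succ hc).succ he)
    have f1 := f (g0.succ he) (((g0.succ ha).succ hb).succ hc)
    have f2 := f ((g0.succ he).succ hc) ((g0.succ ha).succ hb)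
    have f3 := f (((g0.succ he).succ hc).succ hb) (g0.succ ha)
    refine mem_of_sq h.hT h2 (h.CT f0.1) ?_
    convert m5 using 1
    generalize ⁅v, ⁅⁅⁅⁅v, a⁆, b⁆, c⁆, e⁆⁆ = g₀ at f0; generalize ⁅⁅v, e⁆, ⁅⁅⁅v, a⁆, b⁆, c⁆⁆ = g₁ at f1
    generalize ⁅⁅⁅v, e⁆, c⁆, ⁅⁅v, a⁆, b⁆⁆ = g₂ at f2; generalize ⁅⁅⁅⁅v, e⁆, c⁆, b⁆, ⁅v, a⁆⁆ = g₃ at f3
    lift g₀ to ↥(C ⊓ 𝐂(C)) using f0; lift g₁ to ↥(C ⊓ 𝐂(C)) using f1
    lift g₂ to ↥(C ⊓ 𝐂(C)) using f2; lift g₃ to ↥(C ⊓ 𝐂(C)) using f3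
    letI := cg (center_le_centralizer_self C)
    norm_cast
    simp only [mul_inv_rev, inv_inv]
    calc g₀ ^ 2 = g₀ * g₀ * (g₃ * g₃⁻¹) * (g₂ * g₂⁻¹) * (g₁ * g₁⁻¹) := by rw [pow_two]; group
      _ = _ := by ac_rfl) fun i j _ c hc d hd => kA c (WW_le hv' _ hc) d (WW_le hv' _ hd)
  have B5 := f_step (S := ⊥) hC hv' (z5 ⊥) fun i j l c hc d hd a ha => cm_one (h.comm (A4 i j (by omega) c hc d hd) ha)
  exact
  { h with
    h2 := h2, nZ := le_normalizer_of_normal, nK := le_normalizer_of_normal, KZ := hC, KQ := KQ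
    l1 := WW_le hv' _, l2 := WW_anti (by omega), l3 := WW_anti (by omega), lZ := Z_le_WW _
    d1 := fun _ hm _ ha => WW_cm hC hv' hm ha, d2 := fun _ hm _ ha => WW_cm hC hv' hm ha
    fK := fun _ hm _ hc => commutator_mem_commutator (WW_le hv' _ hm) hc
    f22 := A4 2 2 le_rfl, f13 := A4 1 3 le_rfl
    f23 := fun m hm c hc => commutatorElement_eq_one_iff_mul_comm.1 (B5 2 3 le_rfl m hm c hc)
    dQ := fun _ hm _ hq => hQ (commutator_mem_commutator (WW_le hv' _ hm) hq) }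

theorem Base.deg4 (h : Base p T A Q C) [C.Normal] (h2 : p ≠ 2) (hQ : ⁅C, Q⁆ ≤ C ⊓ 𝐂(C)) :
    iterCommutator C A 4 ≤ C ⊓ 𝐂(C) := by
  have hC : ⁅C, C⁆ ≤ C ⊓ 𝐂(C) := (commutator_mono le_rfl h.CQ).trans hQ
  have n : ∀ g, g ∈ 𝐍(C) := fun g => le_normalizer_of_normal (mem_top g)
  have key : ∀ v ∈ UU C (C ⊓ 𝐂(C)) A 5, v ∈ UU C (C ⊓ 𝐂(C)) A 4 := by
    intro v hv
    have hv' := UU_le _ hv
    refine (mem_UU hC).2 ⟨hv', fun a ha => (mem_UU hC).2 ⟨cm_mem (n a) hv', fun b hb => (mem_UU hC).2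
      ⟨cm_mem (n b) (cm_mem (n a) hv'), fun c hc => (mem_UU hC).2 ⟨cm_mem (n c) (cm_mem (n b) (cm_mem (n a) hv')),
        fun d hd => ⟨cm_mem (n d) (cm_mem (n c) (cm_mem (n b) (cm_mem (n a) hv'))), ?_⟩⟩⟩⟩⟩
    obtain ⟨s, hs, e, he, k, hk, e1⟩ := (h.cfg2 h2 hQ hv).core ((Gen.zero.succ ha).WW le_rfl) hb hc
    rw [e1, mul_assoc]
    exact cm_mem_of h.ab hs (mul_mem (hQ (commutator_mem_commutator (cm_mem (n a) hv') he.2)) (hC hk)) hd
  have key2 : ∀ m, ∀ v ∈ UU C (C ⊓ 𝐂(C)) A (m + 4), v ∈ UU C (C ⊓ 𝐂(C)) A 4 := by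
    intro m
    induction m with
    | zero => exact fun _ h => h
    | succ m ih =>
      intro v hv
      have := (mem_UU (k := m + 4) hC).1 hv
      exact key v ((mem_UU hC).2 ⟨this.1, fun a ha => ih _ (this.2 a ha)⟩)
  obtain ⟨m, hm⟩ := exists_iterCommutator_eq_bot (h.hT.to_le h.CT) (h.hT.to_le h.hA.1) le_normalizer_of_normal
  exact iter_le_of_UU hC 4 fun v hv => key2 m v (le_UU_of_iter _ le_rfl
    ((CF.Transfer.iterC_anti le_normalizer_of_normal (by omega : m ≤ m + 4)).trans (hm.le.trans bot_le)) hv)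

/-- If `J(S)` is not normal, some element of `S` outside `O_p(G)` has small degree on chief factors. -/
theorem exists_small (h2 : p ≠ 2) (S : Sylow p G) (hJ : ¬ (thompsonSubgroupOf 0 (S : Subgroup G)).Normal) :
    ∃ g ∈ (S : Subgroup G), g ∉ pCore p G ∧
      (∀ U V, IsChiefFactor U V → U ≤ pCore p G → iterCommutator U (zpowers g) 6 ≤ V) ∧
      (CF.Transfer.IsCharPGroup p G → ∃ U V, IsChiefFactor U V ∧ U ≤ pCore p G ∧
        iterCommutator U (zpowers g) 4 ≤ V ∧ ¬ ⁅U, zpowers g⁆ ≤ V) := by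
  have hQ : IsPGroup p (pCore p G) := CF.Solv.pCore_isPGroup
  have hQS : pCore p G ≤ S := hQ.le_sylow_of_normal S
  obtain ⟨C, hC⟩ := CF.Transfer.exists_isCrit hQ
  haveI := hC.normal
  have hne : {A | A ∈ maxAb 0 (S : Subgroup G) ∧ ¬ A ≤ pCore p G}.Nonempty := by
    by_contra hc
    refine hJ ?_
    rw [← CF.PLocal.thompson_eq_of_le (CF.PLocal.thompson_le_iff.2 fun A hA => by
      by_contra h; exact hc ⟨A, hA, h⟩) hQS]
    exact CF.PLocal.thompson_normal _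
  obtain ⟨A, hA, hmax⟩ := Set.exists_max_image _ (fun A => Nat.card ↥(A ⊓ C)) (Set.toFinite _) hne
  have b : Base p S A (pCore p G) C := ⟨S.isPGroup', hA.1, fun A' h1 h3 => hmax A' ⟨h1, h3⟩, hC.le, hC.le.trans hQS⟩
  obtain ⟨g, hg, hgQ⟩ := SetLike.not_le_iff_exists.1 hA.2
  have d3 : ∀ U V, IsChiefFactor U V → U ≤ C ⊓ 𝐂(C) → iterCommutator U (zpowers g) 3 ≤ V := by
    intro U V h l
    haveI := h.2.1
    haveI := h.2.2.1
    exact (CF.Transfer.iterC_mono le_rfl (zpowers_le.2 hg) 3).trans (b.deg3 h2 l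
      (CF.Transfer.chief_commutator_le h (hQ.to_le ((l.trans inf_le_left).trans hC.le)) hQ))
  have d4 : ∀ U V, IsChiefFactor U V → U ≤ C → iterCommutator U (zpowers g) 4 ≤ V := by
    intro U V h l
    haveI := h.2.1
    haveI := h.2.2.1
    rcases CF.Transfer.chief_dichotomy h (C ⊓ 𝐂(C)) with h1 | h1
    · exact (le_inf (CF.Transfer.iterC_le le_normalizer_of_normal 4)
        ((CF.Transfer.iterC_mono l (zpowers_le.2 hg) 4).trans (b.deg4 h2 hC.comm))).trans h1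
    · refine (CF.Transfer.iterC_anti le_normalizer_of_normal (by omega : 3 ≤ 4)).trans
        ((CF.Transfer.iterC_mono h1 le_rfl _).trans ((CF.Transfer.iterC_sup_le inf_le_left h.1.le
          (CF.Transfer.chief_commutator_self_le h (hQ.to_le (l.trans hC.le))) le_normalizer_of_normal
          le_normalizer_of_normal _).trans (sup_le ?_ le_rfl)))
      exact (d3 _ _ (CF.Transfer.chief_inf_of_le h inf_le_left fun e => h.1.not_ge (h1.trans (sup_le e le_rfl)))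
        inf_le_right).trans inf_le_right
  refine ⟨g, hA.1.1 hg, hgQ, fun U V h l => hC.chief_iterC_le hQ g (i := 4) (j := 3) (by omega) d4 d3 h l, fun hG => ?_⟩
  obtain ⟨U, V, h, l, h3⟩ := hC.exists_chief hG hgQ
  exact ⟨U, V, h, l.trans hC.le, d4 U V h l, h3⟩

/-- the Thompson subgroup as a functor -/
def FJ : ∀ (Q : Type u) [Group Q], Subgroup Q := fun Q _ => thompsonSubgroupA Q

omit [Finite G] [Fact p.Prime] in
theorem ind_J (P : Subgroup G) : inducedFunctor FJ P = thompsonSubgroupAOf P := rfl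

omit [Finite G] in
theorem cpf_J : IsCharPFunctor.{u} p FJ := by
  have e : ∀ (Q : Type u) [Group Q], FJ Q = thompsonSubgroupOf 0 (⊤ : Subgroup Q) := fun Q _ => by
    rw [CF.PLocal.thompsonSubgroupOf_top, FJ, CF.PLocal.thompsonSubgroupA_eq]
  refine ⟨fun Q _ _ _ _ => ?_, fun Q R _ _ _ _ φ => ?_⟩
  · obtain ⟨x, hx⟩ := exists_ne (1 : Q)
    rw [e]
    exact CF.PLocal.thompson_ne_bot (mem_top x) hx (pow_zero x)
  · rw [e, e, ← CF.PLocal.thompson_map_equiv, map_top_of_surjective _ φ.surjective]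

theorem engelHyp (hp : 7 ≤ p) : CF.Transfer.EngelHyp p FJ G := by
  intro _ T hT
  rw [ind_J, CF.PLocal.thompsonSubgroupAOf_eq] at hT
  obtain ⟨g, h1, h2, h3, -⟩ := exists_small (by omega) T hT
  refine ⟨g, h1, h2, fun U V hUV hU => ?_⟩
  have := hUV.2.1
  exact (CF.Transfer.iterC_anti le_normalizer_of_normal (by omega)).trans (h3 U V hUV hU)

theorem engelHyp' (hp : 5 ≤ p) : CF.Transfer.EngelHyp' p FJ G := by
  intro hG T hT
  rw [ind_J, CF.PLocal.thompsonSubgroupAOf_eq] at hT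
  obtain ⟨g, h1, h2, -, h3⟩ := exists_small (by omega) T hT
  obtain ⟨U, V, a1, a2, a3, a4⟩ := h3 hG
  have := a1.2.1
  exact ⟨g, h1, h2, U, V, a1, a2, (CF.Transfer.iterC_anti le_normalizer_of_normal (by omega)).trans a3, a4⟩

theorem controlsTransfer (hp : 7 ≤ p) : ControlsTransferIn p (inducedFunctor (G := G) FJ) ⊤ :=
  CF.Transfer.controlsTransfer_of_engel cpf_J fun _ _ _ => engelHyp hp

theorem inf_pResidual (hp : 7 ≤ p) (S : Sylow p G) : 𝐍(thompsonSubgroupAOf (S : Subgroup G)) ⊓ pResidual p G =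
    CF.Transfer.pRes p 𝐍(thompsonSubgroupAOf (S : Subgroup G)) := by
  have := CF.Transfer.fct_singleton_iff.1 ((CF.Transfer.controlsTransferIn_iff (CF.Transfer.ind_isConj cpf_J)
    (CF.Transfer.isSylowIn_top S)).1 (controlsTransfer hp))
  rw [top_inf_eq] at this
  refine CF.Transfer.tate_of_commutator S ?_ (this.le.trans inf_le_right)
  rw [CF.PLocal.thompsonSubgroupAOf_eq]
  exact le_normalizer.trans (CF.PLocal.normalizer_le_normalizer_thompson 0 _)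

theorem hasNPC (hp : 5 ≤ p) (S : Sylow p G)
    (hN : HasNormalPComplement p 𝐍(thompsonSubgroupAOf (S : Subgroup G))) : HasNormalPComplement p G :=
  CF.Transfer.hasNPC_of_functor cpf_J (fun _ _ _ _ => (engelHyp' hp).npcHyp) S hN

end CF.JE
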