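import Cfsg.Agent.BlockB.PPart
import Cfsg.Agent.Clifford.GlaubCyc
import Cfsg.Agent.Clifford.Small

/-!
Square roots of Knörr's generalized character and the bound on the class number of `GV`.
-/

set_option autoImplicit false

namespace CF.Knorr

open Cfsg CF.Char CF.Clifford CF.BlockB
open scoped ComplexConjugate

/-- The cyclic group of order `p`. -/
abbrev Cp (p : ℕ) : Type := Multiplicative (ZMod p)

variable {p : ℕ} {M : Ideal AlgInt} {H : Type*} [Group H]

/-- A function on `H × C_p` bounded by a square root of `δ`, which is `1` at the identity, lies in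
the prime ideal off `K`, and agrees up to a power of `p` with a generalized character. -/
structure Root (M : Ideal AlgInt) (p : ℕ) {H : Type*} [Group H] (δ : H → ℝ) (K : Set H)
    (ψ : H × Cp p → ℂ) : Prop where
  gen : ∃ (N : ℕ) (Ψ : H × Cp p → ℂ), IsGeneralizedCharacter (H × Cp p) Ψ ∧
    ∀ h a, a ≠ 1 → Ψ (h, a) = (p : ℂ) ^ N * ψ (h, a)
  one : ∀ a, a ≠ 1 → ψ (1, a) = 1
  le : ∀ h a, a ≠ 1 → v M (ψ (h, a)) ≤ 1
  lt : ∀ h, h ∉ K → ∀ a, a ≠ 1 → v M (ψ (h, a)) < 1
  norm : ∀ h a, a ≠ 1 → ‖ψ (h, a)‖ ^ 2 ≤ δ h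

/-- Existence of a root. -/
def HasRoot (M : Ideal AlgInt) (p : ℕ) {H : Type*} [Group H] (δ : H → ℝ) (K : Set H) : Prop :=
  ∃ ψ, Root M p δ K ψ

variable {δ δ' : H → ℝ} {K K' : Set H}

theorem HasRoot.triv : HasRoot M p (fun _ : H => 1) Set.univ :=
  ⟨fun _ => 1, ⟨0, _, gen_const_one, by simp⟩, fun _ _ => rfl, by simp, by simp, by simp⟩

theorem HasRoot.mono (r : HasRoot M p δ K) (h1 : ∀ h, δ h ≤ δ' h) (h2 : K ⊆ K') :
    HasRoot M p δ' K' :=
  let ⟨ψ, r⟩ := r
  ⟨ψ, r.gen, r.one, r.le, fun h hh => r.lt h fun k => hh (h2 k),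
    fun h a ha => (r.norm h a ha).trans (h1 h)⟩

theorem HasRoot.mul (r : HasRoot M p δ K) (r' : HasRoot M p δ' K') :
    HasRoot M p (fun h => δ h * δ' h) (K ∩ K') := by
  obtain ⟨ψ, r⟩ := r
  obtain ⟨ψ', r'⟩ := r'
  obtain ⟨N, Ψ, g, e⟩ := r.gen
  obtain ⟨N', Ψ', g', e'⟩ := r'.gen
  refine ⟨ψ * ψ', ⟨N + N', _, gen_mul g g', fun h a ha => ?_⟩, fun a ha => ?_,
    fun h a ha => v_mul_le_one (r.le h a ha) (r'.le h a ha), fun h hh a ha => ?_, fun h a ha => ?_⟩
  · simp only [Pi.mul_apply, e h a ha, e' h a ha]; ring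
  · simp [r.one a ha, r'.one a ha]
  · rcases not_and_or.1 hh with k | k
    · exact v_mul_lt_one_left (r.lt h k a ha) (r'.le h a ha)
    · exact v_mul_lt_one_right (r.le h a ha) (r'.lt h k a ha)
  · rw [Pi.mul_apply, norm_mul, mul_pow]
    exact mul_le_mul (r.norm h a ha) (r'.norm h a ha) (by positivity)
      (le_trans (by positivity) (r.norm h a ha))

theorem gen_partial_inner {C S : Type*} [Group C] [Group S] [Fintype C] [Finite S]
    {θ : C × S → ℂ} (hθ : IsGeneralizedCharacter (C × S) θ) {β : C → ℂ} (hβ : IsCharacter C β) :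
    IsGeneralizedCharacter S (fun x => classInner (fun c => θ (c, x)) β) := by
  obtain ⟨a, b, ha, hb, rfl⟩ := hθ
  refine ⟨_, _, char_partial_inner ha hβ, char_partial_inner hb hβ, funext fun x => ?_⟩
  exact inner_sub_left (fun c => a (c, x)) (fun c => b (c, x)) β

/-- The mean square of a scaled generalized character with unit values is at least one. -/
theorem card_le_of_scaled (hM : IsPModular p M) {G : Type*} [Group G] [Finite G] {χ : G → ℂ}
    (hχ : IsGeneralizedCharacter G χ) (S : Finset G)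
    (hS : ∀ m : ℕ, m.Coprime (Nat.card G) → ∀ g ∈ S, g ^ m ∈ S) {c : G → ℂ} {N : ℕ}
    (e : ∀ g ∈ S, χ g = (p : ℂ) ^ N * c g) (h1 : ∀ g ∈ S, v M (c g) = 1) :
    (S.card : ℝ) ≤ ∑ g ∈ S, ‖c g‖ ^ 2 := by
  obtain ⟨n, hn⟩ := int_of_fixed (a := ∏ g ∈ S, χ g) (IsIntegral.prod _ fun g _ => gen_isIntegral hχ g)
    fun σ => by
      obtain ⟨m, hm, hσ⟩ := aut_exists_gen_pow (G := G) σ.toRingHom
      rw [map_prod, Finset.prod_congr rfl (f := fun g => σ (χ g)) fun g _ => hσ χ hχ g]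
      have hinj : Function.Injective fun g : G => g ^ m := (powCoprime hm.symm).injective
      exact Finset.prod_bij (fun g _ => g ^ m) (hS m hm) (fun _ _ _ _ h => hinj h)
        (fun b hb => Finset.surj_on_of_inj_on_of_card_le (fun g _ => g ^ m) (hS m hm)
          (fun _ _ _ _ h => hinj h) le_rfl b hb |>.imp fun a ⟨h1, h2⟩ => ⟨h1, h2.symm⟩)
        fun _ _ => rfl
  have h0 : ∀ g ∈ S, c g ≠ 0 := fun g hg k => by simpa [k] using h1 g hg
  rw [Finset.prod_congr rfl e, Finset.prod_mul_distrib, Finset.prod_const, ← pow_mul] at hn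
  have hp : (p : ℂ) ≠ 0 := fun k => v_p_ne_zero hM (by simp [k])
  obtain ⟨m, rfl⟩ : (p : ℤ) ^ (N * S.card) ∣ n := by
    rw [← v_intCast_le_pow_iff hM, ← hn, map_mul, v_prod_eq_one h1, mul_one, map_pow]
  have hm : ∏ g ∈ S, c g = m := mul_left_cancel₀ (pow_ne_zero (N * S.card) hp)
    (by rw [hn]; push_cast; rfl)
  have hm0 : m ≠ 0 := by
    rintro rfl
    exact Finset.prod_ne_zero_iff.mpr h0 (by simpa using hm)
  have h1 : 1 ≤ ∏ g ∈ S, ‖c g‖ ^ 2 := by
    rw [Finset.prod_pow, ← norm_prod, hm, Complex.norm_intCast]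
    exact one_le_pow₀ (by exact_mod_cast Int.one_le_abs hm0)
  have h2 : 0 ≤ ∑ g ∈ S, Real.log (‖c g‖ ^ 2) := by
    rw [← Real.log_prod (fun g hg => pow_ne_zero _ (norm_ne_zero_iff.mpr (h0 g hg)))]
    exact Real.log_nonneg h1
  have h3 : ∑ g ∈ S, Real.log (‖c g‖ ^ 2) ≤ ∑ g ∈ S, (‖c g‖ ^ 2 - 1) :=
    Finset.sum_le_sum fun g hg => Real.log_le_sub_one_of_pos (pow_pos (norm_pos_iff.mpr (h0 g hg)) _)
  rw [Finset.sum_sub_distrib, Finset.sum_const, nsmul_eq_mul, mul_one] at h3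
  linarith

theorem pow_p_cp [Fact p.Prime] (a : Cp p) : a ^ p = 1 := by
  have := pow_card_eq_one' (x := a)
  rwa [Nat.card_congr Multiplicative.toAdd, Nat.card_zmod] at this

theorem Root.lower [Fact p.Prime] (hM : IsPModular p M) [Fintype H] (hH : ¬ p ∣ Nat.card H)
    {ψ : H × Cp p → ℂ} (r : Root M p δ {1} ψ) {χ : H × Cp p → ℂ}
    (hχ : IsCharacter (H × Cp p) χ) (h1 : v M (χ 1) = 1) :
    ((p - 1 : ℕ) : ℝ) * Nat.card (ConjClasses H) ≤
      ∑ a ∈ Finset.univ.erase (1 : Cp p), (Nat.card H : ℝ)⁻¹ * ∑ h, δ h * ‖χ (h, a)‖ ^ 2 := by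
  classical
  have hp : p.Prime := Fact.out
  obtain ⟨N, Ψ, g, e⟩ := r.gen
  have hp0 : (p : ℂ) ^ N ≠ 0 := pow_ne_zero _ (Nat.cast_ne_zero.2 hp.ne_zero)
  have hc : (Finset.univ.erase (1 : Cp p)).card = p - 1 := by simp
  have key : ∀ η : IrrCharacter H, ((p - 1 : ℕ) : ℝ) ≤ ∑ a ∈ Finset.univ.erase (1 : Cp p),
      ‖classInner (fun h => ψ (h, a) * χ (h, a)) η‖ ^ 2 := fun η => by
    rw [← hc]
    refine card_le_of_scaled hM (gen_partial_inner (gen_mul g (gen_of_char hχ))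
      (irr_isCharacter η.2)) _ (fun m hm a ha => ?_) (N := N) (fun a ha => ?_) fun a ha => ?_
    · simp only [Finset.mem_erase, Finset.mem_univ, and_true] at ha ⊢
      exact fun h3 => ha ((powCoprime hm.symm).injective (by simpa using h3))
    · rw [← Char.inner_smul_left]
      congr 1
      ext h
      simp [e h a (Finset.ne_of_mem_erase ha), mul_assoc]
    · have ha := Finset.ne_of_mem_erase ha
      obtain ⟨d, -, hd⟩ := irr_one_eq_nat η.2
      have k1 : v M (χ (1, a)) = 1 := by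
        refine v_eq_one_of_sub_lt_one ?_ h1
        have := v_char_mul_sub_lt_one hM hχ (Commute.one_right ((1, a) : H × Cp p))
          ((Nat.dvd_prime_pow hp (m := 1)).1 (orderOf_dvd_of_pow_eq_one
            (by simp [pow_p_cp])) |>.imp fun _ h => h.2)
        rwa [mul_one] at this
      rw [classInner, map_mul, map_inv₀, (v_natCast_eq_one_iff hM _).2 hH, inv_one, one_mul,
        ← Finset.add_sum_erase _ _ (Finset.mem_univ 1)]
      refine v_eq_one_of_sub_lt_one (b := ψ (1, a) * χ (1, a) * conj ((η : H → ℂ) 1)) ?_ ?_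
      · rw [add_sub_cancel_left]
        exact v_sum_lt_one fun h hh => v_mul_lt_one_left (v_mul_lt_one_left
          (r.lt h (Finset.ne_of_mem_erase hh) a ha) (v_char_le_one hχ _))
          (v_le_one_of_isIntegral M (isIntegral_conj (char_isIntegral (irr_isCharacter η.2) h)))
      · rw [r.one a ha, one_mul, map_mul, k1, one_mul, hd, map_natCast, v_natCast_eq_one_iff hM]
        exact fun k => hH (k.trans (irr_one_dvd_card η.2 hd))
  have k2 := Finset.sum_le_sum fun η (_ : η ∈ Finset.univ) => key η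
  rw [Finset.sum_const, Finset.card_univ, ← Nat.card_eq_fintype_card, card_irr, nsmul_eq_mul,
    mul_comm, Finset.sum_comm] at k2
  refine k2.trans (Finset.sum_le_sum fun a ha => ?_)
  have ha := Finset.ne_of_mem_erase ha
  have hcl : IsClassFunction H fun h => ψ (h, a) * χ (h, a) := fun x y => by
    have e1 := gen_isClassFunction g (x, a) (y, 1)
    have e2 := char_isClassFunction hχ (x, a) (y, 1)
    simp only [Prod.mk_mul_mk, Prod.inv_mk, one_mul, inv_one, mul_one] at e1 e2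
    rw [e _ a ha, e _ a ha] at e1
    simp only [e2, mul_left_cancel₀ hp0 e1]
  have k3 := congrArg Complex.re (inner_self_eq_sum_irr hcl)
  rw [Complex.ofReal_re, inner_self_re] at k3
  rw [← k3]
  refine mul_le_mul_of_nonneg_left (Finset.sum_le_sum fun h _ => ?_) (by positivity)
  rw [norm_mul, mul_pow]
  exact mul_le_mul_of_nonneg_right (r.norm h a ha) (by positivity)

/-- The counting argument. -/
theorem HasRoot.count [Fact p.Prime] (hM : IsPModular p M) [Finite H] (hH : ¬ p ∣ Nat.card H)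
    (r : HasRoot M p δ {1}) {X : Type*} [Group X] [Finite X] (φ : H × Cp p →* X)
    (hdeg : ∀ χ, IsIrrCharacter X χ → ∀ d : ℕ, χ 1 = d → ¬ p ∣ d) {n : ℕ}
    (hn : ∀ h a, a ≠ 1 → δ h * Nat.card (Subgroup.centralizer ({φ (h, a)} : Set X)) ≤
      n * Nat.card (Subgroup.centralizer ({h} : Set H))) : Nat.card (ConjClasses X) ≤ n := by
  classical
  have hp : p.Prime := Fact.out
  have := Fintype.ofFinite H
  have := Fintype.ofFinite X
  obtain ⟨ψ, r⟩ := r
  have k1 := Finset.sum_le_sum fun (χ : IrrCharacter X) (_ : χ ∈ Finset.univ) =>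
    r.lower hM hH (char_comp (irr_isCharacter χ.2) φ) (by
      obtain ⟨d, -, hd⟩ := irr_one_eq_nat χ.2
      rw [map_one, hd, v_natCast_eq_one_iff hM]
      exact hdeg _ χ.2 d hd)
  rw [Finset.sum_const, Finset.card_univ, ← Nat.card_eq_fintype_card, card_irr, nsmul_eq_mul,
    Finset.sum_comm] at k1
  have hH0 : (0 : ℝ) < Nat.card H := Nat.cast_pos.2 Nat.card_pos
  have k2 : ∀ a ∈ Finset.univ.erase (1 : Cp p), ∑ χ : IrrCharacter X, (Nat.card H : ℝ)⁻¹ *
      ∑ h, δ h * ‖(χ : X → ℂ) (φ (h, a))‖ ^ 2 ≤ n * Nat.card (ConjClasses H) := fun a ha => by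
    rw [← Finset.mul_sum, Finset.sum_comm, inv_mul_le_iff₀ hH0]
    simp only [← Finset.mul_sum, sum_irr_norm_sq]
    refine (Finset.sum_le_sum fun h _ => hn h a (Finset.ne_of_mem_erase ha)).trans (le_of_eq ?_)
    rw [← Finset.mul_sum, ← Nat.cast_sum, sum_card_centralizer]
    push_cast; ring
  have k3 := k1.trans (Finset.sum_le_sum k2)
  have hc : (Finset.univ.erase (1 : Cp p)).card = p - 1 := by simp
  rw [Finset.sum_const, hc, nsmul_eq_mul, mul_left_comm] at k3
  have h1 : (0 : ℝ) < (p - 1 : ℕ) := Nat.cast_pos.2 (Nat.sub_pos_of_lt hp.one_lt)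
  have h2 : (0 : ℝ) < Nat.card (ConjClasses H) := Nat.cast_pos.2 Nat.card_pos
  exact_mod_cast le_of_mul_le_mul_right (le_of_mul_le_mul_left k3 h1) h2

end CF.Knorr
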