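import Cfsg.Agent.PLocal.KnA
import Cfsg.Agent.Known.SelfDual

/-!
Roots attached to modules over the prime field: direct sums and abelian groups (Gauss sums).
-/

set_option autoImplicit false

namespace CF.Knorr

open Cfsg CF.Char CF.Clifford CF.BlockB Module
open scoped ComplexConjugate

variable {p : ℕ} [hp : Fact p.Prime] {M : Ideal AlgInt}

section Basic

variable {H W : Type*} [Group H] [AddCommGroup W] [Module (ZMod p) W]

theorem gen_hom {G : Type*} [Group G] (f : G →* ℂ) : IsGeneralizedCharacter G f :=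
  gen_of_char (char_linear f.toHomUnits)

theorem gen_addChar (e : AddChar W ℂ) (x : W) :
    IsGeneralizedCharacter (H × Cp p) fun y => e (y.2.toAdd • x) :=
  gen_hom (G := H × Cp p)
    { toFun := fun y => e (y.2.toAdd • x)
      map_one' := by simp
      map_mul' := fun a b => by simp [add_smul, AddChar.map_add_eq_mul] }

theorem addChar_pow_p (e : AddChar W ℂ) (x : W) : e x ^ p = 1 := by
  rw [← AddChar.map_nsmul_eq_pow, ← Nat.cast_smul_eq_nsmul (ZMod p), ZMod.natCast_self, zero_smul,
    AddChar.map_zero_eq_one]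

theorem v_addChar_sub (hM : IsPModular p M) (e : AddChar W ℂ) (x : W) : v M (e x - 1) < 1 :=
  v_sub_one_lt_one_of_pow_eq_one hM (k := 1) (by rw [pow_one, addChar_pow_p (p := p)])

include hp in
theorem v_addChar (e : AddChar W ℂ) (x : W) : v M (e x) = 1 :=
  v_eq_one_of_pow_eq_one hp.out.ne_zero (addChar_pow_p e x)

/-- The order of the commutator space of `h`. -/
noncomputable def dl (ρ : Representation (ZMod p) H W) (h : H) : ℝ :=
  Nat.card (LinearMap.range (ρ h - 1))

/-- The module has a root. -/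
def Good (M : Ideal AlgInt) (ρ : Representation (ZMod p) H W) : Prop :=
  HasRoot M p (dl ρ) {h | ρ h = 1}

theorem one_le_dl [Finite W] (ρ : Representation (ZMod p) H W) (h : H) : 1 ≤ dl ρ h :=
  Nat.one_le_cast.2 Nat.card_pos

theorem Good.of_trivial [Finite W] {ρ : Representation (ZMod p) H W} (h : ∀ g, ρ g = 1) :
    Good M ρ :=
  HasRoot.triv.mono (one_le_dl ρ) fun g _ => h g

theorem Good.sum [Finite W] {ρ : Representation (ZMod p) H W} {U U' : Submodule (ZMod p) W}
    (c : IsCompl U U') {hU : ∀ g, U ≤ U.comap (ρ g)} {hU' : ∀ g, U' ≤ U'.comap (ρ g)}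
    (r : Good M (ρ.subrepresentation U hU)) (r' : Good M (ρ.subrepresentation U' hU')) :
    Good M ρ := by
  refine (r.mul r').mono (fun h => ?_) fun h ⟨k, k'⟩ => ?_
  · rw [dl, dl, dl, ← Nat.cast_mul, Nat.cast_le, ← Nat.card_prod]
    refine Nat.card_le_card_of_injective (fun x => ⟨x.1.1.1 + x.2.1.1, ?_⟩) fun x y e => ?_
    · obtain ⟨a, ha⟩ := x.1.2
      obtain ⟨b, hb⟩ := x.2.2
      exact ⟨a + b, by rw [map_add, ← ha, ← hb]; rfl⟩
    · have e := congrArg Subtype.val e
      simp only at e
      have e1 : (x.1.1.1 - y.1.1.1 : W) = y.2.1.1 - x.2.1.1 := by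
        rw [sub_eq_sub_iff_add_eq_add, e, add_comm]
      have e2 : (x.1.1.1 - y.1.1.1 : W) = 0 := (Submodule.disjoint_def.1 c.disjoint) _
        (sub_mem x.1.1.2 y.1.1.2) (e1 ▸ sub_mem y.2.1.2 x.2.1.2)
      rw [e2, eq_comm, sub_eq_zero] at e1
      exact Prod.ext (Subtype.ext (Subtype.ext (sub_eq_zero.1 e2)))
        (Subtype.ext (Subtype.ext e1.symm))
  · refine LinearMap.ext fun w => ?_
    obtain ⟨a, ha, b, hb, rfl⟩ := Submodule.mem_sup.1 (c.sup_eq_top.ge trivial : w ∈ U ⊔ U')
    have e1 : ρ h a = a := congrArg Subtype.val (LinearMap.congr_fun k ⟨a, ha⟩)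
    have e2 : ρ h b = b := congrArg Subtype.val (LinearMap.congr_fun k' ⟨b, hb⟩)
    rw [map_add, e1, e2]; rfl

end Basic

section Gauss

variable {H K : Type*} [Group H] [Field K] [Fintype K] [Algebra (ZMod p) K]

theorem hasRoot_gauss (hM : IsPModular p M) (ι : H →* K) :
    open Classical in HasRoot M p (fun h => if ι h = 1 then 1 else Nat.card K) {h | ι h = 1} := by
  classical
  obtain ⟨E⟩ := MulChar.mulEquiv_units K ℂ
  let χ : H →* MulChar K ℂ := E.symm.toMonoidHom.comp ι.toHomUnits
  have hχ : ∀ h, χ h = 1 ↔ ι h = 1 := fun h => by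
    change E.symm (ι.toHomUnits h) = 1 ↔ _
    rw [MulEquiv.map_eq_one_iff, ← Units.val_eq_one]; rfl
  let e := AddChar.FiniteField.primitiveChar_to_Complex K
  have he : ∀ a : Cp p, a ≠ 1 → e.mulShift (algebraMap _ K a.toAdd) ≠ 1 := fun a ha =>
    AddChar.FiniteField.primitiveChar_to_Complex_isPrimitive K (by simpa using ha)
  have hv : ∀ h x, v M (χ h x) ≤ 1 := fun h x => by
    by_cases hx : x = 0
    · simp [hx, MulChar.map_zero]
    · refine (v_eq_one_of_pow_eq_one (n := Fintype.card K - 1)
        (Nat.sub_ne_zero_of_lt Fintype.one_lt_card) ?_).le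
      rw [← map_pow, FiniteField.pow_card_sub_one_eq_one x hx, map_one]
  refine ⟨fun y => -gaussSum (χ y.1) (e.mulShift (algebraMap _ K y.2.toAdd)),
    ⟨0, fun y => -gaussSum (χ y.1) (e.mulShift (algebraMap _ K y.2.toAdd)), ?_,
      fun h a _ => by rw [pow_zero, one_mul]⟩, fun a ha => ?_, fun h a _ => ?_,
    fun h hh a _ => ?_, fun h a ha => ?_⟩
  · have : (fun y : H × Cp p => -gaussSum (χ y.1) (e.mulShift (algebraMap _ K y.2.toAdd))) =
        -∑ x : K, (fun y : H × Cp p => χ y.1 x) * fun y => e (y.2.toAdd • x) := by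
      ext y
      simp [gaussSum, Algebra.smul_def]
    rw [this]
    refine gen_neg (gen_sum _ fun x _ => gen_mul ?_ (gen_addChar e x))
    by_cases hx : x = 0
    · simp only [hx, MulChar.map_zero]; exact gen_zero
    · exact gen_hom (G := H × Cp p)
        { toFun := fun y => χ y.1 x
          map_one' := by simp [MulChar.one_apply (Ne.isUnit hx)]
          map_mul' := fun a b => by simp }
  · simp [gaussSum_one_left (he a ha)]
  · rw [Valuation.map_neg]
    exact v_sum_le_one fun x _ => v_mul_le_one (hv h x) (v_addChar (p := p) _ x).le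
  · have : gaussSum (χ h) (e.mulShift (algebraMap _ K a.toAdd)) =
        ∑ x, χ h x * (e.mulShift (algebraMap _ K a.toAdd) x - 1) := by
      simp only [mul_sub, mul_one, Finset.sum_sub_distrib,
        MulChar.sum_eq_zero_of_ne_one (mt (hχ h).1 hh), sub_zero, gaussSum]
    rw [Valuation.map_neg, this]
    exact v_sum_lt_one fun x _ => v_mul_lt_one_right (hv h x) (v_addChar_sub hM _ x)
  · split_ifs with hh
    · simp [(hχ h).2 hh, gaussSum_one_left (he a ha)]
    · have := gaussSum_mul_gaussSum_eq_card (mt (hχ h).1 hh) (AddChar.IsPrimitive.of_ne_one (he a ha))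
      rw [← star_gaussSum_eq, Complex.star_def, Complex.mul_conj'] at this
      rw [norm_neg, Nat.card_eq_fintype_card]
      exact le_of_eq (by exact_mod_cast this)

end Gauss

universe u

theorem good_of_comm (hM : IsPModular p M) {H : Type*} [CommGroup H] [Finite H]
    (hH : ¬ p ∣ Nat.card H) (n : ℕ) : ∀ {W : Type u} [AddCommGroup W] [Module (ZMod p) W] [Finite W]
      (ρ : Representation (ZMod p) H W), finrank (ZMod p) W = n → Good M ρ := by
  have : NeZero (Nat.card H : ZMod p) := ⟨mt (CharP.cast_eq_zero_iff (ZMod p) p _).1 hH⟩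
  induction n using Nat.strong_induction_on with
  | _ n ih =>
  intro W _ _ _ ρ hn
  rcases subsingleton_or_nontrivial W with h0 | h0
  · exact Good.of_trivial fun g => Subsingleton.elim _ _
  by_cases hirr : ρ.IsIrreducible
  · obtain ⟨I, hI, e, he⟩ := Known.exists_field_model ρ hirr
    letI := Ideal.Quotient.field I
    have := Finite.of_equiv _ e.toEquiv
    have := Fintype.ofFinite (MonoidAlgebra (ZMod p) H ⧸ I)
    refine (hasRoot_gauss hM ((Ideal.Quotient.mk I).toMonoidHom.comp
      (MonoidAlgebra.of (ZMod p) H))).mono (fun h => ?_) fun h hh => ?_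
    · split_ifs with hh
      · exact one_le_dl ρ h
      · rw [dl, LinearMap.range_eq_top.2, Nat.card_congr Submodule.topEquiv.toEquiv,
          Nat.card_congr e.toEquiv]
        refine Finite.surjective_of_injective ((injective_iff_map_eq_zero _).2 fun w hw => ?_)
        have := congrArg e (sub_eq_zero.1 hw)
        rw [he] at this
        exact e.map_eq_zero_iff.1 (eq_zero_of_mul_eq_self_left hh this)
    · exact LinearMap.ext fun w => e.injective (by rw [he]; exact (congrArg (· * _) hh).trans (one_mul _))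
  · rw [isIrreducible_iff] at hirr
    push Not at hirr
    obtain ⟨U, hU, h1, h2⟩ := hirr h0
    obtain ⟨C, c, hC⟩ := Known.exists_inv_compl hU
    have h3 := Submodule.finrank_add_eq_of_isCompl c
    have h4 := Submodule.finrank_lt h2
    have h5 := Submodule.finrank_eq_zero.not.2 h1
    exact Good.sum c (hU := hU) (hU' := hC) (ih _ (by omega) _ rfl) (ih _ (by omega) _ rfl)

end CF.Knorr
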