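import Cfsg.Agent.PLocal.G3d

/-! A matrix model for the `3`-local structure of `L₄(3)`. -/

set_option autoImplicit false
set_option maxRecDepth 100000

namespace CF.L43

open Subgroup CF.BG Cfsg
open scoped commutatorElement

/-- the field -/
abbrev F := ZMod 3

/-- `4 × 4` matrices -/
@[ext] structure M4 where
  (a b c d e f g h i j k l m n o p : F)
  deriving DecidableEq

namespace M4

instance : Mul M4 := ⟨fun x y => ⟨x.a * y.a + x.b * y.e + x.c * y.i + x.d * y.m,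
    x.a * y.b + x.b * y.f + x.c * y.j + x.d * y.n, x.a * y.c + x.b * y.g + x.c * y.k + x.d * y.o,
    x.a * y.d + x.b * y.h + x.c * y.l + x.d * y.p, x.e * y.a + x.f * y.e + x.g * y.i + x.h * y.m,
    x.e * y.b + x.f * y.f + x.g * y.j + x.h * y.n, x.e * y.c + x.f * y.g + x.g * y.k + x.h * y.o,
    x.e * y.d + x.f * y.h + x.g * y.l + x.h * y.p, x.i * y.a + x.j * y.e + x.k * y.i + x.l * y.m,
    x.i * y.b + x.j * y.f + x.k * y.j + x.l * y.n, x.i * y.c + x.j * y.g + x.k * y.k + x.l * y.o,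
    x.i * y.d + x.j * y.h + x.k * y.l + x.l * y.p, x.m * y.a + x.n * y.e + x.o * y.i + x.p * y.m,
    x.m * y.b + x.n * y.f + x.o * y.j + x.p * y.n, x.m * y.c + x.n * y.g + x.o * y.k + x.p * y.o,
    x.m * y.d + x.n * y.h + x.o * y.l + x.p * y.p⟩⟩

instance : One M4 := ⟨⟨1, 0, 0, 0, 0, 1, 0, 0, 0, 0, 1, 0, 0, 0, 0, 1⟩⟩

instance : Neg M4 := ⟨fun x => ⟨-x.a, -x.b, -x.c, -x.d, -x.e, -x.f, -x.g, -x.h, -x.i, -x.j, -x.k, -x.l,
  -x.m, -x.n, -x.o, -x.p⟩⟩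

theorem mul_def (x y : M4) : x * y = ⟨x.a * y.a + x.b * y.e + x.c * y.i + x.d * y.m,
    x.a * y.b + x.b * y.f + x.c * y.j + x.d * y.n, x.a * y.c + x.b * y.g + x.c * y.k + x.d * y.o,
    x.a * y.d + x.b * y.h + x.c * y.l + x.d * y.p, x.e * y.a + x.f * y.e + x.g * y.i + x.h * y.m,
    x.e * y.b + x.f * y.f + x.g * y.j + x.h * y.n, x.e * y.c + x.f * y.g + x.g * y.k + x.h * y.o,
    x.e * y.d + x.f * y.h + x.g * y.l + x.h * y.p, x.i * y.a + x.j * y.e + x.k * y.i + x.l * y.m,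
    x.i * y.b + x.j * y.f + x.k * y.j + x.l * y.n, x.i * y.c + x.j * y.g + x.k * y.k + x.l * y.o,
    x.i * y.d + x.j * y.h + x.k * y.l + x.l * y.p, x.m * y.a + x.n * y.e + x.o * y.i + x.p * y.m,
    x.m * y.b + x.n * y.f + x.o * y.j + x.p * y.n, x.m * y.c + x.n * y.g + x.o * y.k + x.p * y.o,
    x.m * y.d + x.n * y.h + x.o * y.l + x.p * y.p⟩ := rfl

theorem one_def : (1 : M4) = ⟨1, 0, 0, 0, 0, 1, 0, 0, 0, 0, 1, 0, 0, 0, 0, 1⟩ := rfl

theorem neg_def (x : M4) : -x = ⟨-x.a, -x.b, -x.c, -x.d, -x.e, -x.f, -x.g, -x.h, -x.i, -x.j, -x.k, -x.l,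
  -x.m, -x.n, -x.o, -x.p⟩ := rfl

instance : Monoid M4 where
  mul_assoc x y z := by ext <;> simp only [mul_def] <;> ring
  one_mul x := by ext <;> simp [mul_def, one_def]
  mul_one x := by ext <;> simp [mul_def, one_def]

instance : HasDistribNeg M4 where
  neg_neg x := by ext <;> simp [neg_def]
  neg_mul x y := by ext <;> simp only [mul_def, neg_def] <;> ring
  mul_neg x y := by ext <;> simp only [mul_def, neg_def] <;> ring

/-- the determinant -/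
def det (x : M4) : F := (x.a * x.f - x.b * x.e) * (x.k * x.p - x.l * x.o) -
  (x.a * x.g - x.c * x.e) * (x.j * x.p - x.l * x.n) + (x.a * x.h - x.d * x.e) * (x.j * x.o - x.k * x.n) +
  (x.b * x.g - x.c * x.f) * (x.i * x.p - x.l * x.m) - (x.b * x.h - x.d * x.f) * (x.i * x.o - x.k * x.m) +
  (x.c * x.h - x.d * x.g) * (x.i * x.n - x.j * x.m)

/-- the matrix -/
def toM (x : M4) : Matrix (Fin 4) (Fin 4) F :=
  !![x.a, x.b, x.c, x.d; x.e, x.f, x.g, x.h; x.i, x.j, x.k, x.l; x.m, x.n, x.o, x.p]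

/-- the inverse of `toM` -/
def ofM (A : Matrix (Fin 4) (Fin 4) F) : M4 :=
  ⟨A 0 0, A 0 1, A 0 2, A 0 3, A 1 0, A 1 1, A 1 2, A 1 3, A 2 0, A 2 1, A 2 2, A 2 3, A 3 0, A 3 1, A 3 2, A 3 3⟩

theorem toM_ofM (A : Matrix (Fin 4) (Fin 4) F) : (ofM A).toM = A := by
  ext i j; fin_cases i <;> fin_cases j <;> rfl

theorem ofM_mul (A B : Matrix (Fin 4) (Fin 4) F) : ofM (A * B) = ofM A * ofM B := by
  simp only [ofM, mul_def, Matrix.mul_apply, Fin.sum_univ_four]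

theorem toM_mul (x y : M4) : (x * y).toM = x.toM * y.toM := by
  rw [← toM_ofM (_ * _), ofM_mul]; rfl

theorem det_toM (x : M4) : x.toM.det = x.det := by
  rw [Matrix.det_succ_row_zero, Fin.sum_univ_four]
  simp only [Matrix.det_fin_three]
  change (-1) ^ 0 * x.a * (x.f * x.k * x.p - x.f * x.l * x.o - x.g * x.j * x.p + x.g * x.l * x.n + x.h * x.j * x.o -
    x.h * x.k * x.n) + (-1) ^ 1 * x.b * (x.e * x.k * x.p - x.e * x.l * x.o - x.g * x.i * x.p + x.g * x.l * x.m +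
    x.h * x.i * x.o - x.h * x.k * x.m) + (-1) ^ 2 * x.c * (x.e * x.j * x.p - x.e * x.l * x.n - x.f * x.i * x.p +
    x.f * x.l * x.m + x.h * x.i * x.n - x.h * x.j * x.m) + (-1) ^ 3 * x.d * (x.e * x.j * x.o - x.e * x.k * x.n -
    x.f * x.i * x.o + x.f * x.k * x.m + x.g * x.i * x.n - x.g * x.j * x.m) = _
  unfold det; ring

theorem det_mul (x y : M4) : (x * y).det = x.det * y.det := by
  rw [← det_toM, toM_mul, Matrix.det_mul, det_toM, det_toM]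

end M4

open M4

/-- determinant one -/
def SL : Submonoid M4 := ⟨⟨{x | x.det = 1}, fun {x y} (a : _ = _) (b : _ = _) =>
  show _ = _ by rw [det_mul, a, b, one_mul]⟩, show _ = _ by decide⟩

/-- the stabiliser of a hyperplane -/
def Ga : Submonoid M4 := ⟨⟨{x | x.det = 1 ∧ x.m = 0 ∧ x.n = 0 ∧ x.o = 0}, fun {x y} ⟨a, b, c, d⟩ ⟨e, f, g, h⟩ =>
  ⟨SL.mul_mem a e, by simp [mul_def, *]⟩⟩, show _ ∧ _ by decide⟩

instance : DecidablePred (· ∈ SL) := fun x => inferInstanceAs (Decidable (x.det = 1))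

instance : DecidablePred (· ∈ Ga) := fun x =>
  inferInstanceAs (Decidable (x.det = 1 ∧ x.m = 0 ∧ x.n = 0 ∧ x.o = 0))

/-- unitriangular matrices -/
@[ext] structure U6 where
  (a b c d e f : F)
  deriving DecidableEq

namespace U6

instance : Mul U6 := ⟨fun x y => ⟨x.a + y.a, x.b + y.b + x.a * y.d, x.c + y.c + x.a * y.e + x.b * y.f,
  x.d + y.d, x.e + y.e + x.d * y.f, x.f + y.f⟩⟩

instance : One U6 := ⟨⟨0, 0, 0, 0, 0, 0⟩⟩

instance : Inv U6 := ⟨fun x => ⟨-x.a, x.a * x.d - x.b, x.a * x.e + x.b * x.f - x.c - x.a * x.d * x.f, -x.d,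
  x.d * x.f - x.e, -x.f⟩⟩

theorem mul_def (x y : U6) : x * y = ⟨x.a + y.a, x.b + y.b + x.a * y.d, x.c + y.c + x.a * y.e + x.b * y.f,
  x.d + y.d, x.e + y.e + x.d * y.f, x.f + y.f⟩ := rfl

theorem one_def : (1 : U6) = ⟨0, 0, 0, 0, 0, 0⟩ := rfl

theorem inv_def (x : U6) : x⁻¹ = ⟨-x.a, x.a * x.d - x.b, x.a * x.e + x.b * x.f - x.c - x.a * x.d * x.f, -x.d,
  x.d * x.f - x.e, -x.f⟩ := rfl

instance : Group U6 := .ofLeftAxioms (fun x y z => by ext <;> simp only [mul_def] <;> ring)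
  (fun x => by ext <;> simp [mul_def, one_def]) fun x => by ext <;> simp only [mul_def, one_def, inv_def] <;> ring

instance : Fintype U6 := .ofEquiv (F × F × F × F × F × F)
  ⟨fun x => ⟨x.1, x.2.1, x.2.2.1, x.2.2.2.1, x.2.2.2.2.1, x.2.2.2.2.2⟩, fun x => (x.a, x.b, x.c, x.d, x.e, x.f),
    fun _ => rfl, fun _ => rfl⟩

/-- a subgroup given by linear equations -/
def sub (P : U6 → Prop) (h1 : P 1 := by simp [U6.one_def])
    (h2 : ∀ x y, P x → P y → P (x * y) := by simp +contextual [U6.mul_def, mul_add])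
    (h3 : ∀ x, P x → P x⁻¹ := by simp +contextual [U6.inv_def]) : Subgroup U6 :=
  ⟨⟨⟨{x | P x}, h2 _ _⟩, h1⟩, h3 _⟩

instance (P : U6 → Prop) [DecidablePred P] {h1 h2 h3} : DecidablePred (· ∈ sub P h1 h2 h3) := ‹_›

theorem pow9 : ∀ x : U6, x ^ 9 = 1 := by decide +kernel

end U6

/-- the unitriangular matrix -/
def ut (v : U6) : M4 := ⟨1, v.a, v.b, v.c, 0, 1, v.d, v.e, 0, 0, 1, v.f, 0, 0, 0, 1⟩

/-- a diagonal matrix -/
def dg (a b c d : F) : M4 := ⟨a, 0, 0, 0, 0, b, 0, 0, 0, 0, c, 0, 0, 0, 0, d⟩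

/-- a matrix in the normaliser of the centre of the unitriangular group -/
def nz (a b c d f g h j k l : F) : M4 := ⟨a, b, c, d, 0, f, g, h, 0, j, k, l, 0, 0, 0, 1⟩

theorem ut_mul (v w : U6) : ut (v * w) = ut v * ut w := by
  ext <;> simp [ut, M4.mul_def, U6.mul_def] <;> ring

theorem ut_Ga (v : U6) : ut v ∈ Ga := ⟨by simp [ut, det], rfl, rfl, rfl⟩

theorem nz_Ga {a b c d f g h j k l : F} (e : a * (f * k - g * j) = 1) : nz a b c d f g h j k l ∈ Ga :=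
  ⟨by simp only [nz, det]; linear_combination e, rfl, rfl, rfl⟩

theorem sq3 : ∀ {a b : F}, a * b = 1 → a * a = 1 := by decide

theorem Ga_p {x : M4} (h : x ∈ Ga) : x.p * x.p = 1 := by
  obtain ⟨a, b, c, d⟩ := h
  refine sq3 (b := (x.a * x.f - x.b * x.e) * x.k - (x.a * x.g - x.c * x.e) * x.j + (x.b * x.g - x.c * x.f) * x.i) ?_
  simp only [det, b, c, d] at a
  linear_combination a

/-- the transvection `x₁₄` -/
def z0 : U6 := ⟨0, 0, 1, 0, 0, 0⟩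

/-- a group containing an image of a parabolic subgroup that contains `N(Z)` -/
structure Pa {G : Type*} [Group G] (Γ : Submonoid M4) (ψ : M4 → G) : Prop where
  ga : Ga ≤ Γ
  sl : Γ ≤ SL
  mul : ∀ {x y}, x ∈ Γ → y ∈ Γ → ψ (x * y) = ψ x * ψ y
  ker : ∀ {x}, x ∈ Γ → (ψ x = 1 ↔ x = 1 ∨ x = -1)
  nz : ∀ g ∈ 𝐍 (zpowers (ψ (ut z0))), ∃ x ∈ Ga, ψ x = g
  fus : ∀ v : U6, v.d = 0 → IsConj (ψ (ut z0)) (ψ (ut v)) → v.a = 0 ∧ v.b = 0 ∨ v.e = 0 ∧ v.f = 0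

/-- the image of a submonoid -/
def im {G : Type*} [Group G] (ψ : M4 → G) (P : Submonoid M4) : Subgroup G := closure (ψ '' P)

namespace Pa

variable {G : Type*} [Group G] {Γ P : Submonoid M4} {ψ : M4 → G} (h : Pa Γ ψ) {x y w : M4} {u v : U6} {g : G}
include h

theorem one : ψ 1 = 1 := (h.ker Γ.one_mem).2 (.inl rfl)

theorem negm (a : x ∈ Γ) : -x ∈ Γ := neg_one_mul x ▸ Γ.mul_mem (h.ga (by decide)) a

theorem neg (a : x ∈ Γ) : ψ (-x) = ψ x := by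
  have : (-1 : M4) ∈ Γ := h.ga (by decide)
  rw [← neg_one_mul, h.mul this a, (h.ker this).2 (.inr rfl), one_mul]

theorem pow (a : x ∈ Γ) (n : ℕ) : ψ (x ^ n) = ψ x ^ n := by
  induction n with
  | zero => simp [h.one]
  | succ n ih => rw [pow_succ, h.mul (Γ.pow_mem a n) a, ih, pow_succ]

theorem cj (a : w ∈ Γ) (b : x ∈ Γ) (c : y ∈ Γ) (e : w * x = y * w) : ψ w * ψ x * (ψ w)⁻¹ = ψ y := by
  rw [← h.mul a b, e, h.mul c a, mul_inv_cancel_right]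

theorem cjn (a : w ∈ Γ) (b : x ∈ Γ) (c : y ∈ Γ) (e : w * x = -(y * w)) : ψ w * ψ x * (ψ w)⁻¹ = ψ y := by
  rw [← h.neg c, h.cj a b (h.negm c) (by rw [e, neg_mul])]

theorem sq (a : x ∈ Γ) (e : x * x = 1 ∨ x * x = -1) : ψ x * ψ x = 1 := by
  rw [← h.mul a a, h.ker (Γ.mul_mem a a)]; exact e

/-- the unitriangular group -/
def υ : U6 →* G := MonoidHom.mk' (fun v => ψ (ut v)) fun v w => by
  rw [ut_mul, h.mul (h.ga (ut_Ga _)) (h.ga (ut_Ga _))]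

theorem υ_inj : Function.Injective h.υ := (injective_iff_map_eq_one _).2 fun v e => by
  rcases (h.ker (h.ga (ut_Ga v))).1 e with e | e
  · simp only [ut, M4.one_def, M4.mk.injEq] at e
    ext <;> simp [U6.one_def, e]
  · exact absurd (congrArg M4.a e) (by decide : (1 : F) ≠ -1)

theorem υ_eq : h.υ u = h.υ v ↔ u = v := h.υ_inj.eq_iff

theorem υ_one : h.υ u = 1 ↔ u = 1 := map_eq_one_iff _ h.υ_inj

theorem υ_mem {A : Subgroup U6} : h.υ u ∈ A.map h.υ ↔ u ∈ A := mem_map_iff_mem h.υ_inj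

theorem cju (a : w ∈ Γ) (e : w * ut u = ut v * w) : ψ w * h.υ u * (ψ w)⁻¹ = h.υ v :=
  h.cj a (h.ga (ut_Ga _)) (h.ga (ut_Ga _)) e

theorem υ_pi (u : U6) : PiElt {3} (h.υ u) :=
  (piNat_pow_self Nat.prime_three 2).dvd (orderOf_dvd_of_pow_eq_one (by rw [← map_pow]; exact h.υ_one.2 (U6.pow9 u)))

theorem υ_ord (a : u ^ 3 = 1) (b : u ≠ 1) : orderOf (h.υ u) = 3 :=
  haveI := Fact.mk Nat.prime_three
  orderOf_eq_prime (by rw [← map_pow, a, map_one]) (mt h.υ_one.1 b)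

variable [Finite G]

theorem pi (A : Subgroup U6) : PiGrp {3} (A.map h.υ) := piGrp_of_forall_elt (by
  rintro _ ⟨u, -, rfl⟩; exact h.υ_pi u)

theorem inv (l : P ≤ Γ) (a : x ∈ P) : ∃ y ∈ P, ψ y = (ψ x)⁻¹ ∧ (x * y = 1 ∨ x * y = -1) := by
  obtain ⟨n, hn⟩ := Nat.exists_eq_succ_of_ne_zero (orderOf_pos (ψ x)).ne'
  have e : ψ (x * x ^ n) = 1 := by rw [← pow_succ', h.pow (l a), ← Nat.succ_eq_add_one, ← hn, pow_orderOf_eq_one]
  refine ⟨x ^ n, P.pow_mem a n, eq_inv_of_mul_eq_one_right ?_, (h.ker (l (P.mul_mem a (P.pow_mem a n)))).1 e⟩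
  rw [← h.mul (l a) (l (P.pow_mem a n)), e]

theorem eq (a : x ∈ Γ) (b : y ∈ Γ) (e : ψ x = ψ y) : x = y ∨ x = -y := by
  obtain ⟨w, c, d, k⟩ := h.inv le_rfl b
  have := (h.ker (Γ.mul_mem c a)).1 (by rw [h.mul c a, d, e, inv_mul_cancel])
  have q : y * (w * x) = (y * w) * x := (mul_assoc _ _ _).symm
  rcases k with k | k <;> rcases this with t | t <;> rw [k, t] at q <;> simp at q <;> simp [q]

theorem cj' (a : w ∈ Γ) (b : x ∈ Γ) (c : y ∈ Γ) (e : ψ w * ψ x * (ψ w)⁻¹ = ψ y) :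
    w * x = y * w ∨ w * x = -(y * w) :=
  h.eq (Γ.mul_mem a b) (Γ.mul_mem c a) (by rw [h.mul a b, h.mul c a, ← e, inv_mul_cancel_right])

theorem eqG (a : x ∈ Ga) (b : y ∈ Ga) (p : x.p = y.p) (e : ψ x = ψ y) : x = y :=
  (h.eq (h.ga a) (h.ga b) e).resolve_right fun k => by
    have := Ga_p b
    have k : x.p = -y.p := congrArg M4.p k
    rw [p] at k
    revert this k; generalize y.p = t; revert t; decide

theorem cjG (a : w ∈ Ga) (b : x ∈ Ga) (c : y ∈ Ga) (p : x.p = y.p) (e : ψ w * ψ x * (ψ w)⁻¹ = ψ y) :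
    w * x = y * w :=
  h.eqG (Ga.mul_mem a b) (Ga.mul_mem c a) (by simp [M4.mul_def, a.2, c.2, p, mul_comm]) (by
    rw [h.mul (h.ga a) (h.ga b), h.mul (h.ga c) (h.ga a), ← e, inv_mul_cancel_right])

theorem mem_im (l : P ≤ Γ) : g ∈ im ψ P ↔ ∃ x ∈ P, ψ x = g := by
  refine ⟨fun k => ?_, fun k => subset_closure k⟩
  induction k using closure_induction with
  | mem _ k => exact k
  | one => exact ⟨1, P.one_mem, h.one⟩
  | mul _ _ _ _ a b =>
    obtain ⟨x, a, rfl⟩ := a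
    obtain ⟨y, b, rfl⟩ := b
    exact ⟨_, P.mul_mem a b, h.mul (l a) (l b)⟩
  | inv _ _ a =>
    obtain ⟨x, a, rfl⟩ := a
    exact (h.inv l a).imp fun _ k => ⟨k.1, k.2.1⟩

omit h [Finite G] in
theorem mem (a : x ∈ P) : ψ x ∈ im ψ P := subset_closure ⟨x, a, rfl⟩

theorem nzH : 𝐍 (zpowers (h.υ z0)) ≤ im ψ Γ := fun g k => by
  obtain ⟨x, a, rfl⟩ := h.nz g k
  exact mem (h.ga a)

theorem cnz {a b c d f g k i j l : F} (e : a * (f * j - g * i) = 1) (r : F) :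
    ψ (L43.nz a b c d f g k i j l) * h.υ ⟨0, 0, r, 0, 0, 0⟩ * (ψ (L43.nz a b c d f g k i j l))⁻¹ =
      h.υ ⟨0, 0, a * r, 0, 0, 0⟩ :=
  h.cju (h.ga (nz_Ga e)) (by ext <;> simp [L43.nz, ut, M4.mul_def] <;> ring)

theorem memZ : g ∈ zpowers (h.υ z0) ↔ ∃ r, h.υ ⟨0, 0, r, 0, 0, 0⟩ = g := by
  refine ⟨fun k => ?_, ?_⟩
  · rcases G3.mem3 (by rw [← map_pow, show z0 ^ 3 = 1 by decide, map_one]) k with rfl | rfl | rfl
    exacts [⟨0, map_one _⟩, ⟨1, rfl⟩, ⟨-1, by rw [← map_inv]; rfl⟩]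
  · rintro ⟨r, rfl⟩
    exact ⟨r.val, by
      show h.υ z0 ^ (r.val : ℤ) = _
      rw [← map_zpow]; congr 1; revert r; decide⟩

theorem nz' (k : g ∈ 𝐍 (zpowers (h.υ z0))) :
    ∃ a b c d f g' k i j l, a * (f * j - g' * i) = 1 ∧ ψ (L43.nz a b c d f g' k i j l) = g := by
  obtain ⟨x, a, rfl⟩ := h.nz g k
  obtain ⟨r, e⟩ := h.memZ.1 (conj_mem_of_norm k (mem_zpowers _))
  have e := h.cjG a (ut_Ga z0) (ut_Ga ⟨0, 0, r, 0, 0, 0⟩) rfl e.symm
  have q := Ga_p a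
  obtain ⟨a, b, c, d, e', f, g, k', i, j, l, m, _, _, _, p⟩ := x
  obtain ⟨d1, rfl, rfl, rfl⟩ : det _ = 1 ∧ _ = (0 : F) ∧ _ = (0 : F) ∧ _ = (0 : F) := a
  simp [ut, z0, M4.mul_def] at e
  obtain ⟨-, rfl, rfl⟩ := e
  simp only [det] at d1
  obtain rfl | rfl := (by decide : ∀ p : F, p * p = 1 → p = 1 ∨ p = -1) p q
  · exact ⟨_, _, _, _, _, _, _, _, _, _, by linear_combination d1, rfl⟩
  · refine ⟨-a, -b, -c, -d, -f, -g, -k', -j, -l, -m, by linear_combination d1, ?_⟩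
    rw [← h.neg (h.ga (nz_Ga (by linear_combination d1)))]
    simp [L43.nz, M4.neg_def]

theorem cz' (k : g ∈ 𝐂₁ (h.υ z0)) :
    ∃ b c d f g' k i j l, f * j - g' * i = 1 ∧ ψ (L43.nz 1 b c d f g' k i j l) = g := by
  obtain ⟨a, b, c, d, f, g, k', i, j, l, e, rfl⟩ := h.nz' (cent_le_norm _ ((cent_zpowers _).ge k))
  have := h.cnz (b := b) (c := c) (d := d) (k := k') (l := l) e 1
  rw [show h.υ ⟨0, 0, 1, 0, 0, 0⟩ = h.υ z0 from rfl, mem_cent1.1 k, mul_inv_cancel_right, h.υ_eq] at this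
  obtain rfl : a = 1 := by simpa [z0] using (congrArg U6.c this).symm
  exact ⟨_, _, _, _, _, _, _, _, _, by simpa using e, rfl⟩

end Pa

theorem nsol {G : Type*} [Group G] [Finite G] {N : Subgroup G} {x g k : G} (a : x ∈ N) (b : x ≠ 1) (c : g ∈ 𝐍 N)
    (d : k ∈ 𝐍 N) (e : x = ⁅g * x * g⁻¹, k * x * k⁻¹⁆) : ¬ Sol N := by
  induction N using card_induction with
  | h N ih => exact fun s => ih _ (card_lt (s.der_lt (ne_bot_of_mem a b))) (e ▸ commutator_mem_commutator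
      (conj_mem_of_norm c a) (conj_mem_of_norm d a)) (norm_der _ c) (norm_der _ d) (s.mono (der_le _))

end CF.L43
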