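/-
Groups in which the irreducible characters of `p'`-degree have `q'`-degree (Navarro–Wolf).
-/
import Cfsg.Agent.PLocal.ChB
import Cfsg.Agent.Clifford.Glaub
import Cfsg.Agent.Solv.PiSep
import Cfsg.Agent.Fgs2.Basic2
import Cfsg.Agent.Block.Ito

set_option autoImplicit false

namespace CF.NW
open Cfsg Subgroup CF.BG CF.Char CF.Clifford CF.RealP
open scoped commutatorElement ComplexConjugate

universe u

variable {G H : Type*} [Group G] [Group H] {p q : ℕ}

/-- Irreducible characters of `p'`-degree have `q'`-degree. -/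
def Hyp (p q : ℕ) (G : Type*) [Group G] : Prop :=
  ∀ χ, IsIrrCharacter G χ → ¬ p ∣ charDegree χ → ¬ q ∣ charDegree χ

theorem deg_comp (χ : H → ℂ) (f : G →* H) : charDegree (fun g => χ (f g)) = charDegree χ := by
  simp [charDegree]

theorem Hyp.surj (h : Hyp p q G) (f : G →* H) (hf : Function.Surjective f) : Hyp p q H :=
  fun χ hχ hp => deg_comp χ f ▸ h _ (irr_comp_of_surjective hχ f hf) (by rwa [deg_comp])

variable [Finite G]

theorem exists_over (hp : p.Prime) (U : Subgroup G) (hU : ¬ p ∣ U.index) {η : U → ℂ}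
    (hη : IsIrrCharacter U η) (hd : ¬ p ∣ charDegree η) :
    ∃ χ, IsIrrCharacter G χ ∧ ¬ p ∣ charDegree χ ∧ Ov U.subtype η χ := by
  have := Fintype.ofFinite G
  have := Fintype.ofFinite U
  have hc := ind_isCharacter U.subtype (irr_isCharacter hη)
  obtain ⟨χ, h1, h2, h3⟩ := exists_under_not_dvd (p := p) (MonoidHom.id G) hc (by
    rw [deg_eq (n := U.index * charDegree η) (by
      rw [ind_one _ U.subtype_injective, range_subtype, deg_cast (irr_isCharacter hη)]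
      push_cast; rfl)]
    exact fun h => ((Nat.Prime.dvd_mul hp).1 h).elim hU hd)
  refine ⟨χ, h1, h3, ov_iff.2 ?_⟩
  have := ov_iff.1 h2
  simp only [MonoidHom.id_apply] at this
  rw [inner_ind_left _ _ (irr_isClassFunction h1)] at this
  exact inner_irr_ne_zero_comm.1 this

/-- The inertia group of a character extending to a subgroup of `p'`-index. -/
theorem Hyp.not_dvd (h : Hyp p q G) (hp : p.Prime) {V U : Subgroup G} [V.Normal] (hVU : V ≤ U)
    (hU : ¬ p ∣ U.index) {η : U → ℂ} (hη : IsIrrCharacter U η) (hd : ¬ p ∣ charDegree η)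
    {θ : V → ℂ} (hθ : IsIrrCharacter V θ) (he : ∀ v, η (inclusion hVU v) = θ v) :
    U ≤ (NormalEmb.sub V).inertia θ ∧ ¬ q ∣ ((NormalEmb.sub V).inertia θ).index := by
  refine ⟨fun u hu => (NormalEmb.mem_inertia' _).2 fun v => ?_, ?_⟩
  · rw [← he, ← he, ← classFun_conj (irr_isClassFunction hη) (inclusion hVU v) ⟨u, hu⟩]
    rfl
  obtain ⟨χ, h1, h2, h3⟩ := exists_over hp U hU hη hd
  have o : Ov (NormalEmb.sub V).ι θ χ :=
    h3.trans (ov_of_ext hθ he) (irr_isCharacter h1) hη (irr_isCharacter hθ)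
  exact fun hq => h χ h1 h2 (hq.trans ((Dvd.intro _ rfl).trans (index_inertia_dvd o h1 hθ)))

theorem card_inv {V S : Subgroup G} (n : S ≤ 𝐍 V) (c : (♯S).Coprime (♯V)) (s : Sol S) :
    Nat.card {χ : IrrCharacter V // ∀ s ∈ S, ∀ g g' : V, (g' : G) = s * g * s⁻¹ →
      (χ : V → ℂ) g' = (χ : V → ℂ) g} = Nat.card (ConjClasses (V ⊓ 𝐂 S : Subgroup G)) := by
  have := Fintype.ofFinite (V ⊓ 𝐂 S : Subgroup G)
  obtain ⟨R, hR, -⟩ := bij_solvable V (ambAut V S (le_norm_iff.1 n))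
    (inclusion (inf_le_left : V ⊓ 𝐂 S ≤ V)) c (inclusion_injective _)
    (fix_amb _ rfl inf_le_left)
  have := hR.card_eq
  simp only [invA_amb] at this
  rw [this, ← card_irr]
  exact Nat.card_congr (Equiv.subtypeUnivEquiv fun _ => trivial)

/-- If the `P`-invariant characters of `V` are `S`-invariant, the fixed points coincide. -/
theorem cent_of_inv {V P S : Subgroup G} (hPS : P ≤ S) (n : S ≤ 𝐍 V) (c : (♯S).Coprime (♯V))
    (s : Sol S) (h : ∀ χ : V → ℂ, IsIrrCharacter V χ →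
      (∀ s ∈ P, ∀ g g' : V, (g' : G) = s * g * s⁻¹ → χ g' = χ g) →
      ∀ s ∈ S, ∀ g g' : V, (g' : G) = s * g * s⁻¹ → χ g' = χ g) : V ⊓ 𝐂 P ≤ 𝐂 S := by
  have e1 := card_inv n c s
  have e2 := card_inv (hPS.trans n) (coprime_mono c hPS le_rfl) (s.mono hPS)
  have hle : V ⊓ 𝐂 S ≤ V ⊓ 𝐂 P := inf_le_inf_left _ (cent_anti hPS)
  have e : Nat.card (ConjClasses (V ⊓ 𝐂 P : Subgroup G)) ≤
      Nat.card (ConjClasses (V ⊓ 𝐂 S : Subgroup G)) := by
    rw [← e1, ← e2]
    exact Nat.card_le_card_of_injective (fun χ => ⟨χ.1, h _ χ.1.2 χ.2⟩) fun a b e =>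
      Subtype.ext (congrArg (fun t => t.1) e)
  have hinj : Function.Injective (ConjClasses.map (inclusion hle)) := by
    intro a b e
    obtain ⟨x, rfl⟩ := ConjClasses.mk_surjective a
    obtain ⟨y, rfl⟩ := ConjClasses.mk_surjective b
    obtain ⟨k, hk⟩ := isConj_iff.1 (ConjClasses.mk_eq_mk_iff_isConj.1 e)
    have hk' : (k : G) * x * (k : G)⁻¹ = y := congrArg Subtype.val hk
    obtain ⟨d, hd, e⟩ := CF.Coprime.exists_centralizer_conj_elt S V n c (Or.inl s) x k k.2.1 x.2.2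
      (hk' ▸ y.2.2)
    exact ConjClasses.mk_eq_mk_iff_isConj.2 (isConj_iff.2 ⟨⟨d, hd⟩, Subtype.ext (e.trans hk')⟩)
  have hs := (hinj.bijective_of_nat_card_le e).2
  have : (V ⊓ 𝐂 S).subgroupOf (V ⊓ 𝐂 P) = ⊤ := by
    by_contra hne
    obtain ⟨x, hx⟩ := CF.Fgs2.exists_forall_conj_notMem hne
    obtain ⟨a, ha⟩ := hs (ConjClasses.mk x)
    obtain ⟨y, rfl⟩ := ConjClasses.mk_surjective a
    obtain ⟨k, hk⟩ := isConj_iff.1 (ConjClasses.mk_eq_mk_iff_isConj.1 ha)
    refine hx k ?_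
    rw [← hk]
    simpa [mul_assoc, mem_subgroupOf] using y.2
  exact (subgroupOf_eq_top.1 this).trans inf_le_right

theorem exists_linear_of_not_le {P W : Subgroup G} (hW : W ≤ P) (h : ¬ W ≤ ⁅P, P⁆) :
    ∃ μ : P →* ℂˣ, ∃ w, ∃ hw : w ∈ W, μ ⟨w, hW hw⟩ ≠ 1 := by
  obtain ⟨w, hw, hn⟩ := SetLike.not_le_iff_exists.1 h
  obtain ⟨χ, hχ, h1, h2⟩ := exists_irr_le_charKer_not_mem (commutator P) (g := ⟨w, hW hw⟩)
    fun hm => hn (by
      have := mem_map_of_mem P.subtype hm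
      rwa [commutator_def, map_commutator, map_top_subtype] at this)
  obtain ⟨μ, rfl⟩ := exists_linear_of_one (irr_isCharacter hχ) ((irr_one_eq_one_iff hχ).2 h1)
  rw [charKer_linear] at h2
  exact ⟨μ, w, hw, h2⟩

theorem not_dvd_index (hp : p.Prime) {P U : Subgroup G} (hP : Syl p P ⊤) (h : P ≤ U) :
    ¬ p ∣ U.index := fun hd => hP.not_dvd hp (by
  rw [relIndex_top_right]; exact hd.trans (index_dvd_of_le h))

theorem main [Fact p.Prime] [Fact q.Prime] (hpq : p ≠ q) (n : ℕ) :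
    ∀ (G : Type u) [Group G] [Finite G], Nat.card G = n → IsPSolvable p G → IsPSolvable q G →
    Hyp p q G → ∀ P : Subgroup G, Syl p P ⊤ →
    ∃ Q, Syl q Q ⊤ ∧ P ≤ 𝐍 Q ∧ ∀ T, P ≤ T → ¬ q ∣ T.index → Q ≤ T := by
  have hp : p.Prime := Fact.out
  have hq : q.Prime := Fact.out
  induction n using Nat.strong_induction_on with
  | _ n ih =>
  intro G _ _ hn hps hqs h P hP
  by_cases h1 : (⊤ : Subgroup G) = ⊥
  · exact ⟨⊥, Hall.bot (h1 ▸ piGrp_bot _), by simp, fun _ _ _ => bot_le⟩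
  obtain ⟨V, -, hm⟩ := exists_minN h1 (le_norm_self _)
  have nV : V ⊴ ⊤ := ⟨le_top, hm.norm⟩
  haveI := normalIn_top.1 nV
  have aV : ∀ X : Subgroup G, X ≤ 𝐍 V := fun X => le_top.trans nV.norm
  have hmin : CF.Solv.IsMinNormal V := ⟨this, hm.ne_bot, fun M hM l =>
    hm.eq_bot_or l (normalIn_top.2 hM).norm⟩
  set π := QuotientGroup.mk' V
  have hsur : Function.Surjective π := QuotientGroup.mk'_surjective V
  have hcm : ∀ X : Subgroup G, (X.map π).comap π = V ⊔ X := fun X => by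
    rw [comap_map_eq, QuotientGroup.ker_mk', sup_comm]
  obtain ⟨Q', hQ', nQ', lQ'⟩ := ih _ (hn ▸ card_quot_lt hm.ne_bot) (G ⧸ V) rfl
    (CF.Solv.isPSolvable_quotient hps V) (CF.Solv.isPSolvable_quotient hqs V) (h.surj π hsur)
    (P.map π) (map_top_of_surjective π hsur ▸ hP.map π)
  set R := Q'.comap π with hR
  have hVR : V ≤ R := fun x hx => by
    rw [hR, mem_comap, show π x = 1 from (QuotientGroup.eq_one_iff x).2 hx]; exact one_mem _
  have nR : P ≤ 𝐍 R := le_norm_iff.2 fun x hx r hr => by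
    rw [hR, mem_comap, map_mul, map_mul, map_inv]
    exact conj_mem_of_norm (nQ' (mem_map_of_mem π hx)) hr
  have lR : ∀ T, P ≤ T → ¬ q ∣ T.index → R ≤ V ⊔ T := fun T a b =>
    hcm T ▸ comap_mono (lQ' _ (map_mono a) fun c => b (c.trans (index_map_dvd _ hsur)))
  have iR : PiNat {q}ᶜ (R.relIndex ⊤) := by
    rw [relIndex_top_right, hR, index_comap_of_surjective _ hsur, ← relIndex_top_right]
    exact hQ'.idx
  have sR : ∀ Q, Syl q Q R → V ⊔ Q = R := fun Q hQ => by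
    rw [← hcm, (hQ.map π).eq_of_pi (by rw [hR, map_comap_eq_self_of_surjective hsur]; exact hQ'.pi),
      hR, map_comap_eq_self_of_surjective hsur]
  have key : ∀ {U : Subgroup G} (hVU : V ≤ U), P ≤ U → ∀ {η : U → ℂ}, IsIrrCharacter U η →
      ¬ p ∣ charDegree η → ∀ {θ : V → ℂ}, IsIrrCharacter V θ → (∀ v, η (inclusion hVU v) = θ v) →
      R ≤ (NormalEmb.sub V).inertia θ := by
    intro U hVU hPU η hη hd θ hθ he
    obtain ⟨a, b⟩ := h.not_dvd hp hVU (not_dvd_index hp hP hPU) hη hd hθ he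
    exact (lR _ (hPU.trans a) b).trans (sup_le (hVU.trans a) le_rfl)
  rcases (CF.Solv.isPSolvable_iff_isPiSep.1 hqs).piNum_of_isMinNormal hmin with hVq | hVq
  · -- `V` is a `q`-group
    obtain ⟨Q, hQ⟩ := exists_syl q R
    have e : Q = R := by
      rw [← sR Q hQ, sup_eq_right.2 (hQ.le_of_normal ⟨hVR, aV _⟩ hVq)]
    subst e
    refine ⟨_, hQ.trans_idx le_top iR, nR, fun T a b => (lR T a b).trans (sup_le ?_ le_rfl)⟩
    obtain ⟨S, hS⟩ := exists_syl q T
    exact ((hS.trans_idx le_top (by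
      rw [relIndex_top_right]; exact (piNat_compl_single hq).2 b)).le_of_normal nV hVq).trans hS.le
  rcases (CF.Solv.isPSolvable_iff_isPiSep.1 hps).piNum_of_isMinNormal hmin with hVp | hVp
  · -- `V` is a `p`-group
    have hVP : V ≤ P := hP.le_of_normal nV hVp
    have ab := (hm.abelem_of_pi hVp).abel
    obtain ⟨Q, hQ⟩ := exists_syl q R
    have eR := sR Q hQ
    have dp := ab.dprod_cent_comm (aV Q) (hQ.pi.coprime hVq)
    have hc : ⁅V, Q⁆ = ⊥ := by
      have hW : ⁅V, Q⁆ ≤ V := dp.right_le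
      have hF : P ≤ V ⊔ (P ⊓ 𝐍 Q) := by
        have := hQ.syl_frattini_sup (normalIn_sup_left nR)
        have h2 : P ≤ V ⊔ ((R ⊔ P) ⊓ 𝐍 Q) := by
          refine le_sup_right.trans (this.ge.trans (sup_le (eR.ge.trans (sup_le_sup_left
            (le_inf (hQ.le.trans le_sup_left) (le_norm_self Q)) _)) le_sup_right))
        rw [← inf_sup_left hVP (Or.inr (aV _))]
        exact le_inf le_rfl (h2.trans (sup_le_sup_left inf_le_right _))
      by_cases hle : ⁅V, Q⁆ ≤ ⁅P, P⁆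
      · have e : P ⊓ 𝐍 Q = P := eq_of_le_sup_Phi inf_le_left (hF.trans (sup_le (dp.sup.ge.trans
          (sup_le (le_sup_of_le_left (le_inf (inf_le_left.trans hVP)
            (inf_le_right.trans (cent_le_norm Q))))
            (le_sup_of_le_right (hle.trans hP.pi.der_le_Phi)))) le_sup_left))
        exact comm_eq_bot.2 (PiGrp.cent_of_norm (π := {q}ᶜ) hVq hQ.pi.compl_compl
          (hVP.trans (e.ge.trans inf_le_right)) (aV Q))
      exfalso
      obtain ⟨μ, w, hw, hμ⟩ := exists_linear_of_not_le (hW.trans hVP) hle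
      have hi := key hVP le_rfl (irr_linear μ) (by
        rw [deg_eq (n := 1) (by simp)]; exact hp.not_dvd_one)
        (irr_linear (μ.comp (inclusion hVP))) fun _ => rfl
      have : ⁅V, Q⁆ ≤ (μ.comp (inclusion hVP)).ker.map V.subtype := by
        refine commutator_le.2 fun n hn x hx =>
          ⟨⟨n, hn⟩ * (NormalEmb.sub V).c x ⟨n, hn⟩⁻¹, ?_, ?_⟩
        · have := Units.ext (((NormalEmb.sub V).mem_inertia').1 (hi (hQ.le hx)) ⟨n, hn⟩⁻¹)
          rw [SetLike.mem_coe, MonoidHom.mem_ker, map_mul, this, ← map_mul, mul_inv_cancel, map_one]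
        · simp [NormalEmb.sub_c, commutatorElement_def, mul_assoc]
      obtain ⟨m, hm, rfl⟩ := this hw
      exact hμ hm
    refine ⟨Q, hQ.trans_idx le_top iR, nR.trans (hQ.norm_le_norm (eR ▸ sup_le
      (norm_of_cent (comm_eq_bot.1 hc)) (le_norm_self Q))), fun T a b =>
        hQ.le.trans ((lR T a b).trans (sup_le (hVP.trans a) le_rfl))⟩
  -- `V` is a `{p, q}'`-group
  have hRp : PiGrp {p}ᶜ R := by
    obtain ⟨Q, hQ⟩ := exists_syl q R
    exact sR Q hQ ▸ PiGrp.sup hVp (hQ.pi.of_single_ne hpq.symm) (Or.inr (aV Q))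
  have cR := hP.pi.coprime hRp
  obtain ⟨Q, hQ, nQ⟩ := exists_syl_inv nR cR (Or.inl hP.pi.sol) q
  have eR := sR Q hQ
  have hC : V ⊓ 𝐂 P ≤ 𝐂 (P ⊔ Q) := by
    refine cent_of_inv le_sup_left (aV _) (PiNat.coprime (π := {p, q}) (PiGrp.sup
      (hP.pi.of_single (by simp)) (hQ.pi.of_single (by simp)) (Or.inl nQ)) fun r hr hd hm => ?_)
      (hP.pi.sol.sup hQ.pi.sol nQ) fun θ hθ hinv => ?_
    · exact hm.elim (hVp r hr hd) (hVq r hr hd)
    have hVU : ∀ n, (NormalEmb.sub V).ι n ∈ V ⊔ P := fun n => mem_sup_left n.2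
    have hPi : P ≤ (NormalEmb.sub V).inertia θ := fun x hx =>
      (NormalEmb.mem_inertia' _).2 fun v => hinv x hx _ _ rfl
    have hVi : V ≤ (NormalEmb.sub V).inertia θ := (range_subtype V).ge.trans
      ((NormalEmb.sub V).range_le_inertia (irr_isClassFunction hθ))
    obtain ⟨η, hη, he⟩ := ((NormalEmb.sub V).restrict (V ⊔ P) hVU).exists_ext_of_coprime_card hθ
      (fun g v => (NormalEmb.mem_inertia' _).1 (sup_le hVi hPi g.2) v) (by
        rw [NormalEmb.index_restrict_sub, relIndex_sup_norm' (Or.inl (aV P))]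
        exact (hP.pi.relIndex _).coprime hVp)
    have hd : ¬ p ∣ charDegree η := by
      have e : η 1 = θ 1 := by rw [← he, map_one]
      rw [deg_eq (e.trans (deg_cast (irr_isCharacter hθ)))]
      exact fun hd => hVp p hp (hd.trans (irr_one_dvd_card hθ (deg_cast (irr_isCharacter hθ)))) rfl
    have hi := key le_sup_left le_sup_right hη hd hθ he
    intro s hs g g' e
    rw [← (NormalEmb.mem_inertia' _).1 (sup_le hPi (hQ.le.trans hi) hs) g]
    exact congrArg θ (Subtype.ext e)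
  refine ⟨Q, hQ.trans_idx le_top iR, nQ, fun T a b => ?_⟩
  have nT : P ≤ 𝐍 (R ⊓ T) := norm_inf nR (norm_of_le a)
  obtain ⟨Q₁, hQ₁, nQ₁⟩ := exists_syl_inv nT (coprime_mono cR le_rfl inf_le_left)
    (Or.inl hP.pi.sol) q
  have hQ₁' : Syl q Q₁ R := hQ₁.trans_idx inf_le_left (by
    have e : V ⊔ R ⊓ T = R := by
      rw [← inf_sup_left hVR (Or.inr (aV T)), inf_eq_left.2 (lR T a b)]
    conv => rhs; rhs; rw [← e]
    rw [relIndex_sup_norm (Or.inr (aV _))]
    exact PiGrp.relIndex hVq _)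
  obtain ⟨g, hg, rfl⟩ := hQ.syl_conj_inv hQ₁' nR cR (Or.inl hP.pi.sol) nQ nQ₁
  have : R ⊓ 𝐂 P ≤ 𝐍 Q := by
    rw [← eR, sup_inf_cent_of_inf_bot (aV P) nQ (Or.inr (aV Q)) (PiGrp.inf_eq_bot' hVq hQ.pi)]
    exact sup_le (hC.trans ((cent_anti le_sup_right).trans (cent_le_norm Q)))
      (inf_le_left.trans (le_norm_self Q))
  rw [cj_of_norm (this hg)] at hQ₁
  exact hQ₁.le.trans inf_le_right

theorem not_dvd_of_cent [Fact p.Prime] [Fact q.Prime] (hpq : p ≠ q) (hps : IsPSolvable p G)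
    (h0 : pPrimeCore p G = ⊥) {P Q : Subgroup G} (hP : Syl p P ⊤) (hQ : Syl q Q ⊤) (n : P ≤ 𝐍 Q) :
    ¬ q ∣ Nat.card G := by
  have hp : p.Prime := Fact.out
  have hO : PiGrp {p} (pCore p G) := piGrp_of_isPGroup hp CF.Solv.pCore_isPGroup
  have nO : pCore p G ⊴ ⊤ := normalIn_top.2 inferInstance
  have h1 : Q ≤ pCore p G := (cent_symm (hO.cent_of_norm (hQ.pi.of_single_ne hpq.symm)
    ((hP.le_of_normal nO hO).trans n) (le_top.trans nO.norm))).trans
      (CF.Solv.centralizer_pCore_le_of_isPSolvable hps h0)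
  rw [← card_top, ← hQ.syl_eq_bot_iff Fact.out]
  exact (hO.le h1).eq_bot (hQ.pi.of_single_ne hpq.symm)

theorem syl_map {P : Subgroup G} (hP : Syl p P ⊤) (N : Subgroup G) [N.Normal] :
    Syl p (P.map (QuotientGroup.mk' N)) ⊤ :=
  map_top_of_surjective _ (QuotientGroup.mk'_surjective N) ▸ hP.map _

theorem not_dvd_index_core [Fact p.Prime] [Fact q.Prime] (hpq : p ≠ q) (hps : IsPSolvable p G)
    (hqs : IsPSolvable q G) (h : ∀ χ, IsIrrCharacter G χ → pPrimeCore p G ≤ charKer χ →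
      ¬ p ∣ charDegree χ → ¬ q ∣ charDegree χ) : ¬ q ∣ (pPrimeCore p G).index := by
  obtain ⟨P, hP⟩ := exists_syl p (⊤ : Subgroup (G ⧸ pPrimeCore p G))
  have hs := CF.Solv.isPSolvable_quotient hps (pPrimeCore p G)
  obtain ⟨Q, hQ, n, -⟩ := main hpq _ (G ⧸ pPrimeCore p G) rfl hs
    (CF.Solv.isPSolvable_quotient hqs _) (fun χ hχ hd => by
      rw [← deg_comp χ (QuotientGroup.mk' _)] at hd ⊢
      exact h _ (irr_inflate _ hχ) (le_charKer_inflate _ χ) hd) P hP
  exact not_dvd_of_cent hpq hs CF.Solv.pPrimeCore_quotient_pPrimeCore hP hQ n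

theorem syl_le_of_not_dvd (hp : p.Prime) {P N : Subgroup G} [N.Normal] (hP : Syl p P ⊤)
    (h : ¬ p ∣ N.index) : P ≤ N :=
  hP.pi.le_of_relIndex le_top (normalIn_top.2 inferInstance).norm (by
    rw [relIndex_top_right]; exact (piNat_compl_single hp).2 h)

theorem piGrp_core [Fact p.Prime] : PiGrp {p}ᶜ (pPrimeCore p G) :=
  (piNat_compl_single Fact.out).2 CF.Solv.not_dvd_card_pPrimeCore

theorem exists_comm [Fact p.Prime] [Fact q.Prime] (h1 : ¬ q ∣ (pPrimeCore p G).index)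
    (h2 : ¬ p ∣ (pPrimeCore q G).index) : ∃ (P : Sylow p G) (Q : Sylow q G),
      ∀ x ∈ (P : Subgroup G), ∀ y ∈ (Q : Subgroup G), x * y = y * x := by
  obtain ⟨P, hP⟩ := exists_syl p (⊤ : Subgroup G)
  have nO : pPrimeCore p G ⊴ ⊤ := normalIn_top.2 inferInstance
  have nO' : pPrimeCore q G ⊴ ⊤ := normalIn_top.2 inferInstance
  obtain ⟨Q, hQ, n⟩ := exists_syl_inv (le_top.trans nO.norm) (hP.pi.coprime piGrp_core)
    (Or.inl hP.pi.sol) q
  have hQ' : Syl q Q ⊤ := hQ.trans_idx le_top (by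
    rw [relIndex_top_right]; exact (piNat_compl_single Fact.out).2 h1)
  have hc : ⁅P, Q⁆ = ⊥ := by
    rw [eq_bot_iff, ← hQ.pi.inf_eq_bot (piGrp_core (p := q))]
    exact le_inf (comm_le_right n) ((commutator_mono (syl_le_of_not_dvd Fact.out hP h2)
      le_rfl).trans (comm_le_left (le_top.trans nO'.norm)))
  obtain ⟨P, rfl⟩ := hP.exists_sylow_top
  obtain ⟨Q, rfl⟩ := hQ'.exists_sylow_top
  exact ⟨P, Q, fun x hx y hy => (comm_eq_bot.1 hc hx y hy).symm⟩

theorem not_dvd_of_comm [Fact p.Prime] [Fact q.Prime] (hpq : p ≠ q) (hps : IsPSolvable p G)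
    (P : Sylow p G) (Q : Sylow q G)
    (h : ∀ x ∈ (P : Subgroup G), ∀ y ∈ (Q : Subgroup G), x * y = y * x) {χ : G → ℂ}
    (hχ : IsIrrCharacter G χ) (hk : pPrimeCore p G ≤ charKer χ) : ¬ q ∣ charDegree χ := fun hd =>
  not_dvd_of_cent hpq (CF.Solv.isPSolvable_quotient hps (pPrimeCore p G))
    CF.Solv.pPrimeCore_quotient_pPrimeCore (syl_map (syl_sylow_top P) _)
    (syl_map (syl_sylow_top Q) _) (norm_of_cent (map_cent (fun x hx y hy => (h x hx y hy).symm) _))
    (hd.trans (irr_one_dvd_index_of_le_charCenter hχ (deg_cast (irr_isCharacter hχ))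
      (hk.trans (charKer_le_charCenter χ))))

theorem exists_not_le_ker' [Fact p.Prime] {P : Subgroup G} (hP : Syl p P ⊤) (h1 : P ≠ ⊥) :
    ∃ χ, IsIrrCharacter G χ ∧ ¬ p ∣ charDegree χ ∧ ¬ P ≤ charKer χ := by
  obtain ⟨μ, w, hw, hμ⟩ := exists_linear_of_not_le (le_refl P)
    fun e => h1 (hP.pi.sol.eq_bot_of_le_der e)
  have hp : p.Prime := Fact.out
  obtain ⟨χ, hχ, hd, o⟩ := exists_over hp P (not_dvd_index hp hP le_rfl)
    (irr_linear μ) (by rw [deg_eq (n := 1) (by simp)]; exact hp.not_dvd_one)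
  refine ⟨χ, hχ, hd, fun hk => hμ ?_⟩
  have := Fintype.ofFinite P
  have h0 : classInner (fun x : P => χ x) (fun x => (μ x : ℂ)) ≠ 0 :=
    (ov_iff (j := P.subtype)).1 o
  have h2 := charKer_le_of_inner_ne_zero (char_restrict (irr_isCharacter hχ) P) (irr_linear μ) h0
  rw [charKer_linear, charKer_restrict (irr_isCharacter hχ)] at h2
  exact MonoidHom.mem_ker.1 (h2 (mem_subgroupOf.2 (show ((⟨w, hw⟩ : P) : G) ∈ _ from hk hw)))

theorem exists_not_le_ker [Fact p.Prime] (hp : p ∣ Nat.card G) {P : Subgroup G} (hP : Syl p P ⊤) :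
    ∃ χ, IsIrrCharacter G χ ∧ pPrimeCore p G ≤ charKer χ ∧ ¬ p ∣ charDegree χ ∧
      ¬ P ≤ charKer χ := by
  obtain ⟨χ, hχ, hd, hk⟩ := exists_not_le_ker' (syl_map hP (pPrimeCore p G)) fun e => by
    rw [Subgroup.map_eq_bot_iff, QuotientGroup.ker_mk'] at e
    exact hP.syl_ne_bot Fact.out (by rwa [card_top]) (hP.pi.eq_bot (piGrp_core.le e))
  have hs := QuotientGroup.mk'_surjective (pPrimeCore p G)
  refine ⟨fun g => χ (QuotientGroup.mk' _ g), irr_comp_of_surjective hχ _ hs,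
    le_charKer_inflate _ χ, by rwa [deg_comp], fun h => hk ?_⟩
  rwa [charKer_comp _ _ hs, ← map_le_iff_le_comap] at h

end CF.NW
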