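import Cfsg.Agent.PLocal.OvA

/-! Homologies and Baer involutions fixing an oval: every four-group contains a homology. -/

set_option autoImplicit false

open scoped Classical

namespace CF.Oval

open MulAction Subgroup CF.Perm

variable {P L : Type*} {I : P → L → Prop} {n m : ℕ} {O Y : Set P} {p q r X C D E : P} {l k a b : L}
variable {G : Type*} [Group G] [MulAction G P] [MulAction G L] {g s t u v α β γ : G}

/-- involutory homologies -/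
def Ho (I : P → L → Prop) (α : G) : Prop := ∃ C a, Hm I C a α

theorem Ho.conj (h : CP G I n) (e : Ho I α) (g : G) : Ho I (g * α * g⁻¹) :=
  let ⟨_, _, e⟩ := e
  ⟨_, _, fun e' => e.1 ((h.inv_iff g).1 e'), h.tg_conj e.2.1 g, by simpa using e.2.2.1, by
    rw [conj_mul, e.2.2.2, mul_one, mul_inv_cancel]⟩

theorem baer' (h : CP G I n) (ho : Odd n) (ht : t * t = 1) (h1 : t ≠ 1) (h2 : ¬ Ho I t) :
    ∃ q, q ^ 2 = n ∧ PP (IF I (zpowers t)) q :=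
  (h.baer ht h1).resolve_left fun ⟨a, ha⟩ => let ⟨C, e⟩ := h.hm_of_ax ho ht h1 ha; h2 ⟨C, a, e⟩

theorem inv_pt (h : CP G I n) (ht : t * t = 1) (e : t • k ≠ k) : ∃ p, I p k ∧ t • p = p := by
  obtain ⟨p, h7, h8⟩ := h.meet k (t • k)
  exact ⟨p, h7, h.eqP e.symm (by simpa [← mul_smul, ht] using h.inv t h8) h7 (h.inv t h7) h8⟩

theorem inv_ln (h : CP G I n) (ht : t * t = 1) (e : t • p ≠ p) (h1 : I p l) (h2 : I (t • p) l) : t • l = l :=
  h.eqL e (h.inv t h1) (by simpa [← mul_smul, ht] using h.inv t h2) h2 h1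

theorem card_fix_lt (h : CP G I n) (ho : Odd n) (ht : t * t = 1) (h1 : t ≠ 1) :
    2 * Nat.card (fixSub P (zpowers t)) < 3 * n + 2 := by
  have := h.two
  have := h.finP
  have := Nat.odd_iff.1 ho
  by_cases e : Ho I t
  · obtain ⟨C, a, e⟩ := e
    have h2 := Set.ncard_le_ncard (s := fixSub P (zpowers t)) (t := insert C {p | I p a})
      fun p hp => h.hm_fix e (zp_le.1 hp)
    have h3 := Set.ncard_insert_le C {p | I p a}
    rw [h.cardL] at h3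
    change 2 * (fixSub P (zpowers t) : Set P).ncard < _
    omega
  · obtain ⟨q, rfl, h2⟩ := baer' h ho ht h1 e
    have h3 := h2.two
    have h4 : q ≠ 2 := by rintro rfl; omega
    rw [h2.card1]
    nlinarith [show 3 ≤ q by omega]

namespace Ov

variable (o : Ov I n O) (h : CP G I n)
include o h

theorem ho_mul (hα : α ∈ St G O) (hβ : β ∈ St G O) (e : Ho I α) (e' : Ho I β) (n : α ≠ β)
    (hc : α * β = β * α) : Ho I (α * β) := by
  obtain ⟨C, a, e⟩ := e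
  obtain ⟨D, b, e'⟩ := e'
  by_contra h0
  have := o.finP
  have h1 : C ≠ D := fun e1 => n (o.eq_of_ce h hα hβ e (e1 ▸ e'))
  obtain ⟨l, h2, h3⟩ := o.join C D
  obtain ⟨q, -, h4⟩ := baer' h o.odd (by rw [mul_assoc, ← mul_assoc β, ← hc, mul_assoc, e'.2.2.2, mul_one,
    e.2.2.2]) (fun e1 => n (by rw [eq_inv_of_mul_eq_one_left e1, inv_eq_of_mul_eq_one_right e'.2.2.2])) h0
  have h5 := card_fix_off h4 (l := l) (zp_le.2 (by rw [mul_smul, e'.2.1.2 l h3, e.2.1.2 l h2]))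
  obtain ⟨X, h6, h7⟩ := o.meet a b
  have h8 := Set.ncard_le_ncard (s := {p | zpowers (α * β) ≤ stabilizer G p ∧ ¬ I p l}) (t := {X}) fun p hp =>
    let h8 := (fix_mul h e e' h2 h3 h1 (zp_le.1 hp.1)).resolve_left hp.2
    o.eqP (fun e1 => n (o.eq_of_ax h hα hβ e (e1 ▸ e'))) h8.1 h6 h8.2 h7
  rw [h5, Set.ncard_singleton] at h8
  nlinarith [h4.two]

/-- two homologies have at most one common neighbour in the commuting graph -/
theorem nbr {α' β' : G} (hG : ∀ g, g ∈ St G O) (e : Ho I α) (e' : Ho I α') (f : Ho I β) (f' : Ho I β')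
    (n : α ≠ α') (n1 : β ≠ α) (n2 : β ≠ α') (n3 : β' ≠ α) (n4 : β' ≠ α') (c1 : β * α = α * β)
    (c2 : β * α' = α' * β) (c3 : β' * α = α * β') (c4 : β' * α' = α' * β') : β = β' := by
  obtain ⟨C, a, e⟩ := e
  obtain ⟨C', a', e'⟩ := e'
  obtain ⟨D, b, f⟩ := f
  obtain ⟨D', b', f'⟩ := f'
  obtain rfl := o.eqL (fun e1 => n (o.eq_of_ce h (hG _) (hG _) e (e1 ▸ e'))) (o.ce_mem h (hG _) (hG _) f e n1 c1)
    (o.ce_mem h (hG _) (hG _) f e' n2 c2) (o.ce_mem h (hG _) (hG _) f' e n3 c3) (o.ce_mem h (hG _) (hG _) f' e' n4 c4)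
  exact o.eq_of_ax h (hG _) (hG _) f f'

theorem ho_three (hα : α ∈ St G O) (e : Ho I α) (hp : p ∈ O) (hq : q ∈ O) (hr : r ∈ O) (h1 : α • p = p)
    (h2 : α • q = q) (h3 : α • r = r) : p = q ∨ p = r ∨ q = r :=
  let ⟨_, _, e⟩ := e
  o.arc hp hq hr (o.hm_ax h hα e hp h1) (o.hm_ax h hα e hq h2) (o.hm_ax h hα e hr h3)

/-- a product of two homologies fixes at most two points of the oval -/
theorem mul_three (hα : α ∈ St G O) (hβ : β ∈ St G O) (e : Ho I α) (e' : Ho I β) (n : α ≠ β) (hp : p ∈ O)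
    (hq : q ∈ O) (hr : r ∈ O) (h1 : (α * β) • p = p) (h2 : (α * β) • q = q) (h3 : (α * β) • r = r) :
    p = q ∨ p = r ∨ q = r := by
  obtain ⟨C, a, e⟩ := e
  obtain ⟨D, b, e'⟩ := e'
  have h4 : C ≠ D := fun e1 => n (o.eq_of_ce h hα hβ e (e1 ▸ e'))
  obtain ⟨l, h5, h6⟩ := o.join C D
  have h7 : ∀ {x y}, (α * β) • x = x → (α * β) • y = y → ¬ I x l → ¬ I y l → x = y := fun h1 h2 h3 h7 =>
    let h8 := (fix_mul h e e' h5 h6 h4 h1).resolve_left h3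
    let h9 := (fix_mul h e e' h5 h6 h4 h2).resolve_left h7
    o.eqP (fun e1 => n (o.eq_of_ax h hα hβ e (e1 ▸ e'))) h8.1 h9.1 h8.2 h9.2
  have h8 : ∀ {x y z}, x ∈ O → y ∈ O → z ∈ O → (α * β) • x = x → (α * β) • y = y → (α * β) • z = z →
      ¬ I x l → I y l → I z l → y = z := fun {x y z} hx hy hz h1 h2 h3 h8 h9 h10 => by_contra fun h11 => by
    obtain ⟨t, ht⟩ := (o.tn_ex hy).exists
    obtain ⟨t', ht'⟩ := (o.tn_ex hz).exists
    obtain ⟨W, h12, h13⟩ := o.meet t t'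
    have h14 : t ≠ t' := fun e => h11 (ht'.2.2 y hy (e ▸ ht.2.1))
    have h15 : ¬ I W l := fun e => h11 (ht'.2.2 y hy (o.eqP (fun e : t = l => h11 (ht.2.2 z hz (e ▸ h10)).symm)
      h12 ht.2.1 e h9 ▸ h13))
    obtain rfl := h7 h1 (h.fixP h14 h12 h13 (o.tn_fix h (mul_mem hα hβ) ht h2) (o.tn_fix h (mul_mem hα hβ) ht' h3))
      h8 h15
    exact h8 (ht.2.2 x hx h12 ▸ h9)
  by_cases e1 : I p l <;> by_cases e2 : I q l <;> by_cases e3 : I r l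
  exacts [o.arc hp hq hr e1 e2 e3, .inl (h8 hr hp hq h3 h1 h2 e3 e1 e2), .inr (.inl (h8 hq hp hr h2 h1 h3 e2 e1 e3)),
    .inr (.inr (h7 h2 h3 e2 e3)), .inr (.inr (h8 hp hq hr h1 h2 h3 e1 e2 e3)), .inr (.inl (h7 h1 h3 e1 e3)),
    .inl (h7 h1 h2 e1 e2), .inl (h7 h1 h2 e1 e2)]

/-- the fixed points of a planar group on the oval form an oval of the subplane -/
theorem sub {S : Subgroup G} (hS : S ≤ St G O) (hm : PP (IF I S) m) (ho : Odd m) (hp : p ∈ O)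
    (h1 : S ≤ stabilizer G p) : Ov (IF I S) m {x | x.1 ∈ O} := by
  refine ⟨hm, ho, ?_, fun a b c d e f => (o.arc a b c d e f).imp Subtype.ext (Or.imp Subtype.ext Subtype.ext)⟩
  have := hm.finP
  have := hm.finL
  obtain ⟨t, ht⟩ := (o.tn_ex hp).exists
  have h2 : S ≤ stabilizer G t := fun g hg => o.tn_fix h (hS hg) ht (h1 hg)
  choose f f1 f2 using hm.join ⟨p, h1⟩
  rw [← Set.ncard_diff_singleton_add_one (a := (⟨p, h1⟩ : fixSub P S)) hp,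
    ← hm.dual.card_ne (p := (⟨t, h2⟩ : fixSub L S)) (l := (⟨p, h1⟩ : fixSub P S)) ht.2.1]
  congr 1
  refine Set.BijOn.ncard_eq (f := f) ⟨fun x hx => ⟨f1 x, fun e => hx.2 (Subtype.ext (ht.2.2 x hx.1
    (show I x.1 (⟨t, h2⟩ : fixSub L S).1 from e ▸ f2 x)))⟩, fun x hx y hy e => Subtype.ext ?_, fun k hk => ?_⟩
  · exact ((o.arc hp hx.1 hy.1 (f1 x) (f2 x) (e ▸ f2 y)).resolve_left fun e => hx.2 (Subtype.ext e.symm)).resolve_left
      fun e => hy.2 (Subtype.ext e.symm)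
  · obtain ⟨q, h3, h4, h5⟩ := o.other hp hk.1 fun e => hk.2 (Subtype.ext (o.tn_eq e ht))
    have h6 : S ≤ stabilizer G q := fun g hg => o.fix_of_line h (hS hg) hp h3 hk.1 h4 (k.2 hg) (h1 hg)
    exact ⟨⟨q, h6⟩, ⟨h3, fun e => h5 (congrArg Subtype.val e)⟩,
      Subtype.ext (o.eqL h5 (f2 ⟨q, h6⟩) (f1 ⟨q, h6⟩) h4 hk.1)⟩

/-- the pointwise stabiliser of a Baer subplane has order two -/
theorem baer_faith (hβ : β ∈ St G O) (hγ : γ ∈ St G O) (h1 : β * β = 1) (hm : PP (IF I (zpowers β)) m)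
    (h2 : ∀ p : P, β • p = p → γ • p = p) : γ = 1 ∨ γ = β := by
  have h3 : ∀ l : L, β • l = l → ∀ x, ∃ p, I p l ∧ β • p = p ∧ p ≠ x := fun l hl x => by
    by_cases hx : β • x = x
    · obtain ⟨p, h3, h4, -⟩ := hm.exists_ne2 ⟨l, zp_le.2 hl⟩ ⟨x, zp_le.2 hx⟩ ⟨x, zp_le.2 hx⟩
      exact ⟨p, h3, zp_le.1 p.2, fun e => h4 (Subtype.ext e)⟩
    · obtain ⟨y⟩ := hm.neP
      obtain ⟨p, h3, -⟩ := hm.exists_ne2 ⟨l, zp_le.2 hl⟩ y y
      exact ⟨p, h3, zp_le.1 p.2, fun e => hx (e ▸ zp_le.1 p.2)⟩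
  refine or_iff_not_imp_right.2 fun h4 => ?_
  obtain ⟨E, hE, h5⟩ : ∃ E ∈ O, γ • E ≠ β • E := by
    by_contra! e
    exact h4 (o.ext h e)
  have h6 : β • E ≠ E := fun e => h5 ((h2 E e).trans e.symm)
  obtain ⟨l, h7, h8⟩ := o.join E (β • E)
  have h9 := inv_ln h h1 h6 h7 h8
  obtain ⟨x, h10, h11, -⟩ := h3 l h9 E
  obtain ⟨y, h12, h13, h14⟩ := h3 l h9 x
  have h15 : γ • E = E := (((o.arc hE ((hβ E).2 hE) ((hγ E).2 hE) h7 h8 (h.invL (h.fixL h14 h12 h10 (h2 y h13)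
    (h2 x h11)) h7)).resolve_left h6.symm).resolve_right h5.symm).symm
  refine o.eq_one h fun D hD => ?_
  obtain ⟨k, h16, h17⟩ := o.join E D
  obtain ⟨z, h18, h19⟩ : ∃ z, I z k ∧ β • z = z := by
    by_cases e : β • k = k
    · exact (h3 k e E).imp fun z e => ⟨e.1, e.2.1⟩
    · exact inv_pt h h1 e
  exact o.fix_of_line h hγ hE hD h16 h17 (h.fixL (fun e : z = E => h6 (e ▸ h19)) h18 h16 (h2 z h19) h15) h15

theorem card_baer (hβ : β ∈ St G O) (hm : PP (IF I (zpowers β)) m) (e : m ^ 2 = n) (hp : p ∈ O) (h1 : β • p = p) :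
    {x | x ∈ O ∧ β • x = x}.ncard = m + 1 := by
  rw [← (o.sub h (zpowers_le.2 hβ) hm ((Nat.odd_pow_iff two_ne_zero).1 (e ▸ o.odd)) hp (zp_le.2 h1)).card,
    ← Set.ncard_image_of_injective _ Subtype.val_injective]
  congr 1; ext x
  exact ⟨fun e => ⟨⟨x, zp_le.2 e.2⟩, e.1, rfl⟩, fun ⟨y, e, e'⟩ => e' ▸ ⟨e, zp_le.1 y.2⟩⟩

/-- every four-group whose involutions fix points of the oval contains a homology -/
theorem four (hu : u ∈ St G O) (hv : v ∈ St G O) (u2 : u * u = 1) (v2 : v * v = 1) (hc : u * v = v * u)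
    (u1 : u ≠ 1) (v1 : v ≠ 1) (uv : u ≠ v) (fu : ∃ p ∈ O, u • p = p) (fv : ∃ p ∈ O, v • p = p)
    (fw : ∃ p ∈ O, (u * v) • p = p) : Ho I u ∨ Ho I v ∨ Ho I (u * v) := by
  by_contra! h0
  have := o.finP
  have w2 : u * v * (u * v) = 1 := by rw [mul_assoc, ← mul_assoc v, ← hc, mul_assoc, v2, mul_one, u2]
  obtain ⟨m, hm, h1⟩ := baer' h o.odd u2 u1 h0.1
  obtain ⟨m2, hm2, h2⟩ := baer' h o.odd v2 v1 h0.2.1
  obtain ⟨m3, hm3, h3⟩ := baer' h o.odd w2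
    (fun e => uv (by rw [eq_inv_of_mul_eq_one_left e, inv_eq_of_mul_eq_one_right v2])) h0.2.2
  obtain rfl := Nat.pow_left_injective two_ne_zero (hm.trans hm2.symm)
  obtain rfl := Nat.pow_left_injective two_ne_zero (hm.trans hm3.symm)
  obtain ⟨p, c1⟩ := fu
  obtain ⟨q, c2⟩ := fv
  obtain ⟨r, c3⟩ := fw
  replace c1 := o.card_baer h hu h1 hm c1.1 c1.2
  replace c2 := o.card_baer h hv h2 hm c2.1 c2.2
  replace c3 := o.card_baer h (mul_mem hu hv) h3 hm c3.1 c3.2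
  have hN : v ∈ normalizer (zpowers u : Set G) :=
    centralizer_le_normalizer _ (by rw [mem_centralizer_iff]; rintro _ ⟨k, rfl⟩; exact (Commute.zpow_left hc k).eq)
  have h4 := card_fix_lt h1.col ((Nat.odd_pow_iff two_ne_zero).1 (hm ▸ o.odd)) (t := h.φ _ ⟨v, hN⟩)
    (by rw [← map_mul, ← map_one (h.φ _)]; exact congrArg _ (Subtype.ext v2)) fun e =>
      (o.baer_faith h hu hv u2 h1 fun p hp => congrArg Subtype.val
        (show h.φ _ ⟨v, hN⟩ • (⟨p, zp_le.2 hp⟩ : fixSub P (zpowers u)) = ⟨p, zp_le.2 hp⟩ from e ▸ one_smul _ _)).elim v1 uv.symm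
  rw [Nat.card_congr (fixEquiv (t := v) fun _ => rfl)] at h4
  set Φ : Set P := {x | u • x = x ∧ v • x = x} with hΦ
  have h5 : Nat.card (fixSub P (zpowers u ⊔ zpowers v)) = Φ.ncard := by
    change (fixSub P (zpowers u ⊔ zpowers v) : Set P).ncard = _
    congr 1; ext x
    exact (sup_le_iff.trans (and_congr zp_le zp_le))
  have h6 : ∀ W ⊆ O, (∀ D ∈ W, ∃ X ∈ Φ \ O, ∃ t, Tn I O D t ∧ I X t) → W.ncard ≤ 2 * (Φ \ O).ncard := fun W hW e => by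
    choose! f f1 t f2 f3 using e
    rw [Set.ncard_eq_toFinset_card W, Set.ncard_eq_toFinset_card (Φ \ O)]
    refine Finset.card_le_mul_card_image_of_maps_to (f := f) (by simpa using f1) 2 fun X _ => ?_
    by_contra! e
    obtain ⟨a, ha, b, hb, c, hc, e⟩ := Finset.two_lt_card.1 e
    simp only [Finset.mem_filter, Set.Finite.mem_toFinset] at ha hb hc
    have f4 : ∀ {a} (e : a ∈ W ∧ f a = X), I X (t a e.1) := fun {a} e =>
      Eq.subst (motive := fun X => I X (t a e.1)) e.2 (f3 a e.1)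
    rcases o.qvist (f2 a ha.1) (f2 b hb.1) (f2 c hc.1) (f4 ha) (f4 hb) (f4 hc) with e' | e' | e'
    exacts [e.1 e', e.2.1 e', e.2.2 e']
  have h7 : ∀ D ∈ O, ∀ E ∈ O, D ≠ E → (u • D = D ∧ u • E = E ∨ u • D = E ∧ u • E = D) →
      (v • D = D ∧ v • E = E ∨ v • D = E ∧ v • E = D) → ∃ X ∈ Φ \ O, ∃ t, Tn I O D t ∧ I X t := by
    intro D hD E hE e e1 e2
    obtain ⟨t, ht⟩ := (o.tn_ex hD).exists
    obtain ⟨t', ht'⟩ := (o.tn_ex hE).exists
    obtain ⟨X, h7, h8⟩ := o.meet t t'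
    have h9 : ∀ g ∈ St G O, (g • D = D ∧ g • E = E ∨ g • D = E ∧ g • E = D) → g • X = X := fun g hg e' => by
      have h9 : t ≠ t' := fun e' => e (ht'.2.2 D hD (e' ▸ ht.2.1))
      rcases e' with e' | e'
      · exact h.fixP h9 h7 h8 (o.tn_fix h hg ht e'.1) (o.tn_fix h hg ht' e'.2)
      · exact o.eqP h9 (o.tn_eq (e'.2 ▸ tn_smul h hg ht') ht ▸ h.inv g h8) h7
          (o.tn_eq (e'.1 ▸ tn_smul h hg ht) ht' ▸ h.inv g h7) h8
    exact ⟨X, ⟨⟨h9 u hu e1, h9 v hv e2⟩, fun e' => e ((ht.2.2 X e' h7).symm.trans (ht'.2.2 X e' h8))⟩, t, ht, h7⟩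
  set W : Set P := ({x | x ∈ O ∧ u • x = x} \ Φ ∪ {x | x ∈ O ∧ v • x = x} \ Φ) ∪ {x | x ∈ O ∧ (u * v) • x = x} \ Φ
    with hW
  have a1 : ∀ {g : G} (x : P), g * g = 1 → g • g • x = x := fun x e => by rw [← mul_smul, e, one_smul]
  have h8 : ∀ D ∈ W, D ∈ O ∧ ∃ X ∈ Φ \ O, ∃ t, Tn I O D t ∧ I X t := by
    rintro D ((e | e) | e)
    · exact ⟨e.1.1, h7 D e.1.1 (v • D) ((hv D).2 e.1.1) (fun e' => e.2 ⟨e.1.2, e'.symm⟩)
        (.inl ⟨e.1.2, by rw [← mul_smul, hc, mul_smul, e.1.2]⟩) (.inr ⟨rfl, a1 D v2⟩)⟩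
    · exact ⟨e.1.1, h7 D e.1.1 (u • D) ((hu D).2 e.1.1) (fun e' => e.2 ⟨e'.symm, e.1.2⟩) (.inr ⟨rfl, a1 D u2⟩)
        (.inl ⟨e.1.2, by rw [← mul_smul, ← hc, mul_smul, e.1.2]⟩)⟩
    · have e1 : v • D = u • D := by rw [← a1 (v • D) u2, ← mul_smul u v, e.1.2]
      exact ⟨e.1.1, h7 D e.1.1 (u • D) ((hu D).2 e.1.1) (fun e' => e.2 ⟨e'.symm, e1.trans e'.symm⟩)
        (.inr ⟨rfl, a1 D u2⟩) (.inr ⟨e1, by rw [← e1, a1 D v2]⟩)⟩
  have h9 : ∀ {g : G}, (∀ x ∈ Φ, g • x = x) → ({x | x ∈ O ∧ g • x = x} \ Φ).ncard + (Φ ∩ O).ncard =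
      {x | x ∈ O ∧ g • x = x}.ncard := fun e => by
    rw [← Set.ncard_inter_add_ncard_diff_eq_ncard {x | x ∈ O ∧ _} Φ, add_comm]
    congr 2; ext x
    exact ⟨fun e' => ⟨⟨e'.2, e x e'.1⟩, e'.1⟩, fun e' => ⟨e'.2, e'.1.1⟩⟩
  have h10 := h9 (g := u) fun _ e => e.1
  have h11 := h9 (g := v) fun _ e => e.2
  have h12 := h9 (g := u * v) fun _ e => by rw [mul_smul, e.2, e.1]
  have h13 := Set.ncard_inter_add_ncard_diff_eq_ncard Φ O
  have h14 : W.ncard + 3 * (Φ ∩ O).ncard = 3 * (m + 1) := by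
    rw [hW, Set.ncard_union_eq, Set.ncard_union_eq]
    · omega
    · exact Set.disjoint_left.2 fun x e e' => e.2 ⟨e.1.2, e'.1.2⟩
    · refine Set.disjoint_left.2 ?_
      rintro x (e | e) e'
      · exact e.2 ⟨e.1.2, by rw [← a1 (v • x) u2, ← mul_smul u v, e'.1.2, e.1.2]⟩
      · exact e.2 ⟨by rw [← e.1.2, ← mul_smul, e'.1.2, e.1.2], e.1.2⟩
  by_cases e : 1 < (Φ ∩ O).ncard
  · have h15 := h6 (W ∪ Φ ∩ O) (Set.union_subset (fun D e => (h8 D e).1) fun _ e => e.2) (by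
      rintro D (e' | e')
      · exact (h8 D e').2
      · obtain ⟨E, hE, e1⟩ := Set.exists_ne_of_one_lt_ncard e D
        exact h7 D e'.2 E hE.2 e1.symm (.inl ⟨e'.1.1, hE.1.1⟩) (.inl ⟨e'.1.2, hE.1.2⟩))
    rw [Set.ncard_union_eq (Set.disjoint_left.2 (by rintro x ((e | e) | e) e' <;> exact e.2 e'.1))] at h15
    omega
  · have h15 := h6 W (fun D e => (h8 D e).1) fun D e => (h8 D e).2
    omega

end Ov

end CF.Oval
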