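import Cfsg.Agent.PLocal.OvB
import Cfsg.Agent.Solv.CyclicMax
import Cfsg.Agent.Char.QSetup

/-! The group-theoretic properties of the set of homologies in a perfect collineation group fixing an oval. -/

set_option autoImplicit false

open scoped Classical

namespace CF.Oval

open MulAction Subgroup CF.Perm

/-- properties of the set of homologies -/
structure HS {G : Type*} [Group G] (H : G → Prop) : Prop where
  sq : ∀ {a}, H a → a * a = 1
  ne : ∀ {a}, H a → a ≠ 1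
  conj : ∀ {a}, H a → ∀ g, H (g * a * g⁻¹)
  mul : ∀ {a b}, H a → H b → a ≠ b → a * b = b * a → H (a * b)
  nbr : ∀ {a a' b b'}, H a → H a' → H b → H b' → a ≠ a' → b ≠ a → b ≠ a' → b' ≠ a → b' ≠ a' → b * a = a * b →
    b * a' = a' * b → b' * a = a * b' → b' * a' = a' * b' → b = b'
  four : ∀ {u v}, u * u = 1 → v * v = 1 → u * v = v * u → u ≠ 1 → v ≠ 1 → u ≠ v → H u ∨ H v ∨ H (u * v)
  cyc : ∀ {a b}, H a → H b → a ≠ b → ∀ T : Subgroup G, IsPGroup 2 T → a ∈ T → b ∈ T →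
    (∀ w ∈ T, w * a = a * w ∧ w * b = b * w) → ∃ p ∈ T, (∀ k : ℤ, ¬ H (p ^ k)) ∧
      ∀ w ∈ T, ∃ k : ℤ, w = p ^ k ∨ w = p ^ k * a ∨ w = p ^ k * b ∨ w = p ^ k * (a * b)
  real : ∀ {a b z z'}, H a → H b → H z → H z' → (orderOf (a * b)).Prime → Odd (orderOf (a * b)) →
    z * (a * b) = a * b * z → z' * (a * b) = a * b * z' → z = z'

variable {P L : Type*} {I : P → L → Prop} {n m : ℕ} {O Y : Set P} {p q r X C D E : P} {l k : L}
variable {G : Type*} [Group G] [MulAction G P] [MulAction G L] {g s t u v w a b c z : G}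

theorem Ho.sq (e : Ho I a) : a * a = 1 := let ⟨_, _, e⟩ := e; e.2.2.2

theorem Ho.ne (e : Ho I a) : a ≠ 1 := let ⟨_, _, e⟩ := e; e.2.2.1

namespace Ov

variable (o : Ov I n O) (h : CP G I n)
include o h

/-- a 2-group fixing three points of the oval is cyclic -/
theorem planar_cyc {Q : Subgroup G} (hO : Q ≤ St G O) (hQ : IsPGroup 2 Q) (hp : p ∈ O) (hq : q ∈ O) (hr : r ∈ O)
    (n1 : p ≠ q) (n2 : p ≠ r) (n3 : q ≠ r) (f : ∀ g ∈ Q, g • p = p ∧ g • q = q ∧ g • r = r) : IsCyclic Q := by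
  have := h.finG
  have h1 : ∀ g ∈ Q, ¬ Ho I g := fun g hg e => by
    rcases o.ho_three h (hO hg) e hp hq hr (f g hg).1 (f g hg).2.1 (f g hg).2.2 with e | e | e
    exacts [n1 e, n2 e, n3 e]
  have h2 : ∀ u ∈ Q, ∀ v ∈ Q, u * u = 1 → v * v = 1 → u * v = v * u → u ≠ 1 → v ≠ 1 → u = v :=
    fun u hu v hv a b c d e => by_contra fun e' => by
      rcases o.four h (hO hu) (hO hv) a b c d e e' ⟨p, hp, (f u hu).1⟩ ⟨p, hp, (f v hv).1⟩
        ⟨p, hp, (f _ (mul_mem hu hv)).1⟩ with e | e | e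
      exacts [h1 _ hu e, h1 _ hv e, h1 _ (mul_mem hu hv) e]
  refine (CF.Solv.isCyclic_or_quaternion hQ fun x y hx hy x1 => ?_).resolve_right ?_
  · have := nontrivial_of_ne x 1 x1
    have := hQ.center_nontrivial
    obtain ⟨c, c1⟩ := _root_.exists_ne (1 : center Q)
    obtain ⟨k, c2, c3⟩ := exists_invol_pow' (g := (c : Q)) (hQ.to_subgroup _) (by simpa using c1)
    have h3 : ∀ x : Q, x ^ 2 = 1 → x ≠ 1 → x = c ^ k := fun x hx x1 => Subtype.ext
      (h2 _ x.2 _ (c.1 ^ k).2 (congrArg Subtype.val (pow_two x ▸ hx :)) (congrArg Subtype.val c2)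
        (congrArg Subtype.val (mem_center_iff.1 (pow_mem c.2 k) x)) (by simpa using x1)
        fun e => c3 (Subtype.ext e))
    by_cases y1 : y = 1
    · exact y1 ▸ one_mem _
    · rw [h3 y hy y1, ← h3 x hx x1]; exact mem_zpowers x
  rintro ⟨-, j, hj, ⟨e⟩⟩
  obtain ⟨a, b, k⟩ := CF.Char.exists_qSetup e
  obtain ⟨j, rfl⟩ := Nat.exists_eq_add_of_le' hj
  set β := a ^ 2 ^ (j + 1) with hβ
  set c := a ^ 2 ^ j with hc
  have c2 : c * c = β := by rw [hc, ← pow_add, ← mul_two, ← pow_succ]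
  have hcQ : c ∈ Q := pow_mem k.a_mem _
  have β2 : β * β = 1 := by rw [← pow_two, ← k.orderOf_z, pow_orderOf_eq_one]
  have β1 : β ≠ 1 := fun e => by simpa [← hβ, e] using k.orderOf_z
  obtain ⟨m, hm, h3⟩ := baer' h o.odd β2 β1 (h1 _ k.z_mem)
  have ho := (Nat.odd_pow_iff two_ne_zero).1 (hm ▸ o.odd)
  have o' := o.sub h (zpowers_le.2 (hO k.z_mem)) h3 ho hp (zp_le.2 (f _ k.z_mem).1)
  have hN : Q ≤ normalizer (zpowers β : Set G) := k.le_normalizer_zpowers_pow _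
  let ψ : Q →* Col (IF I (zpowers β)) := (h.φ _).comp (inclusion hN)
  have h4 : ∀ x : Q, ψ x ∈ St _ {x : fixSub P (zpowers β) | x.1 ∈ O} := fun x y => hO x.2 y
  have h5 : ∀ x : Q, ψ x = 1 ↔ x.1 = 1 ∨ x.1 = β := fun x => ⟨fun e => o.baer_faith h (hO k.z_mem) (hO x.2) β2 h3
    fun p hp => congrArg Subtype.val (show ψ x • (⟨p, zp_le.2 hp⟩ : fixSub P (zpowers β)) = ⟨p, zp_le.2 hp⟩ from
      e ▸ one_smul _ _), fun e => h3.col.faithP _ fun y => Subtype.ext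
        (show x.1 • y.1 = y.1 from e.elim (fun e => e ▸ one_smul _ _) fun e => by rw [e]; exact zp_le.1 y.2)⟩
  have h6 : ∀ x : Q, ¬ Ho (IF I (zpowers β)) (ψ x) := fun x e => by
    rcases o'.ho_three (p := (⟨p, zp_le.2 (f _ k.z_mem).1⟩ : fixSub P (zpowers β)))
      (q := (⟨q, zp_le.2 (f _ k.z_mem).2.1⟩ : fixSub P (zpowers β)))
      (r := (⟨r, zp_le.2 (f _ k.z_mem).2.2⟩ : fixSub P (zpowers β))) h3.col (h4 x) e hp hq hr (Subtype.ext (f x x.2).1) (Subtype.ext (f x x.2).2.1)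
      (Subtype.ext (f x x.2).2.2) with e | e | e
    exacts [n1 (congrArg Subtype.val e), n2 (congrArg Subtype.val e), n3 (congrArg Subtype.val e)]
  have h7 : ∀ x : Q, ∃ y ∈ {x : fixSub P (zpowers β) | x.1 ∈ O}, ψ x • y = y := fun x =>
    ⟨⟨p, zp_le.2 (f _ k.z_mem).1⟩, hp, Subtype.ext (f x x.2).1⟩
  have h8 : ∀ x : Q, x.1 * x.1 = β → ψ x * ψ x = 1 ∧ ψ x ≠ 1 := fun x e =>
    ⟨by rw [← map_mul, h5]; exact .inr e, fun e' => ((h5 x).1 e').elim (fun e' => β1 (by rw [← e, e', one_mul]))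
      fun e' => β1 (by rw [← e, e', β2])⟩
  have h9 : c * b ∉ zpowers a := fun e => k.notMem ((mul_mem_cancel_left (pow_mem (mem_zpowers a) _)).1 e)
  have a1 := h8 ⟨c, hcQ⟩ c2
  have a2 := h8 ⟨b, k.b_mem⟩ k.hb
  have a3 := h8 (⟨c, hcQ⟩ * ⟨b, k.b_mem⟩) (k.sq_eq (mul_mem hcQ k.b_mem) h9)
  rw [map_mul] at a3
  rcases o'.four h3.col (h4 _) (h4 _) a1.1 a2.1 (by
    rw [← inv_eq_of_mul_eq_one_right a3.1, mul_inv_rev, inv_eq_of_mul_eq_one_right a1.1,
      inv_eq_of_mul_eq_one_right a2.1]) a1.2 a2.2 (fun e => a3.2 (by rw [e, a2.1])) (h7 _) (h7 _)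
      (map_mul ψ _ _ ▸ h7 _) with e | e | e
  exacts [h6 _ e, h6 _ e, h6 _ (map_mul ψ _ _ ▸ e)]

variable (hG : ∀ g : G, g ∈ St G O)
include hG

theorem no4 (e : Ho I c) (e' : Ho I a) (n1 : c ≠ a) (hw : w * w = c) (hc : w * a = a * w) : n % 4 = 1 := by
  have := o.finP
  have h1 : c * a = a * c := by rw [← hw, mul_assoc, hc, ← mul_assoc, hc, mul_assoc]
  obtain ⟨C, l, e⟩ := e
  obtain ⟨D, k, e'⟩ := e'
  obtain ⟨X, h2, h3⟩ := o.meet l k
  have h4 := o.ce_mem h (hG _) (hG _) e' e n1.symm h1.symm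
  have h5 : l ≠ k := fun e1 => e.1 (e1 ▸ h4)
  have h6 : w * c = c * w := by rw [← hw, mul_assoc]
  have h7 := ax_fix_of_comm h e' hc
  have h8 := four_dvd (Y := {x | I x k ∧ x ≠ C} \ {X}) (g := w) (mem_St fun x hx => ⟨⟨h.invL h7 hx.1.1, fun e1 =>
    hx.1.2 (MulAction.injective w (e1.trans (ce_fix_of_comm h e h6).symm))⟩, fun e1 => hx.2 (MulAction.injective w
      (e1.trans (h.fixP h5 h2 h3 (ax_fix_of_comm h e h6) h7).symm))⟩) (by rw [hw, e.2.2.2]) fun x hx e1 =>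
        hx.2 (o.eqP h5 ((h.hm_fix e (hw ▸ e1)).resolve_left hx.1.2) h2 hx.1.1 h3)
  rw [Set.ncard_sdiff_singleton_of_mem (s := {x | I x k ∧ x ≠ C}) ⟨h3, fun e1 => e.1 (e1 ▸ h2)⟩, o.card_ne h4] at h8
  have := o.two
  omega

variable (hP : commutator G = ⊤)
include hP

theorem par (ht : t * t = 1) : (n + 1) % 4 = {p | p ∈ O ∧ t • p = p}.ncard % 4 := by
  have := o.finP
  rw [← o.card]
  exact four_mod (hG t) ht (Abelianization.commutator_subset_ker
    ((sg O).comp ((MonoidHom.id G).codRestrict _ hG)) (hP ▸ mem_top t))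

theorem case3 (h3 : n % 4 = 3) (ht : t * t = 1) (h1 : t ≠ 1) : Ho I t ∧ ∀ p ∈ O, t • p ≠ p := by
  have := o.finP
  have h2 : Ho I t := by_contra fun e => by
    obtain ⟨q, hq, -⟩ := baer' h o.odd ht h1 e
    rw [← hq, Nat.pow_mod] at h3
    have : q % 4 < 4 := Nat.mod_lt _ (by decide)
    interval_cases q % 4 <;> simp at h3
  refine ⟨h2, fun p hp e => ?_⟩
  have h4 := o.par h hG hP ht
  have h5 : 0 < {p | p ∈ O ∧ t • p = p}.ncard := (Set.ncard_pos).2 ⟨p, hp, e⟩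
  obtain ⟨a, b, c, ha, hb, hc, e⟩ := (Set.two_lt_ncard_iff).1 (show 2 < {p | p ∈ O ∧ t • p = p}.ncard by omega)
  rcases o.ho_three h (hG t) h2 ha.1 hb.1 hc.1 ha.2 hb.2 hc.2 with e' | e' | e'
  exacts [e.1 e', e.2.1 e', e.2.2 e']

theorem case1 (h3 : n % 4 = 1) (ht : t * t = 1) : ∃ p ∈ O, ∃ q ∈ O, p ≠ q ∧ t • p = p ∧ t • q = q := by
  have := o.finP
  have h4 := o.par h hG hP ht
  obtain ⟨a, ha, b, hb, e⟩ := (Set.one_lt_ncard).1 (show 1 < {p | p ∈ O ∧ t • p = p}.ncard by omega)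
  exact ⟨a, ha.1, b, hb.1, e, ha.2, hb.2⟩

theorem pair (h3 : n % 4 = 1) (e : Ho I a) : ∃ p ∈ O, ∃ q ∈ O, p ≠ q ∧ a • p = p ∧ a • q = q ∧
    (∀ g, g * a = a * g → g • p = p ∧ g • q = q ∨ g • p = q ∧ g • q = p) ∧
      ∀ b, Ho I b → b • p = p → b • q = q → b = a := by
  obtain ⟨p, hp, q, hq, n1, h1, h2⟩ := o.case1 h hG hP h3 e.sq
  refine ⟨p, hp, q, hq, n1, h1, h2, fun g hg => ?_, fun b ⟨D, k, f⟩ h4 h5 => ?_⟩
  · have h4 : ∀ x ∈ O, a • x = x → g • x = p ∨ g • x = q := fun x hx e' =>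
      ((o.ho_three h (hG a) e hp hq ((hG g x).2 hx) h1 h2 (by rw [← mul_smul, ← hg, mul_smul, e'])).resolve_left
        n1).imp Eq.symm Eq.symm
    rcases h4 p hp h1 with e1 | e1 <;> rcases h4 q hq h2 with e2 | e2
    exacts [absurd (MulAction.injective g (e1.trans e2.symm)) n1, .inl ⟨e1, e2⟩, .inr ⟨e1, e2⟩,
      absurd (MulAction.injective g (e1.trans e2.symm)) n1]
  · obtain ⟨C, l, e⟩ := e
    obtain rfl := o.eqL n1 (o.hm_ax h (hG a) e hp h1) (o.hm_ax h (hG a) e hq h2) (o.hm_ax h (hG b) f hp h4)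
      (o.hm_ax h (hG b) f hq h5)
    exact o.eq_of_ax h (hG b) (hG a) f e

theorem cyc (ha : Ho I a) (hb : Ho I b) (n1 : a ≠ b) (T : Subgroup G) (hT : IsPGroup 2 T) (aT : a ∈ T) (bT : b ∈ T)
    (hc : ∀ w ∈ T, w * a = a * w ∧ w * b = b * w) : ∃ p ∈ T, (∀ k : ℤ, ¬ Ho I (p ^ k)) ∧
      ∀ w ∈ T, ∃ k : ℤ, w = p ^ k ∨ w = p ^ k * a ∨ w = p ^ k * b ∨ w = p ^ k * (a * b) := by
  have := h.finG
  have hab := (hc a aT).2
  have hw := o.ho_mul h (hG a) (hG b) ha hb n1 hab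
  rcases (show n % 4 = 1 ∨ n % 4 = 3 by have := Nat.odd_iff.1 o.odd; omega) with h3 | h3
  · obtain ⟨p, hp, q, hq, n2, a1, a2, a3, a4⟩ := o.pair h hG hP h3 ha
    obtain ⟨r, hr, s, hs, n3, b1, b2, b3, b4⟩ := o.pair h hG hP h3 hb
    have c1 := (a3 b hab.symm).resolve_left fun e => n1 (a4 b hb e.1 e.2).symm
    have c2 := (b3 a hab).resolve_left fun e => n1 (b4 a ha e.1 e.2)
    have n4 : p ≠ r := fun e => n2 (by rw [← c1.1, e, b1])
    have n5 : q ≠ r := fun e => n2 (by rw [← c1.2, e, b1])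
    have h4 := o.planar_cyc h (Q := T ⊓ (stabilizer G p ⊓ (stabilizer G q ⊓ stabilizer G r))) (fun g _ => hG g)
      (hT.to_le inf_le_left) hp hq hr n2 n4 n5 fun g hg => hg.2
    obtain ⟨⟨x, hx⟩, h5⟩ := h4.exists_generator
    refine ⟨x, hx.1, fun k e => ?_, fun w hw => ?_⟩
    · have := (zpow_mem hx k).2
      rcases o.ho_three h (hG _) e hp hq hr this.1 this.2.1 this.2.2 with e | e | e
      exacts [n2 e, n4 e, n5 e]
    have h6 : ∀ v ∈ T, v * v = 1 → (w * v) • p = p → (w * v) • q = q → (w * v) • r = r → ∃ k : ℤ, w = x ^ k * v :=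
      fun v hv v2 e1 e2 e3 => let ⟨k, hk⟩ := h5 ⟨w * v, mul_mem hw hv, e1, e2, e3⟩
        ⟨k, by rw [show x ^ k = w * v from congrArg Subtype.val hk, mul_assoc, v2, mul_one]⟩
    rcases a3 w (hc w hw).1 with e | e <;> rcases b3 w (hc w hw).2 with e' | e'
    · exact (h6 1 T.one_mem (mul_one _) (by simp [e]) (by simp [e]) (by simp [e'])).imp fun k e => .inl (by simpa using e)
    · exact (h6 a aT ha.sq (by simp [mul_smul, e, a1]) (by simp [mul_smul, e, a2])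
        (by simp [mul_smul, e', c2])).imp fun k e => .inr (.inl e)
    · exact (h6 b bT hb.sq (by simp [mul_smul, e, c1]) (by simp [mul_smul, e, c1])
        (by simp [mul_smul, e', b1])).imp fun k e => .inr (.inr (.inl e))
    · exact (h6 _ (mul_mem aT bT) ‹Ho I (a * b)›.sq (by simp [mul_smul, e, c1, a2]) (by simp [mul_smul, e, c1, a1])
        (by simp [mul_smul, e', b1, c2])).imp fun k e => .inr (.inr (.inr e))
  refine ⟨1, T.one_mem, fun k e => e.ne (one_zpow k), fun w hw => ⟨0, ?_⟩⟩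
  simp only [zpow_zero, one_mul]
  have n2 : a * b ≠ a := fun e => hb.ne (mul_left_cancel (e.trans (mul_one a).symm))
  have n3 : a * b ≠ b := fun e => ha.ne (mul_right_cancel (e.trans (one_mul b).symm))
  obtain ⟨j, hj⟩ := hT ⟨w, hw⟩
  replace hj : w ^ 2 ^ j = 1 := congrArg Subtype.val hj
  induction j generalizing w with
  | zero => exact .inl (by simpa using hj)
  | succ j ih =>
    rcases ih (w * w) (mul_mem hw hw) (by rw [← pow_two, ← pow_mul, ← pow_succ', hj]) with e | e | e | e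
    · by_contra! e'
      exact e'.2.2.2 (o.nbr h hG ha hb (o.case3 h hG hP h3 e e'.1).1 ‹_› n1 e'.2.1 e'.2.2.1 n2 n3 (hc w hw).1
        (hc w hw).2 (hc _ (mul_mem aT bT)).1 (hc _ (mul_mem aT bT)).2)
    · have := o.no4 h hG ha hb n1 e (hc w hw).2; omega
    · have := o.no4 h hG hb ha n1.symm e (hc w hw).1; omega
    · have := o.no4 h hG ‹_› ha n2 e (hc w hw).1; omega

theorem real {z' : G} (ha : Ho I a) (hb : Ho I b) (hz : Ho I z) (hz' : Ho I z') (hp : (orderOf (a * b)).Prime)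
    (ho : Odd (orderOf (a * b))) (c1 : z * (a * b) = a * b * z) (c2 : z' * (a * b) = a * b * z') : z = z' := by
  have := h.finG
  have := o.finP
  have n1 : a ≠ b := fun e => by rw [e, hb.sq, orderOf_one] at hp; exact Nat.not_prime_one hp
  have h1 := fun {p q r} => o.mul_three h (p := p) (q := q) (r := r) (hG a) (hG b) ha hb n1
  rcases (show n % 4 = 1 ∨ n % 4 = 3 by have := Nat.odd_iff.1 o.odd; omega) with h3 | h3
  · have h4 : ∀ {p q : P}, p ≠ q → (a * b) • p = q → (a * b) • q = p → False := fun {p q} e e1 e2 => by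
      obtain ⟨i, hi⟩ := ho
      have : (a * b) ^ 2 ∈ stabilizer G q := by rw [pow_two, mem_stabilizer_iff, mul_smul, e2, e1]
      exact e (by rw [← one_smul G p, ← pow_orderOf_eq_one (a * b), hi, pow_succ, mul_smul, e1, pow_mul,
        mem_stabilizer_iff.1 (pow_mem this i)])
    obtain ⟨p, hp, q, hq, n2, -, -, a3, a4⟩ := o.pair h hG hP h3 hz
    obtain ⟨r, hr, s, hs, n3, b1, b2, b3, -⟩ := o.pair h hG hP h3 hz'
    have d1 := (a3 _ c1.symm).resolve_right fun e => h4 n2 e.1 e.2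
    have d2 := (b3 _ c2.symm).resolve_right fun e => h4 n3 e.1 e.2
    rcases (h1 hr hs hp d2.1 d2.2 d1.1).resolve_left n3 with rfl | rfl <;>
      rcases (h1 hr hs hq d2.1 d2.2 d1.2).resolve_left n3 with rfl | rfl
    exacts [absurd rfl n2, (a4 _ hz' b1 b2).symm, (a4 _ hz' b2 b1).symm, absurd rfl n2]
  obtain ⟨A, k, ea⟩ := id ha
  obtain ⟨B, k', eb⟩ := id hb
  have n2 : A ≠ B := fun e => n1 (o.eq_of_ce h (hG a) (hG b) ea (e ▸ eb))
  have n3 : k ≠ k' := fun e => n1 (o.eq_of_ax h (hG a) (hG b) ea (e ▸ eb))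
  obtain ⟨m, m1, m2⟩ := o.join A B
  obtain ⟨X, x1, x2⟩ := o.meet k k'
  have h4 : ∀ {p : P}, (a * b) • p = p → I p m ∨ p = X := fun e =>
    (fix_mul h ea eb m1 m2 n2 e).imp_right fun e => o.eqP n3 e.1 x1 e.2 x2
  have h5 : ∀ {z C l}, Hm I C l z → z * (a * b) = a * b * z → C = X := fun {z C l} e c => by_contra fun n4 => by
    have h5 := (h4 (ce_fix_of_comm h e c.symm)).resolve_right n4
    have h6 := ax_fix_of_comm h e c.symm
    have n5 : l ≠ m := fun e' => e.1 (e' ▸ h5)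
    have h7 : I X l := (fix_mul h.dual ea.flip eb.flip x1 x2 n3 h6).resolve_right
      fun e' => n5 (o.eqL n2 e'.1 e'.2 m1 m2)
    obtain ⟨Y, y1, y2⟩ := o.meet l m
    have := Fact.mk hp
    have h8 := fix_mod (Y := {p | I p l}) (mem_St fun p hp => h.invL h6 hp) (pow_orderOf_eq_one (a * b))
    have h9 := fix_mod (hG _) (pow_orderOf_eq_one (a * b))
    have h10 := Set.ncard_le_ncard (s := {p | p ∈ {p | I p l} ∧ (a * b) • p = p}) (t := {Y, X}) fun p hp =>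
      (h4 hp.2).imp_left fun e' => o.eqP n5 hp.1 y1 e' y2
    have h11 : 0 < {p | p ∈ {p | I p l} ∧ (a * b) • p = p}.ncard :=
      (Set.ncard_pos).2 ⟨X, h7, by rw [mul_smul, eb.2.1.1 X x2, ea.2.1.1 X x1]⟩
    have h12 := Set.ncard_insert_le Y ({X} : Set P)
    rw [Set.ncard_singleton] at h12
    rw [o.cardL] at h8
    rw [o.card] at h9
    obtain ⟨D, hD, d1⟩ : {p | p ∈ O ∧ (a * b) • p = p}.Nonempty := Set.nonempty_of_ncard_ne_zero fun e' => by
      have := Nat.le_of_dvd h11 (Nat.modEq_zero_iff_dvd.1 (h8.symm.trans (e' ▸ h9)))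
      have := hp.two_le
      have := Nat.odd_iff.1 ho
      omega
    have i1 : a * (a * b) = (a * b)⁻¹ * a := by
      rw [mul_inv_rev, inv_eq_of_mul_eq_one_right hb.sq, inv_eq_of_mul_eq_one_right ha.sq, ← mul_assoc, mul_assoc b,
        ha.sq, one_mul, mul_one]
    have i2 : (a * b) * a = a * (a * b)⁻¹ := by
      rw [mul_inv_rev, inv_eq_of_mul_eq_one_right hb.sq, inv_eq_of_mul_eq_one_right ha.sq, mul_assoc]
    have h13 : a • D = z • D := (((h1 hD ((hG a D).2 hD) ((hG z D).2 hD) d1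
      (by rw [← mul_smul, i2, mul_smul, inv_smul_eq_iff.2 d1.symm]) (by rw [← mul_smul, ← c, mul_smul, d1])).resolve_left
        ((o.case3 h hG hP h3 ha.sq ha.ne).2 D hD).symm).resolve_left
          ((o.case3 h hG hP h3 e.2.2.2 e.2.2.1).2 D hD).symm)
    have h14 : a * z ∈ stabilizer G D := by rw [mem_stabilizer_iff, mul_smul, ← h13, ← mul_smul, ha.sq, one_smul]
    obtain ⟨u, ⟨i, rfl⟩, hu⟩ := exists_odd_pow (a * z)
    have i3 : SemiconjBy (a * z) (a * b) (a * b)⁻¹ := by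
      rw [SemiconjBy, mul_assoc, c, ← mul_assoc, i1, mul_assoc]
    obtain ⟨j, j1, j2⟩ := exists_invol_pow' hu fun e' => by
      have i4 : Commute ((a * z) ^ 2) (a * b) := by
        have := (i3.inv_right).mul_left i3
        rwa [inv_inv, ← pow_two] at this
      have i5 : SemiconjBy ((a * z) ^ (2 * i + 1)) (a * b) (a * b)⁻¹ := by
        rw [pow_succ, pow_mul]; exact SemiconjBy.mul_left (i4.pow_left i).inv_right i3
      rw [e', SemiconjBy, one_mul, mul_one, eq_inv_iff_mul_eq_one, ← pow_two] at i5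
      exact ho.not_two_dvd_nat ((Nat.prime_dvd_prime_iff_eq hp Nat.prime_two).1 (orderOf_dvd_of_pow_eq_one i5)).symm.dvd
    exact (o.case3 h hG hP h3 j1 j2).2 D hD (pow_mem (pow_mem h14 _) j)
  obtain ⟨C, l, e⟩ := hz
  obtain ⟨C', l', e'⟩ := hz'
  obtain rfl := (h5 e c1).trans (h5 e' c2).symm
  exact o.eq_of_ce h (hG _) (hG _) e e'

theorem hs : HS (Ho I : G → Prop) where
  sq := Ho.sq
  ne := Ho.ne
  conj := Ho.conj h
  mul := o.ho_mul h (hG _) (hG _)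
  nbr := o.nbr h hG
  four {u v} u2 v2 c u1 v1 e := by
    rcases (show n % 4 = 1 ∨ n % 4 = 3 by have := Nat.odd_iff.1 o.odd; omega) with h3 | h3
    · have h1 : ∀ t : G, t * t = 1 → ∃ p ∈ O, t • p = p := fun t ht =>
        let ⟨p, hp, _, _, _, e, _⟩ := o.case1 h hG hP h3 ht; ⟨p, hp, e⟩
      exact o.four h (hG u) (hG v) u2 v2 c u1 v1 e (h1 u u2) (h1 v v2)
        (h1 _ (by rw [mul_assoc, ← mul_assoc v, ← c, mul_assoc, v2, mul_one, u2]))
    · exact .inl (o.case3 h hG hP h3 u2 u1).1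
  cyc := o.cyc h hG hP
  real := o.real h hG hP

end Ov

end CF.Oval
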