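import Cfsg.Agent.PLocal.OvC
import Cfsg.Agent.Invol.Closure
import Cfsg.Agent.S0215

/-! The homologies in a Sylow 2-subgroup generate a dihedral group; transfer and fusion tools. -/

set_option autoImplicit false

open scoped Classical

namespace CF.Oval

open MulAction Subgroup CF.Perm CF.Transfer CF.Invol

variable {G : Type*} [Group G] {H : G → Prop} {S D : Subgroup G} {a b g s t u w x y σ τ β γ : G}

theorem comm_mod (hn : ∀ s ∈ S, ∀ d ∈ D, s * d * s⁻¹ ∈ D) (ha : a ∈ S) (hb : b ∈ S) (hD : D ≤ S)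
    (hab : a * b * a⁻¹ * b⁻¹ ∈ D) (h : ∀ u ∈ S, ∃ d ∈ D, ∃ i j : ℤ, u = a ^ i * d * b ^ j) :
    ∀ u ∈ S, ∀ v ∈ S, u * v * u⁻¹ * v⁻¹ ∈ D := by
  have : (D.subgroupOf S).Normal := ⟨fun d hd s => hn s s.2 d hd⟩
  let π := QuotientGroup.mk' (D.subgroupOf S)
  have h1 : ∀ u v : S, Commute (π u) (π v) ↔ u.1 * v * u.1⁻¹ * v.1⁻¹ ∈ D := fun u v => by
    rw [← commutatorElement_eq_one_iff_commute, ← map_commutatorElement]
    exact QuotientGroup.eq_one_iff _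
  have h2 : ∀ u : S, ∃ i j : ℤ, π u = π ⟨a, ha⟩ ^ i * π ⟨b, hb⟩ ^ j := fun u => by
    obtain ⟨d, hd, i, j, e⟩ := h u u.2
    refine ⟨i, j, ?_⟩
    rw [show u = ⟨a, ha⟩ ^ i * ⟨d, hD hd⟩ * ⟨b, hb⟩ ^ j from Subtype.ext e, map_mul, map_mul, map_zpow, map_zpow,
      show π ⟨d, hD hd⟩ = 1 from (QuotientGroup.eq_one_iff _).2 hd, mul_one]
  intro u hu v hv
  obtain ⟨i, j, e⟩ := h2 ⟨u, hu⟩
  obtain ⟨k, l, e'⟩ := h2 ⟨v, hv⟩
  have h3 := (h1 ⟨a, ha⟩ ⟨b, hb⟩).2 hab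
  refine (h1 ⟨u, hu⟩ ⟨v, hv⟩).1 ?_
  rw [e, e']
  exact (((Commute.refl _).zpow_zpow i k).mul_right (h3.zpow_zpow i l)).mul_left
    ((h3.symm.zpow_zpow j k).mul_right ((Commute.refl _).zpow_zpow j l))

theorem cz {e : ℤ} (h : s * x * s⁻¹ = x ^ e) (k : ℤ) : s * x ^ k * s⁻¹ = x ^ (e * k) := by
  rw [← conj_zpow, h, zpow_mul]

variable [Finite G]

theorem odd_gen (hS : IsPGroup 2 S) (hx : x ∈ S) {i : ℤ} (hi : Odd i) : ∃ k : ℤ, x ^ (i * k) = x := by
  obtain ⟨n, hn⟩ := orderOf_eq_pow_of_mem hS hx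
  obtain ⟨k, hk⟩ := (mem_zpowers_zpow_iff (g := x) (k := i)).2 (by
    rw [hn, ← Int.isCoprime_iff_gcd_eq_one]; push_cast
    exact (Int.isCoprime_two_right.2 hi).pow_right)
  exact ⟨k, by rw [zpow_mul]; exact hk⟩

/-- transfer -/
theorem xfer (hP : commutator G = ⊤) (hS : IsSylowIn 2 S ⊤) (hD : D ≤ S)
    (hc : ∀ u ∈ S, ∀ v ∈ S, u * v * u⁻¹ * v⁻¹ ∈ D) (hβ : β ∈ S) (hγ : γ ∈ S) (β2 : β * β = 1) (γ2 : γ * γ = 1)
    (n1 : β ∉ D) (n2 : γ ∉ D) (h : ∀ g, g * β * g⁻¹ ∈ S → g * β * g⁻¹ * β ∈ D ∨ g * β * g⁻¹ * γ ∈ D) : False := by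
  have hn : ∀ s ∈ S, ∀ d ∈ D, s * d * s⁻¹ ∈ D := fun s hs d hd => by
    simpa using mul_mem (hc s hs d (hD hd)) hd
  have b1 := inv_eq_of_mul_eq_one_right β2
  have c1 := inv_eq_of_mul_eq_one_right γ2
  have h1 : β * γ * (β * γ) ∈ D := by simpa [b1, c1, mul_assoc] using hc β hβ γ hγ
  let M : Subgroup G :=
    { carrier := {u | u ∈ D ∨ u * (β * γ) ∈ D}
      one_mem' := .inl D.one_mem
      mul_mem' := by
        rintro u v (e | e) (e' | e')
        · exact .inl (mul_mem e e')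
        · exact .inr (by simpa [mul_assoc] using mul_mem e e')
        · exact .inr (by simpa [mul_assoc] using mul_mem e (hn _ (inv_mem (mul_mem hβ hγ)) v e'))
        · refine .inl ?_
          have := mul_mem (mul_mem e (hn _ (inv_mem (mul_mem hβ hγ)) _ e')) (inv_mem h1)
          simpa [mul_assoc] using this
      inv_mem' := by
        rintro u (e | e)
        · exact .inl (inv_mem e)
        · refine .inr ?_
          have := hn _ (mul_mem hβ hγ) _ (mul_mem (inv_mem e) h1)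
          have e2 : β * γ * ((u * (β * γ))⁻¹ * (β * γ * (β * γ))) * (β * γ)⁻¹ = u⁻¹ * (β * γ) := by group
          rwa [e2] at this }
  have hM : ∀ u ∈ S, ∀ v ∈ S, u * v * u⁻¹ * v⁻¹ ∈ M := fun u hu v hv => .inl (hc u hu v hv)
  have β1 : β ≠ 1 := fun e => n1 (e ▸ D.one_mem)
  have ho := orderOf_eq_two_iff.2 ⟨β2, β1⟩
  refine not_mem_commutator_of_control (p := 2) (H := S) (K := M) (normal_subgroupOf_of_commutator_le
    (commutator_le.2 hM)) hM ((Nat.Prime.coprime_iff_not_dvd Nat.prime_two).2 (by simpa using hS.not_dvd)) hβ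
    (fun e => e.elim n1 fun e => n2 (by rwa [← mul_assoc, β2, one_mul] at e)) ⟨1, ho⟩ (fun m g e => ?_)
    (hP ▸ mem_top β)
  rw [← pow_mod_orderOf, ho] at e ⊢
  rcases Nat.mod_two_eq_zero_or_one m with e' | e' <;> rw [e'] at e ⊢
  · simpa using M.one_mem
  · rw [pow_one, b1] at *
    exact (h g e).imp_right fun e' => by rwa [mul_assoc _ β, ← mul_assoc β, β2, one_mul]

theorem extr (hS : IsSylowIn 2 S ⊤) (hc : ∀ s ∈ S, s * β = β * s) (e : g * β * g⁻¹ = γ) :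
    ∃ h, h * γ * h⁻¹ = β ∧ ∀ w ∈ S, w * γ = γ * w → h * w * h⁻¹ ∈ S := by
  obtain ⟨c, hc, h1⟩ := (hS.of_le (K := centralizer {β}) (fun s hs => mem_centralizer_singleton_iff.2 (hc s hs))
    le_top).exists_cj_le (isPGroup_cj (hS.isPGroup.to_le (inf_le_left : S ⊓ centralizer {γ} ≤ S)) g⁻¹)
    (cj_le_iff_forall.2 fun w hw => mem_centralizer_singleton_iff.2 (by
      have := mem_centralizer_singleton_iff.1 hw.2
      rw [← e] at this
      calc _ = g⁻¹ * (w * (g * β * g⁻¹)) * g := by group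
        _ = _ := by rw [this]; group))
  refine ⟨c * g⁻¹, ?_, fun w hw e' => cj_le_iff_forall.1 ((cj_cj c g⁻¹ _).ge.trans h1) w
    (mem_inf.2 ⟨hw, mem_centralizer_singleton_iff.2 e'⟩)⟩
  rw [← e]
  calc _ = c * β * c⁻¹ := by group
    _ = β := by rw [mem_centralizer_singleton_iff.1 hc, mul_inv_cancel_right]

theorem zs [IsSimpleGroup G] (hP : commutator G = ⊤) (hS : IsSylowIn 2 S ⊤) (hu : u ∈ S) (u2 : u * u = 1)
    (u1 : u ≠ 1) : ∃ g, g * u * g⁻¹ ∈ S ∧ g * u * g⁻¹ ≠ u := by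
  by_contra! e
  have ho := orderOf_eq_two_iff.2 ⟨u2, u1⟩
  obtain ⟨N, h1, h2, h3⟩ := Cfsg.Agent.S0215.result hS.toSylowTop u ho hu e
  rcases h1.eq_bot_or_eq_top with rfl | rfl
  · rcases (inferInstance : (center G).Normal).eq_bot_or_eq_top with e' | e'
    · exact u1 (mem_bot.1 (e' ▸ mem_center_iff.2 fun g => (commutatorElement_eq_one_iff_mul_comm.1 (h3 g)).symm))
    · refine u1 (mem_bot.1 ((hP.symm.trans_le ?_) (mem_top u)))
      exact commutator_le.2 fun a _ b _ => commutatorElement_eq_one_iff_mul_comm.2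
        (mem_center_iff.1 (e' ▸ mem_top b) a)
  · exact h2.not_two_dvd_nat (ho ▸ orderOf_dvd_natCard _ (mem_top u))

/-- the dihedral group generated by the homologies in `S` -/
structure DD (H : G → Prop) (S : Subgroup G) (σ τ x : G) : Prop where
  σH : H σ
  σc : ∀ s ∈ S, s * σ = σ * s
  τS : τ ∈ S
  xS : x ∈ S
  inv : τ * x * τ⁻¹ = x⁻¹
  mem : ∀ a ∈ S, H a → a = σ ∨ ∃ i : ℤ, a = τ * x ^ i
  all : ∀ i : ℤ, H (τ * x ^ i) ∧ τ * x ^ i ≠ σ
  sig : ∀ i : ℤ, x ^ i * x ^ i = 1 → x ^ i = 1 ∨ x ^ i = σ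
  σx : ∃ i : ℤ, x ^ i = σ

omit [Finite G] in
theorem HS.sq_eq (h : HS H) (hS : IsPGroup 2 S) (ha : H a) (aS : a ∈ S) (hw : w ∈ S) (hc : w * a = a * w)
    (e : H (w * w)) : w * w = a := by
  by_contra n
  have c1 : w * w * a = a * (w * w) := by rw [mul_assoc, hc, ← mul_assoc, hc, mul_assoc]
  obtain ⟨p, h1, h2, h3⟩ := h.cyc ha e (Ne.symm n) (S ⊓ (centralizer {a} ⊓ centralizer {w * w}))
    (hS.to_le inf_le_left) ⟨aS, mem_centralizer_singleton_iff.2 rfl, mem_centralizer_singleton_iff.2 c1.symm⟩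
    ⟨mul_mem hw hw, mem_centralizer_singleton_iff.2 c1, mem_centralizer_singleton_iff.2 rfl⟩
    fun w hw => ⟨mem_centralizer_singleton_iff.1 hw.2.1, mem_centralizer_singleton_iff.1 hw.2.2⟩
  have c2 : Commute p a := mem_centralizer_singleton_iff.1 h1.2.1
  have c3 : Commute p (w * w) := mem_centralizer_singleton_iff.1 h1.2.2
  have h4 : ∀ (k : ℤ) v, Commute p v → v * v = 1 → w = p ^ k * v → False := fun k v c v2 e' => h2 (k + k) (by
    rwa [e', (c.zpow_left k).symm.mul_mul_mul_comm, v2, mul_one, ← zpow_add] at e)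
  obtain ⟨k, e' | e' | e' | e'⟩ := h3 w ⟨hw, mem_centralizer_singleton_iff.2 hc,
    mem_centralizer_singleton_iff.2 (mul_assoc ..).symm⟩
  exacts [h4 k 1 (.one_right p) (mul_one 1) (by rwa [mul_one]), h4 k _ c2 (h.sq ha) e', h4 k _ c3 (h.sq e) e',
    h4 k _ (c2.mul_right c3) (h.sq (h.mul ha e (Ne.symm n) c1.symm)) e']

theorem HS.central (h : HS H) (hS : IsPGroup 2 S) (ha : H a) (aS : a ∈ S) :
    ∃ σ ∈ S, H σ ∧ ∀ s ∈ S, s * σ = σ * s := by
  set Y : Set G := {b | b ∈ S ∧ H b}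
  have h1 : ∀ s : S, ConjAct.toConjAct (s : G) ∈ St (ConjAct G) Y := fun s => mem_St fun b hb =>
    ⟨mul_mem (mul_mem s.2 hb.1) (inv_mem s.2), h.conj hb.2 _⟩
  have h2 := fix_mod (r := 2) (h1 ⟨a, aS⟩) (by rw [← map_pow, pow_two, h.sq ha, map_one])
  set Z := {b | b ∈ Y ∧ ConjAct.toConjAct a • b = b}
  have h3 : ∀ b, b ∈ Z ↔ b ∈ Y ∧ a * b = b * a := fun b => and_congr_right fun _ => mul_inv_eq_iff_eq_mul
  have h4 := fix_mod (r := 2) (Y := Z \ {a}) (g := a) (mem_St fun b hb => by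
    have e := (h3 b).1 hb.1
    exact ⟨(h3 _).2 ⟨⟨mul_mem aS e.1.1, h.mul ha e.1.2 (Ne.symm hb.2) e.2⟩, by rw [smul_eq_mul, mul_assoc, e.2]⟩,
      fun e' => h.ne e.1.2 (mul_left_cancel (e'.trans (mul_one a).symm))⟩) (by rw [pow_two, h.sq ha])
  rw [Set.eq_empty_of_forall_notMem (s := {b | b ∈ Z \ {a} ∧ a • b = b}) fun b e =>
    h.ne ha (mul_right_cancel (e.2.trans (one_mul b).symm)), Set.ncard_empty, Nat.ModEq] at h4
  have h5 := Set.ncard_diff_singleton_add_one (s := Z) (a := a) ((h3 a).2 ⟨⟨aS, ha⟩, rfl⟩)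
  letI : MulAction S Y :=
    MulAction.compHom Y ((res Y).comp ((ConjAct.toConjAct.toMonoidHom.comp S.subtype).codRestrict _ h1))
  obtain ⟨σ, hσ⟩ := hS.nonempty_fixed_point_of_prime_not_dvd_card Y (by
    rw [Nat.card_coe_set_eq]; rw [Nat.ModEq] at h2; omega)
  exact ⟨σ, σ.2.1, σ.2.2, fun s hs => mul_inv_eq_iff_eq_mul.1 (congrArg Subtype.val (hσ ⟨s, hs⟩))⟩

theorem HS.exists_dd (h : HS H) (hS : IsPGroup 2 S) (σS : σ ∈ S) (σH : H σ) (σc : ∀ s ∈ S, s * σ = σ * s)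
    (τS : τ ∈ S) (τH : H τ) (n : τ ≠ σ) : ∃ x, DD H S σ τ x := by
  set X : Set G := {x | x ∈ S ∧ H (τ * x) ∧ τ * x ≠ σ}
  have τ1 := inv_eq_of_mul_eq_one_right (h.sq τH)
  have h1 : ∀ y ∈ X, τ * y * τ⁻¹ = y⁻¹ := fun y hy => by
    rw [τ1, eq_inv_iff_mul_eq_one, mul_assoc]; exact h.sq hy.2.1
  have h2 : ∀ {a b : G}, H a → H b → ∀ k : ℤ, H (a * (a * b) ^ k) := fun {a b} ha hb k => by
    have i1 := left_inverts_mul (h.sq ha) (h.sq hb)
    obtain ⟨j, rfl | rfl⟩ := Int.even_or_odd' k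
    · have := h.conj ha ((a * b) ^ (-j))
      rwa [zpow_conj_of_inverts i1, mul_neg, neg_neg] at this
    · have := h.conj hb ((a * b) ^ (-j))
      rwa [show b = a * (a * b) by rw [← mul_assoc, h.sq ha, one_mul], ← mul_assoc a a, h.sq ha, one_mul, ← mul_assoc,
        zpow_mul_of_inverts i1, neg_neg, zpow_neg, inv_inv, mul_assoc, mul_assoc, ← zpow_one_add, ← zpow_add,
        show j + (1 + j) = 2 * j + 1 by ring] at this
  have h3 : ∀ y ∈ X, ∀ k : ℤ, y ^ k ∈ X := fun y hy k => by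
    have e := h2 τH hy.2.1 k
    rw [← mul_assoc τ τ, h.sq τH, one_mul] at e
    refine ⟨zpow_mem hy.1 k, e, fun e' => ?_⟩
    have c : Commute τ y := by
      rw [eq_mul_inv_of_mul_eq e']
      exact Commute.mul_left (σc y hy.1).symm ((Commute.refl y).zpow_left k).inv_left
    have y2 : y ^ (2 : ℤ) = 1 := by
      have := h1 y hy
      rwa [c.eq, mul_inv_cancel_right, eq_inv_iff_mul_eq_one, ← zpow_two] at this
    obtain ⟨j, rfl | rfl⟩ := Int.even_or_odd' k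
    · exact n (by simpa [zpow_mul, y2] using e')
    · exact hy.2.2 (by simpa [zpow_add, zpow_mul, y2] using e')
  have h4 : ∀ y ∈ X, ∀ z ∈ X, y * y = z * z → z = y ∨ z = y * σ := fun y hy z hz e => by
    set w := τ * y * (τ * z) with hw
    have e1 : w = y⁻¹ * z := by rw [hw, ← h1 y hy, τ1, mul_assoc (τ * y)]
    have wS : w ∈ S := e1 ▸ mul_mem (inv_mem hy.1) hz.1
    have c : w * τ = τ * w := by
      rw [eq_comm, ← mul_inv_eq_iff_eq_mul, e1]
      calc _ = (τ * y * τ⁻¹)⁻¹ * (τ * z * τ⁻¹) := by group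
        _ = y⁻¹ * (y * y) * z⁻¹ := by rw [h1 y hy, h1 z hz]; group
        _ = _ := by rw [e]; group
    refine or_iff_not_imp_left.2 fun n1 => ?_
    have w1 : w ≠ 1 := fun e' => n1 (inv_mul_eq_one.1 (e1 ▸ e')).symm
    have h4 : ∀ j : ℕ, w ^ j * w ^ j = 1 → w ^ j ≠ 1 → w ^ j = σ := fun j e2 e3 => by
      have i1 := commute_of_inverts_of_mul_self (conj_pow_of_inverts (left_inverts_mul (h.sq hy.2.1) (h.sq hz.2.1)) j) e2
      have i2 := commute_of_inverts_of_mul_self (conj_pow_of_inverts (right_inverts_mul (h.sq hy.2.1) (h.sq hz.2.1)) j) e2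
      have a1 := h2 hy.2.1 hz.2.1 j
      have a2 := h2 hz.2.1 hy.2.1 (-j)
      rw [zpow_natCast] at a1
      rw [show τ * z * (τ * y) = w⁻¹ by rw [hw, mul_inv_rev, inv_eq_of_mul_eq_one_right (h.sq hy.2.1),
        inv_eq_of_mul_eq_one_right (h.sq hz.2.1)], inv_zpow', neg_neg, zpow_natCast] at a2
      have a3 := h.mul hy.2.1 a1 (fun e' => e3 (mul_left_cancel (e'.symm.trans (mul_one _).symm)))
        (by rw [mul_assoc _ (w ^ j), i1.eq])
      rw [← mul_assoc, h.sq hy.2.1, one_mul] at a3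
      exact h.nbr hy.2.1 hz.2.1 a3 σH (fun e' => n1 (mul_left_cancel e').symm)
        (fun e' => h.ne a1 (by rw [← hw, e', h.sq hy.2.1])) (fun e' => h.ne a2 (by rw [e', h.sq hz.2.1]))
        hy.2.2.symm hz.2.2.symm i1 i2 (σc _ (mul_mem τS hy.1)).symm (σc _ (mul_mem τS hz.1)).symm
    by_cases w2 : w * w = 1
    · rw [← (pow_one w).symm.trans (h4 1 (by rwa [pow_one]) (by rwa [pow_one])), e1, mul_inv_cancel_left]
    obtain ⟨k, k1, k2⟩ := exists_invol_pow' (hS.to_le (zpowers_le.2 (mul_mem wS wS))) w2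
    rw [← pow_two w, ← pow_mul] at k1 k2
    have := h4 _ k1 k2
    rw [mul_comm, pow_mul, pow_two] at this
    exact absurd ((h.sq_eq hS τH τS (pow_mem wS k) (Commute.pow_left c k) (this ▸ σH)).symm.trans this) n
  have h5 : (1 : G) ∈ X := ⟨one_mem _, by rwa [mul_one], by rwa [mul_one]⟩
  have h6 : σ ∈ X := ⟨σS, h.mul τH σH n (σc τ τS), fun e => h.ne τH (mul_right_cancel (e.trans (one_mul σ).symm))⟩
  obtain ⟨x, hx, h7⟩ := Set.exists_max_image X orderOf (Set.toFinite X) ⟨1, h5⟩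
  have h8 : ∀ i : ℤ, x ^ i * x ^ i = 1 → x ^ i = 1 ∨ x ^ i = σ := fun i e => by
    simpa using h4 1 h5 _ (h3 x hx i) (by rw [e, mul_one])
  have h9 : ∃ i : ℤ, x ^ i = σ := by
    obtain ⟨k, k1, k2⟩ := exists_invol_pow' (hS.to_le (zpowers_le.2 hx.1)) (by
      rintro rfl
      have := h7 σ h6
      rw [orderOf_one, orderOf_eq_two_iff.2 ⟨h.sq σH, h.ne σH⟩] at this
      omega)
    rw [← zpow_natCast] at k1 k2
    exact ⟨k, (h8 k k1).resolve_left k2⟩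
  have h10 : ∀ (n : ℕ), ∀ y ∈ X, y ^ 2 ^ n = 1 → ∃ i : ℤ, y = x ^ i := fun n => by
    induction n with
    | zero => exact fun y _ e => ⟨0, by simpa using e⟩
    | succ n ih =>
      intro y hy e
      obtain ⟨i, hi⟩ := ih (y * y) (zpow_two y ▸ h3 y hy 2) (by rw [← pow_two, ← pow_mul, ← pow_succ', e])
      obtain ⟨j, rfl | rfl⟩ := Int.even_or_odd' i
      · obtain ⟨m, hm⟩ := h9
        rcases h4 _ (h3 x hx j) y hy (by rw [hi, two_mul, zpow_add]) with e' | e'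
        exacts [⟨j, e'⟩, ⟨j + m, by rw [e', zpow_add, hm]⟩]
      obtain ⟨k, hk⟩ := odd_gen hS hx.1 (odd_two_mul_add_one j)
      rw [zpow_mul, ← hi, ← pow_two] at hk
      have e1 := (orderOf_dvd_of_mem_zpowers (show x ∈ zpowers (y ^ 2) from ⟨k, hk⟩))
      obtain ⟨l, hl⟩ := orderOf_eq_pow_of_mem hS hy.1
      obtain _ | l := l
      · exact ⟨0, by simpa using hl⟩
      have e2 := h7 y hy
      rw [orderOf_pow_of_dvd two_ne_zero (hl ▸ dvd_pow_self 2 l.succ_ne_zero)] at e1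
      have := Nat.le_of_dvd (by rw [hl, pow_succ]; simp) e1
      have := orderOf_pos y
      omega
  refine ⟨x, σH, σc, τS, hx.1, h1 x hx, fun a ha e => or_iff_not_imp_left.2 fun e' => ?_,
    fun i => (h3 x hx i).2, h8, h9⟩
  obtain ⟨l, hl⟩ := hS ⟨τ * a, mul_mem τS ha⟩
  have e1 : τ * (τ * a) = a := by rw [← mul_assoc, h.sq τH, one_mul]
  obtain ⟨i, hi⟩ := h10 l (τ * a) ⟨mul_mem τS ha, e1.symm ▸ e, e1.symm ▸ e'⟩ (congrArg Subtype.val hl)
  exact ⟨i, by rw [← hi, e1]⟩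

end CF.Oval
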