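import Cfsg.Agent.PLocal.OvD

/-! All involutions are homologies. -/

set_option autoImplicit false

open scoped Classical

namespace CF.Oval

open MulAction Subgroup CF.Perm CF.Transfer CF.Invol

variable {G : Type*} [Group G] {H : G → Prop} {S : Subgroup G} {a b g p q s t u w x y σ τ β γ : G} {i j : ℤ}

/-- the dihedral group -/
abbrev Dh (τ x : G) : Subgroup G := closure {τ, x}

theorem odd_kill [Finite G] (hS : IsPGroup 2 S) (hx : x ∈ S) (hi : Odd i) (e : x ^ i = 1) : x = 1 := by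
  obtain ⟨k, hk⟩ := odd_gen hS hx hi
  rw [← hk, zpow_mul, e, one_zpow]

namespace DD

variable (h : HS H) (d : DD H S σ τ x)
include d

theorem τH : H τ := by simpa using (d.all 0).1

theorem τσ : τ ≠ σ := by simpa using (d.all 0).2

theorem σS : σ ∈ S := let ⟨i, e⟩ := d.σx; e ▸ zpow_mem d.xS i

theorem tx (i : ℤ) : τ * x ^ i = x ^ (-i) * τ := mul_zpow_of_inverts d.inv i

theorem xt (i : ℤ) : x ^ i * τ = τ * x ^ (-i) := zpow_mul_of_inverts d.inv i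

theorem le : Dh τ x ≤ S := (closure_le _).2 (by rintro _ (rfl | rfl); exacts [d.τS, d.xS])

omit d in
theorem xD (i : ℤ) : x ^ i ∈ Dh τ x := zpow_mem (subset_closure (by simp)) i

omit d in
theorem τD : τ ∈ Dh τ x := subset_closure (by simp)

theorem σD : σ ∈ Dh τ x := let ⟨i, e⟩ := d.σx; e ▸ xD i

include h

theorem τ2 : τ * τ = 1 := h.sq d.τH

theorem τi : τ⁻¹ = τ := inv_eq_of_mul_eq_one_right (d.τ2 h)

theorem tt (i j : ℤ) : τ * x ^ i * (τ * x ^ j) = x ^ (j - i) := by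
  rw [d.tx, mul_assoc, ← mul_assoc τ, d.τ2 h, one_mul, ← zpow_add, neg_add_eq_sub]

theorem memD : u ∈ Dh τ x ↔ ∃ i : ℤ, u = x ^ i ∨ u = τ * x ^ i := by
  rw [mem_closure_inverts_iff d.inv (d.τ2 h ▸ one_mem _), exists_or]
  exact or_congr (exists_congr fun _ => eq_comm) (exists_congr fun _ => eq_inv_mul_iff_mul_eq.trans eq_comm)

theorem c1 (hs : s ∈ S) (i : ℤ) : ∃ j : ℤ, s * (τ * x ^ i) * s⁻¹ = τ * x ^ j :=
  (d.mem _ (mul_mem (mul_mem hs (mul_mem d.τS (zpow_mem d.xS i))) (inv_mem hs)) (h.conj (d.all i).1 s)).resolve_left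
    fun e => (d.all i).2 (mul_left_cancel ((mul_inv_eq_iff_eq_mul.1 e).trans (d.σc s hs).symm))

theorem c2 (hs : s ∈ S) : ∃ e : ℤ, s * x * s⁻¹ = x ^ e := by
  obtain ⟨i, hi⟩ := d.c1 h hs 0
  obtain ⟨j, hj⟩ := d.c1 h hs 1
  exact ⟨j - i, by rw [← d.tt h, ← hi, ← hj, conj_mul, d.tt h, sub_zero, zpow_one]⟩

theorem conjD : ∀ s ∈ S, ∀ u ∈ Dh τ x, s * u * s⁻¹ ∈ Dh τ x := fun s hs u hu => by
  obtain ⟨i, rfl | rfl⟩ := (d.memD h).1 hu
  · obtain ⟨e, he⟩ := d.c2 h hs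
    exact cz he i ▸ xD _
  · obtain ⟨j, e⟩ := d.c1 h hs i
    exact e ▸ mul_mem τD (xD j)

theorem invD (hu : u ∈ Dh τ x) (u2 : u * u = 1) (u1 : u ≠ 1) : H u := by
  obtain ⟨i, rfl | rfl⟩ := (d.memD h).1 hu
  exacts [(d.sig i u2).resolve_left u1 ▸ d.σH, (d.all i).1]

theorem evD (hu : u ∈ Dh τ x) : ∃ j : ℤ, u * τ * u⁻¹ = τ * x ^ (2 * j) := by
  obtain ⟨i, rfl | rfl⟩ := (d.memD h).1 hu
  exacts [⟨-i, (zpow_conj_of_inverts d.inv i).trans (by rw [mul_neg])⟩, ⟨i, mul_zpow_conj_of_inverts d.inv i⟩]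

theorem commD (c1 : b * x = x * b) (c2 : b * τ = τ * b) (hu : u ∈ Dh τ x) : b * u = u * b := by
  obtain ⟨i, rfl | rfl⟩ := (d.memD h).1 hu
  exacts [Commute.zpow_right c1 i, Commute.mul_right c2 (Commute.zpow_right c1 i)]

theorem HD (hu : u ∈ S) (e : H u) : u ∈ Dh τ x :=
  (d.mem u hu e).elim (fun e => e ▸ d.σD) fun ⟨i, e⟩ => e ▸ mul_mem τD (xD i)

theorem odd_ne [Finite G] (hS : IsPGroup 2 S) (hi : Odd i) : x ^ i ≠ 1 := fun e => by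
  obtain ⟨j, hj⟩ := d.σx
  exact h.ne d.σH (by rw [← hj, odd_kill hS d.xS hi e, one_zpow])

theorem c3 [Finite G] (hS : IsPGroup 2 S) (hs : s ∈ S) : ∃ e : ℤ, Odd e ∧ s * x * s⁻¹ = x ^ e := by
  obtain ⟨e, he⟩ := d.c2 h hs
  obtain ⟨f, hf⟩ := d.c2 h (inv_mem hs)
  refine ⟨e, Int.not_even_iff_odd.1 fun n => d.odd_ne h hS ((n.mul_left f).sub_odd odd_one) ?_, he⟩
  rw [zpow_sub_one, ← cz hf, ← he]; group

theorem eq_σ (e : x * x = 1) : x = σ := by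
  obtain ⟨j, hj⟩ := d.σx
  simpa using (d.sig 1 (by simpa using e)).resolve_left fun e => h.ne d.σH (by rw [← hj, ← zpow_one x, e, one_zpow])

omit h in
theorem odd [Finite G] (hS : IsPGroup 2 S) (hi : Odd i) : DD H S σ τ (x ^ i) := by
  obtain ⟨k, hk⟩ := odd_gen hS d.xS hi
  have h1 : ∀ j : ℤ, x ^ j = (x ^ i) ^ (k * j) := fun j => by rw [zpow_mul, ← zpow_mul x i, hk]
  exact ⟨d.σH, d.σc, d.τS, zpow_mem d.xS i, (conj_zpow_of_inverts d.inv i).trans (zpow_neg ..),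
    fun a ha e => (d.mem a ha e).imp_right fun ⟨j, e⟩ => ⟨k * j, h1 j ▸ e⟩, fun j => zpow_mul x i j ▸ d.all _,
    fun j => zpow_mul x i j ▸ d.sig _, let ⟨j, e⟩ := d.σx; ⟨k * j, h1 j ▸ e⟩⟩

/-- central elements of `D` -/
theorem cenD (hu : u ∈ Dh τ x) (c1 : u * x = x * u) (c2 : u * τ = τ * u) :
    u = 1 ∨ u = σ ∨ x * x = 1 ∧ ∃ i : ℤ, u = τ * x ^ i := by
  obtain ⟨i, rfl | rfl⟩ := (d.memD h).1 hu
  · rw [d.xt, mul_right_inj, zpow_neg, inv_eq_iff_mul_eq_one] at c2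
    exact (d.sig i c2).imp_right .inl
  · refine .inr (.inr ⟨?_, i, rfl⟩)
    rw [← mul_assoc, ← zpow_one x, d.xt, zpow_one, mul_assoc, mul_assoc, mul_right_inj, ← zpow_add_one, ← zpow_add,
      show i + 1 = 2 + (-1 + i) by ring, zpow_add, mul_eq_right, zpow_two] at c1
    exact c1

theorem cent [Finite G] (hS : IsPGroup 2 S) (b2 : b * b = 1) (hb : b ∈ S) (c : b * τ = τ * b) (e1 : b * x ^ j * (b * x ^ j) = 1)
    (e2 : b * x ^ j * (τ * x) = τ * x * (b * x ^ j)) : b * x = x * b ∨ b * τ * x = x * (b * τ) := by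
  obtain ⟨e, he⟩ := d.c2 h hb
  have b1 := inv_eq_of_mul_eq_one_right b2
  have h1 : ∀ k : ℤ, b * x ^ k = x ^ (e * k) * b := fun k => by rw [← cz he, inv_mul_cancel_right]
  have h2 : ∀ k : ℤ, x ^ k * b = b * x ^ (e * k) := fun k => by
    rw [← cz he, b1, ← mul_assoc, ← mul_assoc, b2, one_mul]
  have h3 : x ^ (e + 2 * j - 1) = 1 := by
    have h3 : b * τ * x ^ (1 - j) = b * τ * x ^ (e + j) := by
      calc _ = b * x ^ j * (τ * x) := by rw [mul_assoc b (x ^ j), ← mul_assoc (x ^ j), d.xt]; group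
        _ = τ * (x ^ (1 : ℤ) * b) * x ^ j := by rw [e2]; group
        _ = _ := by rw [h2, c]; group
    rw [show e + 2 * j - 1 = e + j - (1 - j) by ring, zpow_sub, ← mul_left_cancel h3, mul_inv_cancel]
  have h4 : x ^ (2 * j * (1 - j)) = 1 := by
    rw [mul_assoc, ← mul_assoc (x ^ j), h2, ← mul_assoc, ← mul_assoc, b2, one_mul, ← zpow_add] at e1
    rw [show 2 * j * (1 - j) = e * j + j - (e + 2 * j - 1) * j by ring, zpow_sub, e1, zpow_mul, h3]; simp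
  rcases Int.even_or_odd j with hj | hj
  · have h5 := odd_kill hS (zpow_mem d.xS (2 * j)) (odd_one.sub_even hj) (zpow_mul x _ _ ▸ h4)
    rw [show e + 2 * j - 1 = 2 * j + (e - 1) by ring, zpow_add, h5, one_mul, zpow_sub_one, mul_inv_eq_one] at h3
    exact .inl (by simpa [h3] using h1 1)
  · have h5 := odd_kill hS (zpow_mem d.xS (2 * (1 - j))) hj (by rw [← zpow_mul, ← h4]; congr 1; ring)
    have h6 : x ^ (e * -1) = x := by
      rw [show e * -1 = 1 - (e + 2 * j - 1) - 2 * (1 - j) by ring, zpow_sub, zpow_sub, h3, h5]; simp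
    exact .inr (by rw [mul_assoc, ← zpow_one x, d.tx, ← mul_assoc, h1, h6, zpow_one, mul_assoc])

omit h d in
theorem comm_odd [Finite G] (hS : IsPGroup 2 S) (hx : x ∈ S) (hi : Odd i) (c : b * x ^ i = x ^ i * b) :
    b * x = x * b := by
  obtain ⟨k, hk⟩ := odd_gen hS hx hi
  rw [← hk, zpow_mul]; exact Commute.zpow_right c k

theorem inv_of [Finite G] (hS : IsPGroup 2 S) (γ2 : γ * γ = 1) (hi : Odd i) (e : γ * τ * γ⁻¹ = τ * x ^ i) :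
    γ * x * γ⁻¹ = x⁻¹ := by
  obtain ⟨k, hk⟩ := odd_gen hS d.xS hi
  have h1 : γ * x ^ i * γ⁻¹ = (x ^ i)⁻¹ := by
    have : τ * x ^ i * (γ * x ^ i * γ⁻¹) = τ * 1 := by
      rw [← e, conj_mul, ← e, ← mul_assoc, ← mul_assoc, γ2, inv_eq_of_mul_eq_one_right γ2, mul_assoc, γ2]; simp
    rw [mul_assoc, mul_right_inj] at this
    exact eq_inv_of_mul_eq_one_right this
  rw [← hk, zpow_mul, ← conj_zpow, h1, inv_zpow]

/-- conjugates of elements centralising `D` centralise `D` -/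
theorem conj_cen [Finite G] (hS : IsPGroup 2 S) (hs : s ∈ S) (c1 : b * x = x * b) (c2 : b * τ = τ * b) :
    s * b * s⁻¹ * x = x * (s * b * s⁻¹) ∧ s * b * s⁻¹ * τ = τ * (s * b * s⁻¹) := by
  have h1 : ∀ u ∈ Dh τ x, s * b * s⁻¹ * u = u * (s * b * s⁻¹) := fun u hu => by
    have := d.commD h c1 c2 (d.conjD h _ (inv_mem hs) u hu)
    calc _ = s * (b * (s⁻¹ * u * s⁻¹⁻¹)) * s⁻¹ := by group
      _ = _ := by rw [this]; group
  exact ⟨h1 x (subset_closure (by simp)), h1 τ τD⟩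

theorem noc [Finite G] (hS : IsPGroup 2 S) (hγ : γ ∈ S) (γ2 : γ * γ = 1) (hi : Odd i) (e : γ * τ * γ⁻¹ = τ * x ^ i)
    (n : ¬ H γ) (hb : b ∈ S) (b2 : b * b = 1) (nb : b ∉ Dh τ x) (c1 : b * x = x * b) (c2 : b * τ = τ * b)
    (c : b * γ = γ * b) : False := by
  have h1 : ∀ u ∈ Dh τ x, γ ≠ b * u := fun u hu e' => by
    obtain ⟨j, hj⟩ := d.evD h hu
    rw [e', mul_assoc b, mul_inv_rev, ← mul_assoc, mul_assoc b, hj, d.commD h c1 c2 (mul_mem τD (xD _)),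
      mul_inv_cancel_right, mul_right_inj] at e
    exact d.odd_ne h hS (hi.sub_even (even_two_mul j)) (by rw [zpow_sub, e, mul_inv_cancel])
  rcases h.four b2 γ2 c (fun e => nb (e ▸ one_mem _)) (fun e' => d.odd_ne h hS hi (by simpa [e'] using e.symm))
    (fun e => h1 1 (one_mem _) (by rw [e, mul_one])) with e' | e' | e'
  exacts [nb (d.HD h hb e'), n e', h1 _ (d.HD h (mul_mem hb hγ) e') (by rw [← mul_assoc, b2, one_mul])]

end DD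

/-- the centraliser of the four-group -/
structure CT (H : G → Prop) (S : Subgroup G) (σ τ x p : G) : Prop extends DD H S σ τ x where
  pS : p ∈ S
  pτ : p * τ = τ * p
  noH : ∀ k : ℤ, ¬ H (p ^ k)
  gen : ∀ w ∈ S, w * τ = τ * w → ∃ k : ℤ, w = p ^ k ∨ w = p ^ k * σ ∨ w = p ^ k * τ ∨ w = p ^ k * (σ * τ)

/-- the stabiliser of the `D`-class of `τ` -/
def Ev (τ x p s : G) : Prop := ∃ u ∈ Dh τ x, ∃ k : ℤ, s = u * p ^ k

namespace CT

variable (h : HS H) (d : CT H S σ τ x p)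
include h d

theorem genD (hw : w ∈ S) (c : w * τ = τ * w) : ∃ k : ℤ, ∃ v ∈ Dh τ x, v * v = 1 ∧ Commute p v ∧ w = p ^ k * v := by
  have c1 : Commute p σ := d.σc p d.pS
  have c2 : Commute p τ := d.pτ
  obtain ⟨k, e | e | e | e⟩ := d.gen w hw c
  exacts [⟨k, 1, one_mem _, mul_one 1, .one_right p, by rwa [mul_one]⟩, ⟨k, σ, d.σD, h.sq d.σH, c1, e⟩,
    ⟨k, τ, DD.τD, d.τ2 h, c2, e⟩, ⟨k, _, mul_mem d.σD DD.τD,
      h.sq (h.mul d.σH d.τH d.τσ.symm (d.σc τ d.τS).symm), c1.mul_right c2, e⟩]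

theorem ev_of (hs : s ∈ S) (e : s * τ * s⁻¹ = τ * x ^ (2 * j)) : Ev τ x p s := by
  obtain ⟨k, v, hv, -, c, e'⟩ := d.genD h (mul_mem (zpow_mem d.xS j) hs) (by
    rw [mul_assoc, mul_inv_eq_iff_eq_mul.1 e, ← mul_assoc, ← mul_assoc, d.xt]; group)
  exact ⟨(x ^ j)⁻¹ * v, mul_mem (inv_mem (DD.xD j)) hv, k, by
    rw [mul_assoc, ← (c.zpow_left k).eq, ← e', inv_mul_cancel_left]⟩

theorem ev_or (hu : u ∈ S) : Ev τ x p u ∨ ∃ i : ℤ, Odd i ∧ u * τ * u⁻¹ = τ * x ^ i := by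
  obtain ⟨i, e⟩ := d.c1 h hu 0
  rw [zpow_zero, mul_one] at e
  obtain ⟨j, rfl | rfl⟩ := Int.even_or_odd' i
  exacts [.inl (d.ev_of h hu e), .inr ⟨2 * j + 1, odd_two_mul_add_one j, e⟩]

theorem ev_div (hs : s ∈ S) (hu : u ∈ S) (hi : Odd i) (hj : Odd j) (e : s * τ * s⁻¹ = τ * x ^ i)
    (e' : u * τ * u⁻¹ = τ * x ^ j) : Ev τ x p (s⁻¹ * u) := by
  obtain ⟨m, hm⟩ := d.c2 h (inv_mem hs)
  obtain ⟨k, hk⟩ := hj.sub_odd hi
  refine d.ev_of h (j := m * k) (mul_mem (inv_mem hs) hu) ?_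
  calc _ = s⁻¹ * (u * τ * u⁻¹) * s := by group
    _ = s⁻¹ * (τ * x ^ i) * s * (s⁻¹ * x ^ (j - i) * s⁻¹⁻¹) := by rw [e']; group
    _ = _ := by rw [← e, cz hm, hk]; group

theorem uniq {k l : ℤ} (e : p ^ k * p ^ k = 1) (e' : p ^ l * p ^ l = 1) (n : p ^ k ≠ 1) (n' : p ^ l ≠ 1) :
    p ^ k = p ^ l := by_contra fun n1 => by
  rcases h.four e e' ((Commute.refl p).zpow_zpow k l) n n' n1 with e | e | e
  exacts [d.noH _ e, d.noH _ e, d.noH _ (zpow_add p k l ▸ e)]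

theorem sq_mem (hw : w ∈ S) (c : w * τ = τ * w) : ∃ k : ℤ, w * w = p ^ k := by
  obtain ⟨k, v, -, v2, c', e⟩ := d.genD h hw c
  exact ⟨k + k, by rw [e, (c'.zpow_left k).symm.mul_mul_mul_comm, v2, mul_one, zpow_add]⟩

variable [Finite G] (hS : IsPGroup 2 S)
include hS

theorem pD {k : ℤ} (e : p ^ k ∈ Dh τ x) : p ^ k = 1 := by_contra fun n => by
  obtain ⟨m, m1, m2⟩ := exists_invol_pow' (hS.to_le (zpowers_le.2 (zpow_mem d.pS k))) n
  exact d.noH (k * m) (by rw [zpow_mul, zpow_natCast]; exact d.invD h (pow_mem e m) m1 m2)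

theorem ev_sq (e : Ev τ x p u) (u2 : u * u ∈ Dh τ x) :
    u ∈ Dh τ x ∨ ∃ v ∈ Dh τ x, ∃ k : ℤ, p ^ k * p ^ k = 1 ∧ p ^ k ≠ 1 ∧ u = v * p ^ k := by
  obtain ⟨v, hv, k, rfl⟩ := e
  by_cases n : p ^ k = 1
  · exact .inl (by rwa [n, mul_one])
  refine .inr ⟨v, hv, k, zpow_add p k k ▸ d.pD h hS ?_, n, rfl⟩
  have := mul_mem (inv_mem (mul_mem hv (d.conjD h _ (zpow_mem d.pS k) v hv))) u2
  rwa [show (v * (p ^ k * v * (p ^ k)⁻¹))⁻¹ * (v * p ^ k * (v * p ^ k)) = p ^ (k + k) by group] at this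

theorem ev_inv {k : ℤ} (e : Ev τ x p u) (u2 : u * u = 1) (n : u ∉ Dh τ x) (k1 : p ^ k * p ^ k = 1) (k2 : p ^ k ≠ 1) :
    ∃ v ∈ Dh τ x, u = v * p ^ k := by
  obtain ⟨v, hv, l, l1, l2, e⟩ := (d.ev_sq h hS e (u2 ▸ one_mem _)).resolve_left n
  exact ⟨v, hv, d.uniq h l1 k1 l2 k2 ▸ e⟩

theorem ev_conj (hs : s ∈ S) (hu : u ∈ S) (e : Ev τ x p u) : Ev τ x p (s * u * s⁻¹) := by
  obtain ⟨i, hi⟩ := d.c1 h (inv_mem hs) 0
  obtain ⟨m, ⟨m, rfl⟩, hm⟩ := d.c3 h hS hu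
  obtain ⟨n, hn⟩ := d.c2 h hs
  obtain ⟨j, hj⟩ : ∃ j : ℤ, u * τ * u⁻¹ = τ * x ^ (2 * j) := by
    obtain ⟨v, hv, k, rfl⟩ := e
    rw [mul_assoc v, (Commute.zpow_left d.pτ k).eq, mul_inv_rev, ← mul_assoc, ← mul_assoc, mul_inv_cancel_right]
    exact d.evD h hv
  rw [zpow_zero, mul_one] at hi
  refine d.ev_of h (j := n * (j + m * i)) (mul_mem (mul_mem hs hu) (inv_mem hs)) ?_
  calc _ = s * (u * (s⁻¹ * τ * s⁻¹⁻¹) * u⁻¹) * s⁻¹ := by group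
    _ = s * (u * τ * u⁻¹ * (u * x ^ i * u⁻¹)) * s⁻¹ := by rw [hi]; group
    _ = s * (τ * x ^ i) * s⁻¹ * (s * x ^ (2 * (j + m * i)) * s⁻¹) := by rw [hj, cz hm]; group
    _ = _ := by rw [← hi, cz hn]; group

theorem can (hq : q ∈ S) (c : q * τ = τ * q) {k : ℤ} (e : q * q = p ^ k) (k1 : p ^ k * p ^ k = 1) (k2 : p ^ k ≠ 1)
    (hu : u * q * u⁻¹ ∈ S) (c' : u * q * u⁻¹ * τ = τ * (u * q * u⁻¹)) : u * p ^ k * u⁻¹ = p ^ k := by
  obtain ⟨l, hl⟩ := d.sq_mem h hu c'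
  rw [conj_mul, e] at hl
  rw [hl, d.uniq h _ k1 _ k2] <;> rw [← hl]
  · rw [conj_mul, k1]; simp
  · simpa using k2

omit hS in
theorem can' (hq : q ∈ S) (c : q * τ = τ * q) (hu : u ∈ S) (e : u * τ * u⁻¹ = τ * σ) :
    u * q * u⁻¹ * τ = τ * (u * q * u⁻¹) := by
  have e1 : τ = u * (τ * σ) * u⁻¹ := by
    rw [← conj_mul, e, d.σc u hu, mul_inv_cancel_right, mul_assoc, h.sq d.σH, mul_one]
  have e2 : q * (τ * σ) = τ * σ * q := by rw [← mul_assoc, c, mul_assoc, d.σc q hq, mul_assoc]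
  conv_lhs => rw [e1, conj_mul, e2, ← conj_mul, ← e1]

theorem bet {k : ℤ} (hs : s ∈ S) (hi : Odd i) (e : s * τ * s⁻¹ = τ * x ^ i) (k1 : p ^ k * p ^ k = 1) (k2 : p ^ k ≠ 1) :
    p ^ k * x = x * p ^ k ∨ p ^ k * τ * x = x * (p ^ k * τ) := by
  have hβ := zpow_mem d.pS k
  have c : p ^ k * τ = τ * p ^ k := Commute.zpow_left d.pτ k
  have b2 : s * p ^ k * s⁻¹ * (s * p ^ k * s⁻¹) = 1 := by rw [conj_mul, k1]; simp
  obtain ⟨v, hv, e1⟩ := d.ev_inv h hS (d.ev_conj h hS hs hβ ⟨1, one_mem _, k, (one_mul _).symm⟩) b2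
    (fun e => k2 (d.pD h hS (by simpa [mul_assoc] using d.conjD h _ (inv_mem hs) _ e))) k1 k2
  have c' : s * p ^ k * s⁻¹ * (τ * x ^ i) = τ * x ^ i * (s * p ^ k * s⁻¹) := by rw [← e, conj_mul, conj_mul, c]
  have d' := d.toDD.odd hS hi
  obtain ⟨l, hl⟩ := odd_gen hS d.xS hi
  have h1 : ∀ j : ℤ, x ^ j = (x ^ i) ^ (l * j) := fun j => by rw [zpow_mul, ← zpow_mul x i, hl]
  rw [e1, show v * p ^ k = p ^ k * ((p ^ k)⁻¹ * v * (p ^ k)⁻¹⁻¹) by group] at b2 c'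
  obtain ⟨j, e2 | e2⟩ := (d.memD h).1 (d.conjD h _ (inv_mem hβ) v hv) <;> rw [e2, h1 j] at b2 c'
  · exact (d'.cent h hS k1 hβ c b2 c').imp (DD.comm_odd hS d.xS hi) (DD.comm_odd hS d.xS hi)
  · rw [← mul_assoc (p ^ k)] at b2 c'
    refine ((d'.cent h hS ?_ (mul_mem hβ d.τS) (by rw [← mul_assoc τ, ← c]) b2 c').imp
      (DD.comm_odd hS d.xS hi) fun e => DD.comm_odd hS d.xS hi ?_).symm
    · rw [(show Commute τ (p ^ k) from c.symm).mul_mul_mul_comm, k1, d.τ2 h, mul_one]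
    · rwa [mul_assoc _ τ τ, d.τ2 h, mul_one] at e

/-- the non-homologies outside `D P` lie in one coset of `D` -/
theorem star {γ' : G} (hγ : γ ∈ S) (γ2 : γ * γ = 1) (hi : Odd i) (e : γ * τ * γ⁻¹ = τ * x ^ i) (n : ¬ H γ)
    (hγ' : γ' ∈ S) (γ2' : γ' * γ' = 1) (hj : Odd j) (e' : γ' * τ * γ'⁻¹ = τ * x ^ j)
    (hc : ∀ u ∈ S, ∀ v ∈ S, u * v * u⁻¹ * v⁻¹ ∈ Dh τ x) : γ * γ' ∈ Dh τ x := by_contra fun n0 => by
  have c1 := inv_eq_of_mul_eq_one_right γ2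
  have c2 := inv_eq_of_mul_eq_one_right γ2'
  obtain ⟨v, hv, k, k1, k2, e1⟩ := (d.ev_sq h hS (c1 ▸ d.ev_div h hγ hγ' hi hj e e')
    (by simpa [c1, c2, mul_assoc] using hc γ hγ γ' hγ')).resolve_left n0
  have c : p ^ k * τ = τ * p ^ k := Commute.zpow_left d.pτ k
  obtain ⟨b, hb, b2, b3, b4, v, hv, e1⟩ : ∃ b ∈ S, b * b = 1 ∧ b * x = x * b ∧ b * τ = τ * b ∧
      ∃ v ∈ Dh τ x, γ * γ' = v * b := by
    rcases d.bet h hS hγ hi e k1 k2 with e2 | e2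
    · exact ⟨_, zpow_mem d.pS k, k1, e2, c, v, hv, e1⟩
    · exact ⟨_, mul_mem (zpow_mem d.pS k) d.τS, by
        rw [(show Commute τ (p ^ k) from c.symm).mul_mul_mul_comm, k1, d.τ2 h, mul_one], e2,
        by rw [← mul_assoc τ, ← c], v * τ, mul_mem hv DD.τD, by
          rw [e1, c, mul_assoc, ← mul_assoc τ, d.τ2 h, one_mul]⟩
  have nb : b ∉ Dh τ x := fun e => n0 (e1 ▸ mul_mem hv e)
  have b1 := inv_eq_of_mul_eq_one_right b2
  have i1 := d.inv_of h hS γ2 hi e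
  obtain ⟨f1, f2⟩ := d.conj_cen h hS hγ b3 b4
  have e2 : γ * b * γ⁻¹ = b * (b * γ * b⁻¹ * γ⁻¹) := by rw [b1]; simp [← mul_assoc, b2]
  have e3 : b * γ * b⁻¹ * γ⁻¹ = b * (γ * b * γ⁻¹) := by rw [b1]; group
  rcases d.cenD h (hc b hb γ hγ) (e3 ▸ (Commute.mul_left b3 f1).eq) (e3 ▸ (Commute.mul_left b4 f2).eq) with
    e4 | e4 | ⟨x2, m, e4⟩ <;> rw [e4] at e2
  · exact d.noc h hS hγ γ2 hi e n hb b2 nb b3 b4 (by rw [mul_one] at e2; exact (mul_inv_eq_iff_eq_mul.1 e2).symm)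
  · have e5 : σ * (γ * v * γ⁻¹) * v = 1 := by
      have e5 : γ' * γ' = γ * b * γ⁻¹ * (γ * v * γ⁻¹) * (γ * γ) * b * v := by
        rw [show γ' = γ⁻¹ * (v * b) by rw [← e1, inv_mul_cancel_left], ← d.commD h b3 b4 hv, c1]
        simp only [mul_assoc, ← mul_assoc γ γ, γ2, one_mul]
      rwa [γ2', e2, γ2, mul_one, mul_assoc b, d.commD h b3 b4 (mul_mem d.σD (d.conjD h γ hγ v hv)), mul_assoc _ b b,
        b2, mul_one, eq_comm] at e5
    obtain ⟨m, rfl | rfl⟩ := (d.memD h).1 hv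
    · exact h.ne d.σH (by simpa [conj_zpow_of_inverts i1] using e5)
    rw [← conj_mul, e, conj_zpow_of_inverts i1, mul_assoc τ, ← zpow_add, mul_assoc, d.tt h,
      mul_eq_one_iff_inv_eq, inv_eq_of_mul_eq_one_right (h.sq d.σH)] at e5
    have x2 := odd_kill hS (mul_mem d.xS d.xS) (i := m - (i + -m))
      (by rw [show m - (i + -m) = 2 * m - i by ring]; exact (even_two_mul m).sub_odd hi)
      (by rw [(Commute.refl x).mul_zpow, ← e5, h.sq d.σH])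
    have x3 := d.eq_σ h x2
    have x4 : x ^ i = σ := (d.sig i (by rw [← (Commute.refl x).mul_zpow, x2, one_zpow])).resolve_left (d.odd_ne h hS hi)
    refine d.noc h hS hγ γ2 hi e n (mul_mem hb d.τS) ?_ (fun e => nb ((mul_mem_cancel_right DD.τD).1 e))
      (x3 ▸ d.σc _ (mul_mem hb d.τS)) (by rw [← mul_assoc τ, ← b4]) (mul_inv_eq_iff_eq_mul.1 ?_).symm
    · rw [(show Commute τ b from b4.symm).mul_mul_mul_comm, b2, d.τ2 h, mul_one]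
    · rw [← conj_mul, e2, e, x4, d.σc τ d.τS, mul_assoc, ← mul_assoc σ, h.sq d.σH, one_mul]
  · have e5 : b * 1 = γ * (γ * b * γ⁻¹) * γ⁻¹ := by
      rw [c1]; simp only [mul_assoc, ← mul_assoc γ γ, γ2, one_mul, mul_one]
    rw [e2, ← conj_mul, e2, ← conj_mul, e, conj_zpow_of_inverts i1, mul_assoc τ, ← zpow_add, mul_assoc, d.tt h,
      mul_right_inj] at e5
    exact d.odd_ne h hS (by rw [show i + -m - m = i - 2 * m by ring]; exact hi.sub_even (even_two_mul m)) e5.symm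

end CT

end CF.Oval
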