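import Cfsg.Agent.PLocal.OvE
import Cfsg.Agent.R2c.Cent

/-! All involutions are homologies and the Sylow 2-subgroups have maximal class. -/

set_option autoImplicit false

open scoped Classical

namespace CF.Oval

open MulAction Subgroup CF.Perm CF.Transfer CF.Invol

variable {G : Type*} [Group G] [Finite G] {H : G → Prop} {S : Subgroup G} {a b g p q s t u w x y σ τ β γ : G} {i j : ℤ}

namespace CT

variable (h : HS H) (d : CT H S σ τ x p)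
include h d

omit [Finite G] in
theorem conjτ (hs : s ∈ S) (e : s * τ * s⁻¹ = τ * x) (i : ℤ) : ∃ u ∈ S, u * (τ * x ^ i) * u⁻¹ = τ := by
  have h1 : ∀ j : ℤ, x ^ j * (τ * x ^ (2 * j)) * (x ^ j)⁻¹ = τ := fun j => by rw [← mul_assoc, d.xt]; group
  obtain ⟨j, rfl | rfl⟩ := Int.even_or_odd' i
  · exact ⟨_, zpow_mem d.xS j, h1 j⟩
  obtain ⟨m, hm⟩ := d.c2 h (inv_mem hs)
  refine ⟨x ^ (m * j) * s⁻¹, mul_mem (zpow_mem d.xS _) (inv_mem hs), ?_⟩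
  calc _ = x ^ (m * j) * (s⁻¹ * (τ * x) * s * (s⁻¹ * x ^ (2 * j) * s⁻¹⁻¹)) * (x ^ (m * j))⁻¹ := by group
    _ = _ := Eq.trans (by rw [← e, cz hm]; group) (h1 (m * j))

variable [IsSimpleGroup G] (hP : commutator G = ⊤) (hS : IsSylowIn 2 S ⊤)
include hP hS

theorem b1 (hs : s ∈ S) (e : s * τ * s⁻¹ = τ * x) (hq : q ∈ S) (c : q * τ = τ * q) {k : ℤ} (e1 : q * q = p ^ k)
    (k1 : p ^ k * p ^ k = 1) (k2 : p ^ k ≠ 1) (hc : ∀ u ∈ S, u * p ^ k = p ^ k * u) : False := by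
  have hβ := zpow_mem d.pS k
  obtain ⟨g, g1, g2⟩ := zs hP hS hβ k1 k2
  have h1 := (h.four k1 (by rw [conj_mul, k1]; simp) (hc _ g1).symm k2 (by simpa using k2) g2.symm).resolve_left
    (d.noH k) |>.resolve_left fun e => d.noH k (by simpa [mul_assoc] using h.conj e g⁻¹)
  obtain ⟨u, hu, h2⟩ : ∃ u ∈ S, u * (p ^ k * (g * p ^ k * g⁻¹)) * u⁻¹ = σ ∨ u * (p ^ k * (g * p ^ k * g⁻¹)) * u⁻¹ = τ := by
    rcases d.mem _ (mul_mem hβ g1) h1 with e | ⟨i, e'⟩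
    · exact ⟨1, one_mem _, .inl (by simpa using e)⟩
    · exact let ⟨u, hu, e⟩ := d.conjτ h hs e i; ⟨u, hu, .inr (e' ▸ e)⟩
  have h3 : ∀ u ∈ S, u * p ^ k * u⁻¹ = p ^ k := fun u hu => by rw [hc u hu, mul_inv_cancel_right]
  rw [← conj_mul, h3 u hu, show u * (g * p ^ k * g⁻¹) * u⁻¹ = u * g * p ^ k * (u * g)⁻¹ by group] at h2
  obtain ⟨f, f1, f2⟩ := extr hS hc (g := u * g) rfl
  have h4 : ∀ w ∈ S, w * τ = τ * w → f * w * f⁻¹ ∈ S := fun w hw e => f2 w hw (by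
    have c1 : Commute w (p ^ k)⁻¹ := Commute.inv_right (hc w hw)
    rcases h2 with e' | e' <;> rw [eq_inv_mul_of_mul_eq e']
    exacts [c1.mul_right (d.σc w hw), c1.mul_right e])
  obtain ⟨i, hi⟩ : ∃ i : ℤ, f * q * f⁻¹ * (τ * x ^ i) = τ * x ^ i * (f * q * f⁻¹) := by
    rcases d.mem _ (h4 σ d.σS (d.σc τ d.τS).symm) (h.conj d.σH f) with e2 | ⟨i, e2⟩
    · rcases d.mem _ (h4 τ d.τS rfl) (h.conj d.τH f) with e3 | ⟨i, e3⟩
      · exact absurd (by simpa using e3.trans e2.symm) d.τσ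
      · exact ⟨i, by rw [← e3, conj_mul, conj_mul, c]⟩
    · exact ⟨i, by rw [← e2, conj_mul, conj_mul, d.σc q hq]⟩
  obtain ⟨v, hv, h5⟩ := d.conjτ h hs e i
  have h6 : v * f * q * (v * f)⁻¹ = v * (f * q * f⁻¹) * v⁻¹ := by group
  have h7 := d.can h hS.isPGroup hq c e1 k1 k2 (u := v * f) (h6 ▸ mul_mem (mul_mem hv (h4 q hq c)) (inv_mem hv))
    (by rw [h6]; conv_lhs => rw [← h5, conj_mul, hi, ← conj_mul, h5])
  refine g2 ?_
  calc _ = u⁻¹ * (v * f)⁻¹ * (v * (f * (u * g * p ^ k * (u * g)⁻¹) * f⁻¹) * v⁻¹) * (v * f) * u := by group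
    _ = u⁻¹ * (v * f)⁻¹ * (v * f * p ^ k * (v * f)⁻¹) * (v * f) * u := by rw [f1, h3 v hv, h7]
    _ = u⁻¹ * p ^ k * u⁻¹⁻¹ := by group
    _ = _ := h3 _ (inv_mem hu)

theorem ps (hs : s ∈ S) (e : s * τ * s⁻¹ = τ * x) : s * p * s⁻¹ * p⁻¹ ∈ Dh τ x := by
  have hT := hS.isPGroup
  have h1 : ∀ k : ℤ, p ^ k * p ^ k = 1 → p ^ k ≠ 1 → ∃ v ∈ Dh τ x, s * p ^ k * s⁻¹ = v * p ^ k := fun k k1 k2 =>
    d.ev_inv h hT (d.ev_conj h hT hs (zpow_mem d.pS k) ⟨1, one_mem _, k, (one_mul _).symm⟩)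
      (by rw [conj_mul, k1]; simp)
      (fun e => k2 (d.pD h hT (by simpa [mul_assoc] using d.conjD h _ (inv_mem hs) _ e))) k1 k2
  by_cases p2 : p * p = 1
  · by_cases p1 : p = 1
    · simpa [p1] using one_mem _
    obtain ⟨v, hv, e⟩ := h1 1 (by simpa using p2) (by simpa using p1)
    rw [zpow_one] at e
    rwa [e, mul_inv_cancel_right]
  obtain ⟨m, k1, k2⟩ := exists_invol_pow' (hT.to_le (zpowers_le.2 (mul_mem d.pS d.pS))) p2
  have e1 : p ^ m * p ^ m = p ^ ((m : ℤ) + m) := by rw [zpow_add, zpow_natCast]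
  rw [(Commute.refl p).mul_pow, e1] at k1 k2
  set k := (m : ℤ) + m
  have hq := pow_mem d.pS m
  have cq : p ^ m * τ = τ * p ^ m := Commute.pow_left d.pτ m
  have hβ := zpow_mem d.pS k
  have c : p ^ k * τ = τ * p ^ k := Commute.zpow_left d.pτ k
  have h2 : ∀ u ∈ S, u * τ * u⁻¹ = τ * σ → u * p ^ k * u⁻¹ = p ^ k := fun u hu e =>
    d.can h hT hq cq e1 k1 k2 (mul_mem (mul_mem hu hq) (inv_mem hu)) (d.can' h hq cq hu e)
  have cx : p ^ k * x = x * p ^ k := by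
    refine (d.bet h hT hs odd_one (by rwa [zpow_one]) k1 k2).elim id fun e2 => ?_
    by_cases x2 : x * x = 1
    · rw [d.eq_σ h x2]; exact d.σc _ hβ
    obtain ⟨n, hn⟩ := d.σx
    obtain ⟨l, rfl | rfl⟩ := Int.even_or_odd' n
    · have e3 : x ^ (-l) * τ * (x ^ (-l))⁻¹ = τ * σ := by rw [zpow_conj_of_inverts d.inv, mul_neg, neg_neg, hn]
      have e4 := (Commute.zpow_right e2 (-l)).symm.mul_inv_cancel
      rw [← conj_mul, h2 _ (zpow_mem d.xS _) e3, e3, mul_right_inj, mul_eq_left] at e4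
      exact absurd e4 (h.ne d.σH)
    · exact absurd (odd_kill hT (mul_mem d.xS d.xS) (odd_two_mul_add_one l)
        (by rw [(Commute.refl x).mul_zpow, hn, h.sq d.σH])) x2
  obtain ⟨v, hv, e2⟩ := h1 k k1 k2
  obtain ⟨f1, f2⟩ := d.conj_cen h hT hs cx c
  have h3 : s * p ^ k * s⁻¹ ≠ p ^ k := fun e3 => d.b1 h hP hS hs e hq cq e1 k1 k2 fun u hu => by
    have h3 : ∀ u, Ev τ x p u → Commute u (p ^ k) := fun u ⟨v, hv, l, e⟩ =>
      e ▸ Commute.mul_left (d.commD h cx c hv).symm ((Commute.refl p).zpow_zpow l k)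
    rcases d.ev_or h hu with e4 | ⟨i, hi, e4⟩
    · exact h3 u e4
    · rw [← mul_inv_cancel_left s u]
      exact Commute.mul_left (mul_inv_eq_iff_eq_mul.1 e3) (h3 _ (d.ev_div h hs hu odd_one hi (by rwa [zpow_one]) e4))
  have x2 : x * x ≠ 1 := fun x2 => h3 (h2 s hs (by rw [e, d.eq_σ h x2]))
  have e3 : v = σ := by
    rw [← mul_inv_eq_iff_eq_mul] at e2
    exact ((d.cenD h hv (e2 ▸ (Commute.mul_left f1 (Commute.inv_left cx)).eq)
      (e2 ▸ (Commute.mul_left f2 (Commute.inv_left c)).eq)).resolve_left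
        fun e3 => h3 (mul_inv_eq_one.1 (e2.trans e3))).resolve_right fun e => x2 e.1
  subst e3
  have el : ∀ u ∈ S, u * x = x * u → u * τ = τ * u → u * u = 1 := fun u hu c1 c2 => by_contra fun n => by
    obtain ⟨l, l1, l2⟩ := exists_invol_pow' (hT.to_le (zpowers_le.2 (mul_mem hu hu))) n
    rw [(Commute.refl u).mul_pow] at l1 l2
    obtain ⟨r, hr⟩ := d.sq_mem h (pow_mem hu l) (Commute.pow_left c2 l)
    rw [hr] at l1 l2
    exact h3 (d.can h hT (pow_mem hu l) (Commute.pow_left c2 l) (hr.trans (d.uniq h l1 k1 l2 k2)) k1 k2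
      (mul_mem (mul_mem hs (pow_mem hu l)) (inv_mem hs))
      (d.conj_cen h hT hs (Commute.pow_left c1 l) (Commute.pow_left c2 l)).2)
  obtain ⟨w, hw, l, e4⟩ := d.ev_conj h hT hs d.pS ⟨1, one_mem _, 1, by simp⟩
  obtain ⟨ε, ⟨ε, rfl⟩, hε⟩ := d.c3 h hT hs
  obtain ⟨ε', hε'⟩ := d.c2 h (inv_mem hs)
  obtain ⟨η, hη⟩ := d.c2 h d.pS
  have h4 : s * p * s⁻¹ * x * (s * p * s⁻¹)⁻¹ = x ^ η := by
    calc _ = s * (p * (s⁻¹ * x * s⁻¹⁻¹) * p⁻¹) * s⁻¹ := by group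
      _ = s * (s⁻¹ * x ^ η * s⁻¹⁻¹) * s⁻¹ := by rw [hε', cz hη, cz hε', mul_comm]
      _ = _ := by group
  have hw' := d.conjD h _ (inv_mem d.pS) w hw
  have e5 : p⁻¹ * w * p⁻¹⁻¹ * p ^ (l - 1) = p⁻¹ * (s * p * s⁻¹) := by rw [e4]; group
  have h5 : Commute (p⁻¹ * w * p⁻¹⁻¹ * p ^ (l - 1)) x := by
    rw [e5, Commute, SemiconjBy, ← mul_inv_eq_iff_eq_mul]
    calc _ = p⁻¹ * (s * p * s⁻¹ * x * (s * p * s⁻¹)⁻¹) * p := by group
      _ = _ := by rw [h4, ← hη]; group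
  have ca : Commute (p ^ (l - 1)) τ := Commute.zpow_left d.pτ _
  have h6 : p ^ (l - 1) * p ^ (l - 1) = 1 → p ^ (l - 1) = 1 ∨ p ^ (l - 1) = p ^ k := fun e =>
    or_iff_not_imp_left.2 fun n => d.uniq h e k1 n k2
  obtain ⟨i, e6 | e6⟩ := (d.memD h).1 hw' <;> rw [e6] at h5 e5
  swap
  · have h7 : Commute (τ * p ^ (l - 1)) x := by
      have := ((Commute.refl x).zpow_left i).mul_left h5
      rwa [← mul_assoc, ← mul_assoc, d.xt, mul_assoc τ, ← zpow_add, neg_add_cancel, zpow_zero, mul_one] at this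
    have h8 := el _ (mul_mem d.τS (zpow_mem d.pS _)) h7 ((Commute.refl τ).mul_left ca)
    rw [ca.mul_mul_mul_comm, d.τ2 h, one_mul] at h8
    have h9 : Commute (p ^ (l - 1)) x := (h6 h8).elim (fun e => e ▸ .one_left x) fun e => e ▸ cx
    have h10 := h7.mul_left h9.inv_left
    rw [mul_inv_cancel_right] at h10
    exact absurd (eq_inv_iff_mul_eq_one.1 (h10.mul_inv_cancel.symm.trans d.inv)) x2
  have h7 : Commute (p ^ (l - 1)) x := by simpa using ((Commute.refl x).zpow_left i).inv_left.mul_left h5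
  rcases h6 (el _ (zpow_mem d.pS _) h7 ca) with e7 | e7 <;> rw [e7] at e5
  · rw [mul_one, eq_inv_mul_iff_mul_eq] at e5
    exact e5 ▸ d.conjD h p d.pS _ (DD.xD i)
  exfalso
  have e8 : s * p * s⁻¹ = x ^ (η * i) * p ^ k * p := by rw [← cz hη, inv_mul_eq_iff_eq_mul.1 e5.symm]; group
  generalize η * i = i at e8
  have cβ : ∀ u ∈ Dh τ x, p ^ k * u * (p ^ k)⁻¹ = u := fun u hu => by rw [d.commD h cx c hu, mul_inv_cancel_right]
  have a1 : x ^ (η - 2 * i - 1) = 1 := by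
    have : τ * x ^ (η - 2 * i) = τ * x := by
      calc _ = x ^ i * (p ^ k * (p * τ * p⁻¹ * (p * x * p⁻¹)) * (p ^ k)⁻¹) * (x ^ i)⁻¹ := by
            rw [d.pτ, mul_inv_cancel_right, hη, cβ _ (mul_mem DD.τD (DD.xD η)), ← mul_assoc, d.xt]; group
        _ = s * p * s⁻¹ * (s * τ * s⁻¹) * (s * p * s⁻¹)⁻¹ := by rw [e8, e]; group
        _ = s * (p * τ * p⁻¹) * s⁻¹ := by group
        _ = _ := by rw [d.pτ, mul_inv_cancel_right, e]
    rw [zpow_sub_one, mul_left_cancel this, mul_inv_cancel]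
  have a2 : s * s * p * (s * s)⁻¹ = x ^ ((2 * ε + 1) * i + i) * v * p := by
    calc _ = s * (s * p * s⁻¹) * s⁻¹ := by group
      _ = s * (x ^ i * p ^ k * p) * s⁻¹ := by rw [e8]
      _ = s * x ^ i * s⁻¹ * (s * p ^ k * s⁻¹) * (s * p * s⁻¹) := by group
      _ = x ^ ((2 * ε + 1) * i) * v * (p ^ k * x ^ i * (p ^ k)⁻¹) * (p ^ k * p ^ k) * p := by rw [cz hε, e2, e8]; group
      _ = _ := by rw [cβ _ (DD.xD i), k1, mul_assoc _ v, ← d.σc _ (zpow_mem d.xS i)]; group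
  have a3 : s * s * τ * (s * s)⁻¹ = τ * x ^ (2 * (ε + 1)) := by
    calc _ = s * (s * τ * s⁻¹) * s⁻¹ := by group
      _ = s * (τ * x) * s⁻¹ := by rw [e]
      _ = s * τ * s⁻¹ * (s * x * s⁻¹) := by group
      _ = _ := by rw [e, hε]; group
  obtain ⟨w2, hw2, g, e9⟩ := d.ev_of h (mul_mem hs hs) a3
  rw [e9, mul_assoc w2, (Commute.zpow_left d.pτ g).eq, mul_inv_rev, ← mul_assoc, ← mul_assoc,
    mul_inv_cancel_right] at a3
  rw [e9, show w2 * p ^ g * p * (w2 * p ^ g)⁻¹ = w2 * p * w2⁻¹ by group] at a2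
  have a4 : ∀ f : ℤ, x ^ f * p * (x ^ f)⁻¹ = x ^ (f - η * f) * p := fun f => by
    rw [zpow_sub, ← cz hη]; group
  refine h.ne d.σH ?_
  obtain ⟨f, rfl | rfl⟩ := (d.memD h).1 hw2
  · rw [zpow_conj_of_inverts d.inv, mul_right_inj, zpow_neg, inv_eq_iff_mul_eq_one, ← zpow_add] at a3
    rw [a4, mul_left_inj, show (2 * ε + 1) * i + i = f - η * f + (2 * f + 2 * (ε + 1)) * i + (η - 2 * i - 1) * f by ring,
      zpow_add, zpow_add, zpow_mul _ _ i, zpow_mul _ _ f, a1, a3] at a2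
    simpa using a2
  · rw [mul_zpow_conj_of_inverts d.inv, mul_right_inj, ← mul_inv_eq_one, ← zpow_sub] at a3
    rw [show τ * x ^ f * p * (τ * x ^ f)⁻¹ = τ * (x ^ f * p * (x ^ f)⁻¹) * τ⁻¹ by group, a4, ← conj_mul,
      conj_zpow_of_inverts d.inv, ← d.pτ, mul_inv_cancel_right, mul_left_inj,
      show (2 * ε + 1) * i + i = -(f - η * f) + (2 * f - 2 * (ε + 1)) * -i + (η - 2 * i - 1) * -f by ring,
      zpow_add, zpow_add, zpow_mul _ _ (-i), zpow_mul _ _ (-f), a1, a3] at a2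
    simpa using a2

theorem all_S (hγ : γ ∈ S) (γ2 : γ * γ = 1) (γ1 : γ ≠ 1) : H γ := by_contra fun n => by
  have hT := hS.isPGroup
  have hc : ∀ u ∈ S, ∀ v ∈ S, u * v * u⁻¹ * v⁻¹ ∈ Dh τ x := by
    by_cases e : ∀ u ∈ S, Ev τ x p u
    · exact comm_mod (d.conjD h) (one_mem _) d.pS d.le (by simpa using one_mem _) fun u hu =>
        let ⟨v, hv, k, e⟩ := e u hu; ⟨v, hv, 0, k, by simpa using e⟩
    push Not at e
    obtain ⟨s, hs, e⟩ := e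
    obtain ⟨i, hi, e⟩ := (d.ev_or h hs).resolve_left e
    have d' : CT H S σ τ (x ^ i) p := ⟨d.toDD.odd hT hi, d.pS, d.pτ, d.noH, d.gen⟩
    refine comm_mod (d.conjD h) hs d.pS d.le ((closure_le _).2 ?_ (d'.ps h hP hS hs e)) fun u hu => ?_
    · rintro _ (rfl | rfl); exacts [DD.τD, DD.xD i]
    rcases d.ev_or h hu with ⟨v, hv, k, e'⟩ | ⟨j, hj, e'⟩
    · exact ⟨v, hv, 0, k, by simpa using e'⟩
    · obtain ⟨v, hv, k, e'⟩ := d.ev_div h hs hu hi hj e e'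
      exact ⟨v, hv, 1, k, by rw [zpow_one, mul_assoc, ← e', mul_inv_cancel_left]⟩
  have h1 : ∀ u, u * u = 1 → u ≠ 1 → ¬ H u → u ∉ Dh τ x := fun u u2 u1 n e => n (d.invD h e u2 u1)
  have h2 : ∀ u ∈ S, ∀ v ∈ S, u * u = 1 → u ≠ 1 → ¬ H u → v * v = 1 → v ≠ 1 → ¬ H v →
      (Ev τ x p u ↔ Ev τ x p v) → u * v ∈ Dh τ x := fun u hu v hv u2 u1 un v2 v1 vn e => by
    by_cases e' : Ev τ x p u
    · obtain ⟨a, ha, k, k1, k2, e1⟩ := (d.ev_sq h hT e' (u2 ▸ one_mem _)).resolve_left (h1 u u2 u1 un)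
      obtain ⟨b, hb, e2⟩ := d.ev_inv h hT (e.1 e') v2 (h1 v v2 v1 vn) k1 k2
      rw [← inv_eq_of_mul_eq_one_right v2, e1, e2]
      simpa [mul_assoc] using mul_mem ha (inv_mem hb)
    · obtain ⟨i, hi, e1⟩ := (d.ev_or h hu).resolve_left e'
      obtain ⟨j, hj, e2⟩ := (d.ev_or h hv).resolve_left (mt e.2 e')
      exact d.star h hT hu u2 hi e1 un hv v2 hj e2 hc
  have h3 : ∀ g, g * γ * g⁻¹ * (g * γ * g⁻¹) = 1 ∧ g * γ * g⁻¹ ≠ 1 ∧ ¬ H (g * γ * g⁻¹) := fun g =>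
    ⟨by rw [conj_mul, γ2]; simp, by simpa using γ1, fun e => n (by simpa [mul_assoc] using h.conj e g⁻¹)⟩
  by_cases e : ∃ g, g * γ * g⁻¹ ∈ S ∧ ¬ (Ev τ x p (g * γ * g⁻¹) ↔ Ev τ x p γ)
  · obtain ⟨g, hg, e⟩ := e
    exact xfer hP hS d.le hc hγ hg γ2 (h3 g).1 (h1 _ γ2 γ1 n) (h1 _ (h3 g).1 (h3 g).2.1 (h3 g).2.2) fun f hf =>
      (em (Ev τ x p (f * γ * f⁻¹) ↔ Ev τ x p γ)).imp (h2 _ hf _ hγ (h3 f).1 (h3 f).2.1 (h3 f).2.2 γ2 γ1 n) fun e' =>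
        h2 _ hf _ hg (h3 f).1 (h3 f).2.1 (h3 f).2.2 (h3 g).1 (h3 g).2.1 (h3 g).2.2 (by tauto)
  · push Not at e
    exact xfer hP hS d.le hc hγ hγ γ2 γ2 (h1 _ γ2 γ1 n) (h1 _ γ2 γ1 n) fun f hf =>
      .inl (h2 _ hf _ hγ (h3 f).1 (h3 f).2.1 (h3 f).2.2 γ2 γ1 n (e f hf))

end CT

theorem HS.main [IsSimpleGroup G] (h : HS H) (hP : commutator G = ⊤) (h2 : 2 ∣ Nat.card G) (S : Sylow 2 G) :
    (∀ t, t * t = 1 → t ≠ 1 → H t) ∧ ((∃ n, 2 ≤ n ∧ Nonempty (S ≃* DihedralGroup n)) ∨ Cfsg.IsQuasiDihedral S) := by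
  have hS := isSylowIn_top S
  have hT := hS.isPGroup
  have := (S : Subgroup G).nontrivial_iff_ne_bot.2 (S.ne_bot_of_dvd_card h2)
  have := hT.center_nontrivial
  obtain ⟨c, c1⟩ := exists_ne (1 : center S)
  obtain ⟨k, c2, c3⟩ := exists_invol_pow' (g := (c.1 : G)) (hT.to_le (zpowers_le.2 c.1.2)) (by simpa using c1)
  have c4 := pow_mem c.1.2 k
  obtain ⟨g, g1, g2⟩ := zs hP hS c4 c2 c3
  obtain ⟨a, aS, ha⟩ : ∃ a ∈ (S : Subgroup G), H a := by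
    rcases h.four c2 (by rw [conj_mul, c2]; simp) (congrArg Subtype.val
      (mem_center_iff.1 (pow_mem c.2 k) ⟨_, g1⟩).symm) c3 (by simpa using c3) g2.symm with e | e | e
    exacts [⟨_, c4, e⟩, ⟨_, g1, e⟩, ⟨_, mul_mem c4 g1, e⟩]
  obtain ⟨σ, σS, σH, σc⟩ := h.central hT ha aS
  obtain ⟨g, τS, n⟩ := zs hP hS σS (h.sq σH) (h.ne σH)
  have τH := h.conj σH g
  generalize g * σ * g⁻¹ = τ at τS n τH
  obtain ⟨x, d⟩ := h.exists_dd hT σS σH σc τS τH n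
  obtain ⟨p, hp, p1, p2⟩ := h.cyc σH τH n.symm (S ⊓ centralizer {τ}) (hT.to_le inf_le_left)
    ⟨σS, mem_centralizer_singleton_iff.2 (σc τ τS).symm⟩ ⟨τS, mem_centralizer_singleton_iff.2 rfl⟩
    fun w hw => ⟨σc w hw.1, mem_centralizer_singleton_iff.1 hw.2⟩
  have d' : CT H S σ τ x p := ⟨d, hp.1, mem_centralizer_singleton_iff.1 hp.2, p1,
    fun w hw e => p2 w ⟨hw, mem_centralizer_singleton_iff.2 e⟩⟩
  refine ⟨fun t t2 t1 => ?_, ?_⟩
  · obtain ⟨g, -, hg⟩ := hS.exists_cj_le (two_elt (p := 2) (k := 1) (g := t) (by rwa [pow_one, pow_two])) le_top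
    simpa [mul_assoc] using h.conj (d'.all_S h hP hS (hg (conj_mem_cj (mem_zpowers t))) (by rw [conj_mul, t2]; simp)
      (by simpa using t1)) g⁻¹
  obtain rfl : p = 1 := by_contra fun p1 => by
    obtain ⟨m, m1, m2⟩ := exists_invol_pow' (hT.to_le (zpowers_le.2 hp.1)) p1
    exact d'.noH m (zpow_natCast p m ▸ d'.all_S h hP hS (pow_mem hp.1 m) m1 m2)
  simp only [one_zpow, one_mul, exists_const] at p2
  by_cases e : IsMulCommutative S
  · refine .inl ⟨orderOf (σ * τ), ?_, ?_⟩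
    · rw [orderOf_eq_two_iff.2 ⟨h.sq (h.mul σH τH n.symm (σc τ τS).symm), h.ne (h.mul σH τH n.symm (σc τ τS).symm)⟩]
    · suffices e1 : (S : Subgroup G) = closure {σ, τ} by
        rw [e1]
        exact nonempty_closure_pair_equiv_dihedral (orderOf_eq_two_iff.2 ⟨h.sq σH, h.ne σH⟩)
          (orderOf_eq_two_iff.2 ⟨h.sq τH, h.ne τH⟩)
      refine le_antisymm (fun w hw => ?_) ((closure_le _).2 ?_)
      · have a1 : σ ∈ closure {σ, τ} := subset_closure (by simp)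
        have a2 : τ ∈ closure {σ, τ} := subset_closure (by simp)
        rcases p2 w ⟨hw, mem_centralizer_singleton_iff.2 (congrArg Subtype.val (e.is_comm.comm ⟨w, hw⟩ ⟨τ, τS⟩))⟩ with
          rfl | rfl | rfl | rfl
        exacts [one_mem _, a1, a2, mul_mem a1 a2]
      · rintro _ (rfl | rfl); exacts [σS, τS]
  have e0 : Nat.card (centralizer ({⟨τ, τS⟩} : Set S)) ≤ 4 := by
    refine (Set.ncard_le_ncard_of_injOn (t := {1, σ, τ, σ * τ}) Subtype.val (fun w hw => show w.1 = 1 ∨ w.1 = σ ∨ w.1 = τ ∨ w.1 = σ * τ from p2 w ⟨w.2,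
      mem_centralizer_singleton_iff.2 (congrArg Subtype.val (mem_centralizer_singleton_iff.1 hw))⟩)
      Subtype.val_injective.injOn).trans ?_
    exact (Set.ncard_insert_le _ _).trans (Nat.succ_le_succ ((Set.ncard_insert_le _ _).trans (Nat.succ_le_succ
      ((Set.ncard_insert_le _ _).trans (by rw [Set.ncard_singleton])))))
  rcases CF.R2c.dqs_of_index hT (CF.R2c.index_commutator_of_cent hT e e0) e with ⟨n, e1, e2⟩ | ⟨n, ⟨f⟩⟩ | e1
  exacts [.inl ⟨_, le_self_pow₀ one_le_two (by omega), e2⟩, (CF.R2c.not_quaternion S f).elim, .inr e1]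

end CF.Oval
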